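import Mathlib
import Cfsg.Agent.H42.PcDefs

/-!
# A fixed commutator
-/

set_option autoImplicit false

namespace Cfsg.Agent.H33.PcFix

open Subgroup Cfsg.Agent.H42.Pc

universe u

theorem core {Q : Type u} [Group Q] [Finite Q] (V P : Subgroup Q) (t : Q) (hV : V.Normal)
    (hc : ∀ a ∈ V, ∀ b ∈ V, a * b = b * a) (pV : IsPGroup 2 V) (pP : IsPGroup 2 P)
    (ht : ∀ g ∈ P, t⁻¹ * (g * t * g⁻¹) ∈ V) (hex : ∃ a ∈ V, a⁻¹ * (t * a * t⁻¹) ≠ 1) :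
    ∃ a ∈ V, a⁻¹ * (t * a * t⁻¹) ≠ 1 ∧
      ∀ g ∈ P, g * (a⁻¹ * (t * a * t⁻¹)) * g⁻¹ = a⁻¹ * (t * a * t⁻¹) := by
  have hm : ∀ a ∈ V, a⁻¹ * (t * a * t⁻¹) ∈ V := fun a ha =>
    mul_mem (inv_mem ha) (hV.conj_mem a ha t)
  let B : Subgroup Q :=
    { carrier := {x | ∃ a ∈ V, x = a⁻¹ * (t * a * t⁻¹)}
      one_mem' := ⟨1, one_mem _, by group⟩
      mul_mem' := by
        rintro _ _ ⟨a, ha, rfl⟩ ⟨b, hb, rfl⟩
        refine ⟨a * b, mul_mem ha hb, ?_⟩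
        rw [← mul_assoc, hc _ (hm a ha) _ (inv_mem hb)]
        group
      inv_mem' := by
        rintro _ ⟨a, ha, rfl⟩
        refine ⟨a⁻¹, inv_mem ha, ?_⟩
        rw [inv_inv, hc _ ha _ (hV.conj_mem _ (inv_mem ha) t)]
        group }
  have hBV : B ≤ V := by
    rintro _ ⟨a, ha, rfl⟩
    exact hm a ha
  have hN : ∀ g ∈ P, ∀ x ∈ B, g * x * g⁻¹ ∈ B := by
    rintro g hg _ ⟨a, ha, rfl⟩
    refine ⟨g * a * g⁻¹, hV.conj_mem a ha g, ?_⟩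
    have h1 := hc _ (ht g hg) _ (hV.conj_mem a ha g)
    calc g * (a⁻¹ * (t * a * t⁻¹)) * g⁻¹
        = (g * a * g⁻¹)⁻¹ * (t * (t⁻¹ * (g * t * g⁻¹) * (g * a * g⁻¹)) *
          (t⁻¹ * (g * t * g⁻¹))⁻¹ * t⁻¹) := by group
      _ = _ := by rw [h1]; group
  letI : MulAction P B :=
    { smul := fun g x => ⟨(g : Q) * x * (g : Q)⁻¹, hN g g.2 x x.2⟩
      one_smul := fun x => Subtype.ext (by
        show (1 : Q) * x * (1 : Q)⁻¹ = x
        group)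
      mul_smul := fun g h x => Subtype.ext (by
        show ((g : Q) * h) * x * ((g : Q) * h)⁻¹ = g * (h * x * (h : Q)⁻¹) * (g : Q)⁻¹
        group) }
  have hd : 2 ∣ Nat.card B := by
    refine ((pV.to_le hBV).card_eq_or_dvd).resolve_left fun h => ?_
    obtain ⟨a, ha, hne⟩ := hex
    exact hne (mem_bot.1 (card_eq_one.1 h ▸ (⟨a, ha, rfl⟩ : a⁻¹ * (t * a * t⁻¹) ∈ B)))
  obtain ⟨b, hb, hne⟩ := pP.exists_fixed_point_of_prime_dvd_card_of_fixed_point B hd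
    (a := 1) (fun g => Subtype.ext (by
      show (g : Q) * 1 * (g : Q)⁻¹ = 1
      group))
  obtain ⟨x, a, ha, rfl⟩ := b
  exact ⟨a, ha, fun e => hne (Subtype.ext e.symm),
    fun g hg => congrArg Subtype.val (hb ⟨g, hg⟩)⟩

theorem fix (ab : AbStmt.{u}) : FixStmt.{u} := by
  intro G _ _ T U P t h pP ht hex
  have := h.nT
  obtain ⟨-, hS, hab⟩ := ab G T U h
  have k1 : ∀ x : G, QuotientGroup.mk' T x = 1 ↔ x ∈ T := fun x => QuotientGroup.eq_one_iff x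
  obtain ⟨_, ⟨a, ha, rfl⟩, h1, h2⟩ := core (U.map (QuotientGroup.mk' T)) (P.map (QuotientGroup.mk' T))
    (QuotientGroup.mk' T t) (h.nU.map _ (QuotientGroup.mk'_surjective T))
    (by
      rintro _ ⟨a, ha, rfl⟩ _ ⟨b, hb, rfl⟩
      have h3 := (k1 _).2 (hS (hab a ha b hb))
      simp only [map_mul, map_inv] at h3
      rw [inv_mul_eq_one, eq_mul_inv_iff_mul_eq] at h3
      exact h3)
    (h.pU.map _) (pP.map _)
    (by
      rintro _ ⟨g, hg, rfl⟩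
      exact ⟨_, ht g hg, by simp only [map_mul, map_inv]⟩)
    (by
      obtain ⟨a, ha, hne⟩ := hex
      exact ⟨_, ⟨a, ha, rfl⟩, fun e => hne ((k1 _).1 (by simpa only [map_mul, map_inv] using e))⟩)
  refine ⟨a, ha, fun e => h1 (by simpa only [map_mul, map_inv] using (k1 _).2 e), fun g hg => ?_⟩
  refine (k1 _).1 ?_
  have h3 := h2 _ ⟨g, hg, rfl⟩
  simp only [map_mul, map_inv]
  rw [h3, inv_mul_cancel]

end Cfsg.Agent.H33.PcFix
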