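import Cfsg.Agent.H97.Meta2
import Cfsg.Agent.H89.SecRank

/-! A `2`-group `Y = [Y, β]` of rank at most three with `β ^ 3 = 1`. -/

set_option autoImplicit false
set_option linter.style.haveILetI false

namespace Cfsg.Agent.H33.Bc

open Cfsg Subgroup Cfsg.Agent.H97
open scoped commutatorElement

variable {Y : Type*} [Group Y]

structure Tri (β : MulAut Y) : Prop where
  two : IsPGroup 2 Y
  h3 : ∀ y, β (β (β y)) = y
  gen : ∀ A : Subgroup Y, (∀ y, y⁻¹ * β y ∈ A) → A = ⊤
  nt : Nontrivial Y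
  rk : (frattini Y).index ∣ 2 ^ 3

theorem mem_of_two {A B : Subgroup Y} (h : A.relIndex B ∣ 2) {a b : Y} (ha : a ∈ B) (hb : b ∈ B)
    (e : a ∈ A ↔ b ∈ A) : a⁻¹ * b ∈ A := by
  rcases (Nat.dvd_prime Nat.prime_two).1 h with h | h
  · exact relIndex_eq_one.1 h (mul_mem (inv_mem ha) hb)
  · exact (mul_mem_iff_of_index_two h (a := ⟨a⁻¹, inv_mem ha⟩) (b := ⟨b, hb⟩)).2
      (inv_mem_iff.trans e)

variable {β : MulAut Y} (h : Tri β)
include h

theorem Tri.nrm (y : Y) : y * β y * β (β y) ∈ _root_.commutator Y := by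
  let π : Y →* Abelianization Y := Abelianization.of
  let φ : Y →* Abelianization Y := π * π.comp β * π.comp ((β : Y →* Y).comp β)
  have e : ∀ y, φ y = π y * π (β y) * π (β (β y)) := fun _ => rfl
  have : y ∈ φ.ker := (h.gen φ.ker fun y => by
    rw [MonoidHom.mem_ker, map_mul, map_inv, inv_mul_eq_one, e, e, h.h3, mul_rotate]).ge trivial
  rw [← Abelianization.ker_of, MonoidHom.mem_ker, map_mul, map_mul]
  exact this

theorem Tri.fix (hc : ∀ a b : Y, Commute a b) {y : Y} (hy : β y = y) : y = 1 := by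
  have h1 := h.nrm y
  have h2 : _root_.commutator Y = ⊥ := le_bot_iff.1 (commutator_le.2 fun a _ b _ =>
    mem_bot.2 (hc a b).commutator_eq)
  obtain ⟨k, hk⟩ := h.two y
  rw [hy, hy, h2, mem_bot, ← pow_two, ← pow_succ] at h1
  exact (pow_eq_one_iff_of_coprime (Nat.Coprime.pow_right k (by norm_num))).1 ⟨h1, hk⟩

variable [Finite Y]

theorem Tri.nrm' (y : Y) : y * β y * β (β y) ∈ frattini Y :=
  haveI : Fact (Nat.Prime 2) := ⟨Nat.prime_two⟩
  H3.commutator_le_frattini h.two (h.nrm y)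

theorem Tri.fpf {y : Y} (hy : y⁻¹ * β y ∈ frattini Y) : y ∈ frattini Y := by
  haveI : Fact (Nat.Prime 2) := ⟨Nat.prime_two⟩
  have h1 : (β y)⁻¹ * β (β y) ∈ frattini Y := by
    rw [← map_inv, ← map_mul]; exact (char_apply_mem_iff β _).2 hy
  have h2 := (QuotientGroup.eq_one_iff _).2 (h.nrm' y)
  have h3 := (QuotientGroup.eq_one_iff _).2 (H3.pow_mem_frattini h.two y)
  rw [QuotientGroup.mk_mul, QuotientGroup.mk_mul, ← QuotientGroup.eq.2 h1, ← QuotientGroup.eq.2 hy,
    ← pow_two, ← QuotientGroup.mk_pow, h3, one_mul] at h2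
  exact (QuotientGroup.eq_one_iff _).1 h2

theorem Tri.ne_top : frattini Y ≠ ⊤ := fun e =>
  haveI := h.nt
  bot_ne_top (frattini_nongenerating (K := (⊥ : Subgroup Y)) (by rw [e, bot_sup_eq]))

theorem Tri.idx : (frattini Y).index = 4 := by
  classical
  haveI : Fact (Nat.Prime 3) := ⟨Nat.prime_three⟩
  haveI := Fintype.ofFinite (Y ⧸ frattini Y)
  let f0 := QuotientGroup.map (frattini Y) (frattini Y) (β : Y →* Y)
    fun y hy => (char_apply_mem_iff β y).2 hy
  let f : Function.End (Y ⧸ frattini Y) := fun y => f0 y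
  have h1 := Equiv.Perm.card_fixedPoints_modEq (f := f) (p := 3) (n := 1) (funext fun y => by
    obtain ⟨y, rfl⟩ := QuotientGroup.mk_surjective y
    exact congrArg QuotientGroup.mk (h.h3 y))
  have h2 : f.fixedPoints = {1} := Set.eq_singleton_iff_unique_mem.2 ⟨map_one f0, fun y hy => by
    obtain ⟨y, rfl⟩ := QuotientGroup.mk_surjective y
    exact (QuotientGroup.eq_one_iff _).2 (h.fpf (QuotientGroup.eq.1 (Eq.symm hy)))⟩
  rw [← Nat.card_eq_fintype_card, ← Nat.card_eq_fintype_card, h2, ← index_eq_card,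
    Nat.card_unique] at h1
  obtain ⟨i, hi, e⟩ := (Nat.dvd_prime_pow Nat.prime_two).1 h.rk
  have h3 := index_eq_one.not.2 h.ne_top
  rw [e] at h1 h3 ⊢
  interval_cases i <;> simp_all [Nat.ModEq]

theorem Tri.rel {K : Subgroup Y} (h1 : frattini Y ≤ K) (h2 : K ≠ ⊤) :
    (frattini Y).relIndex K ∣ 2 := by
  have e := relIndex_mul_index h1
  have h3 := index_eq_one.not.2 h2
  rw [h.idx] at e
  obtain ⟨i, hi, e'⟩ := (Nat.dvd_prime_pow Nat.prime_two).1 (show K.index ∣ 2 ^ 2 from ⟨_, by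
    rw [mul_comm, e]; rfl⟩)
  rw [e'] at e h3
  interval_cases i
  · simp at h3
  · exact ⟨1, by omega⟩
  · exact ⟨2, by omega⟩

theorem Tri.irr {K : Subgroup Y} (h1 : frattini Y ≤ K) (h2 : K ≠ ⊤) (hK : ∀ k ∈ K, β k ∈ K) :
    K ≤ frattini Y := fun k hk =>
  h.fpf (mem_of_two (h.rel h1 h2) hk (hK k hk) (char_apply_mem_iff β k).symm)

theorem Tri.meta {M : Subgroup Y} (hM : M.index ∣ 2) (hm : IsMetacyclic M) : IsMetacyclic Y := by
  rcases (Nat.dvd_prime Nat.prime_two).1 hM with hM | hM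
  · rw [index_eq_one] at hM
    subst hM
    exact H71.isMetacyclic_of_surjective hm (Subgroup.subtype ⊤) fun y => ⟨⟨y, trivial⟩, rfl⟩
  have hle : frattini Y ≤ M := frattini_le_coatom (H89.isCoatom_of_index_prime Nat.prime_two hM)
  have key : ∀ K : Subgroup Y, K ≠ ⊤ → IsMetacyclic K := fun K hK => by
    obtain ⟨γ, hγ⟩ : ∃ γ : MulAut Y, ∀ k ∈ K, γ k ∈ M := by
      by_cases h1 : K ≤ M
      · exact ⟨1, h1⟩
      obtain ⟨k, hk, hkM⟩ := SetLike.not_le_iff_exists.1 h1
      obtain ⟨γ, hγ⟩ : ∃ γ : MulAut Y, γ k ∈ M := by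
        by_contra hc
        push Not at hc
        have := hle (h.nrm' k)
        rw [mul_assoc, mul_mem_iff_of_index_two hM, mul_mem_iff_of_index_two hM] at this
        exact hkM (this.2 (iff_of_false (hc β) (hc (β * β))))
      refine ⟨γ, fun a ha => ?_⟩
      by_cases h2 : a ∈ frattini Y
      · exact hle ((char_apply_mem_iff γ a).2 h2)
      have h3 := mem_of_two (h.rel le_sup_right fun e => hK (frattini_nongenerating e))
        (mem_sup_left hk) (mem_sup_left ha) (iff_of_false (fun e => hkM (hle e)) h2)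
      rw [← mul_inv_cancel_left k a, map_mul]
      exact mul_mem hγ (hle ((char_apply_mem_iff γ _).2 h3))
    exact H71.isMetacyclic_of_injective hm
      (((γ : Y →* Y).comp K.subtype).codRestrict M fun k => hγ k k.2)
      fun a b e => Subtype.ext (γ.injective (congrArg Subtype.val e))
  refine H89.Sec4.isMetacyclic (fun K N hK => ?_) h.two
  by_cases e : K = ⊤
  · subst e
    rw [relIndex_top_right, ← h.idx]
    refine Nat.le_of_dvd (h.idx ▸ four_pos) (index_dvd_of_le (H3.frattini_le_of_elementary_quotient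
      Nat.prime_two (commutator_le.2 fun a _ b _ => ?_) fun x => hK x trivial))
    rw [show ⁅a, b⁆ = a ^ 2 * (a⁻¹ * b) ^ 2 * b⁻¹ ^ 2 by
      simp only [sq, commutatorElement_def]; group]
    exact mul_mem (mul_mem (hK _ trivial) (hK _ trivial)) (hK _ trivial)
  have h1 : (N.subgroupOf K).Normal := ⟨fun n hn x => by
    rw [show x * n * x⁻¹ = (x * n) ^ 2 * n⁻¹ * x⁻¹ ^ 2 by simp only [sq]; group]
    exact mul_mem (mul_mem (hK _ (x * n).2) (inv_mem hn)) (hK _ x⁻¹.2)⟩
  have := H90.relIndex_dvd_sq_of_metacyclic (key K e) (N := N.subgroupOf K) (H := ⊤) (e := 2)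
    fun x _ => hK x x.2
  rw [relIndex_top_right] at this
  exact Nat.le_of_dvd four_pos this

theorem Tri.typ (hm : IsMetacyclic Y) :
    (∃ m, 1 ≤ m ∧ (∀ a b : Y, Commute a b) ∧ (∀ r, r ∉ frattini Y → orderOf r = 2 ^ m) ∧
      ∀ r ∈ frattini Y, r ^ 2 ^ (m - 1) = 1) ∨
    ∃ z : Y, z ≠ 1 ∧ z * z = 1 ∧ (∀ r, r ∈ frattini Y ↔ r = 1 ∨ r = z) ∧
      ∀ r, r ∉ frattini Y → r * r = z := by
  haveI : Fact (Nat.Prime 2) := ⟨Nat.prime_two⟩
  rcases metacyclic_two_odd_aut h.two hm (fun hA => by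
    obtain ⟨k, hk⟩ := hA β
    have : β = 1 := (pow_eq_one_iff_of_coprime (m := 3) (Nat.Coprime.pow_right k (by norm_num))).1 ⟨MulEquiv.ext h.h3, hk⟩
    exact h.ne_top (h.gen _ fun y => by simp [this])) with ⟨⟨e⟩⟩ | ⟨n, ⟨e⟩⟩
  · right
    have q : ∀ x : QuaternionGroup 2, (x = 1 ∨ x = .a 2 ∨ x * x = .a 2) ∧
        (x * x = 1 ∨ x * x = .a 2) ∧ ∀ y, x * y * x⁻¹ * y⁻¹ = 1 ∨ x * y * x⁻¹ * y⁻¹ = .a 2 := by
      decide
    have z2 : e.symm (.a 2) * e.symm (.a 2) = 1 := by rw [← map_mul, map_eq_one_iff _ e.symm.injective]; decide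
    have zP : e.symm (.a 2) ∈ frattini Y := by
      rw [show (.a 2 : QuaternionGroup 2) = .a 1 ^ 2 by decide, map_pow]
      exact H3.pow_mem_frattini h.two _
    let N : Subgroup Y :=
      { carrier := {r | e r = 1 ∨ e r = .a 2}
        one_mem' := Or.inl (map_one e)
        mul_mem' := by
          rintro a b (ha | ha) (hb | hb) <;> simp only [Set.mem_ofPred_eq, map_mul, ha, hb] <;> decide
        inv_mem' := by
          rintro a (ha | ha) <;> simp only [Set.mem_ofPred_eq, map_inv, ha] <;> decide }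
    have hN : frattini Y ≤ N := H3.frattini_le_of_elementary_quotient Nat.prime_two
      (commutator_le.2 fun a _ b _ => by
        change e (a * b * a⁻¹ * b⁻¹) = 1 ∨ e (a * b * a⁻¹ * b⁻¹) = _
        simp only [map_mul, map_inv]
        exact (q _).2.2 _) fun x => by
        change e (x ^ 2) = 1 ∨ e (x ^ 2) = _
        rw [map_pow, sq]
        exact (q _).2.1
    refine ⟨e.symm (.a 2), by rw [Ne, map_eq_one_iff _ e.symm.injective]; decide, z2,
      fun r => ⟨fun hr => (hN hr).imp ((map_eq_one_iff _ e.injective).1) e.eq_symm_apply.2, ?_⟩,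
      fun r hr => ?_⟩
    · rintro (rfl | rfl)
      exacts [one_mem _, zP]
    · rcases (q (e r)).1 with k | k | k
      · exact absurd ((map_eq_one_iff _ e.injective).1 k ▸ one_mem _) hr
      · exact absurd (e.eq_symm_apply.2 k ▸ zP) hr
      · rw [e.eq_symm_apply, map_mul, k]
  · left
    have hc : ∀ a b : Y, Commute a b := fun a b => e.injective (by rw [map_mul, map_mul, mul_comm])
    have ex : ∀ r : Y, r ^ 2 ^ n = 1 := fun r => e.injective (by
      rw [map_pow, map_one]
      refine Multiplicative.toAdd.injective (Prod.ext ?_ ?_) <;>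
        simp [← Nat.cast_smul_eq_nsmul (ZMod (2 ^ n))])
    rcases n with _ | n
    · haveI := h.nt
      obtain ⟨y, hy⟩ := exists_ne (1 : Y)
      exact absurd (by simpa using ex y) hy
    refine ⟨n + 1, by omega, hc, fun r hr => orderOf_eq_prime_pow (fun k => hr ?_) (ex r), fun r hr => ?_⟩
    · have t : ∀ a : ZMod (2 ^ (n + 1)), 2 ^ n • a = 0 → ∃ b, a = 2 • b := fun a ha => by
        obtain ⟨a, rfl⟩ := ZMod.natCast_zmod_surjective a
        rw [nsmul_eq_mul, ← Nat.cast_mul, ZMod.natCast_eq_zero_iff, pow_succ] at ha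
        obtain ⟨b, rfl⟩ := Nat.dvd_of_mul_dvd_mul_left (by positivity) ha
        exact ⟨b, by simp⟩
      have k1 := congrArg (fun y => (e y).toAdd) k
      simp only [map_pow, map_one, toAdd_pow, toAdd_one] at k1
      obtain ⟨a, ha⟩ := t _ (congrArg Prod.fst k1)
      obtain ⟨b, hb⟩ := t _ (congrArg Prod.snd k1)
      rw [show r = e.symm (.ofAdd (a, b)) ^ 2 from e.injective (by
        rw [map_pow, e.apply_symm_apply]
        exact Multiplicative.toAdd.injective (Prod.ext ha hb))]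
      exact H3.pow_mem_frattini h.two _
    · let N : Subgroup Y :=
        { carrier := {r | r ^ 2 ^ n = 1}
          one_mem' := one_pow _
          mul_mem' := fun {a b} ha hb => by
            rw [Set.mem_ofPred_eq, (hc a b).mul_pow, ha, hb, one_mul]
          inv_mem' := fun {a} ha => by rw [Set.mem_ofPred_eq, inv_pow, ha, inv_one] }
      exact H3.frattini_le_of_elementary_quotient (N := N) Nat.prime_two
        (commutator_le.2 fun a _ b _ => (hc a b).commutator_eq ▸ one_mem _)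
        (fun x => by
          change (x ^ 2) ^ 2 ^ n = 1
          rw [← pow_mul, ← pow_succ', ex]) hr

end Cfsg.Agent.H33.Bc
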