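import Cfsg.Agent.H9.C3Defs
import Cfsg.Agent.H57.STMain
import Cfsg.Agent.H63.QuoCore

/-! An element of the normalizer of the Sylow 3-subgroup whose square inverts it. -/

set_option autoImplicit false

namespace Cfsg.Agent.H33.C3E

open Subgroup Cfsg.Agent.H9.C3

universe u

variable {G : Type u} [Group G] [Finite G]

omit [Finite G] in
theorem inverts (K : Kit1 G) (P : Sylow 3 G) {n : G} (hn : n ∈ Nm (P : Subgroup G))
    (h1 : n ∉ (P : Subgroup G)) (h2 : n * n ∈ (P : Subgroup G)) :
    ∀ y ∈ (P : Subgroup G), n * y * n⁻¹ = y⁻¹ := fun y hy => by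
  have hy' : n * y * n⁻¹ ∈ (P : Subgroup G) := (mem_normalizer_iff.1 hn y).1 hy
  by_contra hne
  refine h1 (K.sr P n hn _ (mul_mem hy hy') (fun e => hne (eq_inv_of_mul_eq_one_right e)) ?_)
  have e1 := K.comm P _ h2 _ hy
  have e2 := K.comm P _ hy _ hy'
  calc n * (y * (n * y * n⁻¹)) = n * y * n⁻¹ * (n * n * y) * n⁻¹ := by group
    _ = n * y * n⁻¹ * y * n := by rw [e1]; group
    _ = y * (n * y * n⁻¹) * n := by rw [e2]

theorem es : EStmt.{u} := by
  intro G _ _ hs hc K P
  have : Fact (Nat.Prime 3) := ⟨Nat.prime_three⟩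
  have h3 : ¬ (Nat.card G).Coprime 3 := fun h =>
    absurd (h.symm.eq_one_of_dvd (Dvd.dvd.trans (by decide) K.ord.d9)) (by decide)
  have hP : (P : Subgroup G) ≠ ⊤ := fun e =>
    hc ⟨⟨fun a b => K.comm P a (e.ge trivial) b (e.ge trivial)⟩⟩
  by_cases h : ∃ n ∈ Nm (P : Subgroup G), n * n ∉ (P : Subgroup G)
  · obtain ⟨n, hn, h2⟩ := h
    have h8 : n ^ 8 ∈ (P : Subgroup G) := by
      have a1 := K.ord.np P
      rw [← ((P : Subgroup G).subgroupOf (Nm (P : Subgroup G))).card_mul_index,
        Nat.card_congr (subgroupOfEquivOfLe le_normalizer).toEquiv, K.c9 P,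
        show 72 = 9 * 8 from rfl, Nat.mul_dvd_mul_iff_left (by decide)] at a1
      obtain ⟨k, hk⟩ := a1
      rw [hk, pow_mul]
      exact pow_mem (((P : Subgroup G).subgroupOf (Nm (P : Subgroup G))).pow_index_mem ⟨n, hn⟩) k
    by_cases h4 : n * n * (n * n) ∈ (P : Subgroup G)
    · exact ⟨n, hn, inverts K P (mul_mem hn hn) h2 h4⟩
    · refine ⟨n * n, mul_mem hn hn, inverts K P (mul_mem (mul_mem hn hn) (mul_mem hn hn)) h4 ?_⟩
      rwa [show n * n * (n * n) * (n * n * (n * n)) = n ^ 8 by simp only [pow_succ, pow_zero, one_mul, mul_assoc]]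
  exfalso
  push Not at h
  by_cases hN : Nm (P : Subgroup G) ≤ P
  · have hB : normalizer ((P : Subgroup G) : Set G) ≤ centralizer ((P : Subgroup G) : Set G) :=
      fun n hn y hy => K.comm P y hy n (hN hn)
    rcases (MonoidHom.transferSylow P hB).normal_ker.eq_bot_or_eq_top with e | e
    · have := (MonoidHom.ker_transferSylow_isComplement' P hB).sup_eq_top
      rw [e, bot_sup_eq] at this
      exact hP this
    · have := MonoidHom.not_dvd_card_ker_transferSylow P hB
      rw [e, card_top] at this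
      exact this (Dvd.dvd.trans (by decide) K.ord.d9)
  · obtain ⟨n, hn, h1⟩ := SetLike.not_le_iff_exists.1 hN
    have := Fintype.ofFinite G
    have hL := (H63.pLengthLE_one_iff Nat.prime_three).1 (H57.ST.main 3 _ G rfl P
      ⟨by decide, K.comm P, fun hc => ?_, fun m hm => ?_, n, inverts K P hn h1 (h n hn)⟩)
    · have : (pPrimePCore 3 G).Normal := Normal.comap inferInstance _
      rcases this.eq_bot_or_eq_top with e | e
      · rw [e, index_bot] at hL
        exact h3 hL
      · have h4 := H3.pPrimeCore_coprime 3 G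
        rcases (inferInstance : (pPrimeCore 3 G).Normal).eq_bot_or_eq_top with e' | e'
        · refine hP (P.3 (Q := ⊤) (fun g => ?_) le_top).symm
          obtain ⟨k, hk⟩ := H3.pCore_isPGroup 3 (G ⧸ pPrimeCore 3 G) ⟨_, e.ge (mem_top g.1)⟩
          refine ⟨k, Subtype.ext (mem_bot.1 (e'.le ((QuotientGroup.eq_one_iff _).1 ?_)))⟩
          exact congrArg Subtype.val hk
        · rw [e', card_top] at h4
          exact h3 h4
    · obtain ⟨g, hg⟩ := hc.exists_ofOrder_eq_natCard
      have := orderOf_dvd_of_pow_eq_one (x := g) (n := 3) (Subtype.ext (K.cube P g g.2))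
      rw [hg, K.c9 P] at this
      exact absurd this (by decide)
    · by_cases hm' : m ∈ (P : Subgroup G)
      · exact Or.inl fun s hs => by rw [K.comm P m hm' s hs, mul_inv_cancel_right]
      · exact Or.inr (inverts K P hm hm' (h m hm))

end Cfsg.Agent.H33.C3E
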