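import Mathlib

/-!
# Composition length as the longest subnormal chain
-/

set_option autoImplicit false

namespace Cfsg.Agent.H33

open Subgroup ArithmeticFunction

variable {G G' : Type*} [Group G] [Group G']

/-- A strictly increasing chain of length `l` from `1`, each term normal in the next. -/
inductive SChain : ℕ → Subgroup G → Prop
  | zero : SChain 0 ⊥
  | succ {l : ℕ} {A B : Subgroup G} : SChain l A → A < B → B ≤ normalizer (A : Set G) →
      SChain (l + 1) B

/-- The composition length of a subgroup. -/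
noncomputable def cl (B : Subgroup G) : ℕ := sSup {l | SChain l B}

theorem card_lt_of_lt [Finite G] {A B : Subgroup G} (h : A < B) : Nat.card A < Nat.card B :=
  lt_of_le_of_ne (card_le_of_le h.le) fun h' => h.ne (eq_of_le_of_card_ge h.le h'.ge)

theorem SChain.le_card [Finite G] {l : ℕ} {B : Subgroup G} (h : SChain l B) : l ≤ Nat.card B := by
  induction h with
  | zero => exact Nat.zero_le _
  | succ _ h _ ih => exact ih.trans_lt (card_lt_of_lt h)

theorem SChain.le_cl [Finite G] {l : ℕ} {B : Subgroup G} (h : SChain l B) : l ≤ cl B :=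
  le_csSup ⟨Nat.card B, fun _ h => SChain.le_card h⟩ h

theorem sChain_cl [Finite G] (B : Subgroup G) : SChain (cl B) B := by
  refine Nat.sSup_mem (s := {l | SChain l B}) ?_ ⟨Nat.card B, fun _ h => SChain.le_card h⟩
  by_cases h : B = ⊥
  · exact ⟨0, h ▸ SChain.zero⟩
  · refine ⟨1, SChain.succ SChain.zero (bot_lt_iff_ne_bot.2 h) ?_⟩
    rw [normalizer_eq_top]
    exact le_top

theorem cl_lt [Finite G] {A B : Subgroup G} (h : A < B) (hn : B ≤ normalizer (A : Set G)) :
    cl A < cl B := ((sChain_cl A).succ h hn).le_cl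

theorem cl_le [Finite G] {A B : Subgroup G} (h : A ≤ B) (hn : B ≤ normalizer (A : Set G)) :
    cl A ≤ cl B := by
  rcases h.eq_or_lt with rfl | h
  · exact le_rfl
  · exact (cl_lt h hn).le

theorem cl_le_of [Finite G] (φ : Subgroup G → ℕ) (X : Subgroup G)
    (h : ∀ A B : Subgroup G, A < B → B ≤ normalizer (A : Set G) → B ≤ X → φ A < φ B) :
    cl X ≤ φ X := by
  have : ∀ l B, SChain l B → B ≤ X → l ≤ φ B := by
    intro l B hB
    induction hB with
    | zero => exact fun _ => Nat.zero_le _
    | succ _ h1 h2 ih => exact fun h3 => (ih (h1.le.trans h3)).trans_lt (h _ _ h1 h2 h3)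
  exact this _ _ (sChain_cl X) le_rfl

theorem cl_bot [Finite G] : cl (⊥ : Subgroup G) = 0 :=
  Nat.le_zero.1 (cl_le_of (fun _ => 0) ⊥ fun _ _ h _ h' => absurd (h.trans_le h') not_lt_bot)

theorem cl_le_one [Finite G] {S : Subgroup G}
    (h : ∀ A : Subgroup G, A < S → S ≤ normalizer (A : Set G) → A = ⊥) : cl S ≤ 1 := by
  have := sChain_cl S
  generalize cl S = l at this
  cases this with
  | zero => exact Nat.zero_le _
  | succ h1 h2 h3 =>
    have := h1.le_cl
    rw [h _ h2 h3, cl_bot] at this
    omega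

theorem inf_le_normalizer_inf {A B H : Subgroup G} (hn : B ≤ normalizer (A : Set G)) :
    H ⊓ B ≤ normalizer (H ⊓ A : Subgroup G) :=
  (inf_le_inf le_normalizer hn).trans inf_normalizer_le_normalizer_inf

theorem cl_le_add_cardFactors [Finite G] (H B : Subgroup G) :
    cl B ≤ cl (H ⊓ B) + cardFactors (H.relIndex B) := by
  refine cl_le_of (fun B => cl (H ⊓ B) + cardFactors (H.relIndex B)) B fun A B hAB hn _ => ?_
  have h1 := relIndex_inf_mul_relIndex H A B
  have h2 := relIndex_inf_mul_relIndex A H B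
  rw [inf_eq_left.2 hAB.le, inf_comm H A, ← h2] at h1
  haveI := normal_subgroupOf_of_le_normalizer hn
  obtain ⟨c, hc⟩ := relIndex_dvd_index_of_normal (A.subgroupOf B) ((H ⊓ B).subgroupOf B)
  rw [relIndex_subgroupOf inf_le_right] at hc
  change A.relIndex B = _ at hc
  have h0 : ∀ X Y : Subgroup G, X.relIndex Y ≠ 0 := fun X Y => index_ne_zero_of_finite
  have h3 : H.relIndex B = H.relIndex A * c := by
    rw [hc, mul_left_comm] at h1
    exact (Nat.eq_of_mul_eq_mul_left (Nat.pos_of_ne_zero (h0 _ _)) h1).symm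
  have hc0 : c ≠ 0 := fun h => h0 A B (by rw [hc, h, mul_zero])
  simp only [h3, cardFactors_mul (h0 _ _) hc0]
  rcases (inf_le_inf_left H hAB.le).eq_or_lt with h | h
  · have h4 : A.relIndex (H ⊓ B) = 1 := relIndex_eq_one.2 (h ▸ inf_le_right)
    rw [h4, one_mul] at hc
    have h5 : c ≠ 1 := fun h' => hAB.not_ge (relIndex_eq_one.1 (hc.trans h'))
    have := cardFactors_pos_iff_one_lt.2 (by omega : 1 < c)
    rw [h]
    omega
  · have := cl_lt h (inf_le_normalizer_inf hn)
    omega

theorem cl_le_add_map [Finite G] [Finite G'] (f : G →* G') (B : Subgroup G) :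
    cl B ≤ cl (f.ker ⊓ B) + cl (B.map f) := by
  refine cl_le_of (fun B => cl (f.ker ⊓ B) + cl (B.map f)) B fun A B hAB hn _ => ?_
  have h1 : B.map f ≤ normalizer (A.map f : Set G') := (map_mono hn).trans (le_normalizer_map f)
  have h2 := cl_le (map_mono hAB.le) h1
  have h3 := cl_le (inf_le_inf_left f.ker hAB.le) (inf_le_normalizer_inf hn)
  rcases (inf_le_inf_left f.ker hAB.le).eq_or_lt with h | h
  · have h4 : A.map f < B.map f := by
      refine lt_of_le_of_ne (map_mono hAB.le) fun h' => hAB.not_ge fun b hb => ?_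
      obtain ⟨a, ha, hab⟩ : f b ∈ A.map f := h' ▸ ⟨b, hb, rfl⟩
      have : a⁻¹ * b ∈ f.ker ⊓ A := h ▸ ⟨by simp [MonoidHom.mem_ker, hab],
        B.mul_mem (B.inv_mem (hAB.le ha)) hb⟩
      simpa using A.mul_mem ha this.2
    have := cl_lt h4 h1
    omega
  · have := cl_lt h (inf_le_normalizer_inf hn)
    omega

theorem add_map_le_cl [Finite G] [Finite G'] (f : G →* G') (B : Subgroup G) :
    cl (f.ker ⊓ B) + cl (B.map f) ≤ cl B := by
  have : ∀ l Y, SChain l Y → Y ≤ B.map f → cl (f.ker ⊓ B) + l ≤ cl (B ⊓ Y.comap f) := by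
    intro l Y hY
    induction hY with
    | zero => exact fun _ => by rw [MonoidHom.comap_bot, inf_comm, add_zero]
    | @succ l X Y _ h1 h2 ih =>
      intro h3
      have h4 : B ⊓ X.comap f < B ⊓ Y.comap f := by
        obtain ⟨y, hy, hyX⟩ := SetLike.exists_of_lt h1
        obtain ⟨b, hb, rfl⟩ := h3 hy
        exact lt_of_le_of_ne (inf_le_inf_left _ (comap_mono h1.le)) fun h =>
          hyX (show b ∈ B ⊓ X.comap f from h ▸ ⟨hb, hy⟩).2
      have := cl_lt h4 (inf_le_normalizer_inf ((comap_mono h2).trans (le_normalizer_comap f)))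
      have := ih (h1.le.trans h3)
      omega
  have h := this _ _ (sChain_cl _) le_rfl
  rwa [inf_eq_left.2 (le_comap_map f B)] at h

theorem cl_map_of_injective [Finite G] [Finite G'] {f : G →* G'} (hf : Function.Injective f)
    (B : Subgroup G) : cl (B.map f) = cl B := by
  have h1 := cl_le_add_map f B
  have h2 := add_map_le_cl f B
  rw [(MonoidHom.ker_eq_bot_iff f).2 hf, bot_inf_eq, cl_bot] at h1 h2
  omega

theorem cl_subgroupOf [Finite G] {A B : Subgroup G} (h : A ≤ B) : cl (A.subgroupOf B) = cl A := by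
  rw [← cl_map_of_injective B.subtype_injective, map_subgroupOf_eq_of_le h]

theorem cl_top [Finite G] (B : Subgroup G) : cl (⊤ : Subgroup B) = cl B := by
  rw [← cl_subgroupOf (le_refl B), subgroupOf_self]

theorem cl_sup_le [Finite G] {X T : Subgroup G} (h : T ≤ normalizer (X : Set G)) :
    cl (X ⊔ T) ≤ cl X + cl T := by
  haveI : (X.subgroupOf (X ⊔ T)).Normal :=
    normal_subgroupOf_of_le_normalizer (sup_le le_normalizer h)
  have h1 := cl_le_add_map (QuotientGroup.mk' (X.subgroupOf (X ⊔ T))) ⊤
  have h2 := add_map_le_cl (QuotientGroup.mk' (X.subgroupOf (X ⊔ T))) (T.subgroupOf (X ⊔ T))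
  have h3 : (⊤ : Subgroup ↥(X ⊔ T)).map (QuotientGroup.mk' (X.subgroupOf (X ⊔ T))) =
      (T.subgroupOf (X ⊔ T)).map (QuotientGroup.mk' (X.subgroupOf (X ⊔ T))) := by
    rw [← subgroupOf_self, subgroupOf_sup le_sup_left le_sup_right, Subgroup.map_sup,
      QuotientGroup.map_mk'_self, bot_sup_eq]
  rw [cl_top, QuotientGroup.ker_mk', inf_top_eq, cl_subgroupOf le_sup_left, h3] at h1
  rw [cl_subgroupOf le_sup_right] at h2
  omega

theorem cl_top_add_le [Finite G] {N M : Subgroup G} [N.Normal] (h : N ⊔ M = ⊤) :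
    cl (⊤ : Subgroup G) + cl (N ⊓ M) ≤ cl M + cl N := by
  have h1 := cl_le_add_map (QuotientGroup.mk' N) ⊤
  have h2 := add_map_le_cl (QuotientGroup.mk' N) M
  rw [QuotientGroup.ker_mk', inf_top_eq, ← h, Subgroup.map_sup, QuotientGroup.map_mk'_self,
    bot_sup_eq, h] at h1
  rw [QuotientGroup.ker_mk'] at h2
  omega

theorem cardFactors_le_log {n : ℕ} (hn : n ≠ 0) : cardFactors n ≤ Nat.log 2 n := by
  refine Nat.le_log_of_pow_le one_lt_two ?_
  conv_rhs => rw [← Nat.prod_primeFactorsList hn]
  exact List.pow_card_le_prod _ _ fun p hp => (Nat.prime_of_mem_primeFactorsList hp).two_le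

theorem cardFactors_card_lt [Finite G] {A B : Subgroup G} (h : A < B) :
    cardFactors (Nat.card A) < cardFactors (Nat.card B) := by
  obtain ⟨c, hc⟩ := card_dvd_of_le h.le
  have h1 := card_lt_of_lt h
  rw [hc] at h1 ⊢
  have h2 := (Nat.lt_mul_iff_one_lt_right Nat.card_pos).1 h1
  rw [cardFactors_mul Nat.card_pos.ne' (by omega)]
  have := cardFactors_pos_iff_one_lt.2 h2
  omega

theorem relIndex_centralizer_lt [Finite G] {N M : Subgroup G} (hM : M ≤ normalizer (N : Set G))
    {x : G} (hx : x ∈ N) (hx1 : x ≠ 1) : (centralizer {x}).relIndex M < Nat.card N := by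
  let φ : M ⧸ (centralizer {x}).subgroupOf M → N := Quotient.lift
    (fun m : M => (⟨m * x * m⁻¹, (mem_normalizer_iff.1 (hM m.2) x).1 hx⟩ : N)) fun a b hab => by
      have h0 : a⁻¹ * b ∈ (centralizer {x}).subgroupOf M := QuotientGroup.leftRel_apply.1 hab
      have h1 : ((a⁻¹ * b : M) : G) ∈ centralizer {x} := h0
      rw [mem_centralizer_singleton_iff] at h1
      apply Subtype.ext
      push_cast at h1 ⊢
      calc (a : G) * x * (a : G)⁻¹ = a * (x * ((a : G)⁻¹ * b)) * (b : G)⁻¹ := by group
        _ = b * x * (b : G)⁻¹ := by rw [← h1]; group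
  have hφ : Function.Injective φ := by
    rintro ⟨a⟩ ⟨b⟩ hab
    have h1 : (a : G) * x * (a : G)⁻¹ = b * x * (b : G)⁻¹ := congrArg Subtype.val hab
    refine Quotient.sound (QuotientGroup.leftRel_apply.2 ?_)
    rw [mem_subgroupOf, mem_centralizer_singleton_iff]
    push_cast
    calc (a : G)⁻¹ * b * x = (a : G)⁻¹ * (b * x * (b : G)⁻¹) * b := by group
      _ = x * ((a : G)⁻¹ * b) := by rw [← h1]; group
  haveI := Fintype.ofFinite (M ⧸ (centralizer {x}).subgroupOf M)
  haveI := Fintype.ofFinite N
  rw [relIndex, index, Nat.card_eq_fintype_card, Nat.card_eq_fintype_card]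
  refine Fintype.card_lt_of_injective_of_notMem φ hφ (b := 1) ?_
  rintro ⟨⟨a⟩, ha⟩
  have h1 : (a : G) * x * (a : G)⁻¹ = 1 := congrArg Subtype.val ha
  exact hx1 (by simpa using h1)

theorem cl_le_of_centralizer [Finite G] {N M : Subgroup G} (hM : M ≤ normalizer (N : Set G))
    (hC : M ⊓ centralizer (N : Set G) = ⊥) :
    cl M ≤ cardFactors (Nat.card N) * Nat.log 2 (Nat.card N - 1) := by
  have : ∀ d, ∀ A : Subgroup G, A ≤ N → cardFactors (Nat.card N) ≤ cardFactors (Nat.card A) + d →
      cl (M ⊓ centralizer (A : Set G)) ≤ d * Nat.log 2 (Nat.card N - 1) := by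
    intro d
    induction d with
    | zero =>
      intro A hA h
      rcases hA.eq_or_lt with rfl | hA
      · rw [hC, cl_bot]
        exact Nat.zero_le _
      · have := cardFactors_card_lt hA
        omega
    | succ d ih =>
      intro A hA h
      rcases hA.eq_or_lt with rfl | hA
      · rw [hC, cl_bot]
        exact Nat.zero_le _
      obtain ⟨x, hx, hxA⟩ := SetLike.exists_of_lt hA
      have h1 : A < closure (insert x (A : Set G)) :=
        lt_of_le_of_ne (fun a ha => subset_closure (Or.inr ha)) fun h' =>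
          hxA (h' ▸ subset_closure (Or.inl rfl))
      have h2 := cardFactors_card_lt h1
      have h3 := ih (closure (insert x (A : Set G)))
        ((closure_le _).2 (Set.insert_subset hx hA.le)) (by omega)
      have h4 := cl_le_add_cardFactors (centralizer {x}) (M ⊓ centralizer (A : Set G))
      have h5 : centralizer {x} ⊓ (M ⊓ centralizer (A : Set G)) =
          M ⊓ centralizer (closure (insert x (A : Set G)) : Set G) := by
        rw [centralizer_closure]
        ext g
        simp only [mem_inf, mem_centralizer_iff, Set.mem_singleton_iff, forall_eq,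
          Set.mem_insert_iff, forall_eq_or_imp]
        tauto
      have h6 := relIndex_centralizer_lt (M := M ⊓ centralizer (A : Set G)) (inf_le_left.trans hM) hx
        fun h => hxA (h ▸ A.one_mem)
      have h7 := cardFactors_le_log (n := (centralizer {x}).relIndex (M ⊓ centralizer (A : Set G)))
        index_ne_zero_of_finite
      have h8 := Nat.log_mono_right (b := 2) (Nat.le_sub_one_of_lt h6)
      rw [h5] at h4
      rw [add_mul]
      omega
  have h := this _ ⊥ bot_le (Nat.le_add_left _ _)
  rwa [coe_bot, (centralizer_eq_top_iff_subset.2 (by simp) : centralizer ({1} : Set G) = ⊤),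
    inf_top_eq] at h

theorem numeric_regular {n : ℕ} (hn : 2 ≤ n) :
    3 * (cardFactors n * Nat.log 2 (n - 1) + cardFactors n) + 4 ≤ 4 * n := by
  have h1 := cardFactors_le_log (n := n) (by omega)
  by_cases h16 : 16 ≤ n
  · have h2 := Nat.log_mono_right (b := 2) (Nat.sub_le n 1)
    have h3 := Nat.pow_log_le_self 2 (x := n) (by omega)
    have h4 : 4 ≤ Nat.log 2 n := Nat.le_log_of_pow_le one_lt_two h16
    have h5 : ∀ e, 4 ≤ e → 3 * (e * e + e) + 4 ≤ 4 * 2 ^ e := by
      intro e he
      induction e, he using Nat.le_induction with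
      | base => norm_num
      | succ e he ih => rw [pow_succ]; nlinarith
    have h6 := h5 _ h4
    have h7 := Nat.mul_le_mul h1 h2
    omega
  · have e5 : cardFactors 5 = 1 := cardFactors_apply_prime (by norm_num)
    have e9 : cardFactors 9 = 2 := cardFactors_apply_prime_pow (p := 3) (k := 2) (by norm_num)
    interval_cases n <;> norm_num at h1 ⊢ <;> omega

end Cfsg.Agent.H33
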