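import Mathlib
import Cfsg.Agent.H33.ThompsonWielandt
import Cfsg.Agent.H33.CompLength
import Cfsg.Agent.H1.Card

/-!
# The simple factors of a nonabelian minimal normal subgroup
-/

set_option autoImplicit false

namespace Cfsg.Agent.H33

open Subgroup

variable {G : Type*} [Group G]

/-- `𝒯` is the set of simple direct factors of the nonabelian minimal normal subgroup `N`. -/
structure Factors (N : Subgroup G) (𝒯 : Finset (Subgroup G)) : Prop where
  ne_bot : ∀ S ∈ 𝒯, S ≠ ⊥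
  sup_eq : 𝒯.sup id = N
  comm : ∀ S ∈ 𝒯, ∀ S' ∈ 𝒯, S ≠ S' → S ≤ centralizer (S' : Set G)
  center : ∀ S ∈ 𝒯, S ⊓ centralizer (S : Set G) = ⊥
  simple : ∀ S ∈ 𝒯, ∀ A : Subgroup G, A < S → S ≤ normalizer (A : Set G) → A = ⊥
  conj_mem : ∀ S ∈ 𝒯, ∀ g : G, S.map (MulAut.conj g).toMonoidHom ∈ 𝒯
  trans : ∀ S ∈ 𝒯, ∀ S' ∈ 𝒯, ∃ g : G, S' = S.map (MulAut.conj g).toMonoidHom

theorem map_conj_map_conj (S : Subgroup G) (g h : G) :
    (S.map (MulAut.conj g).toMonoidHom).map (MulAut.conj h).toMonoidHom =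
      S.map (MulAut.conj (h * g)).toMonoidHom := by
  rw [map_map, map_mul]
  rfl

theorem map_conj_eq_of_mem_normalizer {S : Subgroup G} {g : G} (h : g ∈ normalizer (S : Set G)) :
    S.map (MulAut.conj g).toMonoidHom = S := by
  ext x
  constructor
  · rintro ⟨y, hy, rfl⟩
    exact (mem_normalizer_iff.1 h y).1 hy
  · intro hx
    exact ⟨g⁻¹ * x * g, (mem_normalizer_iff''.1 h x).1 hx, by simp [mul_assoc]⟩

theorem map_conj_centralizer (S : Subgroup G) (g : G) :
    (centralizer (S : Set G)).map (MulAut.conj g).toMonoidHom =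
      centralizer (S.map (MulAut.conj g).toMonoidHom : Set G) := by
  ext x
  constructor
  · rintro ⟨y, hy, rfl⟩ _ ⟨s, hs, rfl⟩
    rw [← map_mul, ← map_mul, hy s hs]
  · intro hx
    refine ⟨g⁻¹ * x * g, fun s hs => ?_, by simp [mul_assoc]⟩
    have : g * s * g⁻¹ * x = x * (g * s * g⁻¹) := hx _ ⟨s, hs, rfl⟩
    calc s * (g⁻¹ * x * g) = g⁻¹ * (g * s * g⁻¹ * x) * g := by group
      _ = g⁻¹ * x * g * s := by rw [this]; group

theorem exists_factors [Finite G] {N : Subgroup G} [hN : N.Normal] (hN0 : N ≠ ⊥)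
    (hmin : ∀ K : Subgroup G, K.Normal → K ≤ N → K = ⊥ ∨ K = N)
    (hna : ¬ N ≤ centralizer (N : Set G)) : ∃ 𝒯, Factors N 𝒯 := by
  classical
  haveI := Fintype.ofFinite G
  obtain ⟨T, ⟨hT0, hTN, hNT⟩, hTmin⟩ := wellFounded_lt.has_min
    {X : Subgroup G | X ≠ ⊥ ∧ X ≤ N ∧ N ≤ normalizer (X : Set G)} ⟨N, hN0, le_rfl, le_normalizer⟩
  let 𝒯 : Finset (Subgroup G) := Finset.univ.image fun g : G => T.map (MulAut.conj g).toMonoidHom
  have hmem : ∀ S, S ∈ 𝒯 ↔ ∃ g : G, T.map (MulAut.conj g).toMonoidHom = S := fun S => by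
    simp [𝒯]
  have hNc : ∀ g : G, N.map (MulAut.conj g).toMonoidHom = N := fun g =>
    map_conj_eq_of_mem_normalizer (by rw [normalizer_eq_top]; exact mem_top g)
  have hconj : ∀ S ∈ 𝒯, ∀ g : G, S.map (MulAut.conj g).toMonoidHom ∈ 𝒯 := by
    intro S hS g
    obtain ⟨h, rfl⟩ := (hmem S).1 hS
    exact (hmem _).2 ⟨g * h, (map_conj_map_conj _ _ _).symm⟩
  have h0 : ∀ S ∈ 𝒯, S ≠ ⊥ := by
    intro S hS
    obtain ⟨h, rfl⟩ := (hmem S).1 hS
    rwa [Ne, map_eq_bot_iff_of_injective _ (MulAut.conj h).injective]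
  have h1 : ∀ S ∈ 𝒯, S ≤ N := by
    intro S hS
    obtain ⟨h, rfl⟩ := (hmem S).1 hS
    exact hNc h ▸ map_mono hTN
  have h2 : ∀ S ∈ 𝒯, N ≤ normalizer (S : Set G) := by
    intro S hS
    obtain ⟨h, rfl⟩ := (hmem S).1 hS
    rw [← map_equiv_normalizer_eq]
    exact hNc h ▸ map_mono hNT
  have h3 : ∀ S ∈ 𝒯, ∀ X : Subgroup G, X < S → N ≤ normalizer (X : Set G) → X = ⊥ := by
    intro S hS X hX hNX
    obtain ⟨h, rfl⟩ := (hmem S).1 hS
    by_contra hX0
    have e : T = (T.map (MulAut.conj h).toMonoidHom).map (MulAut.conj h⁻¹).toMonoidHom := by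
      rw [map_conj_map_conj, inv_mul_cancel, map_conj_eq_of_mem_normalizer (one_mem _)]
    refine hTmin (X.map (MulAut.conj h⁻¹).toMonoidHom) ⟨?_, ?_, ?_⟩ ?_
    · rwa [Ne, map_eq_bot_iff_of_injective _ (MulAut.conj h⁻¹).injective]
    · exact hNc h⁻¹ ▸ map_mono (hX.le.trans (h1 _ hS))
    · rw [← map_equiv_normalizer_eq]
      exact hNc h⁻¹ ▸ map_mono hNX
    · rw [e]
      exact (map_lt_map_iff_of_injective (MulAut.conj h⁻¹).injective).2 hX
  have h4 : ∀ S ∈ 𝒯, ∀ S' ∈ 𝒯, S ≠ S' → S ≤ centralizer (S' : Set G) := by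
    intro S hS S' hS' hne
    have e : S ⊓ S' = ⊥ := by
      by_contra e
      have hn : N ≤ normalizer (S ⊓ S' : Subgroup G) :=
        (le_inf (h2 S hS) (h2 S' hS')).trans inf_normalizer_le_normalizer_inf
      have e1 : S ⊓ S' = S := by
        by_contra e1
        exact e (h3 S hS _ (lt_of_le_of_ne inf_le_left e1) hn)
      have e2 : S ⊓ S' = S' := by
        by_contra e2
        exact e (h3 S' hS' _ (lt_of_le_of_ne inf_le_right e2) hn)
      exact hne (e1.symm.trans e2)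
    intro s hs s' hs'
    have : s' * s * s'⁻¹ * s⁻¹ ∈ S ⊓ S' := by
      refine ⟨S.mul_mem ((mem_normalizer_iff.1 (h2 S hS (h1 S' hS' hs')) s).1 hs) (S.inv_mem hs), ?_⟩
      have := (mem_normalizer_iff.1 (h2 S' hS' (h1 S hS hs)) _).1 (S'.inv_mem hs')
      simpa [mul_assoc] using S'.mul_mem hs' this
    rw [e, mem_bot, mul_inv_eq_one, mul_inv_eq_iff_eq_mul] at this
    exact this
  have hT : T ∈ 𝒯 := (hmem T).2 ⟨1, map_conj_eq_of_mem_normalizer (one_mem _)⟩
  have h5 : 𝒯.sup id = N := by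
    refine (hmin _ ⟨fun x hx g => ?_⟩ (Finset.sup_le h1)).resolve_left fun h => hT0 ?_
    · have : 𝒯.sup id ≤ (𝒯.sup id : Subgroup G).comap (MulAut.conj g).toMonoidHom :=
        Finset.sup_le fun S hS => map_le_iff_le_comap.1 (Finset.le_sup (f := id) (hconj S hS g))
      exact this hx
    · exact le_bot_iff.1 (h ▸ Finset.le_sup (f := id) hT)
  have h6 : ∀ S ∈ 𝒯, ∀ S' ∈ 𝒯, ∃ g : G, S' = S.map (MulAut.conj g).toMonoidHom := by
    intro S hS S' hS'
    obtain ⟨h, rfl⟩ := (hmem S).1 hS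
    obtain ⟨h', rfl⟩ := (hmem S').1 hS'
    exact ⟨h' * h⁻¹, by rw [map_conj_map_conj, inv_mul_cancel_right]⟩
  refine ⟨𝒯, h0, h5, h4, fun S hS => ?_, fun S hS A hA hn => h3 S hS A hA ?_, hconj, h6⟩
  · refine h3 S hS _ (lt_of_le_of_ne inf_le_left fun h => hna ?_) ?_
    · have e : ∀ S' ∈ 𝒯, S' ≤ centralizer (S' : Set G) := by
        intro S' hS'
        obtain ⟨g, rfl⟩ := h6 S hS S' hS'
        rw [← map_conj_centralizer]
        exact map_mono (inf_eq_left.1 h)
      rw [← h5]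
      refine Finset.sup_le fun S₁ hS₁ => le_centralizer_iff.1 (Finset.sup_le fun S₂ hS₂ => ?_)
      by_cases e' : S₂ = S₁
      · exact e' ▸ e S₂ hS₂
      · exact h4 _ hS₂ _ hS₁ e'
    · refine le_trans (le_inf (h2 S hS) ?_) inf_normalizer_le_normalizer_inf
      refine le_normalizer_of_forall_conj fun g hg x hx => ?_
      rw [← map_conj_eq_of_mem_normalizer (h2 S hS hg), ← map_conj_centralizer]
      exact ⟨x, hx, rfl⟩
  · rw [← h5]
    refine Finset.sup_le fun S' hS' => ?_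
    by_cases e : S' = S
    · exact e ▸ hn
    · exact (h4 _ hS' _ hS e).trans ((centralizer_le hA.le).trans (centralizer_le_normalizer _))

namespace Factors

variable {N : Subgroup G} {𝒯 : Finset (Subgroup G)} (h : Factors N 𝒯)
include h

theorem le {S : Subgroup G} (hS : S ∈ 𝒯) : S ≤ N := h.sup_eq ▸ Finset.le_sup (f := id) hS

theorem sup_le {I : Finset (Subgroup G)} (hI : I ⊆ 𝒯) : I.sup id ≤ N :=
  Finset.sup_le fun _ hS => h.le (hI hS)

theorem le_normalizer {S : Subgroup G} (hS : S ∈ 𝒯) : N ≤ normalizer (S : Set G) := by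
  rw [← h.sup_eq]
  refine Finset.sup_le fun S' hS' => ?_
  by_cases e : S' = S
  · exact e ▸ Subgroup.le_normalizer
  · exact (h.comm _ hS' _ hS e).trans (centralizer_le_normalizer _)

theorem le_normalizer_sup {I : Finset (Subgroup G)} (hI : I ⊆ 𝒯) :
    N ≤ normalizer (I.sup id : Subgroup G) := by
  refine le_normalizer_of_forall_conj fun g hg => ?_
  have : I.sup id ≤ (I.sup id : Subgroup G).comap (MulAut.conj g).toMonoidHom :=
    Finset.sup_le fun S hS => map_le_iff_le_comap.1 (by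
      rw [id, map_conj_eq_of_mem_normalizer (h.le_normalizer (hI hS) hg)]
      exact Finset.le_sup (f := id) hS)
  exact this

theorem sup_le_centralizer {I : Finset (Subgroup G)} (hI : I ⊆ 𝒯) {S : Subgroup G} (hS : S ∈ 𝒯)
    (hSI : S ∉ I) : I.sup id ≤ centralizer (S : Set G) :=
  Finset.sup_le fun _ hS' => h.comm _ (hI hS') _ hS fun e => hSI (e ▸ hS')

theorem inf_sup_eq_bot {I : Finset (Subgroup G)} (hI : I ⊆ 𝒯) {S : Subgroup G} (hS : S ∈ 𝒯)
    (hSI : S ∉ I) : S ⊓ I.sup id = ⊥ :=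
  le_bot_iff.1 (h.center S hS ▸ inf_le_inf_left _ (h.sup_le_centralizer hI hS hSI))

theorem exists_mul {S : Subgroup G} (hS : S ∈ 𝒯) {x : G} (hx : x ∈ N) :
    ∃ s ∈ S, ∃ c ∈ centralizer (S : Set G), s * c = x := by
  have h1 : N ≤ S ⊔ centralizer (S : Set G) := by
    rw [← h.sup_eq]
    refine Finset.sup_le fun S' hS' => ?_
    by_cases e : S' = S
    · exact e ▸ le_sup_left
    · exact (h.comm _ hS' _ hS e).trans le_sup_right
  have h2 : x ∈ ((S ⊔ centralizer (S : Set G) : Subgroup G) : Set G) := h1 hx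
  rw [coe_mul_of_right_le_normalizer_left _ _ (centralizer_le_normalizer _)] at h2
  exact h2

theorem card_eq {S S' : Subgroup G} (hS : S ∈ 𝒯) (hS' : S' ∈ 𝒯) : Nat.card S = Nat.card S' := by
  obtain ⟨g, rfl⟩ := h.trans S hS S' hS'
  rw [card_map_of_injective (MulAut.conj g).injective]

theorem card_sup {S : Subgroup G} (hS : S ∈ 𝒯) (I : Finset (Subgroup G)) (hI : I ⊆ 𝒯) :
    Nat.card (I.sup id : Subgroup G) = Nat.card S ^ I.card := by
  classical
  induction I using Finset.induction_on with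
  | empty => simp
  | insert S' I hS' ih =>
    have h1 := hI (Finset.mem_insert_self _ _)
    have h2 : I ⊆ 𝒯 := (Finset.subset_insert _ _).trans hI
    have h3 := H1.card_sup_mul_card_inf_of_le_normalizer
      ((h.le h1).trans (h.le_normalizer_sup h2))
    rw [h.inf_sup_eq_bot h2 h1 hS', card_bot, mul_one, ih h2, h.card_eq h1 hS] at h3
    rw [Finset.sup_insert, id, h3, Finset.card_insert_of_notMem hS', pow_succ']

theorem cl_sup_le [Finite G] (I : Finset (Subgroup G)) (hI : I ⊆ 𝒯) : cl (I.sup id) ≤ I.card := by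
  classical
  induction I using Finset.induction_on with
  | empty => simp [cl_bot]
  | insert S' I hS' ih =>
    have h1 := hI (Finset.mem_insert_self _ _)
    have h2 : I ⊆ 𝒯 := (Finset.subset_insert _ _).trans hI
    have h3 := H33.cl_sup_le ((h.le h1).trans (h.le_normalizer_sup h2))
    have h4 := cl_le_one (h.simple _ h1)
    have h5 := ih h2
    rw [Finset.sup_insert, id, sup_comm, Finset.card_insert_of_notMem hS']
    omega

theorem five_le_card [Finite G] {S : Subgroup G} (hS : S ∈ 𝒯) : 5 ≤ Nat.card S := by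
  have h1 : ¬ ∀ a b : S, a * b = b * a := fun hc => h.ne_bot S hS (by
    rw [← h.center S hS, left_eq_inf]
    exact fun a ha b hb => congrArg Subtype.val (hc ⟨b, hb⟩ ⟨a, ha⟩))
  by_contra hlt
  apply h1
  have h2 : 0 < Nat.card S := Nat.card_pos
  haveI : Fact (Nat.Prime 2) := ⟨Nat.prime_two⟩
  haveI : Fact (Nat.Prime 3) := ⟨Nat.prime_three⟩
  have h3 : Nat.card S = 1 ∨ Nat.card S = 2 ∨ Nat.card S = 3 ∨ Nat.card S = 2 ^ 2 := by omega
  rcases h3 with h3 | h3 | h3 | h3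
  · haveI := (Nat.card_eq_one_iff_unique.1 h3).1
    exact fun a b => Subsingleton.elim _ _
  · exact (isCyclic_of_prime_card h3).isMulCommutative.is_comm.comm
  · exact (isCyclic_of_prime_card h3).isMulCommutative.is_comm.comm
  · exact (IsPGroup.isMulCommutative_of_card_eq_prime_sq h3).is_comm.comm

/-- If a core-free maximal subgroup `M` meets `N` nontrivially but meets the factors trivially,
then `N ∩ M` projects onto each factor. -/
theorem le_sup_centralizer [N.Normal] {M : Subgroup G} (hM : IsCoatom M)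
    (hNM : ¬ N ⊓ M ≤ centralizer (N : Set G)) (hS0 : ∀ S ∈ 𝒯, S ⊓ M = ⊥) {S : Subgroup G}
    (hS : S ∈ 𝒯) : N ≤ (N ⊓ M) ⊔ centralizer (S : Set G) := by
  let P : Subgroup G := N ⊓ ⨅ S ∈ 𝒯, ((N ⊓ M) ⊔ centralizer (S : Set G))
  have hP : ∀ x, x ∈ P ↔ x ∈ N ∧ ∀ S ∈ 𝒯, x ∈ (N ⊓ M) ⊔ centralizer (S : Set G) := fun x => by
    simp [P, mem_iInf]
  have hMP : M ≤ normalizer (P : Set G) := by
    refine le_normalizer_of_forall_conj fun m hm x hx => ?_
    rw [hP] at hx ⊢
    refine ⟨Normal.conj_mem inferInstance _ hx.1 _, fun S hS => ?_⟩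
    have h1 := mem_map_of_mem (MulAut.conj m).toMonoidHom (hx.2 _ (h.conj_mem S hS m⁻¹))
    rw [Subgroup.map_sup, map_conj_centralizer, map_conj_map_conj, mul_inv_cancel,
      map_conj_eq_of_mem_normalizer (one_mem _), map_conj_eq_of_mem_normalizer] at h1
    · exact h1
    · exact ((le_inf (le_top.trans (normalizer_eq_top N).ge) Subgroup.le_normalizer).trans
        inf_normalizer_le_normalizer_inf) hm
  have hPM : ¬ P ≤ M := by
    intro hPM
    apply hNM
    intro x hx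
    rw [← h.sup_eq]
    refine le_centralizer_iff.1 (Finset.sup_le fun S hS => ?_ : 𝒯.sup id ≤ centralizer (zpowers x))
      (mem_zpowers x)
    obtain ⟨s, hs, c, hc, e⟩ := h.exists_mul hS hx.1
    have h1 : s ∈ P := by
      refine (hP s).2 ⟨h.le hS hs, fun S' hS' => ?_⟩
      by_cases e' : S = S'
      · subst e'
        rw [eq_mul_inv_of_mul_eq e]
        exact mul_mem (mem_sup_left hx) (mem_sup_right (inv_mem hc))
      · exact mem_sup_right (h.comm _ hS _ hS' e' hs)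
    have h2 : s = 1 := mem_bot.1 (hS0 S hS ▸ ⟨hs, hPM h1⟩)
    rw [h2, one_mul] at e
    exact le_centralizer_iff.1 (zpowers_le.2 (e ▸ hc))
  have h1 : P ⊔ M = ⊤ := hM.2 _ (right_lt_sup.2 hPM)
  intro n hn
  have h2 : n ∈ ((P ⊔ M : Subgroup G) : Set G) := h1 ▸ mem_top n
  rw [coe_mul_of_right_le_normalizer_left _ _ hMP] at h2
  obtain ⟨p, hp, m, hm, rfl⟩ := h2
  have hp' := (hP p).1 hp
  exact mul_mem (hp'.2 S hS) (mem_sup_left ⟨(N.mul_mem_cancel_left hp'.1).1 hn, hm⟩)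

theorem comm_of_comm {S : Subgroup G} (hS : S ∈ 𝒯) {s s' c c' : G} (hs : s ∈ S) (hs' : s' ∈ S)
    (hc : c ∈ centralizer (S : Set G)) (hc' : c' ∈ centralizer (S : Set G))
    (e : s * c * (s' * c') = s' * c' * (s * c)) : s * s' = s' * s := by
  have h1 : (s' * s)⁻¹ * (s * s') ∈ S ⊓ centralizer (S : Set G) := by
    refine mem_inf.2 ⟨mul_mem (inv_mem (mul_mem hs' hs)) (mul_mem hs hs'), ?_⟩
    have e1 : s * s' * (c * c') = s' * s * (c' * c) := by
      calc s * s' * (c * c') = s * (s' * c) * c' := by group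
        _ = s * c * (s' * c') := by rw [hc s' hs']; group
        _ = s' * (c' * s) * c := by rw [e]; group
        _ = s' * s * (c' * c) := by rw [← hc' s hs]; group
    have e2 : (s' * s)⁻¹ * (s * s') = c' * c * (c * c')⁻¹ := by
      rw [inv_mul_eq_iff_eq_mul, ← mul_assoc, ← e1, mul_inv_cancel_right]
    rw [e2]
    exact mul_mem (mul_mem hc' hc) (inv_mem (mul_mem hc hc'))
  rw [h.center S hS, mem_bot, inv_mul_eq_one] at h1
  exact h1.symm

theorem card_le_two_mul [N.Normal] {M : Subgroup G} (hZ : N ⊓ centralizer (N : Set G) = ⊥)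
    (hS0 : ∀ S ∈ 𝒯, S ⊓ M = ⊥)
    (hsup : ∀ S ∈ 𝒯, N ≤ (N ⊓ M) ⊔ centralizer (S : Set G))
    {J : Finset (Subgroup G)} (hJ : J ⊆ 𝒯) (hJM : J.sup id ⊓ M = ⊥)
    (hmax : ∀ S ∈ 𝒯, S ∉ J → (J.sup id ⊔ S) ⊓ M ≠ ⊥) : 𝒯.card ≤ 2 * J.card := by
  classical
  have hdec : ∀ l ∈ 𝒯, ∀ x ∈ J.sup id ⊔ l, ∃ y ∈ J.sup id, ∃ t ∈ l, y * t = x := by
    intro l hl x hx
    have h2 : x ∈ ((J.sup id ⊔ l : Subgroup G) : Set G) := hx
    rw [coe_mul_of_right_le_normalizer_left _ _ ((h.le hl).trans (h.le_normalizer_sup hJ))] at h2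
    exact h2
  have hex : ∀ l ∈ 𝒯 \ J, ∃ j ∈ J, ∀ s ∈ j, ∃ a ∈ (J.sup id ⊔ l) ⊓ M,
      ∃ c ∈ centralizer (j : Set G), s * c = a := by
    intro l hl
    rw [Finset.mem_sdiff] at hl
    obtain ⟨⟨x, hx⟩, hx1⟩ := ne_bot_iff_exists_ne_one.1 (hmax l hl.1 hl.2)
    have hAN : (J.sup id ⊔ l) ⊓ M ≤ N := inf_le_left.trans (_root_.sup_le (h.sup_le hJ) (h.le hl.1))
    obtain ⟨j, hj, hxj⟩ : ∃ j ∈ J, x ∉ centralizer (j : Set G) := by
      by_contra hcon
      push Not at hcon
      obtain ⟨y, hy, t, ht, e⟩ := hdec l hl.1 x hx.1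
      have h1 : y ∈ N ⊓ centralizer (N : Set G) := by
        refine ⟨h.sup_le hJ hy, ?_⟩
        rw [← h.sup_eq]
        refine le_centralizer_iff.1
          (Finset.sup_le fun S hS => ?_ : 𝒯.sup id ≤ centralizer (zpowers y)) (mem_zpowers y)
        refine le_centralizer_iff.1 (zpowers_le.2 ?_)
        by_cases hSJ : S ∈ J
        · rw [eq_mul_inv_of_mul_eq e]
          exact mul_mem (hcon S hSJ) (inv_mem (h.comm _ hl.1 _ hS (fun e => hl.2 (e ▸ hSJ)) ht))
        · exact h.sup_le_centralizer hJ hS hSJ hy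
      rw [hZ, mem_bot] at h1
      rw [h1, one_mul] at e
      exact hx1 (Subtype.ext (mem_bot.1 (hS0 l hl.1 ▸ ⟨e ▸ ht, hx.2⟩)))
    refine ⟨j, hj, ?_⟩
    have hjT := hJ hj
    have hnA : N ⊓ M ≤ normalizer ((J.sup id ⊔ l) ⊓ M : Subgroup G) := by
      refine le_trans (inf_le_inf ?_ Subgroup.le_normalizer) inf_normalizer_le_normalizer_inf
      have := h.le_normalizer_sup (I := insert l J) (Finset.insert_subset hl.1 hJ)
      rwa [Finset.sup_insert, id, sup_comm] at this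
    let D : Subgroup G :=
      { carrier := {s | s ∈ j ∧ ∃ a ∈ (J.sup id ⊔ l) ⊓ M, ∃ c ∈ centralizer (j : Set G), s * c = a}
        one_mem' := ⟨one_mem _, 1, one_mem _, 1, one_mem _, one_mul _⟩
        mul_mem' := by
          rintro s s' ⟨hs, a, ha, c, hc, e⟩ ⟨hs', a', ha', c', hc', e'⟩
          refine ⟨mul_mem hs hs', a * a', mul_mem ha ha', c * c', mul_mem hc hc', ?_⟩
          rw [← e, ← e', mul_assoc, mul_assoc, ← mul_assoc s', hc s' hs', mul_assoc]
        inv_mem' := by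
          rintro s ⟨hs, a, ha, c, hc, e⟩
          refine ⟨inv_mem hs, a⁻¹, inv_mem ha, c⁻¹, inv_mem hc, ?_⟩
          rw [← e, hc s hs, mul_inv_rev] }
    have hD : j ≤ normalizer (D : Set G) := by
      refine (h.le hjT).trans ((hsup j hjT).trans (_root_.sup_le ?_ ?_))
      · refine le_normalizer_of_forall_conj ?_
        rintro m hm s ⟨hs, a, ha, c, hc, e⟩
        have hmj := h.le_normalizer hjT hm.1
        refine ⟨(mem_normalizer_iff.1 hmj s).1 hs, m * a * m⁻¹,
          (mem_normalizer_iff.1 (hnA hm) a).1 ha, m * c * m⁻¹, ?_, by rw [← e]; group⟩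
        rw [← map_conj_eq_of_mem_normalizer hmj, ← map_conj_centralizer]
        exact ⟨c, hc, rfl⟩
      · exact (centralizer_le fun s hs => hs.1).trans (centralizer_le_normalizer _)
    have hDj : D = j := by
      by_contra hne
      have h1 := h.simple j hjT D (lt_of_le_of_ne (fun s hs => hs.1) hne) hD
      obtain ⟨s, hs, c, hc, e⟩ := h.exists_mul hjT (hAN hx)
      have h2 : s ∈ D := ⟨hs, x, hx, c, hc, e⟩
      rw [h1, mem_bot] at h2
      rw [h2, one_mul] at e
      exact hxj (e ▸ hc)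
    exact fun s hs => (show s ∈ D from hDj ▸ hs).2
  choose! φ hφ1 hφ2 using hex
  have hinj : Set.InjOn φ (𝒯 \ J : Finset (Subgroup G)) := by
    intro l hl l' hl' e
    by_contra hne
    have hl1 := Finset.mem_sdiff.1 hl
    have hl2 := Finset.mem_sdiff.1 hl'
    have hj := hJ (hφ1 l hl)
    apply h.ne_bot _ hj
    rw [← h.center _ hj, left_eq_inf]
    intro s hs s' hs'
    obtain ⟨a, ha, c, hc, e1⟩ := hφ2 l hl s hs
    obtain ⟨a', ha', c', hc', e2⟩ := hφ2 l' hl' s' (e ▸ hs')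
    refine h.comm_of_comm hj hs' hs (e ▸ hc') hc ?_
    rw [e1, e2]
    obtain ⟨y, hy, t, ht, rfl⟩ := hdec l hl1.1 a ha.1
    obtain ⟨y', hy', t', ht', rfl⟩ := hdec l' hl2.1 a' ha'.1
    have c1 : t * y' = y' * t := h.sup_le_centralizer hJ hl1.1 hl1.2 hy' t ht
    have c2 : t' * y = y * t' := h.sup_le_centralizer hJ hl2.1 hl2.2 hy t' ht'
    have c3 : t' * t = t * t' := h.comm _ hl1.1 _ hl2.1 hne ht t' ht'
    have e3 : y' * t' * (y * t) = y' * y * (t * t') := by
      rw [mul_assoc, ← mul_assoc t', c2, mul_assoc y, c3, mul_assoc]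
    have e4 : y * t * (y' * t') = y * y' * (t * t') := by
      rw [mul_assoc, ← mul_assoc t, c1, mul_assoc y', mul_assoc]
    have h1 : y' * t' * (y * t) * (y * t * (y' * t'))⁻¹ ∈ J.sup id ⊓ M := by
      refine mem_inf.2 ⟨?_, M.mul_mem (M.mul_mem ha'.2 ha.2) (M.inv_mem (M.mul_mem ha.2 ha'.2))⟩
      rw [e3, e4, mul_inv_rev (y * y'), mul_assoc, mul_inv_cancel_left]
      exact mul_mem (mul_mem hy' hy) (inv_mem (mul_mem hy hy'))
    rwa [hJM, mem_bot, mul_inv_eq_one] at h1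
  have h1 := Finset.card_le_card_of_injOn φ (fun l hl => hφ1 l hl) hinj
  rw [Finset.card_sdiff_of_subset hJ] at h1
  omega

theorem card_le_add_cl [Finite G] {M : Subgroup G}
    {J : Finset (Subgroup G)} (hJ : J ⊆ 𝒯) (hJM : J.sup id ⊓ M = ⊥)
    (hmax : ∀ S ∈ 𝒯, S ∉ J → (J.sup id ⊔ S) ⊓ M ≠ ⊥) : 𝒯.card ≤ J.card + cl (N ⊓ M) := by
  classical
  have : ∀ I : Finset (Subgroup G), I ⊆ 𝒯 \ J → I.card ≤ cl (M ⊓ (J ∪ I).sup id) := by
    intro I
    induction I using Finset.induction_on with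
    | empty => exact fun _ => Nat.zero_le _
    | insert l I hl ih =>
      intro hI
      have h1 := Finset.mem_sdiff.1 (hI (Finset.mem_insert_self _ _))
      have h2 : I ⊆ 𝒯 \ J := (Finset.subset_insert _ _).trans hI
      have h3 : J ∪ I ⊆ 𝒯 := Finset.union_subset hJ (h2.trans Finset.sdiff_subset)
      have h4 : J ∪ insert l I ⊆ 𝒯 := Finset.union_subset hJ (hI.trans Finset.sdiff_subset)
      have h5 : (J ∪ I).sup id ≤ (J ∪ insert l I).sup id :=
        Finset.sup_mono (Finset.union_subset_union_right (Finset.subset_insert _ _))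
      obtain ⟨⟨x, hx⟩, hx1⟩ := ne_bot_iff_exists_ne_one.1 (hmax l h1.1 h1.2)
      have h6 : M ⊓ (J ∪ I).sup id < M ⊓ (J ∪ insert l I).sup id := by
        refine lt_of_le_of_ne (inf_le_inf_left _ h5) fun e => hx1 (Subtype.ext ?_)
        have h7 : x ∈ M ⊓ (J ∪ I).sup id := by
          rw [e]
          refine ⟨hx.2, (_root_.sup_le (Finset.sup_mono Finset.subset_union_left) ?_ :
            J.sup id ⊔ l ≤ _) hx.1⟩
          exact Finset.le_sup (f := id) (Finset.mem_union_right _ (Finset.mem_insert_self _ _))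
        have h8 : x ∈ ((J.sup id ⊔ l : Subgroup G) : Set G) := hx.1
        rw [coe_mul_of_right_le_normalizer_left _ _
          ((h.le h1.1).trans (h.le_normalizer_sup hJ))] at h8
        obtain ⟨y, hy, t, ht, e'⟩ := h8
        have h9 : t ∈ l ⊓ (J ∪ I).sup id := by
          refine mem_inf.2 ⟨ht, ?_⟩
          rw [eq_inv_mul_of_mul_eq e']
          have h10 : J.sup id ≤ (J ∪ I).sup id := Finset.sup_mono Finset.subset_union_left
          exact mul_mem (inv_mem (h10 hy)) (mem_inf.1 h7).2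
        rw [h.inf_sup_eq_bot h3 h1.1 (by simp [h1.2, hl]), mem_bot] at h9
        simp only [h9, mul_one] at e'
        exact mem_bot.1 (hJM ▸ ⟨e' ▸ hy, hx.2⟩)
      have := cl_lt h6 (inf_le_normalizer_inf ((h.sup_le h4).trans (h.le_normalizer_sup h3)))
      have := ih h2
      rw [Finset.card_insert_of_notMem hl]
      omega
  have h1 := this _ le_rfl
  rw [Finset.union_sdiff_of_subset hJ, h.sup_eq, Finset.card_sdiff_of_subset hJ, inf_comm] at h1
  omega

omit h in
theorem exists_maximal (𝒯 : Finset (Subgroup G)) (M : Subgroup G) : ∃ J ⊆ 𝒯, J.sup id ⊓ M = ⊥ ∧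
    ∀ S ∈ 𝒯, S ∉ J → (J.sup id ⊔ S) ⊓ M ≠ ⊥ := by
  classical
  obtain ⟨J, hJ, hmax⟩ := Finset.exists_max_image
    (𝒯.powerset.filter fun J => J.sup id ⊓ M = ⊥) Finset.card ⟨∅, by simp⟩
  rw [Finset.mem_filter, Finset.mem_powerset] at hJ
  refine ⟨J, hJ.1, hJ.2, fun S hS hSJ e => ?_⟩
  have := hmax (insert S J) (by
    rw [Finset.mem_filter, Finset.mem_powerset, Finset.sup_insert, id, sup_comm]
    exact ⟨Finset.insert_subset hS hJ.1, e⟩)
  rw [Finset.card_insert_of_notMem hSJ] at this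
  omega

end Factors

end Cfsg.Agent.H33
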