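import Mathlib
import Cfsg.Agent.H33.MinNormal

/-!
# The composition length of a permutation group of degree `n` with `r` orbits is at most `4(n-r)/3`
-/

set_option autoImplicit false

namespace Cfsg.Agent.H33

open Subgroup ArithmeticFunction

universe u

/-- The bound for all faithful actions of `G`. -/
def PB (G : Type u) [Group G] : Prop :=
  ∀ (Ω : Type u) [Finite Ω] [MulAction G Ω] [FaithfulSMul G Ω] (S : Finset Ω),
    (∀ x ∈ S, ∀ y ∈ S, ∀ g : G, g • x = y → x = y) →
      3 * cl (⊤ : Subgroup G) + 4 * S.card ≤ 4 * Nat.card Ω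

theorem numeric_diag {j t : ℕ} (hj : 2 ≤ j) (ht : 5 ≤ t) : 3 * j + 8 * (j * t) ≤ 4 * t ^ j := by
  induction j, hj using Nat.le_induction with
  | base => nlinarith
  | succ j hj ih =>
    have h1 : 5 * t ^ j ≤ t ^ (j + 1) := by rw [pow_succ']; exact Nat.mul_le_mul_right _ ht
    have h2 : 2 * t ≤ j * t := Nat.mul_le_mul_right _ hj
    rw [add_mul]
    omega

theorem prim_bound {G : Type u} [Group G] [Finite G] {M : Subgroup G} (hM : IsCoatom M)
    (hc : M.normalCore = ⊥) (ih : PB M) : 3 * cl (⊤ : Subgroup G) + 4 ≤ 4 * M.index := by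
  classical
  haveI : Nontrivial G := by
    rw [← Subgroup.nontrivial_iff]
    exact ⟨⟨_, _, hM.1⟩⟩
  obtain ⟨N, hN, hN0, -, hmin⟩ := H52.exists_minimal_normal (⊤ : Subgroup G) top_ne_bot
  have hcore : ∀ K : Subgroup G, K ≤ M → N ≤ normalizer (K : Set G) →
      M ≤ normalizer (K : Set G) → K = ⊥ := by
    intro K h1 h2 h3
    by_contra h
    rw [normalizer_eq_of_isCoatom hM hc h h1 h3] at h2
    exact hN0 (le_bot_iff.1 (hc ▸ normal_le_normalCore.2 h2))
  have hNM : N ⊔ M = ⊤ := hM.2 _ (right_lt_sup.2 fun h =>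
    hN0 (le_bot_iff.1 (hc ▸ normal_le_normalCore.2 h)))
  have hMN : M ≤ normalizer (N : Set G) := by rw [normalizer_eq_top]; exact le_top
  have hC : M ⊓ centralizer (N : Set G) = ⊥ := by
    refine hcore _ inf_le_left ?_ ?_
    · exact (le_centralizer_iff.1 inf_le_right).trans (centralizer_le_normalizer _)
    · exact inf_le_normalizer_inf (H := M) (B := ⊤) (by rw [normalizer_eq_top]) |>.trans'
        (le_inf le_rfl le_top)
  have hn2 : 2 ≤ M.index := by
    have h1 : M.index ≠ 0 := index_ne_zero_of_finite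
    have h2 : M.index ≠ 1 := fun h => hM.1 (index_eq_one.1 h)
    omega
  by_cases hreg : N ⊓ M = ⊥
  · have h1 := cl_le_add_cardFactors M ⊤
    have h2 := cl_le_of_centralizer hMN hC
    have h3 : Nat.card N = M.index := by
      have e1 := H1.card_sup_mul_card_inf_of_le_normalizer hMN
      rw [sup_comm, hNM, inf_comm, hreg, card_bot, mul_one, card_top, ← M.card_mul_index] at e1
      exact (Nat.eq_of_mul_eq_mul_left Nat.card_pos e1).symm
    rw [inf_top_eq, relIndex_top_right] at h1
    rw [h3] at h2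
    have := numeric_regular hn2
    omega
  have hNMC : ¬ N ⊓ M ≤ centralizer (N : Set G) := fun h =>
    hreg (le_bot_iff.1 (hC ▸ le_inf inf_le_right h))
  have hna : ¬ N ≤ centralizer (N : Set G) := fun h => hNMC (inf_le_left.trans h)
  obtain ⟨𝒯, h⟩ := exists_factors hN0 hmin hna
  obtain ⟨J, hJ, hJM, hmax⟩ := Factors.exists_maximal 𝒯 M
  have h1 := cl_top_add_le hNM
  have h2 := h.cl_sup_le 𝒯 le_rfl
  have h3 := h.card_le_add_cl hJ hJM hmax
  rw [h.sup_eq] at h2
  by_cases hJ1 : J.card ≤ 1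
  · haveI : FaithfulSMul M (G ⧸ M) := ⟨fun {a b} hab => by
      have : ((a : G)⁻¹ * b : G) ∈ M.normalCore := by
        rw [normalCore_eq_ker, MonoidHom.mem_ker]
        ext x
        have : (a : G) • x = (b : G) • x := hab x
        simp [mul_smul, ← this]
      rw [hc, mem_bot, inv_mul_eq_one] at this
      exact Subtype.ext this⟩
    obtain ⟨g, -, hg⟩ := SetLike.exists_of_lt (lt_top_iff_ne_top.2 hM.1)
    have hne : ((1 : G) : G ⧸ M) ≠ (g : G ⧸ M) := fun e => hg (by simpa using QuotientGroup.eq.1 e)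
    have hfix : ∀ m : M, m • ((1 : G) : G ⧸ M) = ((1 : G) : G ⧸ M) := fun m =>
      QuotientGroup.eq.2 (by simp)
    have h4 := ih (G ⧸ M) {((1 : G) : G ⧸ M), (g : G ⧸ M)} (by
      intro x hx y hy m e
      simp only [Finset.mem_insert, Finset.mem_singleton] at hx hy
      rcases hx with rfl | rfl
      · rw [← e, hfix]
      · rcases hy with rfl | rfl
        · rw [← hfix m] at e
          exact MulAction.injective m e
        · rfl)
    rw [Finset.card_pair hne, cl_top] at h4
    change _ ≤ 4 * M.index at h4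
    omega
  obtain ⟨T, hT⟩ : J.Nonempty := Finset.card_pos.1 (by omega)
  have hS0 : ∀ S ∈ 𝒯, S ⊓ M = ⊥ := by
    intro S hS
    obtain ⟨g, rfl⟩ := h.trans T (hJ hT) S hS
    have e1 : g ∈ ((N ⊔ M : Subgroup G) : Set G) := hNM ▸ mem_top g
    rw [normal_mul] at e1
    obtain ⟨n, hn, m, hm, rfl⟩ := e1
    rw [← map_conj_map_conj, map_conj_eq_of_mem_normalizer
      (h.le_normalizer (h.conj_mem T (hJ hT) m) hn)]
    conv_lhs => rw [← map_conj_eq_of_mem_normalizer (le_normalizer hm : m ∈ normalizer (M : Set G))]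
    have e2 : T ⊓ M = ⊥ := le_bot_iff.1 (hJM ▸ inf_le_inf_right M (Finset.le_sup (f := id) hT))
    rw [← Subgroup.map_inf _ _ _ (MulAut.conj m).injective, e2, Subgroup.map_bot]
  have hZ : N ⊓ centralizer (N : Set G) = ⊥ :=
    (hmin _ inferInstance inf_le_left).resolve_right fun e => hna (inf_eq_left.1 e)
  have h4 := h.card_le_two_mul hZ hS0 (fun S hS => h.le_sup_centralizer hM hNMC hS0 hS) hJ hJM hmax
  have h5 : Nat.card T ^ J.card ≤ M.index := by
    rw [← h.card_sup (hJ hT) J hJ, ← relIndex_bot_left, ← hJM, inf_relIndex_left,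
      ← relIndex_top_right]
    exact relIndex_le_of_le_right le_top index_ne_zero_of_finite
  let X := {x : G // ∃ S ∈ 𝒯, x ∈ S}
  letI : MulAction M X :=
    { smul := fun m x => ⟨m * x * (m : G)⁻¹, by
        obtain ⟨S, hS, hx⟩ := x.2
        exact ⟨_, h.conj_mem S hS m, x, hx, rfl⟩⟩
      one_smul := fun x => Subtype.ext (by change ((1 : M) : G) * x * ((1 : M) : G)⁻¹ = x; simp)
      mul_smul := fun a b x => Subtype.ext (by
        change ((a * b : M) : G) * x * ((a * b : M) : G)⁻¹ = a * (b * x * (b : G)⁻¹) * (a : G)⁻¹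
        simp [mul_assoc]) }
  haveI : FaithfulSMul M X := ⟨fun {a b} hab => by
    have e1 : ((b : G)⁻¹ * a : G) ∈ M ⊓ centralizer (N : Set G) := by
      refine mem_inf.2 ⟨M.mul_mem (M.inv_mem b.2) a.2, ?_⟩
      rw [← h.sup_eq]
      refine le_centralizer_iff.1 (Finset.sup_le fun S hS => ?_ :
        𝒯.sup id ≤ centralizer (zpowers ((b : G)⁻¹ * a))) (mem_zpowers _)
      refine le_centralizer_iff.1 (zpowers_le.2 fun x hx => ?_)
      have : (a : G) * x * (a : G)⁻¹ = b * x * (b : G)⁻¹ :=
        congrArg Subtype.val (hab ⟨x, S, hS, hx⟩)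
      calc x * ((b : G)⁻¹ * a) = (b : G)⁻¹ * (b * x * (b : G)⁻¹) * a := by group
        _ = (b : G)⁻¹ * a * x := by rw [← this]; group
    rw [hC, mem_bot, inv_mul_eq_one] at e1
    exact Subtype.ext e1.symm⟩
  have h6 := ih X {⟨1, T, hJ hT, one_mem _⟩} (by simp)
  have h7 : Nat.card X ≤ 𝒯.card * Nat.card T := by
    haveI := Fintype.ofFinite G
    have e1 : Nat.card X = (𝒯.biUnion fun S => Finset.univ.filter (· ∈ S)).card := by
      rw [Nat.card_eq_fintype_card, Fintype.card_subtype]
      congr 1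
      ext x
      simp
    rw [e1]
    refine Finset.card_biUnion_le_card_mul _ _ _ fun S hS => ?_
    rw [← h.card_eq hS (hJ hT), Nat.card_eq_fintype_card, Fintype.card_subtype]
  rw [Finset.card_singleton, cl_top] at h6
  have h8 := numeric_diag (j := J.card) (by omega) (h.five_le_card (hJ hT))
  have h9 := Nat.mul_le_mul_right (Nat.card T) h4
  rw [mul_assoc] at h9
  omega

theorem pb (n : ℕ) : ∀ (G : Type u) [Group G] [Finite G], Nat.card G = n → PB G := by
  induction n using Nat.strong_induction_on with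
  | _ n ih =>
  intro G _ _ hG Ω _ _ _ S hS
  classical
  haveI := Fintype.ofFinite Ω
  by_cases h0 : ∀ (g : G) (x : Ω), g • x = x
  · have : (⊤ : Subgroup G) = ⊥ := by
      rw [eq_bot_iff]
      exact fun g _ => FaithfulSMul.eq_of_smul_eq_smul (α := Ω) fun x => by rw [h0, one_smul]
    rw [this, cl_bot, Nat.card_eq_fintype_card]
    have := S.card_le_univ
    omega
  push Not at h0
  obtain ⟨g₀, a, hg₀⟩ := h0
  obtain ⟨M, hM, haM⟩ := (eq_top_or_exists_le_coatom (MulAction.stabilizer G a)).resolve_left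
    fun h => hg₀ (show g₀ ∈ MulAction.stabilizer G a from h ▸ mem_top g₀)
  have hMlt : Nat.card M < n := by
    rw [← hG, ← card_top (G := G)]
    exact card_lt_of_lt (lt_top_iff_ne_top.2 hM.1)
  let f := QuotientGroup.mk' M.normalCore
  have hf : Function.Surjective f := QuotientGroup.mk'_surjective _
  have hk : f.ker ≤ M := by rw [QuotientGroup.ker_mk']; exact M.normalCore_le
  have h1 := cl_le_add_map f ⊤
  rw [QuotientGroup.ker_mk', inf_top_eq, map_top_of_surjective f hf] at h1
  have h2 : 3 * cl (⊤ : Subgroup (G ⧸ M.normalCore)) + 4 ≤ 4 * (M.map f).index := by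
    refine prim_bound ?_ ?_ (ih _ ?_ _ rfl)
    · refine ⟨fun h => hM.1 ?_, fun L hL => ?_⟩
      · rw [← comap_map_eq_self hk, h, comap_top]
      · rw [← map_comap_eq_self_of_surjective hf L, hM.2 (L.comap f), map_top_of_surjective f hf]
        exact (comap_map_eq_self hk).ge.trans_lt ((comap_lt_comap_of_surjective hf).2 hL)
    · rw [← map_comap_eq_self_of_surjective hf (M.map f).normalCore, Subgroup.map_eq_bot_iff,
        QuotientGroup.ker_mk', normal_le_normalCore]
      exact (comap_mono (normalCore_le _)).trans (comap_map_eq_self hk).le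
    · exact (Nat.le_of_dvd Nat.card_pos (card_map_dvd M f)).trans_lt hMlt
  rw [index_map_eq _ hf hk] at h2
  haveI := Fintype.ofFinite (G ⧸ M)
  let S₁ := S.filter fun x => x ∉ MulAction.orbit G a
  let S₂ : Finset Ω := Finset.univ.image fun c : G ⧸ M => c.out • a
  have key : ∀ c c' : G ⧸ M, ∀ k ∈ M.normalCore, k • c.out • a = c'.out • a → c = c' := by
    intro c c' k hk e
    have e1 : c'.out⁻¹ * k * c.out ∈ M := haM (by
      rw [MulAction.mem_stabilizer_iff, mul_smul, mul_smul, e, inv_smul_smul])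
    have e2 : c'.out⁻¹ * k * c'.out⁻¹⁻¹ ∈ M := hk _
    rw [← c.out_eq', ← c'.out_eq', eq_comm, QuotientGroup.eq]
    simpa [mul_assoc] using M.mul_mem (M.inv_mem e2) e1
  have h3 : S₂.card = M.index := by
    rw [Finset.card_image_of_injective _ fun c c' e => key c c' 1 (one_mem _) (by rwa [one_smul]),
      Finset.card_univ, index, Nat.card_eq_fintype_card]
  have h4 : S.card ≤ S₁.card + 1 := by
    rw [← Finset.card_filter_add_card_filter_not (fun x => x ∉ MulAction.orbit G a)]
    refine Nat.add_le_add_left (Finset.card_le_one.2 fun x hx y hy => ?_) _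
    simp only [Finset.mem_filter, not_not] at hx hy
    obtain ⟨g, hg⟩ := hx.2
    obtain ⟨g', hg'⟩ := hy.2
    exact hS x hx.1 y hy.1 (g' * g⁻¹) (by rw [← hg, ← hg', mul_smul, inv_smul_smul])
  have h5 : Disjoint S₁ S₂ := by
    rw [Finset.disjoint_left]
    intro x hx hx'
    obtain ⟨c, -, rfl⟩ := Finset.mem_image.1 hx'
    exact (Finset.mem_filter.1 hx).2 (MulAction.mem_orbit _ _)
  have h6 := ih _ ((card_le_of_le M.normalCore_le).trans_lt hMlt) M.normalCore rfl Ω (S₁ ∪ S₂) (by
    intro x hx y hy k e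
    rw [Finset.mem_union] at hx hy
    rcases hx with hx | hx <;> rcases hy with hy | hy
    · exact hS x (Finset.mem_filter.1 hx).1 y (Finset.mem_filter.1 hy).1 k e
    · obtain ⟨c, -, rfl⟩ := Finset.mem_image.1 hy
      refine absurd ⟨(k : G)⁻¹ * c.out, ?_⟩ (Finset.mem_filter.1 hx).2
      simp only [mul_smul, ← e]
      exact inv_smul_smul _ _
    · obtain ⟨c, -, rfl⟩ := Finset.mem_image.1 hx
      exact absurd ⟨(k : G) * c.out, (mul_smul _ _ _).trans e⟩ (Finset.mem_filter.1 hy).2
    · obtain ⟨c, -, rfl⟩ := Finset.mem_image.1 hx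
      obtain ⟨c', -, rfl⟩ := Finset.mem_image.1 hy
      rw [key c c' k k.2 e])
  rw [Finset.card_union_of_disjoint h5, cl_top] at h6
  omega

theorem cl_top_le_of_action {G : Type u} {Ω : Type*} [Group G] [Finite G] [MulAction G Ω] [FaithfulSMul G Ω]
    [Finite Ω] : 3 * cl (⊤ : Subgroup G) + 4 * Nat.card (Quotient (MulAction.orbitRel G Ω)) ≤
      4 * Nat.card Ω := by
  classical
  let e : ULift.{u} (Fin (Nat.card Ω)) ≃ Ω := Equiv.ulift.trans (Finite.equivFin Ω).symm
  letI := e.mulAction G
  have he : ∀ (g : G) x, e (g • x) = g • e x := fun g x => e.apply_symm_apply _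
  haveI : FaithfulSMul G (ULift.{u} (Fin (Nat.card Ω))) := ⟨fun {a b} hab =>
    FaithfulSMul.eq_of_smul_eq_smul (α := Ω) fun x => by
      rw [← e.apply_symm_apply x, ← he, ← he, hab]⟩
  haveI := Fintype.ofFinite (Quotient (MulAction.orbitRel G Ω))
  have h := pb _ G rfl (ULift.{u} (Fin (Nat.card Ω)))
    (Finset.univ.image fun c : Quotient (MulAction.orbitRel G Ω) => e.symm c.out) (by
      intro x hx y hy g hg
      obtain ⟨c, -, rfl⟩ := Finset.mem_image.1 hx
      obtain ⟨c', -, rfl⟩ := Finset.mem_image.1 hy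
      have h1 := congrArg e hg
      rw [he, e.apply_symm_apply, e.apply_symm_apply] at h1
      have : c' = c := by
        rw [← c.out_eq', ← c'.out_eq']
        exact Quotient.sound' ⟨g, h1⟩
      rw [this])
  rwa [Finset.card_image_of_injective _
    fun a b hab => Quotient.out_injective (e.symm.injective hab),
    Finset.card_univ, ← Nat.card_eq_fintype_card, Nat.card_congr e] at h

theorem le_cl_of_chain {G : Type*} [Group G] [Finite G] (l : ℕ) (H : Fin (l + 1) → Subgroup G)
    (h0 : H 0 = ⊥)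
    (hchain : ∀ i : Fin l, H i.castSucc < H i.succ ∧ ((H i.castSucc).subgroupOf (H i.succ)).Normal) :
    l ≤ cl (H (Fin.last l)) := by
  have : ∀ i : Fin (l + 1), (i : ℕ) ≤ cl (H i) := by
    intro i
    induction i using Fin.induction with
    | zero => exact Nat.zero_le _
    | succ i ih =>
      have := cl_lt (hchain i).1 ((normal_subgroupOf_iff_le_normalizer (hchain i).1.le).1 (hchain i).2)
      simp only [Fin.val_castSucc, Fin.val_succ] at ih ⊢
      omega
  exact this (Fin.last l)

end Cfsg.Agent.H33
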