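import Mathlib

set_option autoImplicit false

open scoped Pointwise

namespace Cfsg.Agent.H33

/-- A subgroup containing `X` and not contained in the unique maximal overgroup `M` of `X` is
everything. -/
theorem eq_top_of_unique_coatom {G : Type*} [Group G] [Finite G] {X M K : Subgroup G}
    (huniq : ∀ M' : Subgroup G, IsCoatom M' → X ≤ M' → M' = M) (hXK : X ≤ K) (hK : ¬ K ≤ M) :
    K = ⊤ := by
  rcases eq_top_or_exists_le_coatom K with h | ⟨M', hM', hKM'⟩
  · exact h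
  · exact absurd (huniq M' hM' (hXK.trans hKM') ▸ hKM') hK

/-- Relative form of the complement lemma. -/
theorem exists_compl_rel {G : Type*} [Group G] [Finite G] (T X M : Subgroup G)
    (hTX : T ≤ X)
    (hint : ∀ Y : Subgroup G, T ≤ Y → Y ≤ X → ∃ C : Subgroup G, T ≤ C ∧ C ≤ X ∧ Y ⊔ C = X ∧ Y ⊓ C = T)
    (huniq : ∀ M' : Subgroup G, IsCoatom M' → X ≤ M' → M' = M)
    (H : Subgroup G) (hH : ¬ H ≤ M) :
    ∃ C : Subgroup G, T ≤ C ∧ H ⊔ C = ⊤ ∧ H ⊓ C ≤ T := by
  obtain ⟨C, hTC, hCX, hsup, hinf⟩ := hint (T ⊔ (H ⊓ X)) le_sup_left (sup_le hTX inf_le_right)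
  refine ⟨C, hTC, ?_, ?_⟩
  · apply eq_top_of_unique_coatom huniq
    · rw [← hsup]
      exact sup_le (sup_le (hTC.trans le_sup_right) (inf_le_left.trans le_sup_left)) le_sup_right
    · exact fun h => hH (le_sup_left.trans h)
  · rw [← hinf]
    exact le_inf ((inf_le_inf_left H hCX).trans le_sup_right) inf_le_right

/-- Transport of the relative complement lemma along a conjugation. -/
theorem exists_compl_rel_conj {G : Type*} [Group G] [Finite G] (T X M : Subgroup G)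
    (hTX : T ≤ X)
    (hint : ∀ Y : Subgroup G, T ≤ Y → Y ≤ X → ∃ C : Subgroup G, T ≤ C ∧ C ≤ X ∧ Y ⊔ C = X ∧ Y ⊓ C = T)
    (huniq : ∀ M' : Subgroup G, IsCoatom M' → X ≤ M' → M' = M)
    (H : Subgroup G) (g : G) (hH : ¬ MulAut.conj g • H ≤ M) :
    ∃ C : Subgroup G, MulAut.conj g⁻¹ • T ≤ C ∧ H ⊔ C = ⊤ ∧ H ⊓ C ≤ MulAut.conj g⁻¹ • T := by
  obtain ⟨C, hTC, hsup, hinf⟩ := exists_compl_rel T X M hTX hint huniq _ hH
  have hH' : H = MulAut.conj g⁻¹ • (MulAut.conj g • H) := by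
    rw [smul_smul, ← map_mul, inv_mul_cancel, map_one, one_smul]
  refine ⟨MulAut.conj g⁻¹ • C, Subgroup.pointwise_smul_le_pointwise_smul_iff.2 hTC, ?_, ?_⟩
  · rw [hH', ← Subgroup.smul_sup, hsup]
    ext x
    simp [Subgroup.mem_pointwise_smul_iff_inv_smul_mem]
  · rw [hH', ← Subgroup.smul_inf]
    exact Subgroup.pointwise_smul_le_pointwise_smul_iff.2 hinf

/-- A complemented subgroup lattice of `X`, read inside `G`. -/
theorem exists_compl_of_complementedLattice {G : Type*} [Group G] (X : Subgroup G)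
    (hK : ComplementedLattice (Subgroup X)) (Y : Subgroup G) (hY : Y ≤ X) :
    ∃ C : Subgroup G, C ≤ X ∧ Y ⊔ C = X ∧ Y ⊓ C = ⊥ := by
  obtain ⟨C, hC⟩ := hK.exists_isCompl (Y.subgroupOf X)
  have hYm : (Y.subgroupOf X).map X.subtype = Y := by
    rw [Subgroup.subgroupOf_map_subtype, inf_eq_left.2 hY]
  refine ⟨C.map X.subtype, Subgroup.map_subtype_le C, ?_, ?_⟩
  · rw [← hYm, ← Subgroup.map_sup, hC.sup_eq_top, ← MonoidHom.range_eq_map, Subgroup.range_subtype]
  · rw [← hYm, ← Subgroup.map_inf_eq _ _ _ X.subtype_injective, hC.inf_eq_bot, Subgroup.map_bot]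

end Cfsg.Agent.H33
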