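import Mathlib
import Cfsg.Agent.H11.CyDefs

/-!
# Restriction of a system to an invariant subset
-/

set_option autoImplicit false

namespace Cfsg.Agent.H33.CyRes

open Subgroup Cfsg.Agent.H11.Cy

theorem res : ResStmt := by
  intro G _ _ Ω _ _ p A hS X Φ hX hA hT hΦ
  letI act : MulAction X Φ :=
    { smul := fun g z => ⟨(g : G) • (z : Ω), hX g g.2 z z.2⟩
      one_smul := fun z => Subtype.ext (one_smul G (z : Ω))
      mul_smul := fun g h z => Subtype.ext (mul_smul (g : G) (h : G) (z : Ω)) }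
  let f : X →* Equiv.Perm Φ := MulAction.toPermHom X Φ
  refine ⟨f.range, inferInstance, inferInstance, inferInstance, f.rangeRestrict,
    fun z => ((A z).subgroupOf X).map f.rangeRestrict, f.rangeRestrict_surjective,
    fun _ _ => rfl, fun _ => rfl, hS.pp, fun g h => Subtype.ext (Equiv.ext h), ?_,
    hΦ.coe_sort, ?_, ?_, ?_, ?_⟩
  · intro x _ y _ x' _ y' _ hxy hxy'
    obtain ⟨g, hg, h1, h2⟩ := hT x x.2 y y.2 x' x'.2 y' y'.2 (fun e => hxy (Subtype.ext e))
      (fun e => hxy' (Subtype.ext e))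
    exact ⟨f.rangeRestrict ⟨g, hg⟩, trivial, Subtype.ext h1, Subtype.ext h2⟩
  · intro z
    rw [← hS.card z, ← Nat.card_congr (subgroupOfEquivOfLe (hA z z.2)).toEquiv]
    refine (Nat.card_eq_of_bijective (f.rangeRestrict.subgroupMap ((A z).subgroupOf X))
      ⟨(injective_iff_map_eq_one _).2 fun a ha => ?_,
        MonoidHom.subgroupMap_surjective _ _⟩).symm
    obtain ⟨y, hy, hyz⟩ := hΦ.exists_ne (z : Ω)
    have h1 : f a.1 = 1 := congrArg (fun w => w.1.1) ha
    have h2 : (a.1 : G) • y = y := congrArg (fun w : Equiv.Perm Φ => (w ⟨y, hy⟩).1) h1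
    exact Subtype.ext (Subtype.ext ((hS.semi z y _ a.2 h2).resolve_right hyz))
  · rintro x _ ⟨a, ha, rfl⟩
    exact Subtype.ext (hS.fix x a ha)
  · intro g x
    obtain ⟨g, rfl⟩ := f.rangeRestrict_surjective g
    rintro _ ⟨a, ha, rfl⟩
    exact ⟨g * a * g⁻¹, hS.eqv g x a ha, by rw [map_mul, map_mul, map_inv]⟩
  · rintro x y _ ⟨a, ha, rfl⟩ h
    rcases hS.semi x y a ha (congrArg Subtype.val h) with e | e
    · exact Or.inl (by rw [show a = 1 from Subtype.ext e, map_one])
    · exact Or.inr (Subtype.ext e)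

end Cfsg.Agent.H33.CyRes
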