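import Cfsg.Agent.H53.DgDefs

/-! Counting totally singular subspaces. -/

set_option autoImplicit false
set_option linter.unusedSectionVars false

namespace Cfsg.Agent.H33.DgCount

open Module Cfsg.Agent.H26 Cfsg.Agent.H26.PForm Cfsg.Agent.H53.Dg

theorem card_fib {α β : Type} [Finite α] [Finite β] (f : α → β) (c : ℕ)
    (h : ∀ b, Nat.card {a // f a = b} = c) : Nat.card α = Nat.card β * c := by
  have := Fintype.ofFinite β
  rw [← Nat.card_congr (Equiv.sigmaFiberEquiv f), Nat.card_sigma, Finset.sum_congr rfl fun b _ => h b,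
    Finset.sum_const, Finset.card_univ, Nat.card_eq_fintype_card, smul_eq_mul]

variable {F V : Type} [Field F] [AddCommGroup V] [Module F V] {P : PForm F V}

theorem mem_mp {g : V ≃ₗ[F] V} {X : Submodule F V} {x : V} : x ∈ mp g X ↔ g⁻¹ x ∈ X :=
  Submodule.mem_map_equiv X

theorem mp_eq_iff {a b : V ≃ₗ[F] V} {X : Submodule F V} :
    mp a X = mp b X ↔ a⁻¹ * b ∈ stabSub X := by
  rw [mem_stabSub_iff, SetLike.ext_iff]
  constructor
  · intro h x
    rw [mul_apply', ← mem_mp, h, mem_mp, inv_apply_apply]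
  · intro h x
    rw [mem_mp, mem_mp, h (b⁻¹ x), mul_apply', apply_inv_apply]

theorem ts_mp {g : V ≃ₗ[F] V} (hg : g ∈ P.isom) {X : Submodule F V} (h : TS P X) :
    TS P (mp g X) := by
  constructor
  · rintro _ ⟨x, hx, rfl⟩
    exact (h.1 x hx).map hg
  · rintro _ ⟨x, hx, rfl⟩ _ ⟨y, hy, rfl⟩
    exact (isom_f hg x y).trans (h.2 hx y hy)

theorem ts_span {v : V} (hv : P.Sing v) : TS P (F ∙ v) :=
  ⟨fun x hx => by
    obtain ⟨c, rfl⟩ := Submodule.mem_span_singleton.1 hx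
    exact hv.smul c,
  (Submodule.span_singleton_le_iff_mem _ _).2 (mem_perp_span_singleton.2 hv.f_self)⟩

theorem ts_sup {S : Submodule F V} {v : V} :
    TS P (S ⊔ F ∙ v) ↔ TS P S ∧ v ∈ P.perp S ∧ P.Sing v := by
  have hv : v ∈ S ⊔ F ∙ v := Submodule.mem_sup_right (Submodule.mem_span_singleton_self v)
  constructor
  · exact fun h => ⟨⟨fun x hx => h.1 x (Submodule.mem_sup_left hx),
      le_sup_left.trans (h.2.trans (perp_anti le_sup_left))⟩, perp_anti le_sup_left (h.2 hv),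
      h.1 v hv⟩
  · rintro ⟨h1, h2, h3⟩
    refine ⟨fun x hx => ?_, ?_⟩
    · obtain ⟨s, hs, c, rfl⟩ := mem_sup_span.1 hx
      exact (h1.1 s hs).add (h3.smul c) (f_of_mem_perp' (Submodule.smul_mem _ c h2) hs)
    · have h4 : (F ∙ v) ≤ P.perp S := (Submodule.span_singleton_le_iff_mem _ _).2 h2
      rw [perp_sup]
      exact sup_le (le_inf h1.2 (le_perp_comm.1 h4)) (le_inf h4 (ts_span h3).2)

variable (P) in
/-- The number of singular vectors extending `S`. -/
noncomputable def nx (S : Submodule F V) : ℕ := Nat.card {v // v ∈ P.perp S ∧ v ∉ S ∧ P.Sing v}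

variable [Finite F] [Finite V]

theorem split {X X' : Submodule F V} (hX : TS P X) (hd : finrank F X' = finrank F X)
    (ho : X ⊓ P.perp X' = ⊥) : nx P X =
      Nat.card F ^ finrank F X * Nat.card {u // u ∈ P.perp (X ⊔ X') ∧ u ≠ 0 ∧ P.Sing u} := by
  have h1 : P.perp (X ⊔ X') ≤ P.perp X := perp_anti le_sup_left
  have h2 : X ⊓ P.perp (X ⊔ X') = ⊥ :=
    eq_bot_iff.2 ((inf_le_inf_left _ (perp_anti le_sup_right)).trans ho.le)
  have h0 : ∀ x ∈ X, x ∈ P.perp (X ⊔ X') → x = 0 := fun x a b =>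
    (Submodule.mem_bot F).1 (h2 ▸ Submodule.mem_inf.2 ⟨a, b⟩)
  have h3 : X ⊔ P.perp (X ⊔ X') = P.perp X := by
    refine Submodule.eq_of_le_of_finrank_le (sup_le hX.2 h1) ?_
    have a1 := Submodule.finrank_sup_add_finrank_inf_eq X (P.perp (X ⊔ X'))
    have a2 := P.finrank_perp X
    have a3 := P.finrank_perp (X ⊔ X')
    have a4 := Submodule.finrank_add_le_finrank_add_finrank X X'
    rw [h2, finrank_bot] at a1
    omega
  rw [← Module.natCard_eq_pow_finrank, ← Nat.card_prod]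
  refine (Nat.card_eq_of_bijective (fun p => ⟨p.1.1 + p.2.1, add_mem (hX.2 p.1.2) (h1 p.2.2.1),
    fun h => p.2.2.2.1 (h0 _ ((X.add_mem_iff_right p.1.2).1 h) p.2.2.1),
    (hX.1 _ p.1.2).add p.2.2.2.2 (f_of_mem_perp' (h1 p.2.2.1) p.1.2)⟩) ⟨?_, ?_⟩).symm
  · rintro ⟨⟨x, hx⟩, u, hu⟩ ⟨⟨y, hy⟩, v, hv⟩ e
    replace e : x + u = y + v := congrArg Subtype.val e
    have e1 : x - y = v - u := by rw [sub_eq_sub_iff_add_eq_add, e, add_comm]
    obtain rfl : x = y := sub_eq_zero.1 (h0 _ (sub_mem hx hy) (e1 ▸ sub_mem hv.1 hu.1))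
    obtain rfl : u = v := add_left_cancel e
    rfl
  · rintro ⟨v, a1, a2, a3⟩
    obtain ⟨x, hx, u, hu, rfl⟩ := Submodule.mem_sup.1 (h3.ge a1)
    refine ⟨⟨⟨x, hx⟩, u, hu, ?_, ?_⟩, rfl⟩
    · rintro rfl
      exact a2 (by rwa [add_zero])
    · simpa using a3.sub (hX.1 x hx) (a1 x hx)

omit [Finite F] [Finite V] in
theorem nx_mp {g : V ≃ₗ[F] V} (hg : g ∈ P.isom) (X : Submodule F V) :
    nx P (mp g X) = nx P X := by
  refine (Nat.card_congr (g.toEquiv.subtypeEquiv fun v => and_congr ⟨fun h => ?_, fun h => ?_⟩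
    (and_congr (not_congr ?_) ⟨fun h => h.map hg, fun h => h.of_map hg⟩))).symm
  · exact map_perp hg (fun w hw => mem_mp.1 hw) h
  · exact fun w hw => (isom_f hg v w).symm.trans (h _ ⟨w, hw, rfl⟩)
  · exact (mem_mp.trans (by rw [show g⁻¹ (g.toEquiv v) = v from inv_apply_apply g v])).symm

section

variable {sp : Bool} {w e : ℕ}

theorem exists_mp (hW : WittStmt) (hP : Ty P sp w e) {X Y : Submodule F V} (hX : TS P X)
    (hY : TS P Y) (h : finrank F X = finrank F Y) : ∃ g ∈ P.isom, mp g X = Y := by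
  obtain ⟨g, hg, e⟩ := (hW F V P sp w e hP).2 X Y hX hY (LinearEquiv.ofFinrankEq X Y h)
  refine ⟨g, hg, Submodule.eq_of_le_of_finrank_le ?_ ?_⟩
  · rintro _ ⟨x, hx, rfl⟩
    exact (e ⟨x, hx⟩).symm ▸ (LinearEquiv.ofFinrankEq X Y h ⟨x, hx⟩).2
  · rw [LinearEquiv.finrank_map_eq, h]

theorem nx_eq (hS : SingStmt) (hW : WittStmt) (hL : LeviStmt) (hP : Ty P sp w e)
    {S : Submodule F V} (h : TS P S) :
    nx P S = Nat.card F ^ finrank F S * ns (Nat.card F) (w - finrank F S) e := by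
  obtain ⟨L, hL⟩ := hL F V P sp w e _ hP ((hW F V P sp w e hP).1 S h)
  obtain ⟨g, hg, e⟩ := exists_mp hW hP h L.ts L.dim.symm
  rw [← nx_mp hg, e, split L.ts (L.dim'.trans L.dim.symm) L.opp, L.dim, ← hS F _ L.PW sp _ _ hL]
  congr 1
  exact Nat.card_congr
    ⟨fun u => ⟨⟨u.1, u.2.1⟩, fun e => u.2.2.1 (congrArg Subtype.val e), u.2.2.2⟩,
      fun u => ⟨u.1.1, u.1.2, fun e => u.2.1 (Subtype.ext e), u.2.2⟩, fun _ => rfl, fun _ => rfl⟩

end

variable (P) in
/-- Independent totally singular tuples. -/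
def Tu (k : ℕ) : Type :=
  {s : Fin k → V // LinearIndependent F s ∧ TS P (Submodule.span F (Set.range s))}

instance (k : ℕ) : Finite (Tu P k) := Subtype.finite

variable (P) in
/-- Totally singular subspaces of a given dimension. -/
def Sp (k : ℕ) : Type := {Y : Submodule F V // TS P Y ∧ finrank F Y = k}

instance (k : ℕ) : Finite (Sp P k) :=
  have : Finite (Submodule F V) := Finite.of_injective _ SetLike.coe_injective
  Subtype.finite

omit [Finite F] [Finite V] in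
theorem cons_iff {k : ℕ} (v : V) (t : Fin k → V) :
    (LinearIndependent F (Fin.cons v t : Fin (k + 1) → V) ∧
      TS P (Submodule.span F (Set.range (Fin.cons v t : Fin (k + 1) → V)))) ↔
    (LinearIndependent F t ∧ TS P (Submodule.span F (Set.range t))) ∧
      v ∈ P.perp (Submodule.span F (Set.range t)) ∧ v ∉ Submodule.span F (Set.range t) ∧
        P.Sing v := by
  rw [linearIndependent_finCons, Fin.range_cons, Submodule.span_insert, sup_comm, ts_sup]
  tauto

theorem card_Tu {sp : Bool} {w e : ℕ} (hS : SingStmt) (hW : WittStmt) (hL : LeviStmt)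
    (hP : Ty P sp w e) (k : ℕ) : Nat.card (Tu P k) =
      ∏ i ∈ Finset.range k, Nat.card F ^ i * ns (Nat.card F) (w - i) e := by
  induction k with
  | zero =>
    rw [Finset.prod_range_zero, Nat.card_eq_one_iff_unique]
    exact ⟨⟨fun a b => Subtype.ext (Subsingleton.elim _ _)⟩, ⟨Fin.elim0, linearIndependent_empty_type, by
      rw [Set.range_eq_empty, Submodule.span_empty]
      exact ⟨fun x hx => (Submodule.mem_bot F).1 hx ▸ P.sing_zero, bot_le⟩⟩⟩
  | succ k ih =>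
    rw [Finset.prod_range_succ, ← ih]
    refine card_fib (fun s : Tu P (k + 1) => (⟨Fin.tail s.1, ((cons_iff (s.1 0) (Fin.tail s.1)).1
      (by rw [Fin.cons_self_tail]; exact s.2)).1⟩ : Tu P k)) _ fun t => ?_
    have := nx_eq hS hW hL hP t.2.2
    rw [finrank_span_eq_card t.2.1, Fintype.card_fin] at this
    rw [← this]
    refine (Nat.card_eq_of_bijective (fun v => ⟨⟨Fin.cons v.1 t.1, (cons_iff _ _).2 ⟨t.2, v.2⟩⟩,
      Subtype.ext (Fin.tail_cons (α := fun _ => V) v.1 t.1)⟩) ⟨fun a b e => ?_, ?_⟩).symm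
    · exact Subtype.ext (congrFun (congrArg (fun s => s.1.1) e) 0)
    · rintro ⟨s, rfl⟩
      exact ⟨⟨s.1 0, ((cons_iff (s.1 0) (Fin.tail s.1)).1
        (by rw [Fin.cons_self_tail]; exact s.2)).2⟩, Subtype.ext (Subtype.ext (Fin.cons_self_tail _))⟩

theorem card_Tu' (k : ℕ) : Nat.card (Tu P k) =
    Nat.card (Sp P k) * ∏ i : Fin k, (Nat.card F ^ k - Nat.card F ^ i.val) := by
  have := Fintype.ofFinite F
  refine card_fib (fun s : Tu P k => (⟨_, s.2.2, by
    rw [finrank_span_eq_card s.2.1, Fintype.card_fin]⟩ : Sp P k)) _ ?_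
  rintro ⟨X, h1, rfl⟩
  rw [Nat.card_eq_fintype_card (α := F), ← card_linearIndependent le_rfl]
  have key : ∀ s : {s : Fin (finrank F X) → X // LinearIndependent F s},
      Submodule.span F (Set.range (X.subtype ∘ s.1)) = X := fun s => by
    rw [Set.range_comp, ← Submodule.map_span, s.2.span_eq_top_of_card_eq_finrank' (by simp),
      Submodule.map_top, Submodule.range_subtype]
  refine (Nat.card_eq_of_bijective (fun s => ⟨⟨X.subtype ∘ s.1, s.2.map' _ X.ker_subtype, by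
    rw [key]; exact h1⟩, Subtype.ext (key s)⟩) ⟨fun a b e => ?_, ?_⟩).symm
  · exact Subtype.ext (funext fun i => Subtype.ext (congrFun (congrArg (fun s => s.1.1) e) i))
  · rintro ⟨s, hs⟩
    replace hs : Submodule.span F (Set.range s.1) = X := congrArg Subtype.val hs
    exact ⟨⟨fun i => ⟨s.1 i, hs.le (Submodule.subset_span ⟨i, rfl⟩)⟩,
      LinearIndependent.of_comp X.subtype s.2.1⟩, rfl⟩

omit [Finite V] in
theorem prod_eq (k : ℕ) : ∏ i : Fin k, (Nat.card F ^ k - Nat.card F ^ i.val) =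
    (∏ i ∈ Finset.range k, Nat.card F ^ i) * ∏ i ∈ Finset.range k, (Nat.card F ^ (i + 1) - 1) := by
  rw [← Finset.prod_range fun i => Nat.card F ^ k - Nat.card F ^ i,
    ← Finset.prod_range_reflect (fun i => Nat.card F ^ (i + 1) - 1), ← Finset.prod_mul_distrib]
  refine Finset.prod_congr rfl fun i hi => ?_
  have := Finset.mem_range.1 hi
  rw [Nat.mul_sub, mul_one, ← pow_add, show i + (k - 1 - i + 1) = k by omega]

theorem card_Sp {sp : Bool} {w e : ℕ} (hS : SingStmt) (hW : WittStmt) (hL : LeviStmt)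
    (hP : Ty P sp w e) (k : ℕ) : Nat.card (Sp P k) *
      ∏ i ∈ Finset.range k, (Nat.card F ^ (i + 1) - 1) = Nk (Nat.card F) w e k := by
  have := card_Tu hS hW hL hP k
  rw [card_Tu', prod_eq, Finset.prod_mul_distrib, mul_left_comm] at this
  exact Nat.eq_of_mul_eq_mul_left (Finset.prod_pos fun i _ => pow_pos Nat.card_pos i) this

theorem index_eq {sp : Bool} {w e : ℕ} (hW : WittStmt) (hP : Ty P sp w e) {X : Submodule F V}
    (hX : TS P X) : (stab P.isom X).index = Nat.card (Sp P (finrank F X)) := by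
  refine Nat.card_eq_of_bijective (fun c : P.isom ⧸ stab P.isom X =>
    (⟨mp c.out.1 X, ts_mp c.out.2 hX, LinearEquiv.finrank_map_eq _ _⟩ : Sp P _)) ⟨fun a b e => ?_, ?_⟩
  · rw [← a.out_eq', ← b.out_eq']
    exact QuotientGroup.eq.2 (mp_eq_iff.1 (congrArg Subtype.val e))
  · rintro ⟨Y, h1, h2⟩
    obtain ⟨g, hg, rfl⟩ := exists_mp hW hP hX h1 h2.symm
    have := QuotientGroup.eq.1
      (QuotientGroup.out_eq' (s := stab P.isom X) (QuotientGroup.mk ⟨g, hg⟩))
    exact ⟨QuotientGroup.mk ⟨g, hg⟩, Subtype.ext (mp_eq_iff.2 this)⟩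

theorem count (hS : SingStmt) (hW : WittStmt) (hL : LeviStmt) : CountStmt :=
  fun _ _ _ _ _ _ _ _ _ _ _ _ hP hX => by rw [index_eq hW hP hX, card_Sp hS hW hL hP]

theorem eq_span {Z : Submodule F V} (hZ : finrank F Z = 1) {v : V} (hv : v ∈ Z) (h0 : v ≠ 0) :
    (F ∙ v) = Z :=
  Submodule.eq_of_le_of_finrank_le ((Submodule.span_singleton_le_iff_mem _ _).2 hv)
    (by rw [hZ, finrank_span_singleton h0])

theorem points (p : Submodule F V → Prop) :
    Nat.card {Z : Submodule F V // (TS P Z ∧ finrank F Z = 1) ∧ p Z} * (Nat.card F - 1) =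
      Nat.card {v : V // (v ≠ 0 ∧ P.Sing v) ∧ p (F ∙ v)} := by
  have : Finite (Submodule F V) := Finite.of_injective _ SetLike.coe_injective
  refine (card_fib (fun v : {v : V // (v ≠ 0 ∧ P.Sing v) ∧ p (F ∙ v)} =>
    (⟨F ∙ v.1, ⟨ts_span v.2.1.2, finrank_span_singleton v.2.1.1⟩, v.2.2⟩ :
      {Z : Submodule F V // (TS P Z ∧ finrank F Z = 1) ∧ p Z})) _ ?_).symm
  rintro ⟨Z, ⟨h1, h2⟩, h3⟩
  have h4 : Nat.card {z : Z // z ≠ 0} = Nat.card F - 1 := by
    classical
    have := Fintype.ofFinite Z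
    rw [Nat.card_eq_fintype_card, Fintype.card_subtype_compl, Fintype.card_subtype_eq,
      ← Nat.card_eq_fintype_card, Module.natCard_eq_pow_finrank (K := F), h2, pow_one]
  rw [← h4]
  have k : ∀ z : {z : Z // z ≠ 0}, (z.1 : V) ≠ 0 := fun z e => z.2 (Subtype.ext e)
  refine (Nat.card_eq_of_bijective (fun z => ⟨⟨z.1.1, ⟨k z, h1.1 _ z.1.2⟩, by
    rw [eq_span h2 z.1.2 (k z)]; exact h3⟩, Subtype.ext (eq_span h2 z.1.2 (k z))⟩)
    ⟨fun a b e => ?_, ?_⟩).symm
  · exact Subtype.ext (Subtype.ext (congrArg (fun s => s.1.1) e))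
  · rintro ⟨v, hv⟩
    replace hv : (F ∙ v.1) = Z := congrArg Subtype.val hv
    exact ⟨⟨⟨v.1, hv.le (Submodule.mem_span_singleton_self _)⟩,
      fun e => v.2.1.1 (congrArg Subtype.val e)⟩, rfl⟩

theorem cnt3 (hS : SingStmt) (hW : WittStmt) (hL : LeviStmt) : Cnt3Stmt := by
  intro F V _ _ _ _ _ P sp w e hP _
  refine ⟨by simpa [Nk, Sp] using card_Sp hS hW hL hP 1, fun Y Y' hY d hY' d' => ?_⟩
  have h1 := nx_eq hS hW hL hP hY
  rw [d, pow_one] at h1
  refine ⟨?_, fun hn => ?_⟩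
  · rw [points fun Z => Z ≠ Y ∧ Z ≤ P.perp Y, ← h1]
    refine Nat.card_congr (Equiv.subtypeEquivRight fun v => ?_)
    rw [Submodule.span_singleton_le_iff_mem]
    constructor
    · exact fun ⟨⟨a, b⟩, c, e⟩ => ⟨e, fun h => c (eq_span d h a), b⟩
    · exact fun ⟨a, b, c⟩ => ⟨⟨fun h => b (h ▸ Y.zero_mem), c⟩,
        fun h => b (h ▸ Submodule.mem_span_singleton_self v), a⟩
  · rw [points fun Z => Z ≤ P.perp Y ∧ Z ≤ P.perp Y']
    rw [split hY (d'.trans d.symm) (eq_bot_iff.2 fun v hv => by_contra fun h0 => hn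
      (le_perp_comm.1 (eq_span d hv.1 h0 ▸ (Submodule.span_singleton_le_iff_mem _ _).2 hv.2))), d,
      pow_one] at h1
    rw [← Nat.eq_of_mul_eq_mul_left Nat.card_pos h1]
    refine Nat.card_congr (Equiv.subtypeEquivRight fun v => ?_)
    rw [Submodule.span_singleton_le_iff_mem, Submodule.span_singleton_le_iff_mem, perp_sup,
      Submodule.mem_inf]
    exact and_comm

end Cfsg.Agent.H33.DgCount
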