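import Mathlib
import Cfsg.Agent.H50.E72Defs

/-!
# No homocyclic group of order 81 with an automorphism of order three of the given shape
-/

set_option autoImplicit false
set_option maxRecDepth 100000

namespace Cfsg.Agent.H33.E72No8

open Cfsg.Agent.H50.E72 Module Multiplicative Finset

/-- The dual action. -/
def tau (c : E9) : E9 := ![c 1 - c 0, -c 0]

/-- Representatives of the orbits. -/
def rep (k : Fin 7) : E9 := ![![0, 0], ![0, 3], ![3, 6], ![0, 1], ![1, 3], ![1, 6], ![1, 2]] k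

/-- The orbit of a character. -/
def cls (c : E9) : Fin 7 := Fin.ofNat 7 (([0, 3, 3, 1, 3, 3, 1, 3, 3, 3, 3, 6, 4, 4, 6, 5, 5, 6,
  3, 6, 3, 5, 6, 5, 4, 6, 4, 1, 5, 4, 1, 5, 4, 2, 5, 4, 3, 5, 6, 4, 3, 6, 5, 4, 6, 3, 6, 4, 5, 6, 3,
  4, 6, 5, 1, 4, 5, 2, 4, 5, 1, 4, 5, 3, 4, 6, 4, 5, 6, 5, 3, 6, 3, 6, 5, 5, 6, 4, 4, 6,
  3] : List ℕ).getD ((c 0).val * 9 + (c 1).val) 0)

theorem orb : ∀ c : E9, ∃ i : Fin 3, ∃ j : Fin 6,
    c = (fun d => d + d)^[j.1] (tau^[i.1] (rep (cls c))) := by decide +kernel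

theorem tau3 : ∀ c : E9, tau (tau (tau c)) = c := by decide +kernel

theorem const (m : E9 → ℕ) (h1 : ∀ c, m (tau c) ≤ m c) (h2 : ∀ c, m c = m (c + c)) (c : E9) :
    m c = m (rep (cls c)) := by
  have k1 : ∀ c, m (tau c) = m c := fun c => le_antisymm (h1 c) (by
    have a := h1 (tau c); have b := h1 (tau (tau c)); rw [tau3] at b; omega)
  have k2 : ∀ i c, m (tau^[i] c) = m c := fun i => by
    induction i with
    | zero => exact fun _ => rfl
    | succ i ih => exact fun c => by rw [Function.iterate_succ_apply', k1, ih]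
  have k3 : ∀ i c, m ((fun d => d + d)^[i] c) = m c := fun i => by
    induction i with
    | zero => exact fun _ => rfl
    | succ i ih => exact fun c => by rw [Function.iterate_succ_apply', ← h2, ih]
  obtain ⟨i, j, e⟩ := orb c
  conv_lhs => rw [e, k3, k2]

theorem key (m : E9 → ℕ) (h : ∀ c, m c = m (rep (cls c))) (T : Finset E9) (n : Fin 7 → ℕ)
    (hn : ∀ k, #{c ∈ T | cls c = k} = n k) : ∑ c ∈ T, m c = ∑ k, n k * m (rep k) := by
  rw [sum_congr rfl fun c _ => h c, ← sum_fiberwise' T cls fun k => m (rep k)]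
  exact sum_congr rfl fun k _ => by rw [sum_const, hn, smul_eq_mul]

theorem no8 (hG : GoodStmt) (h9 : C9Stmt) (hW : WtStmt) (hK : KitStmt) (hF : FrobStmt) :
    No8Stmt := by
  rintro ⟨x, w, hx, hw⟩
  obtain ⟨π, hπ⟩ := hG
  haveI : NeZero ((9 : ℕ) : K) := ⟨by
    rw [Ne, CharP.cast_eq_zero_iff K 2]; decide⟩
  obtain ⟨ζ0, hζ0⟩ := HasEnoughRootsOfUnity.exists_primitiveRoot K 9
  obtain ⟨ζ, hζ⟩ : ∃ ζ : Kˣ, IsPrimitiveRoot ζ 9 := ⟨_, hζ0.isUnit_unit (by norm_num)⟩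
  have fr : ∀ A B : Submodule K (Fin 56 → K), A = B → finrank K A = finrank K B :=
    fun _ _ h => h ▸ rfl
  let m : E9 → ℕ := fun c => finrank K (⊤ ⊓ wsp π ζ x c : Submodule K _)
  have h1 : ∀ c, m (tau c) ≤ m c := fun c =>
    (hK _ π).2.2.2.2.2 2 9 ζ x ⊤ w (fun e => ![-e 0 - e 1, e 0]) (tau c) c
      (fun _ _ => Submodule.mem_top) (by clear hw; unfold Function.Surjective; decide +kernel) hw
      (fun e => by simp [tau, dotProduct, Fin.sum_univ_two]; ring)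
  have h2 : ∀ c, m c = m (c + c) := fun c => by
    have := hF _ π E9 (fun e => x (ofAdd e)) fun e => ((ζ ^ (c ⬝ᵥ e).val : Kˣ) : K)
    have e : ∀ e : E9, ((ζ ^ (c ⬝ᵥ e).val : Kˣ) : K) ^ 2 = ((ζ ^ ((c + c) ⬝ᵥ e).val : Kˣ) : K) :=
      fun e => by
        rw [← Units.val_pow_eq_pow_val, add_dotProduct, ZMod.val_add, pow_two, ← pow_add]
        congr 1
        conv_lhs => rw [← Nat.mod_add_div ((c ⬝ᵥ e).val + (c ⬝ᵥ e).val) 9, pow_add, pow_mul,
          hζ.pow_eq_one, one_pow, mul_one]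
    exact (fr _ _ (top_inf_eq _)).trans (this.trans (fr _ _ (by
      rw [top_inf_eq]; exact iInf_congr fun d => by rw [e])))
  have hc := const m h1 h2
  have hs := hW _ π 2 9 ζ x ⊤ hζ fun _ _ _ => Submodule.mem_top
  have s0 : 56 = ∑ k, ![1, 6, 2, 18, 18, 18, 18] k * m (rep k) := by
    have := hs ∅ fun _ => 0
    rw [key m hc _ ![1, 6, 2, 18, 18, 18, 18] (by decide +kernel)] at this
    rw [← this, fr _ ⊤ (by simp)]
    simp
  have s1 : ∀ (e : E9) (n : Fin 7 → ℕ),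
      (∀ k, #{c ∈ (univ.filter fun c : E9 => ∀ d ∈ ({e} : Finset E9), c ⬝ᵥ d = 0) | cls c = k} =
        n k) → fx π (x (ofAdd e)) = ∑ k, n k * m (rep k) := fun e n hn => by
    have := hs {e} fun _ => 0
    rw [key m hc _ n hn] at this
    rw [← this]
    exact fr _ _ (by simp)
  have s2 := s1 ![3, 3] ![1, 6, 2, 0, 0, 0, 18] (by decide +kernel)
  have s3 := s1 ![3, 6] ![1, 6, 2, 6, 6, 6, 0] (by decide +kernel)
  have s4 := s1 ![1, 1] ![1, 0, 2, 0, 0, 0, 6] (by decide +kernel)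
  have c : ∀ e e' : E9, ofAdd e ^ 9 = 1 → ofAdd e ^ 3 = ofAdd e' → ofAdd e' ≠ 1 →
      fx π (x (ofAdd e')) = 20 ∨ fx π (x (ofAdd e')) = 2 ∧ fx π (x (ofAdd e)) = 0 :=
    fun e e' a b d => by
      have := h9 π hπ (x (ofAdd e)) (by rw [← map_pow, a, map_one])
        (by rw [← map_pow, b]; exact fun k => d (hx (k.trans (map_one x).symm)))
      rwa [← map_pow, b] at this
  have c1 := c ![1, 1] ![3, 3] (by decide +kernel) (by decide +kernel) (by decide +kernel)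
  have c2 := c ![1, 2] ![3, 6] (by decide +kernel) (by decide +kernel) (by decide +kernel)
  simp only [Fin.sum_univ_succ, Fin.sum_univ_zero, Matrix.cons_val_zero, Matrix.cons_val_succ]
    at s0 s2 s3 s4
  omega

end Cfsg.Agent.H33.E72No8
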