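import Cfsg.Agent.H50.E83Defs2

/-! Elements of order three centralising an element of order eleven of `E₈` in characteristic
three have a large fixed space. -/

set_option autoImplicit false

namespace Cfsg.Agent.H33.E83Fix3

open Equiv Cfsg.Lie H37 H40 H34 H29 Module Cfsg.Agent.H50.E83

/-- a finer label -/
noncomputable def gv : Rt → ℤ := vN C8 [4, 10, 0, 0, 0, 0, 48, 1]

/-- its values modulo `50` -/
def gl : List ℕ :=
  [16, 17, 15, 15, 15, 15, 15, 25, 25, 25, 25, 25, 23, 24, 19, 29, 29, 29, 29, 27, 28, 29, 29, 29,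
    27, 28, 29, 29, 27, 28, 29, 27, 28, 27, 28, 26, 39, 39, 37, 38, 39, 37, 38, 37, 38, 36, 39,
    37, 38, 37, 38, 36, 37, 38, 36, 36, 39, 37, 38, 37, 38, 36, 37, 38, 36, 36, 37, 38, 36, 36,
    36, 47, 48, 46, 46, 46, 46, 46, 43, 41, 42, 41, 42, 40, 41, 42, 40, 40, 41, 42, 40, 40, 40,
    41, 42, 40, 40, 40, 40, 1, 2, 0, 0, 0, 0, 1, 2, 0, 0, 0, 1, 2, 0, 0, 1, 2, 0, 1, 2, 49, 1,
    48, 49, 0, 48, 49, 0, 0, 48, 49, 0, 0, 0, 48, 49, 0, 0, 0, 0, 48, 49, 10, 10, 10, 10, 8, 9,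
    10, 10, 10, 8, 9, 10, 10, 8, 9, 10, 8, 9, 8, 9, 7, 4, 4, 4, 4, 4, 2, 3, 14, 14, 14, 12, 13,
    14, 14, 12, 13, 14, 12, 13, 12, 13, 11, 14, 14, 12, 13, 14, 12, 13, 12, 13, 11, 14, 12, 13,
    12, 13, 11, 12, 13, 11, 11, 24, 22, 23, 22, 23, 21, 22, 23, 21, 21, 22, 23, 21, 21, 21, 22,
    23, 21, 21, 21, 21, 31, 26, 27, 25, 25, 25, 25, 25, 35, 35, 35, 35, 35, 33, 34]

theorem vN_tab (a : List ℕ) (r : Rt) :
    vN C8 a r = ∑ j : Fin 8, gt rcE8 r j * (a.getD j 0 : ℕ) :=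
  Finset.sum_congr rfl fun j _ => by rw [rc_eq C8 tabOKE8]

theorem tab1 : ∀ r < 240, (50 : ℤ) ∣ ∑ j : Fin 8, gt rcE8 r j *
    (([4, 10, 0, 0, 0, 0, 48, 1] : List ℕ).getD j 0 : ℕ) - gl.getD r 0 := by decide +kernel

theorem tab2 : ∀ r < 240, (11 : ℤ) ∣ ∑ j : Fin 8, gt rcE8 r j *
    (([1, 1, 0, 0, 0, 0, 1, 1] : List ℕ).getD j 0 : ℕ) → gl.getD r 0 = 0 := by decide +kernel

theorem tab3 : 101 ≤ ∑ k ∈ Finset.range 50, ((if k = 0 then 8 else 0) +
    (∑ r ∈ Finset.range 240, if gl.getD r 0 = k then 1 else 0) + 2) / 3 := by decide +kernel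

theorem tab4 : ∀ r < 240, gl.getD r 0 < 50 := by decide +kernel

theorem gv_eq (r : Rt) : (gv r : ZMod 50) = (gl.getD r 0 : ℕ) := by
  have := (ZMod.intCast_zmod_eq_zero_iff_dvd _ 50).2 (tab1 r r.2)
  rw [Int.cast_sub, sub_eq_zero, Int.cast_natCast] at this
  rw [gv, vN_tab, this]

theorem cast_eq {a b : ℕ} (ha : a < 50) (hb : b < 50) : (a : ZMod 50) = b ↔ a = b := by
  rw [ZMod.natCast_eq_natCast_iff', Nat.mod_eq_of_lt ha, Nat.mod_eq_of_lt hb]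

theorem fix3 (hmu : MuStmt) (hst : St11Stmt) (huni : UniStmt) : Fix3Stmt := by
  intro ζ h b hζ hl hc hb
  obtain ⟨ξ, hξ, -⟩ := exists_prim_unit K (N := 50) (by
    rw [Ne, CharP.cast_eq_zero_iff K 3]; norm_num)
  obtain ⟨h', hl'⟩ := exists_lab8 (C := C8) hξ (f := gv) (isAdd_vN C8 _)
  have hc' : Commute h' b := hl.commute_of hζ hξ hl' (fun r hr => by
      rw [ZMod.intCast_zmod_eq_zero_iff_dvd, f11, vN_tab] at hr
      rw [gv_eq, tab2 r r.2 hr, Nat.cast_zero])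
    (fun w hw e r => by
      simp only [gv, vN]
      refine congrArg _ (Finset.sum_congr rfl fun j _ => ?_)
      by_cases hj : (j : ℕ) ∈ [0, 1, 6, 7]
      · rw [hst w hw e r j hj]
      · have : ∀ j < 8, j ∉ [0, 1, 6, 7] →
            ([4, 10, 0, 0, 0, 0, 48, 1] : List ℕ).getD j 0 = 0 := by decide
        rw [this j j.2 hj, Nat.cast_zero, mul_zero, mul_zero]) hc
  have key := huni ξ 50 h' b gv hξ hl' hc' hb
    ((Finset.range 50).map ⟨Nat.cast, Nat.cast_injective⟩) (by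
      intro k hk l hl e
      obtain ⟨k, hk', rfl⟩ := Finset.mem_map.1 hk
      obtain ⟨l, hl', rfl⟩ := Finset.mem_map.1 hl
      simp only [Function.Embedding.coeFn_mk, Int.cast_natCast] at e ⊢
      rw [(cast_eq (Finset.mem_range.1 hk') (Finset.mem_range.1 hl')).1 e])
  refine tab3.trans (le_of_eq_of_le ?_ key)
  rw [Finset.sum_map]
  refine Finset.sum_congr rfl fun k hk => ?_
  have hk' := Finset.mem_range.1 hk
  simp only [Function.Embedding.coeFn_mk]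
  rw [hmu.2.2.1 ξ 50 h' gv hξ hl', z0, Finset.sum_range]
  refine congrArg (fun n => (n + 2) / 3) (congrArg₂ (· + ·) ?_ ?_)
  · refine if_congr ?_ rfl rfl
    rw [Int.cast_natCast, ← Nat.cast_zero (R := ZMod 50), cast_eq hk' (by norm_num)]
  · refine Finset.sum_congr rfl fun (r : Rt) _ => if_congr ?_ rfl rfl
    rw [Int.cast_sub, sub_eq_zero, Int.cast_natCast, gv_eq, cast_eq (tab4 r r.2) hk']

end Cfsg.Agent.H33.E83Fix3
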