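import Mathlib
import Cfsg.Agent.H42.FvDefs
import Cfsg.Agent.H74.KGTor

/-! A maximal subgroup of `E₈(3)` stabilising a rational nilpotent line has order divisible by
`3 ^ 7`. -/

set_option autoImplicit false

namespace Cfsg.Agent.H33.FvNil

open Equiv Cfsg.Lie H37 H40 H34 H29 Module H50.E83 H42.Fv
open scoped Matrix

theorem vge_smul {l : Rt → ℝ} {m : ℝ} {v : V} (h : Vge l m v) (c : K) : Vge l m (c • v) :=
  ⟨fun hm i => by rw [Pi.smul_apply, h.1 hm i, smul_zero],
    fun r hr => by rw [Pi.smul_apply, h.2 r hr, smul_zero]⟩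

theorem vge_frV {l : Rt → ℝ} {m : ℝ} {v : V} (h : Vge l m v) : Vge l m (frV v) :=
  ⟨fun hm i => by rw [frV, h.1 hm i, zero_pow (by norm_num)],
    fun r hr => by rw [frV, h.2 r hr, zero_pow (by norm_num)]⟩

theorem rk : chevE8.rank = 8 := by decide +kernel

theorem ncard_pos : 7 ≤ (Pos : Set Rt).ncard := by
  have h1 : (Set.range C8.R.simple).ncard ≤ (Pos : Set Rt).ncard :=
    Set.ncard_le_ncard (by rintro _ ⟨i, rfl⟩; exact C8.R.pos_simple i) (Set.toFinite _)
  rw [Set.ncard_range_of_injective C8.R.simple_inj, Nat.card_eq_fintype_card, Fintype.card_fin, rk] at h1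
  omega

theorem nil (k1 : Kr1Stmt) (k2 : Kr2Stmt) (ra : RatStmt) (p2 : Prop2Stmt) (dv : DivStmt)
    (ps : PstStmt) (fr : FrobStmt) : NilStmt := by
  intro H hH g₀ y hy hc hy0 hf hs
  obtain ⟨g, l, ho⟩ := k1 g₀ y hy hc
  have hw0 : act g₀ y ≠ 0 := fun e => hy0 (by rw [← act_inv_act g₀ y, e, map_zero])
  generalize act g₀ y = w at hf hs ho hw0
  have h1 : g⁻¹ * Ph g ∈ Pst l := by
    refine k2 w g l (Ph g) ho ?_
    rw [← map_inv, ← hf, fr.1]
    exact vge_frV ho.mem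
  obtain ⟨m₀, n, hn, hg⟩ := ra l g ho.add ho.dom h1
  have h2 : H ≤ rat (ι m₀ * n) (Pst l) := by
    intro m hm
    obtain ⟨c, hc⟩ := hs m⁻¹ (inv_mem hm)
    have h3 : g⁻¹ * (ι m * g) ∈ Pst l := by
      refine k2 w g l (ι m * g) ho ?_
      rw [mul_inv_rev, act_mul, ← map_inv, hc, map_smul]
      exact vge_smul ho.mem c
    rw [mem_rat]
    have := mul_mem (mul_mem hg h3) (inv_mem hg)
    convert this using 1
    group
  have h3 : ∃ r, 0 < l r := by
    by_contra hne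
    push Not at hne
    apply hw0
    rw [← act_act_inv g w]
    have : act g⁻¹ w = 0 := by
      funext i
      rcases i with i | r
      · exact ho.mem.1 one_pos i
      · exact ho.mem.2 r ((hne r).trans_lt one_pos)
    rw [this, map_zero]
  have h4 : H = rat (ι m₀ * n) (Pst l) := by
    by_contra hne
    exact p2 l ho.add h3 m₀ n hn (hH.2 _ (lt_of_le_of_ne h2 hne))
  have hP := H74.KG.Phi_mem_N (C := C8) (k := K) (r := 3) 1 hn
  have h5 : n⁻¹ * Ph n ∈ P8.H := Split.inv_mul_mem_H hn hP.1 hP.2.symm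
  refine dv H (ι m₀ * n) (n⁻¹ * Ph n) (Split.H_le_N h5) ?_ Pos subset_rfl clo_pos ?_ ncard_pos ?_
  · rw [map_mul, (fr.2.1 (ι m₀)).2 ⟨m₀, rfl⟩]
    group
  · intro r hr
    rw [Split.ν_H h5]
    exact hr
  · rw [h4]
    intro m hm
    exact (ps l ho.add).2 (Split.U_mono (fun r hr => ho.dom r hr) hm)

end Cfsg.Agent.H33.FvNil
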