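import Mathlib
import Cfsg.Agent.H98.GbL
import Cfsg.Agent.H22.Transport

/-!
# The final transport for the block-rank bound of `SL_n(q)`

From the bound for the kernel of the determinant on `GL_n` to `SpecialLinearGroup`.
-/

set_option autoImplicit false

namespace Cfsg.Agent.H33.GbFin

open Cfsg Cfsg.Agent.H98.GB

universe u

theorem prank_congr {X Y : Type*} [Group X] [Group Y] {p k : ℕ} (e : X ≃* Y)
    (h : PRankLE p k X) : PRankLE p k Y := by
  intro A hA hp
  have h1 := h (A.map e.symm.toMonoidHom) inferInstance (by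
    rintro _ ⟨a, ha, rfl⟩
    rw [← map_pow, hp a ha, map_one])
  rwa [Subgroup.card_map_of_injective e.symm.injective] at h1

theorem sec_congr {X Y : Type*} [Group X] [Group Y] {p k : ℕ} (e : X ≃* Y)
    (h : SectionalPRankLE p k X) : SectionalPRankLE p k Y := by
  intro H N hN
  let e' : ↥H ≃* ↥(H.map e.symm.toMonoidHom) :=
    H.equivMapOfInjective e.symm.toMonoidHom e.symm.injective
  have hN' : (N.map (e' : ↥H →* ↥(H.map e.symm.toMonoidHom))).Normal :=
    hN.map _ e'.surjective
  exact prank_congr (QuotientGroup.congr N _ e' rfl).symm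
    (h (H.map e.symm.toMonoidHom) (N.map (e' : ↥H →* ↥(H.map e.symm.toMonoidHom))))

/-- `SL_n(F)` is the kernel of the determinant on `GL_n(F)`. -/
noncomputable def slKer (F : Type u) [Field F] (n : ℕ) :
    Matrix.SpecialLinearGroup (Fin n) F ≃*
      (Matrix.GeneralLinearGroup.det : GL (Fin n) F →* Fˣ).ker :=
  MulEquiv.ofBijective
    (Matrix.SpecialLinearGroup.toGL.codRestrict
      (Matrix.GeneralLinearGroup.det : GL (Fin n) F →* Fˣ).ker
      (fun g => Matrix.SpecialLinearGroup.coeToGL_det g))
    ⟨fun _ _ hab => Matrix.SpecialLinearGroup.toGL_injective (congrArg Subtype.val hab),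
      fun g => ⟨⟨g.1.1, congrArg Units.val g.2⟩, Subtype.ext (Units.ext rfl)⟩⟩

theorem fin (hS : SETUPStmt.{u}) (hM : MAINStmt.{u}) : FINStmt.{u} := by
  intro F _ _ n hn p hp hpF M hMod B hB D hD s hs
  classical
  obtain ⟨C, rfl, rfl, rfl⟩ := hS F p M n hp.out hpF hMod
  have h := hM F C (by omega) _ (H22.isPBlock_image (slKer F C.n0) hB) _
    (H22.isDefectGroup_image (slKer F C.n0) hD) s
    (sec_congr (D.equivMapOfInjective (slKer F C.n0).toMonoidHom (slKer F C.n0).injective) hs)
  rwa [H22.blockRank_image] at h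

end Cfsg.Agent.H33.GbFin
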