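import Cfsg.Agent.H98.GbH
import Cfsg.Agent.H11.Irr

/-! Generalized characters form subrings of the Hall algebras. -/

set_option autoImplicit false

namespace Cfsg.Agent.H33.GbGen

open Cfsg Finset Cfsg.Agent.H98.GB Cfsg.Agent.H11

universe u

section
variable {G : Type u} [Group G] (K : Subgroup G)

theorem ext_mem (θ : K → ℂ) {g : G} (h : g ∈ K) : extendByZero K θ g = θ ⟨g, h⟩ :=
  Subtype.val_injective.extend_apply θ 0 ⟨g, h⟩

theorem ext_add (θ θ' : K → ℂ) (g : G) :
    extendByZero K (θ + θ') g = extendByZero K θ g + extendByZero K θ' g := by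
  by_cases h : g ∈ K
  · rw [ext_mem K _ h, ext_mem K _ h, ext_mem K _ h, Pi.add_apply]
  · have e : ∀ θ : K → ℂ, extendByZero K θ g = 0 := fun θ =>
      Function.extend_apply' θ (0 : G → ℂ) g fun ⟨a, e⟩ => h (e ▸ a.2)
    rw [e, e, e, add_zero]

variable [Fintype G]

/-- twisted induction is additive -/
noncomputable def avH (l : G →* ℂˣ) : (K → ℂ) →+ (G → ℂ) :=
  AddMonoidHom.mk' (av K l) fun θ θ' => funext fun g => by
    simp only [av, ext_add, mul_add, sum_add_distrib, Pi.add_apply]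

theorem av_top (hK : ∀ g, g ∈ K) {l : G →* ℂˣ} (hl : l = 1) {χ : G → ℂ}
    (hχ : IsClassFunction G χ) : av K l (fun k => χ k) = χ := by
  funext g
  have e : ∀ x, extendByZero K (fun k => χ k) (x⁻¹ * g * x) = χ g := fun x => by
    rw [ext_mem K _ (hK _)]
    simpa using hχ g x⁻¹
  have c : Nat.card K = Fintype.card G := by
    rw [(Subgroup.eq_top_iff' K).2 hK, Subgroup.card_top, Nat.card_eq_fintype_card]
  have c0 : (Fintype.card G : ℂ) ≠ 0 := Nat.cast_ne_zero.2 Fintype.card_ne_zero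
  simp only [av, e, hl, c, MonoidHom.one_apply, Units.val_one, one_mul, sum_const, card_univ,
    nsmul_eq_mul]
  rw [inv_mul_cancel_left₀ c0]

end

section
variable {F : Type u} [Field F] [Fintype F] [DecidableEq F]

theorem exists_cmp (hA : AVMStmt.{u}) {a b n : ℕ} (h : a + b = n) {χ₁ : GL (Fin a) F → ℂ}
    {χ₂ : GL (Fin b) F → ℂ} (h₁ : IsGeneralizedCharacter _ χ₁) (h₂ : IsGeneralizedCharacter _ χ₂) :
    IsGeneralizedCharacter _ (cmp 1 h χ₁ χ₂) ∧
      (IsCharacter _ χ₁ → IsCharacter _ χ₂ → IsCharacter _ (cmp 1 h χ₁ χ₂)) := by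
  have hK : ∀ m (g : GL (Fin m) F), g ∈ (dl (1 : Fˣ →* ℂˣ) m).ker := fun _ _ => rfl
  obtain ⟨Θ, e, k1, k2⟩ := hA F 1 a b n h (fun k => χ₁ k) (fun k => χ₂ k)
  let f : GL (Fin n) F →* (dl (1 : Fˣ →* ℂˣ) n).ker := (MonoidHom.id _).codRestrict _ (hK n)
  have k3 := isGen_comp (k2 (isGen_restrict h₁ _) (isGen_restrict h₂ _)) f
  have e1 := e 0
  have p0 : ∀ m, dl (1 : Fˣ →* ℂˣ) m ^ 0 = 1 := fun m => MonoidHom.ext fun _ => pow_zero _
  rw [av_top _ (hK a) (p0 a) (isClassFunction_of_isGen h₁),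
    av_top _ (hK b) (p0 b) (isClassFunction_of_isGen h₂),
    show (1 : Fˣ →* ℂˣ) ^ 0 = 1 from MonoidHom.ext fun _ => pow_zero _] at e1
  have e2 := av_top _ (hK n) (p0 n) (isClassFunction_of_isGen k3)
  have e3 : (fun k : (dl (1 : Fˣ →* ℂˣ) n).ker => Θ (f k)) = Θ :=
    funext fun k => congrArg Θ (Subtype.ext rfl)
  rw [e3, e1] at e2
  rw [e2]
  exact ⟨k3, fun c₁ c₂ =>
    isCharacter_comp (k1 (isCharacter_restrict c₁ _) (isCharacter_restrict c₂ _)) f⟩

end

theorem gen (hA : AVMStmt.{u}) : GENStmt.{u} := by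
  intro F _ _ _
  refine ⟨fun a b n h χ₁ χ₂ c₁ c₂ =>
    (exists_cmp hA h (isGen_of_isCharacter c₁) (isGen_of_isCharacter c₂)).2 c₁ c₂, fun H => ?_,
    fun ξ H => ?_⟩
  · refine ⟨{ carrier := {x | ∀ n, IsGeneralizedCharacter _ (H.ev x n)}
              mul_mem' := fun {x y} hx hy n => ?_
              one_mem' := fun n => ?_
              add_mem' := fun {x y} hx hy n => ?_
              zero_mem' := fun n => ?_
              neg_mem' := fun {x} hx n => ?_ }, fun _ => Iff.rfl⟩
    · rw [H.ev_mul]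
      exact isGen_sum _ _ fun ab _ => (exists_cmp hA _ (hx _) (hy _)).1
    · rw [H.ev_one, one]
      by_cases h : n = 0
      · subst h
        rw [Pi.single_eq_same]
        exact isGen_one
      · rw [Pi.single_eq_of_ne h]
        exact isGen_zero
    · rw [map_add]
      exact isGen_add (hx n) (hy n)
    · rw [map_zero]
      exact isGen_zero
    · rw [map_neg]
      exact isGen_neg (hx n)
  · refine ⟨{ carrier := RF ξ H
              mul_mem' := fun {x y} hx hy n => ?_
              one_mem' := fun n => ?_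
              add_mem' := fun {x y} hx hy n => ?_
              zero_mem' := fun n => ?_
              neg_mem' := fun {x} hx n => ?_ }, rfl⟩
    · choose s s1 s2 using hx
      choose t t1 t2 using hy
      choose Θ e _ k using fun ab : antidiagonal n =>
        hA F ξ ab.1.1 ab.1.2 n (mem_antidiagonal.1 ab.2) (s _) (t _)
      refine ⟨∑ ab, Θ ab, isGen_sum _ _ fun ab _ => k ab (s1 _) (t1 _), fun j => ?_⟩
      rw [Pi.mul_apply, (H j).ev_mul]
      refine Eq.trans ?_ (map_sum (avH _ (dl ξ n ^ j)) Θ univ).symm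
      exact sum_congr rfl fun ab _ => by rw [s2, t2]; exact (e ab j).symm
    · by_cases h : n = 0
      · subst h
        refine ⟨fun _ => 1, isGen_one, fun j => ?_⟩
        rw [Pi.one_apply, (H j).ev_one, one, Pi.single_eq_same]
        exact (av_top _ (fun g => by rw [Subsingleton.elim g 1]; exact one_mem _)
          (MonoidHom.ext fun g => by rw [Subsingleton.elim g 1, map_one, map_one])
          (χ := fun _ => 1) fun _ _ => rfl).symm
      · refine ⟨0, isGen_zero, fun j => ?_⟩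
        rw [Pi.one_apply, (H j).ev_one, one, Pi.single_eq_of_ne h]
        exact (map_zero (avH _ (dl ξ n ^ j))).symm
    · obtain ⟨s, s1, s2⟩ := hx n
      obtain ⟨t, t1, t2⟩ := hy n
      refine ⟨s + t, isGen_add s1 t1, fun j => ?_⟩
      rw [Pi.add_apply, map_add, Pi.add_apply, s2, t2]
      exact (map_add (avH _ (dl ξ n ^ j)) s t).symm
    · refine ⟨0, isGen_zero, fun j => ?_⟩
      rw [Pi.zero_apply, map_zero]
      exact (map_zero (avH _ (dl ξ n ^ j))).symm
    · obtain ⟨s, s1, s2⟩ := hx n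
      refine ⟨-s, isGen_neg s1, fun j => ?_⟩
      rw [Pi.neg_apply, map_neg, Pi.neg_apply, s2]
      exact (map_neg (avH _ (dl ξ n ^ j)) s).symm

end Cfsg.Agent.H33.GbGen
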