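import Cfsg.Agent.H33.HnM4

/-! Piece LS of the recognition of `HN`. -/

set_option autoImplicit false

universe u

namespace Cfsg.Agent.H33.Hn

open Cfsg Subgroup Equiv
open Cfsg.Agent.H99.HN
open Cfsg.Agent.H91 (SL25 slX slY)
open Cfsg.Agent.H67.T3 (slF)
open Cfsg.Agent.H4.J2S (F4)
open scoped Pointwise

/-! ### The centralizer of `t0, s0, u0` -/

/-- evaluation -/
abbrev ev (γ : A12) (i : Fin 12) : Fin 12 := (γ : Perm (Fin 12)) i

theorem ev_mul (γ δ : A12) (i : Fin 12) : ev (γ * δ) i = ev γ (ev δ i) := rfl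

theorem ev_inj {γ : A12} {i j : Fin 12} (h : ev γ i = ev γ j) : i = j :=
  (γ : Perm (Fin 12)).injective h

theorem ev_comm {γ δ : A12} (h : γ * δ = δ * γ) (i : Fin 12) :
    ev γ (ev δ i) = ev δ (ev γ i) := by rw [← ev_mul, h, ev_mul]

/-- commutes with `u0`, fixes the last four points and the first `2 k` points -/
structure Fx (k : ℕ) (γ : A12) : Prop where
  cu : γ * u0 = u0 * γ
  lo : ∀ i : Fin 12, i.val < 2 * k → ev γ i = i
  hi : ∀ i : Fin 12, 8 ≤ i.val → ev γ i = i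

theorem Fx.mul {k : ℕ} {γ δ : A12} (h : Fx k γ) (h' : Fx k δ) : Fx k (γ * δ) :=
  ⟨by rw [mul_assoc, h'.cu, ← mul_assoc, h.cu, mul_assoc],
    fun i hi => by rw [ev_mul, h'.lo i hi, h.lo i hi],
    fun i hi => by rw [ev_mul, h'.hi i hi, h.hi i hi]⟩

instance (k : ℕ) (γ : A12) : Decidable (Fx k γ) :=
  decidable_of_iff (γ * u0 = u0 * γ ∧ (∀ i : Fin 12, i.val < 2 * k → ev γ i = i) ∧
    ∀ i : Fin 12, 8 ≤ i.val → ev γ i = i)
    ⟨fun h => ⟨h.1, h.2.1, h.2.2⟩, fun h => ⟨h.1, h.2, h.3⟩⟩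

theorem Fx.step {k : ℕ} {γ : A12} (h : Fx k γ) (i : Fin 12) (hi : i.val = 2 * k) (hk : k < 4)
    (h0 : ev γ i = i) : Fx (k + 1) γ := by
  refine ⟨h.cu, fun j hj => ?_, h.hi⟩
  by_cases h1 : j.val < 2 * k
  · exact h.lo j h1
  by_cases h2 : j = i
  · rw [h2, h0]
  have h3 : ∀ i j : Fin 12, i.val % 2 = 0 → i.val < 8 → j.val = i.val + 1 → ev u0 i = j := by
    decide +kernel
  have h4 := h3 i j (by omega) (by omega) (by
    have : j.val ≠ i.val := fun e => h2 (Fin.ext e)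
    omega)
  rw [← h4, ev_comm h.cu, h0]

theorem Fx.range {k : ℕ} {γ : A12} (h : Fx k γ) (i : Fin 12) (h1 : 2 * k ≤ i.val)
    (h2 : i.val < 8) : 2 * k ≤ (ev γ i).val ∧ (ev γ i).val < 8 := by
  constructor
  · by_contra hn
    have := ev_inj (h.lo _ (not_le.1 hn))
    omega
  · by_contra hn
    have := ev_inj (h.hi _ (not_lt.1 hn))
    omega

theorem Fx.three {γ : A12} (h : Fx 3 γ) : γ = 1 := by
  have h6 := h.range 6 (by decide) (by decide)
  by_cases h0 : ev γ 6 = 6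
  · have h4 := h.step 6 rfl (by decide) h0
    refine Subtype.ext (Equiv.ext fun i => ?_)
    by_cases hi : i.val < 8
    · exact h4.lo i hi
    · exact h4.hi i (not_lt.1 hi)
  · exfalso
    have h7 : ev γ 6 = 7 := Fin.ext (by
      have : (ev γ 6).val ≠ 6 := fun e => h0 (Fin.ext e)
      show _ = 7
      omega)
    have h8 : ev γ 7 = 6 := by
      have := ev_comm h.cu 6
      rw [h7] at this
      exact this
    have h9 : (γ : Perm (Fin 12)) = swap 6 7 := by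
      refine Equiv.ext fun i => ?_
      by_cases e6 : i = 6
      · rw [e6]; exact h7
      by_cases e7 : i = 7
      · rw [e7]; exact h8
      rw [swap_apply_of_ne_of_ne e6 e7]
      by_cases hi : i.val < 6
      · exact h.lo i hi
      · refine h.hi i ?_
        have a : i.val ≠ 6 := fun e => e6 (Fin.ext e)
        have b : i.val ≠ 7 := fun e => e7 (Fin.ext e)
        omega
    have := Perm.mem_alternatingGroup.1 γ.2
    rw [h9, Perm.sign_swap (by decide)] at this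
    exact absurd this (by decide)

theorem g1_mem : dd 0 1 2 3 ∈ Ep0 := subset_closure (by simp)
theorem g2_mem : dd 2 3 4 5 ∈ Ep0 := subset_closure (by simp)
theorem g3_mem : dd 4 5 6 7 ∈ Ep0 := subset_closure (by simp)
theorem x2_mem : x2 ∈ Ep0 := subset_closure (by simp)
theorem x4_mem : x4 ∈ Ep0 := subset_closure (by simp)
theorem u0_mem : u0 ∈ Ep0 := mul_mem g1_mem g3_mem

theorem Fx.two {γ : A12} (h : Fx 2 γ) (h4 : ev γ 4 = 4 ∨ ev γ 4 = 5) : γ ∈ Ep0 := by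
  rcases h4 with h4 | h4
  · rw [(h.step 4 rfl (by decide) h4).three]; exact one_mem _
  · have a : Fx 2 (dd 4 5 6 7) := by decide +kernel
    have b := ((a.mul h).step 4 rfl (by decide) (by rw [ev_mul, h4]; decide +kernel)).three
    rw [eq_inv_of_mul_eq_one_right b]
    exact inv_mem g3_mem

theorem Fx.one {γ : A12} (h : Fx 1 γ) (h2 : ev γ 2 = 2 ∨ ev γ 2 = 3)
    (h4 : ev γ 4 = 4 ∨ ev γ 4 = 5) : γ ∈ Ep0 := by
  rcases h2 with h2 | h2
  · exact (h.step 2 rfl (by decide) h2).two h4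
  · have a : Fx 1 (dd 2 3 4 5) := by decide +kernel
    have b := ((a.mul h).step 2 rfl (by decide) (by rw [ev_mul, h2]; decide +kernel)).two (by
      rw [ev_mul]
      rcases h4 with h4 | h4 <;> rw [h4] <;> decide +kernel)
    exact (Subgroup.mul_mem_cancel_left _ g2_mem).1 b

theorem Fx.zero {γ : A12} (h : Fx 0 γ) : ∃ r ∈ Ep0, Fx 1 (r * γ) := by
  have h0 := h.range 0 (by decide) (by decide)
  have key : ∀ p : Fin 12, p.val < 8 → ∃ i : Fin 2, ∃ j : Fin 2, ∃ k : Fin 2,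
      Fx 0 (u0 ^ i.val * x2 ^ j.val * x4 ^ k.val) ∧
        ev (u0 ^ i.val * x2 ^ j.val * x4 ^ k.val) p = 0 := by decide +kernel
  obtain ⟨i, j, k, a, b⟩ := key _ h0.2
  exact ⟨_, mul_mem (mul_mem (pow_mem u0_mem _) (pow_mem x2_mem _)) (pow_mem x4_mem _),
    (a.mul h).step 0 rfl (by decide) (by rw [ev_mul, b])⟩

theorem red_V3 {γ : A12} (hu : γ * u0 = u0 * γ) (ht : γ * t0 = t0 * γ) (hs : γ * s0 = s0 * γ) :
    ∃ r ∈ V30, Fx 0 (r * γ) := by
  have h8 : ev u0 (ev γ 8) = ev γ 8 := (ev_comm hu 8).symm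
  have key : ∀ p : Fin 12, ev u0 p = p → ∃ i : Fin 2, ∃ j : Fin 2,
      (t0 ^ i.val * s0 ^ j.val) * u0 = u0 * (t0 ^ i.val * s0 ^ j.val) ∧
      (t0 ^ i.val * s0 ^ j.val) * t0 = t0 * (t0 ^ i.val * s0 ^ j.val) ∧
      (t0 ^ i.val * s0 ^ j.val) * s0 = s0 * (t0 ^ i.val * s0 ^ j.val) ∧
        ev (t0 ^ i.val * s0 ^ j.val) p = 8 := by decide +kernel
  obtain ⟨i, j, a, b, c, e⟩ := key _ h8
  have hm : t0 ^ i.val * s0 ^ j.val ∈ V30 :=
    mul_mem (pow_mem (subset_closure (by simp)) _) (pow_mem (subset_closure (by simp)) _)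
  generalize t0 ^ i.val * s0 ^ j.val = r at *
  have f8 : ev (r * γ) 8 = 8 := by rw [ev_mul, e]
  have ct : r * γ * t0 = t0 * (r * γ) := by rw [mul_assoc, ht, ← mul_assoc, b, mul_assoc]
  have cs : r * γ * s0 = s0 * (r * γ) := by rw [mul_assoc, hs, ← mul_assoc, c, mul_assoc]
  have f9 : ev (r * γ) 9 = 9 := by
    have := ev_comm ct 8
    rw [f8] at this; exact this
  have f10 : ev (r * γ) 10 = 10 := by
    have := ev_comm cs 8
    rw [f8] at this; exact this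
  have f11 : ev (r * γ) 11 = 11 := by
    have := ev_comm cs 9
    rw [f9] at this; exact this
  refine ⟨r, hm, by rw [mul_assoc, hu, ← mul_assoc, a, mul_assoc], fun i hi => by omega,
    fun i hi => ?_⟩
  have : i = 8 ∨ i = 9 ∨ i = 10 ∨ i = 11 := by revert i; decide
  rcases this with rfl | rfl | rfl | rfl <;> assumption

theorem Fx.gen {γ : A12} (h : Fx 1 γ) {H : Subgroup A12} (hE : Ep0 ≤ H) (hc : c1 * c2 ∈ H)
    (hσ : σ0 ∈ H) : γ ∈ H := by
  have two : ∀ δ, Fx 2 δ → δ ∈ H := by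
    intro δ hδ
    have h4 := hδ.range 4 (by decide) (by decide)
    have key : ∀ p : Fin 12, 2 * 2 ≤ p.val → p.val < 8 → ∃ i : Fin 2,
        Fx 2 ((σ0 * x2) ^ i.val) ∧ (ev ((σ0 * x2) ^ i.val) p = 4 ∨
          ev ((σ0 * x2) ^ i.val) p = 5) := by decide +kernel
    obtain ⟨i, a, b⟩ := key _ h4.1 h4.2
    exact (Subgroup.mul_mem_cancel_left _ (pow_mem (mul_mem hσ (hE x2_mem)) _)).1
      (hE ((a.mul hδ).two b))
  have h2 := h.range 2 (by decide) (by decide)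
  have key : ∀ p : Fin 12, 2 * 1 ≤ p.val → p.val < 8 → ∃ i : Fin 2, ∃ j : Fin 2, ∃ k : Fin 2,
      Fx 1 (dd 2 3 4 5 ^ i.val * (c1 * c2 * σ0 * (c1 * c2)⁻¹) ^ j.val * (σ0 * x2) ^ k.val) ∧
      ev (dd 2 3 4 5 ^ i.val * (c1 * c2 * σ0 * (c1 * c2)⁻¹) ^ j.val * (σ0 * x2) ^ k.val) p = 2 := by
    decide +kernel
  obtain ⟨i, j, k, a, b⟩ := key _ h2.1 h2.2
  refine (Subgroup.mul_mem_cancel_left _ (mul_mem (mul_mem (pow_mem (hE g2_mem) i.val)
    (pow_mem (mul_mem (mul_mem hc hσ) (inv_mem hc)) j.val))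
    (pow_mem (mul_mem hσ (hE x2_mem)) k.val))).1 (two _ ((a.mul h).step 2 rfl (by decide) ?_))
  rw [ev_mul, b]

/-- The centralizer of `t0, s0, u0` is generated by `V30, Ep0, c1 c2, σ0`. -/
theorem cent_le {γ : A12} (hu : γ * u0 = u0 * γ) (ht : γ * t0 = t0 * γ) (hs : γ * s0 = s0 * γ)
    {H : Subgroup A12} (hV : V30 ≤ H) (hE : Ep0 ≤ H) (hc : c1 * c2 ∈ H) (hσ : σ0 ∈ H) :
    γ ∈ H := by
  obtain ⟨r, hr, h0⟩ := red_V3 hu ht hs
  obtain ⟨r', hr', h1⟩ := h0.zero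
  exact (Subgroup.mul_mem_cancel_left _ (hV hr)).1
    ((Subgroup.mul_mem_cancel_left _ (hE hr')).1 (h1.gen hE hc hσ))

/-! ### Classes -/

variable {G : Type u} [Group G] {U : HB G} {π : G → M4}

theorem conj_ψ {γ δ : A12} (h : IsConj γ δ) : IsConj (U.ψ γ) (U.ψ δ) := U.ψ.map_isConj h

theorem isConj_cj (g a : G) : IsConj a (g * a * g⁻¹) := isConj_iff.2 ⟨g, rfl⟩

theorem t_nz : U.t ∉ zpowers U.u := by
  rw [mem_zu]
  rintro (h | h)
  · exact absurd (U.inj (h.trans (map_one _).symm)) (by decide +kernel)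
  · exact absurd (U.inj h) (by decide +kernel)

theorem s_nz : U.s ∉ zpowers U.u := by
  rw [mem_zu]
  rintro (h | h)
  · exact absurd (U.inj (h.trans (map_one _).symm)) (by decide +kernel)
  · exact absurd (U.inj h) (by decide +kernel)

theorem ts_nz : U.t * U.s ∉ zpowers U.u := by
  rw [mem_zu, HB.t, HB.s, ← map_mul]
  rintro (h | h)
  · exact absurd (U.inj (h.trans (map_one _).symm)) (by decide +kernel)
  · exact absurd (U.inj h) (by decide +kernel)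

theorem t_s : IsConj U.t U.s :=
  conj_ψ (isConj_iff.2 ⟨dd 9 10 10 11, by decide +kernel⟩)

theorem t_ts : IsConj U.t (U.t * U.s) := by
  rw [HB.t, HB.s, ← map_mul]
  exact conj_ψ (isConj_iff.2 ⟨(dd 9 10 10 11)⁻¹, by decide +kernel⟩)

theorem t_sq : U.t * U.t = 1 := by
  rw [HB.t, ← map_mul, show t0 * t0 = 1 by decide +kernel, map_one]

/-- an element of `E - ⟨u⟩` is conjugate to its product with `u` -/
theorem conj_mul_u (ef : U.EF) {a : G} (ha : a ∈ U.E) (h1 : a ∉ zpowers U.u) :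
    IsConj a (a * U.u) := by
  obtain ⟨e, -, h⟩ := ex_cj ef ha h1
  exact isConj_iff.2 ⟨e, h⟩

theorem conj_of_π (ef : U.EF) (md : U.MD π) {a b : G} (ha : a ∈ U.E) (hb : b ∈ U.E)
    (h0 : π b ≠ 0) (h : π a = π b) : IsConj b a := by
  rcases π_eq md ha hb h with h | h
  · rw [h]
  · rw [h]; exact conj_mul_u ef hb fun hz => h0 ((md.ker b hb).2 hz)

theorem cls1 (ef : U.EF) (md : U.MD π) {a : G} (ha : a ∈ U.E) (h : (π a).det = 1) :
    IsConj U.t a := by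
  obtain ⟨g, hg, h1⟩ := md.ex (π a) 1 h det_one
  have h2 := h1 _ (t_E ef)
  rw [md.πt, tw_false, mmul_one, mmul_one] at h2
  refine (isConj_cj g U.t).trans (conj_of_π ef md ha (L_E hg (t_E ef)) ?_ h2.symm)
  rw [h2]
  intro h0
  rw [h0] at h
  exact absurd h (by decide +kernel)

theorem rank_one : ∀ X : M4, X ≠ 0 → X.det = 0 → ∀ b : F4, b ≠ 0 →
    ∃ A : M4, A.det = 1 ∧ ∃ B : M4, B.det = 1 ∧ A * ⟨0, b, 0, 0⟩ * B = X := by
  have k1 : ∀ X : M4, X ≠ 0 → X.det = 0 → ∃ A : M4, A.det = 1 ∧ (A * X).c = 0 ∧ (A * X).d = 0 := by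
    decide +kernel
  have k2 : ∀ x y : F4, (x ≠ 0 ∨ y ≠ 0) → ∀ b : F4, b ≠ 0 →
      ∃ B : M4, B.det = 1 ∧ (⟨0, b, 0, 0⟩ : M4) * B = ⟨x, y, 0, 0⟩ := by decide +kernel
  intro X h0 h1 b hb
  obtain ⟨A, hA, hc, hd⟩ := k1 X h0 h1
  have e : A * X = ⟨(A * X).a, (A * X).b, 0, 0⟩ := M4.ext rfl rfl hc hd
  obtain ⟨B, hB, e2⟩ := k2 (A * X).a (A * X).b (by
    by_contra hn
    rw [not_or, not_not, not_not] at hn
    rw [hn.1, hn.2] at e
    apply h0
    rw [← mone_mul X, ← adj_mul A hA, massoc, e]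
    exact mmul_zero _) b hb
  refine ⟨A.adj, by rw [det_adj, hA], B, hB, ?_⟩
  rw [massoc, e2, ← e, ← massoc, adj_mul A hA, mone_mul]

theorem x2_Af : U.ψ x2 ∈ Af0.map U.ψ := mem_map_of_mem _ (subset_closure (by simp))

theorem cls0 (ef : U.EF) (md : U.MD π) {a : G} (ha : a ∈ U.E) (h0 : π a ≠ 0)
    (h : (π a).det = 0) : IsConj U.u a := by
  have hx : U.ψ x2 ∈ U.E := Ep_E (ψ_Ep x2_mem)
  obtain ⟨e1, e2, e3⟩ := md.πA _ x2_Af
  have e : π (U.ψ x2) = ⟨0, (π (U.ψ x2)).b, 0, 0⟩ := M4.ext e1 rfl e2 e3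
  have hb : (π (U.ψ x2)).b ≠ 0 := by
    intro hb
    rw [hb] at e
    rcases mem_zu.1 ((md.ker _ hx).1 e) with h1 | h1
    · exact absurd (U.inj (h1.trans (map_one _).symm)) (by decide +kernel)
    · exact absurd (U.inj h1) (by decide +kernel)
  obtain ⟨A, hA, B, hB, e4⟩ := rank_one _ h0 h _ hb
  obtain ⟨g, hg, h1⟩ := md.ex A B hA hB
  have h2 := h1 _ hx
  rw [tw_false, e, e4] at h2
  have h3 : IsConj U.u (U.ψ x2) :=
    conj_ψ (isConj_iff.2 ⟨dd 1 2 5 6, by decide +kernel⟩)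
  exact h3.trans ((isConj_cj g _).trans (conj_of_π ef md ha (L_E hg hx) (h2 ▸ h0) h2.symm))

theorem det_of_conj (cl : U.CL) (ef : U.EF) (md : U.MD π) {a : G} (ha : a ∈ U.E)
    (h : IsConj U.t a) : (π a).det = 1 := by
  have h2 : a * a = 1 := by
    obtain ⟨g, rfl⟩ := isConj_iff.1 h
    rw [show g * U.t * g⁻¹ * (g * U.t * g⁻¹) = g * (U.t * U.t) * g⁻¹ by group, t_sq]; group
  rcases (q_zero _).1 ((md.sq a ha).1 h2) with h3 | h3
  · exfalso
    by_cases h0 : π a = 0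
    · rcases mem_zu.1 ((md.ker a ha).1 h0) with h1 | h1
      · rw [h1, isConj_one_left] at h
        exact t_nz (h ▸ one_mem _)
      · exact cl.nc (h1 ▸ h)
    · exact cl.nc (h.trans (cls0 ef md ha h0 h3).symm)
  · exact h3

/-! ### Adjusting by an element of `E` -/

theorem adjust (ef : U.EF) {c c' : G} (hc : c = U.t ∨ c = U.t * U.u)
    (hc' : c' = U.s ∨ c' = U.s * U.u) :
    ∃ e ∈ U.E, e * U.t * e⁻¹ = c ∧ e * U.s * e⁻¹ = c' := by
  have ht := t_E ef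
  have hs := s_E ef
  have hu := u_sq U
  have mu : ∀ e ∈ U.E, ∀ a : G, e * (a * U.u) * e⁻¹ = e * a * e⁻¹ * U.u := fun e he a => by
    rw [show e * a * e⁻¹ * U.u = e * a * (e⁻¹ * U.u) by group, E_u ef (inv_mem he)]; group
  have cm : ∀ e e' a : G, e * e' * a * (e * e')⁻¹ = e * (e' * a * e'⁻¹) * e⁻¹ := fun e e' a => by
    group
  have uu : ∀ a : G, a * U.u * U.u = a := fun a => by rw [mul_assoc, hu, mul_one]
  have key : (∃ e ∈ U.E, e * U.t * e⁻¹ = U.t * U.u ∧ e * U.s * e⁻¹ = U.s) ∧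
      ∃ e ∈ U.E, e * U.t * e⁻¹ = U.t ∧ e * U.s * e⁻¹ = U.s * U.u := by
    obtain ⟨e1, m1, a1⟩ := ex_cj ef ht t_nz
    obtain ⟨e2, m2, a2⟩ := ex_cj ef hs s_nz
    obtain ⟨e3, m3, a3⟩ := ex_cj ef (mul_mem ht hs) ts_nz
    have sp : e3 * U.t * e3⁻¹ * (e3 * U.s * e3⁻¹) = U.t * U.s * U.u := by rw [← a3]; group
    rcases E_cj ef m3 ht with b1 | b1 <;> rcases E_cj ef m3 hs with b2 | b2
    · rw [b1, b2] at sp
      exact absurd (mul_eq_left.1 sp.symm) (u_ne U)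
    · refine ⟨?_, e3, m3, b1, b2⟩
      rcases E_cj ef m1 hs with b | b
      · exact ⟨e1, m1, a1, b⟩
      · exact ⟨e1 * e3, mul_mem m1 m3, by rw [cm, b1, a1], by rw [cm, b2, mu _ m1, b, uu]⟩
    · refine ⟨⟨e3, m3, b1, b2⟩, ?_⟩
      rcases E_cj ef m2 ht with b | b
      · exact ⟨e2, m2, b, a2⟩
      · exact ⟨e2 * e3, mul_mem m2 m3, by rw [cm, b1, mu _ m2, b, uu], by rw [cm, b2, a2]⟩
    · rw [b1, b2, show U.t * U.u * (U.s * U.u) = U.t * (U.u * U.s) * U.u by group, ← E_u ef hs,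
        ← mul_assoc, uu] at sp
      exact absurd (mul_eq_left.1 sp.symm) (u_ne U)
  obtain ⟨⟨e, m, a, b⟩, e', m', a', b'⟩ := key
  rcases hc with rfl | rfl <;> rcases hc' with rfl | rfl
  · exact ⟨1, one_mem _, by group, by group⟩
  · exact ⟨e', m', a', b'⟩
  · exact ⟨e, m, a, b⟩
  · exact ⟨e * e', mul_mem m m', by rw [cm, a', a], by rw [cm, b', mu _ m, b]⟩

/-- An element of `L` fixing `π t` and `π s` lies in `E ψ(C(u0, t0, s0))`. -/
theorem fix_ts (cv : U.CV) (ef : U.EF) (md : U.MD π) {g : G} (hg : g ∈ U.L)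
    (h1 : π (g * U.t * g⁻¹) = π U.t) (h2 : π (g * U.s * g⁻¹) = π U.s) :
    ∃ e ∈ U.E, ∃ γ : A12, γ * u0 = u0 * γ ∧ γ * t0 = t0 * γ ∧ γ * s0 = s0 * γ ∧
      g = e * U.ψ γ := by
  obtain ⟨e, he, a, b⟩ := adjust ef (π_eq md (L_E hg (t_E ef)) (t_E ef) h1)
    (π_eq md (L_E hg (s_E ef)) (s_E ef) h2)
  have ct : e⁻¹ * g * U.t = U.t * (e⁻¹ * g) := by
    calc _ = e⁻¹ * (g * U.t * g⁻¹) * g := by group
      _ = _ := by rw [← a]; group
  have cs : e⁻¹ * g * U.s = U.s * (e⁻¹ * g) := by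
    calc _ = e⁻¹ * (g * U.s * g⁻¹) * g := by group
      _ = _ := by rw [← b]; group
  have cu := L_u (mul_mem (inv_mem (ef.EL he)) hg)
  obtain ⟨γ, hγ⟩ := cv _ ct cs
  rw [← hγ] at ct cs cu
  refine ⟨e, he, γ, U.inj ?_, U.inj ?_, U.inj ?_, by rw [hγ]; group⟩
  · rw [map_mul, map_mul]; exact cu
  · rw [map_mul, map_mul]; exact ct
  · rw [map_mul, map_mul]; exact cs

/-! ### The structure of `L` -/

/-- the elements of `L` acting in the standard way -/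
def L0 (md : U.MD π) : Subgroup G where
  carrier := {g | g ∈ U.L ∧ ∃ A B b, M4.det A = 1 ∧ M4.det B = 1 ∧ U.Act π g A B b}
  one_mem' := ⟨one_mem _, 1, 1, false, det_one, det_one, fun e he => by
    rw [mone_mul, mmul_one, tw_false]; group⟩
  mul_mem' := by
    rintro g h ⟨g1, A, B, b, hA, hB, g2⟩ ⟨h1, A', B', b', hA', hB', h2⟩
    refine ⟨mul_mem g1 h1, ?_⟩
    cases b
    · exact ⟨_, _, _, by rw [det_mul, hA, hA', one_mul], by rw [det_mul, hB, hB', one_mul],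
        act_mulF h1 g2 h2⟩
    · exact ⟨_, _, _, by rw [det_mul, hA, det_tw_one _ hB', one_mul],
        by rw [det_mul, hB, det_tw_one _ hA', one_mul], act_mulT h1 g2 h2⟩
  inv_mem' := by
    rintro g ⟨g1, A, B, b, hA, hB, g2⟩
    refine ⟨inv_mem g1, ?_⟩
    cases b
    · exact ⟨_, _, _, by rw [det_adj, hA], by rw [det_adj, hB], act_invF g1 hA hB g2⟩
    · exact ⟨_, _, _, det_tw_one _ (by rw [det_adj, hB]), det_tw_one _ (by rw [det_adj, hA]),
        act_invT g1 hA hB g2⟩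

theorem σ_L (ef : U.EF) : U.σ ∈ U.L := ef.nA _ (by decide +kernel)

theorem diag_conj : ∀ X : M4, X.det = 1 → (1 + X).det = 1 →
    ∃ P : M4, P.det = 1 ∧ P * X * P.adj = ⟨.w, 0, 0, .v⟩ := by decide +kernel

theorem all_L (cv : U.CV) (cl : U.CL) (ef : U.EF) (md : U.MD π) {g : G} (hg : g ∈ U.L) :
    ∃ A B b, M4.det A = 1 ∧ M4.det B = 1 ∧ U.Act π g A B b := by
  have ht := t_E ef
  have hs := s_E ef
  have hE : ∀ e ∈ U.E, e ∈ L0 md := fun e he =>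
    ⟨ef.EL he, 1, 1, false, det_one, det_one, act_E ef md he⟩
  have hσ : U.ψ σ0 ∈ L0 md := ⟨σ_L ef, 1, 1, true, det_one, det_one, md.aσ⟩
  have hz : U.ψ (c1 * c2 * c4⁻¹) ∈ L0 md := by
    obtain ⟨A, hA, h⟩ := md.aι slX
    rw [U.ιX] at h
    exact ⟨ef.nA _ (by decide +kernel), A, 1, false, hA, det_one, h⟩
  have hC : ∀ γ : A12, γ * u0 = u0 * γ → γ * t0 = t0 * γ → γ * s0 = s0 * γ → U.ψ γ ∈ L0 md := by
    intro γ a b c
    refine cent_le a b c (H := (L0 md).comap U.ψ) (fun δ h => hE _ (Em_E (ψ_V3 ef h)))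
      (fun δ h => hE _ (Ep_E (ψ_Ep h))) ?_ hσ
    have e : c1 * c2 = (σ0 * (c1 * c2 * c4⁻¹)⁻¹ * σ0⁻¹ * (c1 * c2 * c4⁻¹))⁻¹ := by decide +kernel
    rw [e]
    exact inv_mem (mul_mem (mul_mem (mul_mem hσ (inv_mem hz)) (inv_mem hσ)) hz)
  have d1 := det_of_conj cl ef md (L_E hg ht) (isConj_cj g _)
  obtain ⟨g1, m1, a1⟩ := md.ex _ 1 ((det_adj _).trans d1) det_one
  have mh := mul_mem m1 hg
  have p1 : π (g1 * g * U.t * (g1 * g)⁻¹) = 1 := by
    have := a1 _ (L_E hg ht)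
    rw [tw_false, adj_mul _ d1, mmul_one] at this
    rw [← this]; congr 1; group
  have d2 := det_of_conj cl ef md (L_E mh hs) (t_s.trans (isConj_cj (g1 * g) _))
  have d3 := det_of_conj cl ef md (L_E mh (mul_mem ht hs)) (t_ts.trans (isConj_cj (g1 * g) _))
  rw [show g1 * g * (U.t * U.s) * (g1 * g)⁻¹ =
    (g1 * g * U.t * (g1 * g)⁻¹) * (g1 * g * U.s * (g1 * g)⁻¹) by group,
    md.add _ (L_E mh ht) _ (L_E mh hs), p1] at d3
  obtain ⟨P, hP, eP⟩ := diag_conj _ d2 d3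
  obtain ⟨g2, m2, a2⟩ := md.ex P P.adj hP ((det_adj _).trans hP)
  obtain ⟨e, he, γ, c1', c2', c3', eq⟩ := fix_ts cv ef md (mul_mem m2 mh) (by
      have := a2 _ (L_E mh ht)
      rw [tw_false, p1, mmul_one, mul_adj _ hP] at this
      rw [md.πt, ← this]; congr 1; group) (by
      have := a2 _ (L_E mh hs)
      rw [tw_false, eP] at this
      rw [md.πs, ← this]; congr 1; group)
  have n1 : g1 ∈ L0 md := ⟨m1, _, _, _, (det_adj _).trans d1, det_one, a1⟩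
  have n2 : g2 ∈ L0 md := ⟨m2, _, _, _, hP, (det_adj _).trans hP, a2⟩
  have n3 : g2 * (g1 * g) ∈ L0 md := eq ▸ mul_mem (hE e he) (hC γ c1' c2' c3')
  exact ((Subgroup.mul_mem_cancel_left _ n1).1 ((Subgroup.mul_mem_cancel_left _ n2).1 n3)).2

theorem ker_L (cv : U.CV) (ef : U.EF) (md : U.MD π) {g : G} (hg : g ∈ U.L)
    (h : U.Act π g 1 1 false) : g ∈ U.E := by
  have tr : ∀ {k : G}, U.Act π k 1 1 false → ∀ e ∈ U.E, π (k * e * k⁻¹) = π e := fun h e he => by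
    rw [h e he, tw_false, mone_mul, mmul_one]
  obtain ⟨e, he, γ, a, b, c, rfl⟩ := fix_ts cv ef md hg (tr h _ (t_E ef)) (tr h _ (s_E ef))
  obtain ⟨r, hr, h0⟩ := red_V3 a b c
  obtain ⟨r', hr', h1⟩ := h0.zero
  have m1 : U.ψ r ∈ U.E := Em_E (ψ_V3 ef hr)
  have m2 : U.ψ r' ∈ U.E := Ep_E (ψ_Ep hr')
  have m3 : U.ψ r' * U.ψ r * e⁻¹ ∈ U.E := mul_mem (mul_mem m2 m1) (inv_mem he)
  have h2 := act_mulF hg (act_E ef md m3) h
  rw [mone_mul, show U.ψ r' * U.ψ r * e⁻¹ * (e * U.ψ γ) = U.ψ (r' * (r * γ)) by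
    rw [map_mul, map_mul]; group] at h2
  have mL : U.ψ (r' * (r * γ)) ∈ U.L := ef.nA _ h1.cu
  have key : ∀ x ∈ Ep0, ev (r' * (r * γ)) (ev x 0) = ev x 0 ∨
      ev (r' * (r * γ)) (ev x 0) = ev x 1 := by
    intro x hx
    have hx' : U.ψ x ∈ U.E := Ep_E (ψ_Ep hx)
    generalize r' * (r * γ) = δ at h1 h2 mL ⊢
    have f0 : ev δ 0 = 0 := h1.lo 0 (by decide)
    have f1 : ev (δ * x * δ⁻¹) 0 = ev δ (ev x 0) := by
      rw [← ev_mul]
      conv_lhs => rw [← f0, ← ev_mul, inv_mul_cancel_right]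
    rw [← f1]
    rcases π_eq md (L_E mL hx') hx' (tr h2 _ hx') with k | k
    · left
      rw [← map_inv, ← map_mul, ← map_mul] at k
      rw [U.inj k]
    · right
      rw [HB.u, ← map_inv, ← map_mul, ← map_mul, ← map_mul] at k
      rw [U.inj k]; rfl
  have h3 : r' * (r * γ) ∈ Ep0 := h1.one (key x2 x2_mem) (key x4 x4_mem)
  have h4 : U.ψ r' * (U.ψ r * U.ψ γ) ∈ U.E := by
    rw [← map_mul, ← map_mul]; exact Ep_E (ψ_Ep h3)
  exact mul_mem he ((Subgroup.mul_mem_cancel_left _ m1).1 ((Subgroup.mul_mem_cancel_left _ m2).1 h4))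

theorem lsStmt : LSStmt.{u} := fun _ _ _ _ _ cv cl ef md =>
  ⟨fun _ hg => all_L cv cl ef md hg, fun _ hg h => ker_L cv ef md hg h,
    fun _ ha h0 h => cls0 ef md ha h0 h, fun _ ha h => cls1 ef md ha h⟩

end Cfsg.Agent.H33.Hn
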