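import Cfsg.Agent.H99.HNDefs

/-! Algebra of the matrices `M4` and the calculus of `HB.Act`. -/

set_option autoImplicit false

universe u

namespace Cfsg.Agent.H33.Hn

open Cfsg Subgroup Equiv
open Cfsg.Agent.H99.HN
open Cfsg.Agent.H91 (SL25 slX slY)
open Cfsg.Agent.H67.T3 (slF)
open Cfsg.Agent.H4.J2S (F4)
open scoped Pointwise

/-! ### Matrices -/

theorem mul_a (X Y : M4) : (X * Y).a = X.a * Y.a + X.b * Y.c := rfl
theorem mul_b (X Y : M4) : (X * Y).b = X.a * Y.b + X.b * Y.d := rfl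
theorem mul_c (X Y : M4) : (X * Y).c = X.c * Y.a + X.d * Y.c := rfl
theorem mul_d (X Y : M4) : (X * Y).d = X.c * Y.b + X.d * Y.d := rfl
theorem add_a (X Y : M4) : (X + Y).a = X.a + Y.a := rfl
theorem add_b (X Y : M4) : (X + Y).b = X.b + Y.b := rfl
theorem add_c (X Y : M4) : (X + Y).c = X.c + Y.c := rfl
theorem add_d (X Y : M4) : (X + Y).d = X.d + Y.d := rfl
theorem one_a : (1 : M4).a = 1 := rfl
theorem one_b : (1 : M4).b = 0 := rfl
theorem one_c : (1 : M4).c = 0 := rfl
theorem one_d : (1 : M4).d = 1 := rfl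
theorem zero_a : (0 : M4).a = 0 := rfl
theorem zero_b : (0 : M4).b = 0 := rfl
theorem zero_c : (0 : M4).c = 0 := rfl
theorem zero_d : (0 : M4).d = 0 := rfl

theorem massoc (X Y Z : M4) : X * Y * Z = X * (Y * Z) := by
  ext <;> simp only [mul_a, mul_b, mul_c, mul_d] <;> ring

theorem mone_mul : ∀ X : M4, 1 * X = X := by decide +kernel
theorem mmul_one : ∀ X : M4, X * 1 = X := by decide +kernel
theorem mzero_add : ∀ X : M4, 0 + X = X := by decide +kernel
theorem madd_zero : ∀ X : M4, X + 0 = X := by decide +kernel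
theorem madd_self : ∀ X : M4, X + X = 0 := by decide +kernel
theorem mmul_zero : ∀ X : M4, X * 0 = 0 := by decide +kernel
theorem mzero_mul : ∀ X : M4, 0 * X = 0 := by decide +kernel

theorem madd_comm (X Y : M4) : X + Y = Y + X := by
  ext <;> simp only [add_a, add_b, add_c, add_d] <;> ring

theorem madd_assoc (X Y Z : M4) : X + Y + Z = X + (Y + Z) := by
  ext <;> simp only [add_a, add_b, add_c, add_d] <;> ring

theorem mmul_add (X Y Z : M4) : X * (Y + Z) = X * Y + X * Z := by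
  ext <;> simp only [add_a, add_b, add_c, add_d, mul_a, mul_b, mul_c, mul_d] <;> ring

theorem madd_mul (X Y Z : M4) : (X + Y) * Z = X * Z + Y * Z := by
  ext <;> simp only [add_a, add_b, add_c, add_d, mul_a, mul_b, mul_c, mul_d] <;> ring

theorem eq_of_add {X Y : M4} (h : X + Y = 0) : X = Y := by
  calc X = X + (Y + Y) := by rw [madd_self, madd_zero]
    _ = Y := by rw [← madd_assoc, h, mzero_add]

theorem det_mul (X Y : M4) : (X * Y).det = X.det * Y.det := by
  simp only [M4.det, mul_a, mul_b, mul_c, mul_d]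
  linear_combination (exp := 1) F4.two (X.a * X.c * Y.a * Y.b) + F4.two (X.b * X.d * Y.c * Y.d)

theorem det_one : (1 : M4).det = 1 := by decide +kernel
theorem det_adj : ∀ X : M4, X.adj.det = X.det := by decide +kernel
theorem adj_adj : ∀ X : M4, X.adj.adj = X := by decide +kernel
theorem adj_mul : ∀ X : M4, X.det = 1 → X.adj * X = 1 := by decide +kernel
theorem mul_adj : ∀ X : M4, X.det = 1 → X * X.adj = 1 := by decide +kernel
theorem tw_tw : ∀ X : M4, M4.tw true (M4.tw true X) = X := by decide +kernel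
theorem tw_one : ∀ b, M4.tw b 1 = 1 := by decide +kernel
theorem tw_zero : ∀ b, M4.tw b 0 = 0 := by decide +kernel
theorem tw_false (X : M4) : M4.tw false X = X := rfl
theorem det_tw : ∀ X : M4, (M4.tw true X).det = X.det.bar := by decide +kernel
theorem det_tw_one : ∀ X : M4, X.det = 1 → (M4.tw true X).det = 1 := by decide +kernel
theorem tw_not : ∀ b, ∀ X : M4, M4.tw true (M4.tw b X) = M4.tw (!b) X := by decide +kernel

theorem tw_mul (X Y : M4) : M4.tw true (X * Y) = M4.tw true Y * M4.tw true X := by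
  ext <;> simp only [M4.tw, mul_a, mul_b, mul_c, mul_d, F4.bar_add, F4.bar_mul] <;> ring

theorem tw_add (b : Bool) (X Y : M4) : M4.tw b (X + Y) = M4.tw b X + M4.tw b Y := by
  cases b
  · rfl
  · ext <;> simp only [M4.tw, add_a, add_b, add_c, add_d, F4.bar_add]

theorem q_zero : ∀ X : M4, X.q = 0 ↔ (X.det = 0 ∨ X.det = 1) := by decide +kernel

/-! ### Permutations -/

theorem u0_sq : u0 * u0 = 1 := by decide +kernel
theorem u0_ne : u0 ≠ 1 := by decide +kernel

/-! ### The group `E` -/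

variable {G : Type u} [Group G] {U : HB G} {π : G → M4}

theorem u_sq (U : HB G) : U.u * U.u = 1 := by
  rw [HB.u, ← map_mul, u0_sq, map_one]

theorem u_ne (U : HB G) : U.u ≠ 1 := fun h => u0_ne (U.inj (by rw [map_one]; exact h))

theorem u_inv (U : HB G) : U.u⁻¹ = U.u := inv_eq_of_mul_eq_one_right (u_sq U)

theorem mem_zu {c : G} : c ∈ zpowers U.u ↔ c = 1 ∨ c = U.u := by
  constructor
  · rintro ⟨k, rfl⟩
    have h2 : U.u ^ (2 : ℤ) = 1 := by rw [zpow_two, u_sq]
    rcases Int.emod_two_eq_zero_or_one k with h | h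
    · left; show U.u ^ k = 1
      rw [← Int.emod_add_mul_ediv k 2, h, zero_add, zpow_mul, h2, one_zpow]
    · right; show U.u ^ k = U.u
      rw [← Int.emod_add_mul_ediv k 2, h, zpow_add, zpow_mul, h2, one_zpow, zpow_one, mul_one]
  · rintro (rfl | rfl)
    · exact one_mem _
    · exact mem_zpowers _

theorem L_u {g : G} (h : g ∈ U.L) : g * U.u = U.u * g :=
  (mem_centralizer_singleton_iff.1 (mem_inf.1 h).1)

theorem L_cu {g : G} (h : g ∈ U.L) : g * U.u * g⁻¹ = U.u := by rw [L_u h]; group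

theorem L_E {g e : G} (h : g ∈ U.L) (he : e ∈ U.E) : g * e * g⁻¹ ∈ U.E :=
  (mem_normalizer_iff.1 (mem_inf.1 h).2 e).1 he

theorem Ep_E {a : G} (h : a ∈ U.Ep) : a ∈ U.E := mem_sup_left h
theorem Em_E {a : G} (h : a ∈ U.Em) : a ∈ U.E := mem_sup_right h

theorem ψ_Ep {γ : A12} (h : γ ∈ Ep0) : U.ψ γ ∈ U.Ep := mem_map_of_mem _ h

theorem Vp_le : Vp0 ≤ Ep0 := closure_mono (by
  intro x hx
  simp only [Set.mem_insert_iff, Set.mem_singleton_iff] at hx ⊢
  tauto)

theorem ψ_V3 (ef : U.EF) {γ : A12} (h : γ ∈ V30) : U.ψ γ ∈ U.Em := by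
  have h1 : U.ψ γ ∈ MulAut.conj U.d • Vp0.map U.ψ := ef.dV ▸ mem_map_of_mem _ h
  exact Subgroup.pointwise_smul_le_pointwise_smul_iff.2 (map_mono Vp_le) h1

theorem t_E (ef : U.EF) : U.t ∈ U.E := Em_E (ψ_V3 ef (subset_closure (by simp)))
theorem s_E (ef : U.EF) : U.s ∈ U.E := Em_E (ψ_V3 ef (subset_closure (by simp)))

theorem E_u (ef : U.EF) {e : G} (he : e ∈ U.E) : e * U.u = U.u * e := L_u (ef.EL he)

/-- conjugation inside `E` -/
theorem E_cj (ef : U.EF) {e a : G} (he : e ∈ U.E) (ha : a ∈ U.E) :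
    e * a * e⁻¹ = a ∨ e * a * e⁻¹ = a * U.u := by
  rcases mem_zu.1 (ef.com e he a ha) with h | h
  · left; exact mul_inv_eq_one.1 h
  · right; rw [E_u ef ha, ← h]; group

theorem ex_cj (ef : U.EF) {a : G} (ha : a ∈ U.E) (h1 : a ∉ zpowers U.u) :
    ∃ e ∈ U.E, e * a * e⁻¹ = a * U.u := by
  by_contra hn
  refine h1 (ef.cE a fun e he => ?_)
  rcases E_cj ef he ha with h | h
  · exact (mul_inv_eq_iff_eq_mul.1 h).symm
  · exact absurd ⟨e, he, h⟩ hn

theorem π_one (md : U.MD π) : π 1 = 0 := (md.ker 1 (one_mem _)).2 (one_mem _)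
theorem π_u (ef : U.EF) (md : U.MD π) : π U.u = 0 := (md.ker _ ef.uE).2 (mem_zpowers _)

theorem π_inv (md : U.MD π) {a : G} (ha : a ∈ U.E) : π a⁻¹ = π a := by
  refine eq_of_add ?_
  rw [← md.add _ (inv_mem ha) _ ha, inv_mul_cancel, π_one md]

theorem π_mul_u (ef : U.EF) (md : U.MD π) {a : G} (ha : a ∈ U.E) : π (a * U.u) = π a := by
  rw [md.add _ ha _ ef.uE, π_u ef md, madd_zero]

theorem π_eq (md : U.MD π) {a b : G} (ha : a ∈ U.E) (hb : b ∈ U.E) (h : π a = π b) :
    a = b ∨ a = b * U.u := by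
  have h1 : π (b⁻¹ * a) = 0 := by rw [md.add _ (inv_mem hb) _ ha, π_inv md hb, h, madd_self]
  rcases mem_zu.1 ((md.ker _ (mul_mem (inv_mem hb) ha)).1 h1) with h2 | h2
  · left; exact (inv_mul_eq_one.1 h2).symm
  · right; rw [← h2]; group

/-! ### The action -/

theorem act_E (ef : U.EF) (md : U.MD π) {e : G} (he : e ∈ U.E) : U.Act π e 1 1 false := by
  intro a ha
  rw [mone_mul, mmul_one, tw_false]
  rcases E_cj ef he ha with h | h
  · rw [h]
  · rw [h, π_mul_u ef md ha]

theorem act_mulF {g h : G} {A B A' B' : M4} {b : Bool} (hL : h ∈ U.L)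
    (h1 : U.Act π g A B false) (h2 : U.Act π h A' B' b) :
    U.Act π (g * h) (A * A') (B' * B) b := by
  intro e he
  have := h1 _ (L_E hL he)
  rw [h2 e he, tw_false] at this
  rw [show g * h * e * (g * h)⁻¹ = g * (h * e * h⁻¹) * g⁻¹ by group, this]
  simp only [massoc]

theorem act_mulT {g h : G} {A B A' B' : M4} {b : Bool} (hL : h ∈ U.L)
    (h1 : U.Act π g A B true) (h2 : U.Act π h A' B' b) :
    U.Act π (g * h) (A * M4.tw true B') (M4.tw true A' * B) (!b) := by
  intro e he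
  have := h1 _ (L_E hL he)
  rw [h2 e he, tw_mul, tw_mul, tw_not] at this
  rw [show g * h * e * (g * h)⁻¹ = g * (h * e * h⁻¹) * g⁻¹ by group, this]
  simp only [massoc]

theorem act_invF {g : G} {A B : M4} (hL : g ∈ U.L) (hA : A.det = 1) (hB : B.det = 1)
    (h1 : U.Act π g A B false) : U.Act π g⁻¹ A.adj B.adj false := by
  intro e he
  have := h1 _ (L_E (inv_mem hL) he)
  rw [show g * (g⁻¹ * e * g⁻¹⁻¹) * g⁻¹ = e by group, tw_false] at this
  rw [tw_false, this]
  simp only [massoc]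
  rw [mul_adj B hB, mmul_one, ← massoc, adj_mul A hA, mone_mul]

theorem act_invT {g : G} {A B : M4} (hL : g ∈ U.L) (hA : A.det = 1) (hB : B.det = 1)
    (h1 : U.Act π g A B true) :
    U.Act π g⁻¹ (M4.tw true B.adj) (M4.tw true A.adj) true := by
  intro e he
  have := h1 _ (L_E (inv_mem hL) he)
  rw [show g * (g⁻¹ * e * g⁻¹⁻¹) * g⁻¹ = e by group] at this
  rw [← tw_mul, ← tw_mul, this]
  simp only [massoc]
  rw [mul_adj B hB, mmul_one, ← massoc, adj_mul A hA, mone_mul, tw_tw]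

end Cfsg.Agent.H33.Hn
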