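import Mathlib
import Cfsg.Agent.H89.L27Defs

/-!
# A vector fixed by an element of order seven and killed by the dihedral sum
-/

set_option autoImplicit false
set_option maxRecDepth 100000

namespace Cfsg.Agent.H33.L27Fe

open Cfsg.Agent.H89.L27 Module
open scoped Matrix MatrixGroups

/-- Formal linear combinations. -/
abbrev FL : Type := List (ℤ × S7)

/-- The product of two combinations. -/
def mL (A B : FL) : FL := A.flatMap fun a => B.map fun b => (a.1 * b.1, a.2 * b.2)

/-- The first column up to sign. -/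
def ky (g : S7) : Fin 49 :=
  Fin.ofNat 49 (min ((g.1 0 0).val * 7 + (g.1 1 0).val) ((-g.1 0 0).val * 7 + (-g.1 1 0).val))

/-- The coefficient sum of a class. -/
def cf (A : FL) (k : Fin 49) : ℤ := (A.map fun a => if ky a.2 = k then a.1 else 0).sum

/-- A matrix from its entries. -/
def mt (a b c d : ZMod 7) (h : Matrix.det !![a, b; c, d] = 1 := by decide) : S7 := ⟨!![a, b; c, d], h⟩

theorem ky_eq {g h : S7} (e : ky g = ky h) : ∃ j : ℕ, h = g * ex ^ j ∨ h = g * -1 * ex ^ j := by
  have k : ∀ a c a' c' : ZMod 7, Fin.ofNat 49 (min (a.val * 7 + c.val) ((-a).val * 7 + (-c).val)) =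
      Fin.ofNat 49 (min (a'.val * 7 + c'.val) ((-a').val * 7 + (-c').val)) →
      (a' = a ∧ c' = c) ∨ (a' = -a ∧ c' = -c) := by decide +kernel
  have k2 : ∀ g h : S7, h.1 0 0 = g.1 0 0 → h.1 1 0 = g.1 1 0 → ∃ j : ℕ, h = g * ex ^ j :=
    fun g h e0 e1 => by
      have dg := g.2; have dh := h.2
      rw [Matrix.det_fin_two] at dg dh
      have k3 : ∀ b : ZMod 7, (ex ^ b.val).1 = !![1, b; 0, 1] := by decide +kernel
      refine ⟨(g.1 1 1 * h.1 0 1 - g.1 0 1 * h.1 1 1).val, Subtype.ext ?_⟩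
      rw [Matrix.SpecialLinearGroup.coe_mul, k3]
      rw [e0, e1] at dh
      ext i j
      fin_cases i <;> fin_cases j <;>
        simp only [Matrix.mul_apply, Fin.sum_univ_two, Matrix.of_apply, Matrix.cons_val', Fin.isValue,
          Matrix.cons_val_zero, Matrix.cons_val_one, Matrix.cons_val_fin_one, Fin.zero_eta,
          Fin.mk_one, mul_one, mul_zero, add_zero]
      · exact e0
      · linear_combination (-h.1 0 1) * dg + (-g.1 0 1) * dh + (h.1 0 1 + g.1 0 1) * dg +
          (-h.1 0 1) * dg - g.1 0 1 * dg + g.1 0 1 * dh + g.1 0 1 * dh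
      · exact e1
      · linear_combination (-h.1 1 1) * dg + g.1 1 1 * dh
  rcases k _ _ _ _ e with ⟨a, b⟩ | ⟨a, b⟩
  · exact (k2 g h a b).imp fun _ => Or.inl
  · exact (k2 (g * -1) h (by simpa using a) (by simpa using b)).imp fun _ => Or.inr

section
variable {F W : Type} [Field F] [AddCommGroup W] [Module F W] (ρ : S7 →* Module.End F W)

/-- The endomorphism of a combination. -/
def ev (A : FL) : Module.End F W := (A.map fun a => a.1 • ρ a.2).sum

theorem ev_nil : ev ρ [] = 0 := rfl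

theorem ev_cons (a : ℤ × S7) (A : FL) : ev ρ (a :: A) = a.1 • ρ a.2 + ev ρ A := by simp [ev]

theorem ev_app (A B : FL) : ev ρ (A ++ B) = ev ρ A + ev ρ B := by simp [ev]

theorem ev_mul (A B : FL) : ev ρ (mL A B) = ev ρ A * ev ρ B := by
  induction A with
  | nil => simp [mL, ev]
  | cons a A ih =>
    rw [mL, List.flatMap_cons, ev_app, ev_cons, add_mul, ← ih]
    congr 1
    clear ih
    induction B with
    | nil => simp [ev]
    | cons b B ih => rw [List.map_cons, ev_cons, ev_cons, ih, mul_add, map_mul, smul_mul_smul_comm]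

variable {ρ}

theorem ev_zero [CharP F 3] (h : ρ (-1) = 1) {w : W} (hw : ρ ex w = w) (A : FL)
    (hA : ∀ k, cf A k % 3 = 0) : ev ρ A w = 0 := by
  have k1 : ∀ j : ℕ, ρ (ex ^ j) w = w := fun j => by
    induction j with
    | zero => simp
    | succ j ih => rw [pow_succ, map_mul, Module.End.mul_apply, hw, ih]
  have k2 : Function.FactorsThrough (fun g => ρ g w) ky := fun g g' e => by
    obtain ⟨j, rfl | rfl⟩ := ky_eq e
    · simp only [map_mul, Module.End.mul_apply, k1]
    · simp only [map_mul, Module.End.mul_apply, k1, h, Module.End.one_apply]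
  haveI : Nonempty W := ⟨0⟩
  obtain ⟨Φ, hΦ⟩ := (Function.factorsThrough_iff _).1 k2
  have k3 : ∀ B : FL, ev ρ B w = ∑ k, cf B k • Φ k := fun B => by
    induction B with
    | nil => simp [ev, cf]
    | cons b B ih =>
      rw [ev_cons, LinearMap.add_apply, ih, LinearMap.smul_apply, show ρ b.2 w = Φ (ky b.2) from
        congrFun hΦ b.2]
      simp only [cf, List.map_cons, List.sum_cons, add_smul, Finset.sum_add_distrib, ite_smul,
        zero_smul, Finset.sum_ite_eq, Finset.mem_univ, if_true]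
  rw [k3]
  refine Finset.sum_eq_zero fun k _ => ?_
  obtain ⟨m, hm⟩ := Int.dvd_of_emod_eq_zero (hA k)
  rw [hm, ← Int.cast_smul_eq_zsmul F, Int.cast_mul, show ((3 : ℤ) : F) = 0 by
    exact_mod_cast CharP.cast_eq_zero F 3, zero_mul, zero_smul]

end

/-- The dihedral sum. -/
def tL : FL := mL [(1, 1), (1, es)] [(1, 1), (1, ey), (1, ey ^ 2), (1, ey ^ 3)]
/-- An element minus one. -/
def dL (g : S7) : FL := [(1, g), (-1, 1)]
/-- The first witness. -/
def a1 : FL := [(-1, mt 1 3 3 3), (-1, mt 3 5 5 4), (-2, mt 0 1 6 0), (-2, mt 3 3 6 4),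
  (-2, mt 2 3 3 5), (-1, mt 3 6 3 4)]
/-- The second witness. -/
def a2 : FL := [(-1, mt 1 0 0 1), (-1, mt 2 3 3 5), (-1, mt 3 6 3 4), (-1, mt 1 3 3 3),
  (-2, mt 0 1 6 0), (-1, mt 3 4 4 1), (-2, mt 3 3 6 4)]
/-- The third witness. -/
def a3 : FL := [(-1, mt 1 1 0 1), (-2, mt 1 0 0 1), (-2, mt 2 2 3 0), (-2, mt 3 6 4 6),
  (-2, mt 3 3 5 3)]

theorem fe : FeStmt := by
  intro F W _ _ _ _ ρ hN w hw h2 ht
  have et : ev ρ tL = tauD ρ := by
    rw [tL, ev_mul, tauD]
    simp only [ev_cons, ev_nil, one_smul, map_one, map_pow, add_zero, add_assoc]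
  have ed : ∀ g, ev ρ (dL g) = ρ g - 1 := fun g => by
    simp only [dL, ev_cons, ev_nil, one_smul, map_one, add_zero, neg_smul, sub_eq_add_neg]
  rw [pow_two, Module.End.mul_apply] at h2
  have e1 := ev_zero hN.1 hw (mL (dL ex) (mL tL (dL eu)) ++ mL a1 (mL (dL eu) (dL eu)))
    (by decide +kernel)
  have e2 := ev_zero hN.1 hw (mL (dL es) (mL tL (dL eu))) (by decide +kernel)
  have e3 := ev_zero hN.1 hw (dL eu ++ mL a2 (mL (dL eu) (dL eu)) ++
    mL [(-2, 1)] (mL tL (dL eu)) ++ mL a3 tL) (by decide +kernel)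
  simp only [ev_app, ev_mul, et, ed, LinearMap.add_apply, Module.End.mul_apply, h2, ht, map_zero,
    add_zero] at e1 e2 e3
  rw [LinearMap.sub_apply, Module.End.one_apply, sub_eq_zero] at e1 e2
  rw [hN.2 _ e2 e1, map_zero, add_zero, LinearMap.sub_apply, Module.End.one_apply,
    sub_eq_zero] at e3
  exact e3

end Cfsg.Agent.H33.L27Fe
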