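import Mathlib

/-! Unitary actions of finite groups, weight vectors of abelian subgroups and their projections. -/

set_option autoImplicit false
set_option linter.unusedSectionVars false

namespace Cfsg.Agent.H33.MR

open scoped InnerProductSpace ComplexConjugate
open Module Finset

/-- A linear action that preserves the inner product. -/
class UA (G M : Type*) [Group G] [NormedAddCommGroup M] [InnerProductSpace ℂ M]
    [DistribMulAction G M] : Prop where
  smul_csmul : ∀ (g : G) (c : ℂ) (v : M), g • c • v = c • g • v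
  inner_smul_smul : ∀ (g : G) (v w : M), ⟪g • v, g • w⟫_ℂ = ⟪v, w⟫_ℂ

/-- Reduction to unitary actions. -/
theorem exists_UA {G : Type*} [Group G] [Finite G] {n : ℕ} (ρ : Representation ℂ G (Fin n → ℂ)) :
    ∃ (E : Type) (_ : NormedAddCommGroup E) (_ : InnerProductSpace ℂ E) (_ : FiniteDimensional ℂ E)
      (_ : DistribMulAction G E) (_ : UA G E), finrank ℂ E = n ∧
      ∀ g : G, (∀ v : E, g • v = v) → ρ g = 1 := by
  classical
  have := Fintype.ofFinite G
  let eG := Fintype.equivFin G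
  let φ : (Fin n → ℂ) →ₗ[ℂ] EuclideanSpace ℂ (Fin (Fintype.card G) × Fin n) :=
    (WithLp.linearEquiv 2 ℂ (Fin (Fintype.card G) × Fin n → ℂ)).symm.toLinearMap ∘ₗ
      LinearMap.pi fun p : Fin (Fintype.card G) × Fin n =>
        LinearMap.proj p.2 ∘ₗ ρ (eG.symm p.1)
  have hφ : ∀ x p, φ x p = ρ (eG.symm p.1) x p.2 := fun _ _ => rfl
  have hinj : Function.Injective φ := by
    intro x y h
    funext i
    have := congrArg (fun v : EuclideanSpace ℂ (Fin (Fintype.card G) × Fin n) => v (eG 1, i)) h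
    simpa [hφ] using this
  let e := LinearEquiv.ofInjective φ hinj
  letI : DistribMulAction G (LinearMap.range φ) :=
    { smul := fun g v => e (ρ g (e.symm v))
      one_smul := fun v => by
        change e (ρ 1 (e.symm v)) = v
        simp
      mul_smul := fun g h v => by
        change e (ρ (g * h) (e.symm v)) = e (ρ g (e.symm (e (ρ h (e.symm v)))))
        simp
      smul_zero := fun g => by
        change e (ρ g (e.symm 0)) = 0
        simp
      smul_add := fun g v w => by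
        change e (ρ g (e.symm (v + w))) = e (ρ g (e.symm v)) + e (ρ g (e.symm w))
        simp }
  have hs : ∀ (g : G) (v : LinearMap.range φ), g • v = e (ρ g (e.symm v)) := fun _ _ => rfl
  refine ⟨LinearMap.range φ, inferInstance, inferInstance, inferInstance, inferInstance,
    ⟨fun g c v => by simp [hs], fun g x y => ?_⟩, ?_, fun g hg => ?_⟩
  · obtain ⟨x, rfl⟩ := e.surjective x
    obtain ⟨y, rfl⟩ := e.surjective y
    rw [hs, hs, e.symm_apply_apply, e.symm_apply_apply]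
    change ⟪φ (ρ g x), φ (ρ g y)⟫_ℂ = ⟪φ x, φ y⟫_ℂ
    simp only [PiLp.inner_apply, hφ]
    refine Fintype.sum_equiv (((eG.symm.trans (Equiv.mulRight g)).trans eG).prodCongr
      (Equiv.refl _)) _ _ fun p => ?_
    simp
  · rw [← e.finrank_eq, Module.finrank_fin_fun]
  · refine LinearMap.ext fun x => ?_
    have := hg (e x)
    rw [hs, e.symm_apply_apply] at this
    exact e.injective this

variable {G M : Type*} [Group G] [NormedAddCommGroup M] [InnerProductSpace ℂ M]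
  [DistribMulAction G M] [UA G M]

theorem gcs (g : G) (c : ℂ) (v : M) : g • c • v = c • g • v := UA.smul_csmul g c v

theorem inner_gg (g : G) (v w : M) : ⟪g • v, g • w⟫_ℂ = ⟪v, w⟫_ℂ := UA.inner_smul_smul g v w

theorem inner_gl (g : G) (v w : M) : ⟪g • v, w⟫_ℂ = ⟪v, g⁻¹ • w⟫_ℂ := by
  rw [← inner_gg g v, smul_inv_smul]

theorem inner_gr (g : G) (v w : M) : ⟪v, g • w⟫_ℂ = ⟪g⁻¹ • v, w⟫_ℂ := by
  rw [inner_gl, inv_inv]

theorem norm_g (g : G) (v : M) : ‖g • v‖ = ‖v‖ := by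
  have := inner_gg g v v
  rw [inner_self_eq_norm_sq_to_K, inner_self_eq_norm_sq_to_K] at this
  have h : ‖g • v‖ ^ 2 = ‖v‖ ^ 2 := by exact_mod_cast this
  exact (pow_left_inj₀ (norm_nonneg _) (norm_nonneg _) two_ne_zero).1 h

theorem g_ne_zero (g : G) {v : M} (hv : v ≠ 0) : g • v ≠ 0 := fun h =>
  hv (by rw [← inv_smul_smul g v, h, smul_zero])

/-- The action of a group element as a linear map. -/
def lin (g : G) : M →ₗ[ℂ] M where
  toFun v := g • v
  map_add' := smul_add g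
  map_smul' := gcs g

@[simp] theorem lin_apply (g : G) (v : M) : lin g v = g • v := rfl

/-- The action of a group element as a linear equivalence. -/
def linE (g : G) : M ≃ₗ[ℂ] M where
  toLinearMap := lin g
  invFun v := g⁻¹ • v
  left_inv := inv_smul_smul g
  right_inv := smul_inv_smul g

@[simp] theorem linE_apply (g : G) (v : M) : linE g v = g • v := rfl

theorem finrank_le_of_smul [FiniteDimensional ℂ M] (g : G) {N N' : Submodule ℂ M}
    (h : ∀ v ∈ N, g • v ∈ N') : finrank ℂ N ≤ finrank ℂ N' := by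
  rw [← (linE g).finrank_map_eq N]
  exact Submodule.finrank_mono (by rintro _ ⟨v, hv, rfl⟩; exact h v hv)

theorem eq_of_inner_eq {g : G} {v : M} (h : ⟪v, g • v⟫_ℂ = ⟪v, v⟫_ℂ) : g • v = v := by
  have h' : ⟪g • v, v⟫_ℂ = ⟪v, v⟫_ℂ := by
    rw [← inner_conj_symm, h, inner_conj_symm]
  rw [← sub_eq_zero, ← inner_self_eq_zero (𝕜 := ℂ), inner_sub_left, inner_sub_right,
    inner_sub_right, inner_gg, h, h']
  ring

theorem smul_mem_inv [Finite G] {N : Submodule ℂ M} {g : G} (h : ∀ v ∈ N, g • v ∈ N) :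
    ∀ v ∈ N, g⁻¹ • v ∈ N := by
  have hp : ∀ k : ℕ, ∀ v ∈ N, g ^ k • v ∈ N := by
    intro k
    induction k with
    | zero => intro v hv; simpa using hv
    | succ k ih => intro v hv; rw [pow_succ, mul_smul]; exact ih _ (h v hv)
  intro v hv
  have : g⁻¹ = g ^ (orderOf g - 1) := by
    rw [inv_eq_iff_mul_eq_one, ← pow_succ', Nat.sub_add_cancel (orderOf_pos g), pow_orderOf_eq_one]
  rw [this]
  exact hp _ v hv

variable {A : Type*} [AddCommGroup A]

/-- An additive family of group elements. -/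
def IsAdd (X : A → G) : Prop := ∀ s t, X (s + t) = X s * X t

theorem IsAdd.zero {X : A → G} (h : IsAdd X) : X 0 = 1 := by
  have := h 0 0
  rw [add_zero] at this
  exact mul_eq_left.1 this.symm

theorem IsAdd.neg {X : A → G} (h : IsAdd X) (t : A) : X (-t) = (X t)⁻¹ := by
  rw [eq_inv_iff_mul_eq_one, ← h, neg_add_cancel, h.zero]

theorem IsAdd.conj {X : A → G} (h : IsAdd X) (g : G) : IsAdd fun t => g * X t * g⁻¹ :=
  fun s t => by simp only [h s t]; group

/-- Weight vectors. -/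
def Wt (X : A → G) (χ : AddChar A ℂ) (v : M) : Prop := ∀ t, X t • v = χ t • v

/-- Fixed vectors. -/
def Fx {B : Type*} (X : B → G) (v : M) : Prop := ∀ t, X t • v = v

theorem wt_zero {X : A → G} {v : M} : Wt X 0 v ↔ Fx X v := by simp [Wt, Fx]

variable (M) in
/-- Weight spaces. -/
def wt (X : A → G) (χ : AddChar A ℂ) : Submodule ℂ M where
  carrier := {v | Wt X χ v}
  add_mem' {a b} ha hb t := by rw [smul_add, ha t, hb t, smul_add]
  zero_mem' t := by simp
  smul_mem' c v hv t := by rw [gcs, hv t, smul_comm]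

theorem mem_wt {X : A → G} {χ : AddChar A ℂ} {v : M} : v ∈ wt M X χ ↔ Wt X χ v := Iff.rfl

variable (M) in
/-- Fixed spaces. -/
def fx {B : Type*} (X : B → G) : Submodule ℂ M where
  carrier := {v | Fx X v}
  add_mem' {a b} ha hb t := by rw [smul_add, ha t, hb t]
  zero_mem' t := by simp
  smul_mem' c v hv t := by rw [gcs, hv t]

theorem mem_fx {B : Type*} {X : B → G} {v : M} : v ∈ fx M X ↔ Fx X v := Iff.rfl

variable (M) in
/-- The fixed space of a set of group elements. -/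
def fxs (S : Set G) : Submodule ℂ M where
  carrier := {v | ∀ g ∈ S, g • v = v}
  add_mem' {a b} ha hb g hg := by rw [smul_add, ha g hg, hb g hg]
  zero_mem' t := by simp
  smul_mem' c v hv g hg := by rw [gcs, hv g hg]

theorem mem_fxs {S : Set G} {v : M} : v ∈ fxs M S ↔ ∀ g ∈ S, g • v = v := Iff.rfl

theorem Wt.csmul {X : A → G} {χ : AddChar A ℂ} {v : M} (h : Wt X χ v) (c : ℂ) : Wt X χ (c • v) :=
  (wt M X χ).smul_mem c h

theorem Fx.csmul {B : Type*} {X : B → G} {v : M} (h : Fx X v) (c : ℂ) : Fx X (c • v) :=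
  (fx M X).smul_mem c h

theorem Wt.eq_zero {X : A → G} {χ : AddChar A ℂ} {v : M} (h : Wt X χ v) (h' : Fx X v)
    (hχ : χ ≠ 0) : v = 0 := by
  obtain ⟨t, ht⟩ := DFunLike.ne_iff.1 hχ
  have := h t
  rw [h' t] at this
  have h2 : (χ t - 1) • v = 0 := by rw [sub_smul, ← this, one_smul, sub_self]
  exact (smul_eq_zero.1 h2).resolve_left (sub_ne_zero.2 (by simpa using ht))

variable [Fintype A]

theorem conj_mul_char (χ : AddChar A ℂ) (t : A) : conj (χ t) * χ t = 1 := by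
  rw [← AddChar.map_neg_eq_conj, ← AddChar.map_add_eq_mul, neg_add_cancel, AddChar.map_zero_eq_one]

theorem Wt.inner_eq_zero {X : A → G} {χ χ' : AddChar A ℂ} {v w : M} (hv : Wt X χ v)
    (hw : Wt X χ' w) (h : χ ≠ χ') : ⟪v, w⟫_ℂ = 0 := by
  obtain ⟨t, ht⟩ := DFunLike.ne_iff.1 h
  have h1 := inner_gg (X t) v w
  rw [hv t, hw t, inner_smul_left, inner_smul_right, ← mul_assoc] at h1
  by_contra h0
  have h2 : conj (χ t) * χ' t = 1 := mul_right_cancel₀ h0 (by rw [h1, one_mul])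
  rw [← conj_mul_char χ t] at h2
  have h3 : conj (χ t) ≠ 0 := left_ne_zero_of_mul_eq_one (conj_mul_char χ t)
  exact ht (mul_left_cancel₀ h3 h2).symm

theorem Wt.inner_fx {X : A → G} {χ : AddChar A ℂ} {v w : M} (hv : Wt X χ v)
    (hw : Fx X w) (h : χ ≠ 0) : ⟪w, v⟫_ℂ = 0 := (wt_zero.2 hw).inner_eq_zero hv h.symm

/-- The projection on a weight space. -/
noncomputable def pr (X : A → G) (χ : AddChar A ℂ) (v : M) : M :=
  (Fintype.card A : ℂ)⁻¹ • ∑ t, χ (-t) • X t • v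

theorem card_ne : (Fintype.card A : ℂ) ≠ 0 := Nat.cast_ne_zero.2 Fintype.card_ne_zero

theorem pr_mem {X : A → G} {χ : AddChar A ℂ} {v : M} {N : Submodule ℂ M} (h : ∀ t, X t • v ∈ N) :
    pr X χ v ∈ N := N.smul_mem _ (N.sum_mem fun t _ => N.smul_mem _ (h t))

theorem pr_wt' {B : Type*} [AddCommGroup B] {Y : B → G} {χ' : AddChar B ℂ} {X : A → G}
    {χ : AddChar A ℂ} {v : M} (h : ∀ t, Wt Y χ' (X t • v)) : Wt Y χ' (pr X χ v) :=
  pr_mem (N := wt M Y χ') h

theorem pr_fx' {B : Type*} {Y : B → G} {X : A → G}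
    {χ : AddChar A ℂ} {v : M} (h : ∀ t, Fx Y (X t • v)) : Fx Y (pr X χ v) :=
  pr_mem (N := fx M Y) h

theorem smul_pr (g : G) (X : A → G) (χ : AddChar A ℂ) (v : M) :
    g • pr X χ v = pr (fun t => g * X t * g⁻¹) χ (g • v) := by
  simp only [pr, gcs, Finset.smul_sum, mul_smul, inv_smul_smul]

theorem pr_congr {X Y : A → G} {χ : AddChar A ℂ} {v : M} (h : ∀ t, X t • v = Y t • v) :
    pr X χ v = pr Y χ v := by simp only [pr, h]

theorem smul_pr_of_comm {g : G} {X : A → G} (h : ∀ t, g * X t = X t * g) (χ : AddChar A ℂ) (v : M) :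
    g • pr X χ v = pr X χ (g • v) := by
  rw [smul_pr]
  exact pr_congr fun t => by rw [h, mul_inv_cancel_right]

theorem smul_pr_zero {g : G} {X : A → G} (e : A ≃ A) (h : ∀ t, g * X t * g⁻¹ = X (e t)) (v : M) :
    g • pr X 0 v = pr X 0 (g • v) := by
  rw [smul_pr]
  simp only [pr, h, AddChar.zero_apply, one_smul]
  rw [Equiv.sum_comp e (fun t => X t • g • v)]

theorem pr_csmul (X : A → G) (χ : AddChar A ℂ) (c : ℂ) (v : M) :
    pr X χ (c • v) = c • pr X χ v := by
  simp only [pr, gcs, Finset.smul_sum]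
  exact Finset.sum_congr rfl fun t _ => by
    rw [smul_comm (χ (-t)) c, smul_comm _ c]

theorem pr_add (X : A → G) (χ : AddChar A ℂ) (v w : M) :
    pr X χ (v + w) = pr X χ v + pr X χ w := by
  simp only [pr, smul_add, Finset.sum_add_distrib]

theorem pr_zero_vec (X : A → G) (χ : AddChar A ℂ) : pr X χ (0 : M) = 0 := by simp [pr]

/-- The projection as a linear map. -/
noncomputable def prL (X : A → G) (χ : AddChar A ℂ) : M →ₗ[ℂ] M where
  toFun := pr X χ
  map_add' := pr_add X χ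
  map_smul' := pr_csmul X χ

theorem pr_wt {X : A → G} (hX : IsAdd X) (χ : AddChar A ℂ) (v : M) : Wt X χ (pr X χ v) := by
  intro s
  simp only [pr, gcs, Finset.smul_sum, ← mul_smul, ← hX s]
  rw [← Equiv.sum_comp (Equiv.addLeft (-s))]
  refine Finset.sum_congr rfl fun t _ => ?_
  simp only [Equiv.coe_addLeft, add_neg_cancel_left, neg_add_rev, neg_neg, AddChar.map_add_eq_mul]
  congr 1
  ring

theorem pr_fx {X : A → G} (hX : IsAdd X) (v : M) : Fx X (pr X 0 v) := wt_zero.1 (pr_wt hX 0 v)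

theorem pr_of_wt {X : A → G} {χ : AddChar A ℂ} {v : M} (h : Wt X χ v) : pr X χ v = v := by
  have : ∀ t, χ (-t) • X t • v = v := fun t => by
    rw [h t, smul_smul, ← AddChar.map_add_eq_mul, neg_add_cancel, AddChar.map_zero_eq_one, one_smul]
  simp only [pr, this, Finset.sum_const, Finset.card_univ]
  rw [← Nat.cast_smul_eq_nsmul ℂ, smul_smul, inv_mul_cancel₀ card_ne, one_smul]

theorem pr_of_wt_ne {X : A → G} {χ χ' : AddChar A ℂ} {v : M} (h : Wt X χ' v) (hne : χ' ≠ χ) :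
    pr X χ v = 0 := by
  have : ∀ t, χ (-t) • X t • v = (χ' - χ) t • v := fun t => by
    rw [h t, smul_smul, AddChar.sub_apply, mul_comm]
  simp only [pr, this]
  rw [← Finset.sum_smul, AddChar.sum_eq_zero_iff_ne_zero.2 (sub_ne_zero.2 hne), zero_smul, smul_zero]

theorem sum_pr {X : A → G} (hX : IsAdd X) (v : M) : ∑ χ : AddChar A ℂ, pr X χ v = v := by
  classical
  simp only [pr]
  rw [← Finset.smul_sum, Finset.sum_comm]
  simp only [← Finset.sum_smul, AddChar.sum_apply_eq_ite, neg_eq_zero, ite_smul, zero_smul,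
    Finset.sum_ite_eq', Finset.mem_univ, if_true, hX.zero, one_smul]
  rw [smul_smul, inv_mul_cancel₀ card_ne, one_smul]

theorem exists_pr_ne_zero {X : A → G} (hX : IsAdd X) {v : M} (hv : v ≠ 0) :
    ∃ χ : AddChar A ℂ, pr X χ v ≠ 0 := by
  by_contra! h
  exact hv (by rw [← sum_pr hX v]; exact Finset.sum_eq_zero fun χ _ => h χ)

theorem exists_pr_ne_zero' {X : A → G} (hX : IsAdd X) {v : M} (hv : ¬ Fx X v) :
    ∃ χ : AddChar A ℂ, χ ≠ 0 ∧ pr X χ v ≠ 0 := by
  classical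
  by_contra! h
  apply hv
  have : v = pr X 0 v := by
    conv_lhs => rw [← sum_pr hX v]
    exact Finset.sum_eq_single _ (fun χ _ hχ => h χ hχ) (by simp)
  rw [this]
  exact pr_fx hX v

theorem inner_pr_right (X : A → G) (χ : AddChar A ℂ) (v w : M) :
    ⟪w, pr X χ v⟫_ℂ = (Fintype.card A : ℂ)⁻¹ * ∑ t, χ (-t) * ⟪w, X t • v⟫_ℂ := by
  simp only [pr, inner_smul_right, inner_sum]

theorem inner_pr_of_wt {X : A → G} (hX : IsAdd X) {χ : AddChar A ℂ} {w : M} (h : Wt X χ w)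
    (v : M) : ⟪w, pr X χ v⟫_ℂ = ⟪w, v⟫_ℂ := by
  have : ∀ t, χ (-t) * ⟪w, X t • v⟫_ℂ = ⟪w, v⟫_ℂ := fun t => by
    rw [inner_gr, ← hX.neg, h, inner_smul_left, ← mul_assoc, mul_comm (χ _), conj_mul_char, one_mul]
  simp only [inner_pr_right, this, Finset.sum_const, Finset.card_univ, nsmul_eq_mul]
  rw [← mul_assoc, inv_mul_cancel₀ card_ne, one_mul]

theorem inner_pr_of_wt' {X : A → G} (hX : IsAdd X) {χ : AddChar A ℂ} {w : M} (h : Wt X χ w)
    (v : M) : ⟪pr X χ v, w⟫_ℂ = ⟪v, w⟫_ℂ := by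
  rw [← inner_conj_symm, inner_pr_of_wt hX h, inner_conj_symm]

theorem inner_pr_of_fx {X : A → G} (hX : IsAdd X) {w : M} (h : Fx X w)
    (v : M) : ⟪w, pr X 0 v⟫_ℂ = ⟪w, v⟫_ℂ := inner_pr_of_wt hX (wt_zero.2 h) v

theorem inner_pr_of_fx' {X : A → G} (hX : IsAdd X) {w : M} (h : Fx X w)
    (v : M) : ⟪pr X 0 v, w⟫_ℂ = ⟪v, w⟫_ℂ := inner_pr_of_wt' hX (wt_zero.2 h) v

theorem inner_pr_pr {X : A → G} (hX : IsAdd X) (χ : AddChar A ℂ) (v w : M) :
    ⟪pr X χ w, pr X χ v⟫_ℂ = ⟪w, pr X χ v⟫_ℂ := inner_pr_of_wt' hX (pr_wt hX χ v) w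

theorem inner_pr_symm {X : A → G} (hX : IsAdd X) (χ : AddChar A ℂ) (v w : M) :
    ⟪pr X χ w, v⟫_ℂ = ⟪w, pr X χ v⟫_ℂ := by
  rw [← inner_pr_pr hX, inner_pr_of_wt hX (pr_wt hX χ w)]

theorem inner_pr_of_orth {X : A → G} (hX : IsAdd X) (χ : AddChar A ℂ) {v : M}
    (h : ∀ t ≠ 0, ⟪v, X t • v⟫_ℂ = 0) :
    ⟪pr X χ v, pr X χ v⟫_ℂ = (Fintype.card A : ℂ)⁻¹ * ⟪v, v⟫_ℂ := by
  rw [inner_pr_pr hX, inner_pr_right, Finset.sum_eq_single 0 (fun t _ ht => by rw [h t ht, mul_zero])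
    (by simp)]
  simp [hX.zero]

theorem pr_ne_zero_of_orth {X : A → G} (hX : IsAdd X) (χ : AddChar A ℂ) {v : M} (hv : v ≠ 0)
    (h : ∀ t ≠ 0, ⟪v, X t • v⟫_ℂ = 0) : pr X χ v ≠ 0 := by
  intro h0
  have := inner_pr_of_orth hX χ h
  rw [h0, inner_zero_left] at this
  exact mul_ne_zero (inv_ne_zero card_ne) (inner_self_ne_zero.2 hv) this.symm

/-- The sum over the non-zero elements of a non-trivial character. -/
theorem sum_ne_zero_char [DecidableEq A] {χ : AddChar A ℂ} (hχ : χ ≠ 0) :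
    ∑ t ∈ univ.erase (0 : A), χ (-t) = -1 := by
  have h := AddChar.sum_eq_zero_iff_ne_zero.2 hχ
  rw [← Equiv.sum_comp (Equiv.neg A), ← Finset.add_sum_erase _ _ (Finset.mem_univ 0)] at h
  simp only [Equiv.neg_apply, neg_zero, AddChar.map_zero_eq_one] at h
  exact eq_neg_of_add_eq_zero_right h

/-- The inner product with a projection if the matrix coefficients are constant away from `0`. -/
theorem inner_pr_of_const {X : A → G} (hX : IsAdd X) {v w : M} {a : ℂ}
    (h : ∀ t ≠ 0, ⟪w, X t • v⟫_ℂ = a) :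
    ⟪w, pr X 0 v⟫_ℂ = (Fintype.card A : ℂ)⁻¹ * (⟪w, v⟫_ℂ + ((Fintype.card A : ℂ) - 1) * a) ∧
    ∀ χ : AddChar A ℂ, χ ≠ 0 → ⟪w, pr X χ v⟫_ℂ = (Fintype.card A : ℂ)⁻¹ * (⟪w, v⟫_ℂ - a) := by
  classical
  have key : ∀ χ : AddChar A ℂ, ⟪w, pr X χ v⟫_ℂ =
      (Fintype.card A : ℂ)⁻¹ * (⟪w, v⟫_ℂ + (∑ t ∈ univ.erase (0 : A), χ (-t)) * a) := by
    intro χ
    rw [inner_pr_right, ← Finset.add_sum_erase _ _ (Finset.mem_univ 0), Finset.sum_mul]
    simp only [neg_zero, AddChar.map_zero_eq_one, one_mul, hX.zero, one_smul]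
    rw [Finset.sum_congr rfl fun t ht => by rw [h t (Finset.ne_of_mem_erase ht)]]
  refine ⟨?_, fun χ hχ => ?_⟩
  · rw [key]
    simp [Finset.card_erase_of_mem, Nat.cast_sub (Fintype.card_pos (α := A))]
  · rw [key, sum_ne_zero_char hχ]; ring

/-! ### Dimensions -/

variable [FiniteDimensional ℂ M]

theorem sum_finrank_le_of_orth {ι : Type*} (p : ι → Submodule ℂ M) (s : Finset ι)
    {N : Submodule ℂ M} (hN : ∀ i ∈ s, p i ≤ N)
    (h : ∀ i ∈ s, ∀ j ∈ s, i ≠ j → ∀ v ∈ p i, ∀ w ∈ p j, ⟪v, w⟫_ℂ = 0) :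
    ∑ i ∈ s, finrank ℂ (p i) ≤ finrank ℂ N := by
  classical
  induction s using Finset.induction_on generalizing N with
  | empty => simp
  | insert a s ha ih =>
    rw [Finset.sum_insert ha]
    have h1 := ih (N := N ⊓ (p a)ᗮ) (fun i hi => le_inf (hN i (by simp [hi])) fun v hv => by
      rw [Submodule.mem_orthogonal]
      exact fun u hu => h a (by simp) i (by simp [hi]) (fun e => ha (e ▸ hi)) u hu v hv)
      (fun i hi j hj => h i (by simp [hi]) j (by simp [hj]))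
    have h2 := Submodule.finrank_sup_add_finrank_inf_eq (p a) (N ⊓ (p a)ᗮ)
    have h3 : p a ⊓ (N ⊓ (p a)ᗮ) = ⊥ := by
      rw [eq_bot_iff, ← (p a).inf_orthogonal_eq_bot]
      exact inf_le_inf_left _ inf_le_right
    rw [h3, finrank_bot, add_zero] at h2
    have h4 : finrank ℂ (p a ⊔ N ⊓ (p a)ᗮ : Submodule ℂ M) ≤ finrank ℂ N :=
      Submodule.finrank_mono (sup_le (hN a (by simp)) inf_le_left)
    omega

theorem finrank_le_sum {ι : Type*} (p : ι → Submodule ℂ M) (s : Finset ι) :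
    finrank ℂ (⨆ i ∈ s, p i : Submodule ℂ M) ≤ ∑ i ∈ s, finrank ℂ (p i) := by
  classical
  induction s using Finset.induction_on with
  | empty => simp
  | insert a s ha ih =>
    rw [Finset.sum_insert ha, Finset.iSup_insert]
    have := Submodule.finrank_add_le_finrank_add_finrank (p a) (⨆ i ∈ s, p i)
    omega

theorem finrank_eq_sum_wt {X : A → G} (hX : IsAdd X) {N : Submodule ℂ M}
    (hN : ∀ t, ∀ v ∈ N, X t • v ∈ N) :
    finrank ℂ N = ∑ χ : AddChar A ℂ, finrank ℂ (N ⊓ wt M X χ : Submodule ℂ M) := by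
  refine le_antisymm (le_trans (Submodule.finrank_mono fun v hv => ?_) (finrank_le_sum _ _))
    (sum_finrank_le_of_orth _ _ (fun _ _ => inf_le_left)
      fun i _ j _ hij v hv w hw => Wt.inner_eq_zero hv.2 hw.2 hij)
  rw [← sum_pr hX v]
  refine Submodule.sum_mem _ fun χ _ => ?_
  exact Submodule.mem_iSup_of_mem χ (Submodule.mem_iSup_of_mem (Finset.mem_univ χ)
    ⟨pr_mem fun t => hN t v hv, pr_wt hX χ v⟩)

theorem one_le_finrank {N : Submodule ℂ M} {v : M} (hv : v ∈ N) (h0 : v ≠ 0) :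
    1 ≤ finrank ℂ N := by
  rw [Nat.one_le_iff_ne_zero, Ne, Submodule.finrank_eq_zero]
  rintro rfl
  exact h0 hv

theorem prop_of_finrank_le_one {N : Submodule ℂ M} (h : finrank ℂ N ≤ 1) {v w : M} (hv : v ∈ N)
    (h0 : v ≠ 0) (hw : w ∈ N) : ∃ c : ℂ, w = c • v := by
  have h1 : finrank ℂ N = 1 := le_antisymm h (one_le_finrank hv h0)
  obtain ⟨c, hc⟩ := (finrank_eq_one_iff_of_nonzero' (⟨v, hv⟩ : N)
    (fun e => h0 (congrArg Subtype.val e))).1 h1 ⟨w, hw⟩
  exact ⟨c, (congrArg Subtype.val hc).symm⟩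

/-- Linear independence from bounds on the angles. -/
theorem card_le_finrank_of_gram {I : Type*} [Fintype I] (adj : I → I → Prop) [DecidableRel adj]
    (w : I → ℝ) (hw : ∀ i, 0 < w i) (hw' : ∀ i, ∑ j with adj i j, w j ≤ 2 * w i)
    {N : Submodule ℂ M} (u : I → M) (hu : ∀ i, u i ∈ N) (hu0 : ∀ i, u i ≠ 0)
    (h0 : ∀ i j, i ≠ j → ¬ adj i j → ⟪u i, u j⟫_ℂ = 0) (hirr : ∀ i, ¬ adj i i)
    (h1 : ∀ i j, adj i j → 2 * ‖⟪u i, u j⟫_ℂ‖ < ‖u i‖ * ‖u j‖) :
    Fintype.card I ≤ finrank ℂ N := by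
  classical
  have hli : LinearIndependent ℂ (fun i => (⟨u i, hu i⟩ : N)) := by
    rw [Fintype.linearIndependent_iff]
    intro c hc
    have hc' : ∑ i, c i • u i = 0 := by
      have := congrArg Subtype.val hc
      simpa using this
    by_contra! hne
    obtain ⟨i0, hi0⟩ := hne
    obtain ⟨i, -, hi⟩ := Finset.exists_max_image univ (fun i => ‖c i‖ * ‖u i‖ / w i) ⟨i0, by simp⟩
    set μ := ‖c i‖ * ‖u i‖ / w i with hμ
    have hμ0 : 0 < μ := lt_of_lt_of_le (div_pos (mul_pos (norm_pos_iff.2 hi0)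
      (norm_pos_iff.2 (hu0 i0))) (hw i0)) (hi i0 (by simp))
    have hj : ∀ j, ‖c j‖ * ‖u j‖ ≤ μ * w j := fun j => by
      have := hi j (by simp)
      rwa [div_le_iff₀ (hw j)] at this
    have hii : ‖c i‖ * ‖u i‖ = μ * w i := by rw [hμ, div_mul_cancel₀ _ (hw i).ne']
    have h2 := congrArg (fun v => ⟪u i, v⟫_ℂ) hc'
    simp only [inner_sum, inner_smul_right, inner_zero_right] at h2
    rw [← Finset.add_sum_erase _ _ (Finset.mem_univ i)] at h2
    have h3 : ∑ j ∈ univ.erase i, c j * ⟪u i, u j⟫_ℂ = ∑ j with adj i j, c j * ⟪u i, u j⟫_ℂ := by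
      symm
      refine Finset.sum_subset (fun j hj => ?_) fun j hj hj' => ?_
      · simp only [Finset.mem_filter, Finset.mem_univ, true_and] at hj
        simp only [Finset.mem_erase, Finset.mem_univ, and_true]
        rintro rfl
        exact hirr _ hj
      · rw [h0 i j (Finset.ne_of_mem_erase hj).symm (by simpa using hj'), mul_zero]
    rw [h3, add_eq_zero_iff_eq_neg] at h2
    have h4 := congrArg norm h2
    rw [norm_neg, norm_mul, inner_self_eq_norm_sq_to_K] at h4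
    have h5 : ‖((‖u i‖ : ℂ)) ^ 2‖ = ‖u i‖ ^ 2 := by simp
    erw [h5] at h4
    have hui : 0 < ‖u i‖ := norm_pos_iff.2 (hu0 i)
    have h6 : ‖∑ j with adj i j, c j * ⟪u i, u j⟫_ℂ‖ ≤ ∑ j with adj i j, ‖c j‖ * ‖⟪u i, u j⟫_ℂ‖ :=
      (norm_sum_le _ _).trans (le_of_eq (Finset.sum_congr rfl fun j _ => norm_mul _ _))
    have h7 : ∀ j, adj i j → 2 * (‖c j‖ * ‖⟪u i, u j⟫_ℂ‖) < ‖u i‖ * μ * w j := fun j hij => by
      rcases (norm_nonneg (c j)).eq_or_lt with e | e
      · rw [← e]; have := hw j; simp only [zero_mul, mul_zero]; positivity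
      · have := mul_lt_mul_of_pos_left (h1 i j hij) e
        have := mul_le_mul_of_nonneg_left (hj j) hui.le
        nlinarith
    rcases (univ.filter (adj i)).eq_empty_or_nonempty with e | e
    · rw [e, Finset.sum_empty, norm_zero] at h4
      have : 0 < ‖c i‖ * ‖u i‖ := by rw [hii]; exact mul_pos hμ0 (hw i)
      nlinarith
    · have h8 := Finset.sum_lt_sum_of_nonempty e fun j hj => h7 j (by simpa using hj)
      rw [← Finset.mul_sum, ← Finset.mul_sum] at h8
      have h9 := mul_le_mul_of_nonneg_left (hw' i) (mul_pos hui hμ0).le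
      nlinarith
  simpa using hli.fintype_card_le_finrank

end Cfsg.Agent.H33.MR
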