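import Cfsg.Agent.H33.MinRep1

/-! Long simple root subgroups acting on a small module: the vectors fixed by a Sylow subgroup. -/

set_option autoImplicit false
set_option linter.unusedSectionVars false

namespace Cfsg.Agent.H33.MR

open scoped InnerProductSpace ComplexConjugate
open Module Finset

/-- Root elements for a simply laced set of simple roots. -/
structure HD (G F I : Type*) [Group G] [Field F] where
  adj : I → I → Prop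
  x : I → F → G
  n : I → G
  h : I → Fˣ → G
  adj_symm : ∀ {i j}, adj i j → adj j i
  adj_irrefl : ∀ i, ¬ adj i i
  nb : ∀ i, ∃ j, adj i j
  x_add : ∀ i, IsAdd (x i)
  h_mul : ∀ i s t, h i (s * t) = h i s * h i t
  h_comm : ∀ i j s t, h i s * h j t = h j t * h i s
  h_x : ∀ i j t, ∃ u : Fˣ, ∀ s, h j t * x i s * (h j t)⁻¹ = x i (u * s)
  h_x_non : ∀ {i j}, i ≠ j → ¬ adj i j → ∀ t s, h j t * x i s = x i s * h j t
  n_h_self : ∀ i t, n i * h i t = h i t⁻¹ * n i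
  n_h_adj : ∀ {i j}, adj i j → ∀ t, n i * h j t = h j t * h i t * n i
  n_h_non : ∀ {i j}, i ≠ j → ¬ adj i j → ∀ t, n i * h j t = h j t * n i
  n_sq : ∀ i, ∃ t, n i * n i = h i t
  sl2 : ∀ i t, ∃ s r r', (n i)⁻¹ * x i s * n i = x i r * n i * h i t * x i r'
  sl2' : ∀ i s, s ≠ 0 → ∃ t r r', (n i)⁻¹ * x i s * n i = x i r * n i * h i t * x i r'
  comm : ∀ {i j}, adj i j → ∃ ε : Fˣ, ∀ s t,
    x i s * x j t = x j t * x i s * (n j * x i (ε * s * t) * (n j)⁻¹)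
  z_comm : ∀ {i j}, adj i j → ∀ s t,
    n j * x i t * (n j)⁻¹ * x i s = x i s * (n j * x i t * (n j)⁻¹)
  z_symm : ∀ {i j}, adj i j → ∃ δ : Fˣ, ∀ t,
    n i * x j t * (n i)⁻¹ = n j * x i (δ * t) * (n j)⁻¹
  braid : ∀ {i j}, adj i j → ∃ s t, n i * n j * n i = n j * n i * n j * (h i s * h j t)
  n_x_non : ∀ {i j}, i ≠ j → ¬ adj i j → ∀ s, n j * x i s = x i s * n j
  x_x_non : ∀ {i j}, i ≠ j → ¬ adj i j → ∀ s t, x j t * x i s = x i s * x j t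
  n_n_non : ∀ {i j}, i ≠ j → ¬ adj i j → n j * n i = n i * n j

namespace HD

variable {G F I : Type*} [Group G] [Field F] (D : HD G F I)

/-- The root elements for the sum of two adjacent simple roots. -/
def z (i j : I) (t : F) : G := D.n j * D.x i t * (D.n j)⁻¹

theorem z_add (i j : I) : IsAdd (D.z i j) := (D.x_add i).conj _

theorem ne_of_adj {i j : I} (h : D.adj i j) : i ≠ j := fun e => D.adj_irrefl j (e ▸ h)

theorem h_one (i : I) : D.h i 1 = 1 := by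
  have := D.h_mul i 1 1
  rw [mul_one] at this
  exact mul_eq_left.1 this.symm

theorem h_inv (i : I) (t : Fˣ) : (D.h i t)⁻¹ = D.h i t⁻¹ := by
  rw [inv_eq_iff_mul_eq_one, ← D.h_mul, mul_inv_cancel, D.h_one]

/-- The torus. -/
def H0 : Subgroup G := Subgroup.closure {g | ∃ i t, g = D.h i t}

theorem h_mem (i : I) (t : Fˣ) : D.h i t ∈ D.H0 := Subgroup.subset_closure ⟨i, t, rfl⟩

theorem H0_induction {p : G → Prop} (h1 : p 1) (hm : ∀ i t g, p g → p (D.h i t * g)) {g : G}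
    (hg : g ∈ D.H0) : p g := by
  induction hg using Subgroup.closure_induction_left with
  | one => exact h1
  | mul_left a ha g _ ih => obtain ⟨i, t, rfl⟩ := ha; exact hm i t g ih
  | inv_mul_cancel a ha g _ ih => obtain ⟨i, t, rfl⟩ := ha; rw [D.h_inv]; exact hm i _ g ih

theorem H0_x {g : G} (hg : g ∈ D.H0) (i : I) : ∃ u : Fˣ, ∀ s, g * D.x i s * g⁻¹ = D.x i (u * s) := by
  refine D.H0_induction (p := fun g => ∃ u : Fˣ, ∀ s, g * D.x i s * g⁻¹ = D.x i (u * s))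
    ⟨1, fun s => by simp⟩ ?_ hg
  rintro j t g ⟨u, hu⟩
  obtain ⟨u', hu'⟩ := D.h_x i j t
  refine ⟨u' * u, fun s => ?_⟩
  rw [Units.val_mul, mul_assoc (u' : F), ← hu', ← hu]
  group

theorem n_H0 {g : G} (hg : g ∈ D.H0) (i : I) : D.n i * g * (D.n i)⁻¹ ∈ D.H0 := by
  refine D.H0_induction (p := fun g => D.n i * g * (D.n i)⁻¹ ∈ D.H0) (by simp) ?_ hg
  intro j t g ih
  have : D.n i * D.h j t * (D.n i)⁻¹ ∈ D.H0 := by
    by_cases e : i = j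
    · subst e; rw [D.n_h_self, mul_inv_cancel_right]; exact D.h_mem _ _
    · by_cases a : D.adj i j
      · rw [D.n_h_adj a, mul_inv_cancel_right]; exact D.H0.mul_mem (D.h_mem _ _) (D.h_mem _ _)
      · rw [D.n_h_non e a, mul_inv_cancel_right]; exact D.h_mem _ _
  convert D.H0.mul_mem this ih using 1
  group

theorem n_sq_mem (i : I) : D.n i * D.n i ∈ D.H0 := by
  obtain ⟨t, ht⟩ := D.n_sq i
  rw [ht]; exact D.h_mem _ _

theorem n_H0' {g : G} (hg : g ∈ D.H0) (i : I) : (D.n i)⁻¹ * g * D.n i ∈ D.H0 := by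
  have := D.n_H0 (D.H0.mul_mem (D.H0.mul_mem (D.H0.inv_mem (D.n_sq_mem i)) hg) (D.n_sq_mem i)) i
  convert this using 1
  group

theorem H0_z {g : G} (hg : g ∈ D.H0) (i j : I) :
    ∃ u : Fˣ, ∀ s, g * D.z i j s * g⁻¹ = D.z i j (u * s) := by
  obtain ⟨u, hu⟩ := D.H0_x (D.n_H0' hg j) i
  refine ⟨u, fun s => ?_⟩
  rw [z, z, ← hu]; group

theorem ninv_x (i j : I) : ∃ u : Fˣ, ∀ s, (D.n j)⁻¹ * D.x i s * D.n j = D.z i j (u * s) := by
  obtain ⟨u, hu⟩ := D.H0_x (D.H0.inv_mem (D.n_sq_mem j)) i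
  refine ⟨u, fun s => ?_⟩
  rw [z, ← hu]; group

theorem n_z (i j : I) : ∃ u : Fˣ, ∀ s, D.n j * D.z i j s * (D.n j)⁻¹ = D.x i (u * s) := by
  obtain ⟨u, hu⟩ := D.H0_x (D.n_sq_mem j) i
  refine ⟨u, fun s => ?_⟩
  rw [z, ← hu]; group

theorem z_symm' {i j : I} (a : D.adj i j) : ∃ δ : Fˣ, ∀ t, D.z j i t = D.z i j (δ * t) := D.z_symm a

theorem z_comm' {i j : I} (a : D.adj i j) (s t : F) : D.z i j t * D.x j s = D.x j s * D.z i j t := by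
  obtain ⟨δ, hδ⟩ := D.z_symm' (D.adj_symm a)
  rw [hδ]
  exact D.z_comm (D.adj_symm a) _ _

end HD

variable {G M F I : Type*} [Group G] [NormedAddCommGroup M] [InnerProductSpace ℂ M]
  [DistribMulAction G M] [UA G M] [Field F]

theorem Fx.conj {B : Type*} {X Y : B → G} {g : G} {v : M} (hv : Fx X v)
    (h : ∀ t, ∃ s, g⁻¹ * Y t * g = X s) : Fx Y (g • v) := fun t => by
  obtain ⟨s, hs⟩ := h t
  rw [← mul_smul, show Y t * g = g * X s by rw [← hs]; group, mul_smul, hv s]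

theorem Wt.conj {X Y : F → G} {g : G} {v : M} {χ : AddChar F ℂ} (hv : Wt X χ v) {u : F}
    (h : ∀ t, g⁻¹ * Y t * g = X (u * t)) : Wt Y (χ.mulShift u) (g • v) := fun t => by
  rw [← mul_smul, show Y t * g = g * X (u * t) by rw [← h]; group, mul_smul, hv, gcs,
    AddChar.mulShift_apply]

theorem Wt.of_eq {X Y : F → G} {v : M} {χ : AddChar F ℂ} (hv : Wt X χ v) {u : F}
    (h : ∀ t, Y t = X (u * t)) : Wt Y (χ.mulShift u) v := fun t => by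
  rw [h, hv, AddChar.mulShift_apply]

theorem Fx.of_eq {X Y : F → G} {v : M} (hv : Fx X v) {u : F}
    (h : ∀ t, Y t = X (u * t)) : Fx Y v := fun t => by rw [h, hv]

theorem mulShift_ne_zero {χ : AddChar F ℂ} (hχ : χ ≠ 0) {u : F} (hu : u ≠ 0) :
    χ.mulShift u ≠ 0 := by
  obtain ⟨t, ht⟩ := DFunLike.ne_iff.1 hχ
  refine DFunLike.ne_iff.2 ⟨u⁻¹ * t, ?_⟩
  rwa [AddChar.mulShift_apply, mul_inv_cancel_left₀ hu]

theorem mulShift_mulShift_inv (χ : AddChar F ℂ) (u : Fˣ) :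
    (χ.mulShift (u⁻¹ : Fˣ)).mulShift u = χ := by
  ext t; simp [AddChar.mulShift_apply]

/-- The fixed spaces of the unipotent radicals, with the multiplicity one property. -/
structure RD (D : HD G F I) (M : Type*) [NormedAddCommGroup M] [InnerProductSpace ℂ M]
    [DistribMulAction G M] [UA G M] where
  Y2 : I → I → Submodule ℂ M
  Y1 : I → Submodule ℂ M
  E : Submodule ℂ M
  symm : ∀ i j, Y2 i j = Y2 j i
  inv_x : ∀ {i j}, i ≠ j → ∀ t, ∀ v ∈ Y2 i j, D.x i t • v ∈ Y2 i j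
  inv_n : ∀ {i j}, i ≠ j → ∀ v ∈ Y2 i j, D.n i • v ∈ Y2 i j
  mem_Y1 : ∀ {i j}, i ≠ j → ∀ v, v ∈ Y1 i ↔
    v ∈ Y2 i j ∧ Fx (D.x j) v ∧ (D.adj i j → Fx (D.z i j) v)
  mem_E : ∀ i v, v ∈ E ↔ v ∈ Y1 i ∧ Fx (D.x i) v
  inv_h : ∀ i t, ∀ v ∈ E, D.h i t • v ∈ E
  mult : ∀ {i j}, i ≠ j → ∀ {χ : AddChar F ℂ}, χ ≠ 0 → ∀ v ∈ Y2 i j, ∀ w ∈ Y2 i j,
    Wt (D.x i) χ v → Wt (D.x i) χ w → (D.adj i j → Fx (D.z i j) v ∧ Fx (D.z i j) w) → v ≠ 0 →
      ∃ c : ℂ, w = c • v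

namespace RD

variable {D : HD G F I} (R : RD D M) [Finite G] [Fintype F]

theorem inv_x' {i j : I} (e : i ≠ j) (t : F) {v : M} (hv : v ∈ R.Y2 i j) :
    D.x j t • v ∈ R.Y2 i j := by
  rw [R.symm] at hv ⊢; exact R.inv_x e.symm t v hv

theorem inv_n' {i j : I} (e : i ≠ j) {v : M} (hv : v ∈ R.Y2 i j) : D.n j • v ∈ R.Y2 i j := by
  rw [R.symm] at hv ⊢; exact R.inv_n e.symm v hv

theorem inv_ninv {i j : I} (e : i ≠ j) {v : M} (hv : v ∈ R.Y2 i j) : (D.n i)⁻¹ • v ∈ R.Y2 i j :=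
  smul_mem_inv (R.inv_n e) v hv

theorem inv_ninv' {i j : I} (e : i ≠ j) {v : M} (hv : v ∈ R.Y2 i j) : (D.n j)⁻¹ • v ∈ R.Y2 i j :=
  smul_mem_inv (fun _ h => R.inv_n' e h) v hv

theorem Y1_x (i : I) (t : F) {v : M} (hv : v ∈ R.Y1 i) : D.x i t • v ∈ R.Y1 i := by
  obtain ⟨j, a⟩ := D.nb i
  have e := D.ne_of_adj a
  obtain ⟨h1, h2, h3⟩ := (R.mem_Y1 e v).1 hv
  refine (R.mem_Y1 e _).2 ⟨R.inv_x e t v h1, fun s => ?_, fun _ s => ?_⟩
  · obtain ⟨ε, hε⟩ := D.comm a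
    have := congrArg (· • v) (hε t s)
    simp only [mul_smul] at this
    have h4 := h3 a (ε * t * s)
    simp only [HD.z, mul_smul] at h4
    rw [h4, h2] at this
    exact this.symm
  · rw [← mul_smul, HD.z, D.z_comm a, mul_smul]
    exact congrArg _ (h3 a s)

theorem Y1_n (i : I) {v : M} (hv : v ∈ R.Y1 i) : D.n i • v ∈ R.Y1 i := by
  obtain ⟨j, a⟩ := D.nb i
  have e := D.ne_of_adj a
  obtain ⟨h1, h2, h3⟩ := (R.mem_Y1 e v).1 hv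
  obtain ⟨u, hu⟩ := D.ninv_x j i
  obtain ⟨δ, hδ⟩ := D.z_symm' a
  obtain ⟨δ', hδ'⟩ := D.z_symm' (D.adj_symm a)
  refine (R.mem_Y1 e _).2 ⟨R.inv_n e v h1, (h3 a).conj fun t => ⟨_, by rw [hu, hδ]⟩,
    fun _ => h2.conj fun t => ⟨δ' * t, ?_⟩⟩
  rw [hδ', HD.z]; group

theorem Y1_ninv (i : I) {v : M} (hv : v ∈ R.Y1 i) : (D.n i)⁻¹ • v ∈ R.Y1 i :=
  smul_mem_inv (fun _ h => R.Y1_n i h) v hv

theorem pr_mem_E {i : I} {v : M} (hv : v ∈ R.Y1 i) : pr (D.x i) 0 v ∈ R.E :=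
  (R.mem_E i _).2 ⟨pr_mem fun t => R.Y1_x i t hv, pr_fx (D.x_add i) v⟩

theorem E_fx {v : M} (hv : v ∈ R.E) (i : I) : Fx (D.x i) v := ((R.mem_E i v).1 hv).2

theorem E_Y1 {v : M} (hv : v ∈ R.E) (i : I) : v ∈ R.Y1 i := ((R.mem_E i v).1 hv).1

theorem Y1_fz {i j : I} (a : D.adj i j) {v : M} (hv : v ∈ R.Y1 i) : Fx (D.z i j) v :=
  ((R.mem_Y1 (D.ne_of_adj a) v).1 hv).2.2 a

theorem Y1_fz' {i j : I} (a : D.adj i j) {v : M} (hv : v ∈ R.Y1 i) : Fx (D.z j i) v := by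
  obtain ⟨δ, hδ⟩ := D.z_symm' a
  exact (R.Y1_fz a hv).of_eq hδ

theorem Y1_fx {i j : I} (e : i ≠ j) {v : M} (hv : v ∈ R.Y1 i) : Fx (D.x j) v :=
  ((R.mem_Y1 e v).1 hv).2.1

theorem Y1_Y2 {i j : I} (e : i ≠ j) {v : M} (hv : v ∈ R.Y1 i) : v ∈ R.Y2 i j :=
  ((R.mem_Y1 e v).1 hv).1

theorem H0_E {g : G} (hg : g ∈ D.H0) {v : M} (hv : v ∈ R.E) : g • v ∈ R.E :=
  D.H0_induction (p := fun g => g • v ∈ R.E) (by simpa using hv)
    (fun i t g h => by rw [mul_smul]; exact R.inv_h i t _ h) hg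

/-- All non-trivial characters of the root subgroup occur. -/
def Ex (i : I) : Prop := ∀ χ : AddChar F ℂ, χ ≠ 0 → ∃ m ∈ R.Y1 i, m ≠ 0 ∧ Wt (D.x i) χ m

/-- Translates of a vector with a non-trivial central character are orthogonal. -/
theorem orth_translate {i j : I} (a : D.adj i j) {v : M} {χ : AddChar F ℂ} (hχ : χ ≠ 0)
    (h1 : Wt (D.z i j) χ v) (h2 : Fx (D.x i) v) (t : F) (ht : t ≠ 0) :
    ⟪v, D.x j t • v⟫_ℂ = 0 := by
  obtain ⟨ε, hε⟩ := D.comm a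
  have : Wt (D.x i) (χ.mulShift (ε * t)) (D.x j t • v) := fun s => by
    rw [← mul_smul, hε, mul_smul, mul_smul]
    erw [h1 (ε * s * t)]
    rw [gcs, gcs, h2, AddChar.mulShift_apply]
    congr 2; ring
  exact this.inner_fx h2 (mulShift_ne_zero hχ (mul_ne_zero ε.ne_zero ht))

theorem fx_of_mult {i j : I} (a : D.adj i j) (hi : R.Ex i) {χ : AddChar F ℂ} (hχ : χ ≠ 0) {v : M}
    (hv : v ∈ R.Y2 i j) (h1 : Wt (D.x i) χ v) (h2 : Fx (D.z i j) v) : Fx (D.x j) v := by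
  obtain ⟨m, hm, hm0, hmw⟩ := hi χ hχ
  obtain ⟨c, rfl⟩ := R.mult (D.ne_of_adj a) hχ m (R.Y1_Y2 (D.ne_of_adj a) hm) v hv hmw h1
    (fun _ => ⟨R.Y1_fz a hm, h2⟩) hm0
  exact (R.Y1_fx (D.ne_of_adj a) hm).csmul c

theorem Ex.adj {i j : I} (a : D.adj i j) (hi : R.Ex i) : R.Ex j := by
  intro χ hχ
  have e := D.ne_of_adj a
  obtain ⟨δ, hδ⟩ := D.z_symm' a
  have hχ0 : χ.mulShift (δ⁻¹ : Fˣ) ≠ 0 := mulShift_ne_zero hχ (Units.ne_zero _)
  obtain ⟨m, hm, hm0, hmw⟩ := hi _ hχ0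
  -- `a0 = n_j m`
  have ha1 : Wt (D.z i j) (χ.mulShift (δ⁻¹ : Fˣ)) (D.n j • m) := fun t => by
    rw [HD.z, mul_smul, mul_smul, inv_smul_smul, hmw, gcs]
  obtain ⟨u, hu⟩ := D.ninv_x i j
  have ha2 : Fx (D.x i) (D.n j • m) := (R.Y1_fz a hm).conj fun t => ⟨_, hu t⟩
  have haY : D.n j • m ∈ R.Y2 i j := R.inv_n' e (R.Y1_Y2 e hm)
  set b := pr (D.x j) 0 (D.n j • m) with hb
  have hb0 : b ≠ 0 := pr_ne_zero_of_orth (D.x_add j) 0 (g_ne_zero _ hm0)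
    (orth_translate a hχ0 ha1 ha2)
  have hbY : b ∈ R.Y2 i j := pr_mem fun t => R.inv_x' e t haY
  have hb1 : Wt (D.z i j) (χ.mulShift (δ⁻¹ : Fˣ)) b := pr_wt' fun t s => by
    rw [← mul_smul, D.z_comm' a, mul_smul, ha1, gcs]
  have hb2 : Fx (D.x j) b := pr_fx (D.x_add j) _
  set b' := (D.n i)⁻¹ • b with hb'
  have hb'1 : Wt (D.x j) χ b' := by
    rw [← mulShift_mulShift_inv χ δ]
    exact hb1.conj fun t => by rw [inv_inv]; exact hδ t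
  obtain ⟨u', hu'⟩ := D.n_z j i
  have hb'2 : Fx (D.z j i) b' := hb2.conj fun t => ⟨_, by rw [inv_inv]; exact hu' t⟩
  obtain ⟨δ', hδ'⟩ := D.z_symm' (D.adj_symm a)
  have hb'3 : Fx (D.z i j) b' := hb'2.of_eq hδ'
  have hb'Y : b' ∈ R.Y2 i j := R.inv_ninv e hbY
  obtain ⟨χ', hχ'⟩ := exists_pr_ne_zero (D.x_add i) (g_ne_zero (D.n i)⁻¹ hb0)
  obtain ⟨ε, hε⟩ := D.comm (D.adj_symm a)
  have h1 : Wt (D.x j) χ (pr (D.x i) χ' b') := pr_wt' fun t s => by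
    rw [← mul_smul, hε, mul_smul, mul_smul]
    erw [hb'2]
    rw [hb'1, gcs]
  have h2 : Fx (D.z i j) (pr (D.x i) χ' b') := pr_fx' fun t s => by
    rw [← mul_smul, HD.z, D.z_comm a, mul_smul]
    erw [hb'3]
  have h3 : pr (D.x i) χ' b' ∈ R.Y2 i j := pr_mem fun t => R.inv_x e t _ hb'Y
  by_cases h0 : χ' = 0
  · subst h0
    refine ⟨_, (R.mem_Y1 e.symm _).2 ⟨R.symm i j ▸ h3, pr_fx (D.x_add i) _, fun _ => ?_⟩, hχ', h1⟩
    exact h2.of_eq hδ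
  · exact absurd (h1.eq_zero (R.fx_of_mult a hi h0 h3 (pr_wt (D.x_add i) _ _) h2) hχ) hχ'

variable (D) in
/-- The vector fixed by the Sylow subgroup attached to a weight vector. -/
noncomputable def uu (j : I) (m : M) : M := pr (D.x j) 0 ((D.n j)⁻¹ • m)

theorem uu_mem {j : I} {m : M} (hm : m ∈ R.Y1 j) : uu D j m ∈ R.E := R.pr_mem_E (R.Y1_ninv j hm)

/-- The key inequality. -/
theorem key {i j : I} (a : D.adj i j) (hi : R.Ex i) {χ : AddChar F ℂ} (hχ : χ ≠ 0) {m : M}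
    (hm : m ∈ R.Y1 j) (hmw : Wt (D.x j) χ m) : ∃ g ∈ D.H0,
    ‖m‖ ^ 2 / Fintype.card F ≤ ‖⟪uu D j m, D.n i • g • uu D j m⟫_ℂ‖ := by
  have e := D.ne_of_adj a
  have a' := D.adj_symm a
  obtain ⟨δ', hδ'⟩ := D.z_symm' a'
  set b := D.n i • m with hb
  have hb1 : Wt (D.z j i) χ b := fun t => by
    rw [hb, HD.z, mul_smul, mul_smul, inv_smul_smul, hmw, gcs]
  obtain ⟨u, hu⟩ := D.ninv_x j i
  have hb2 : Fx (D.x j) b := (R.Y1_fz a' hm).conj fun t => ⟨_, hu t⟩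
  have hbY : b ∈ R.Y2 i j := R.inv_n e _ (R.symm j i ▸ R.Y1_Y2 e.symm hm)
  set y := pr (D.x i) 0 b with hy
  have hyy : ⟪y, y⟫_ℂ = (Fintype.card F : ℂ)⁻¹ * ⟪b, b⟫_ℂ :=
    inner_pr_of_orth (D.x_add i) 0 (orth_translate a' hχ hb1 hb2)
  have hyY : y ∈ R.Y2 i j := pr_mem fun t => R.inv_x e t _ hbY
  have hy1 : Wt (D.z j i) χ y := pr_wt' fun t s => by
    rw [← mul_smul, D.z_comm' a', mul_smul, hb1, gcs]
  have hy2 : Fx (D.x i) y := pr_fx (D.x_add i) _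
  obtain ⟨u', hu'⟩ := D.n_z i j
  have hy3 : Fx (D.x j) ((D.n j)⁻¹ • y) := by
    refine R.fx_of_mult a hi (mulShift_ne_zero hχ δ'.ne_zero) (R.inv_ninv' e hyY)
      (hy1.conj fun t => by rw [inv_inv]; exact hδ' t) ?_
    exact hy2.conj fun t => ⟨_, by rw [inv_inv]; exact hu' t⟩
  obtain ⟨u2, hu2⟩ := D.ninv_x j j
  have hy4 : ∀ s, ((D.n j)⁻¹ * D.x j s * D.n j) • y = y := fun s => by
    rw [hu2, HD.z, mul_smul, mul_smul, hy3, smul_inv_smul]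
  obtain ⟨t, r, r', ht⟩ := D.sl2' j 1 one_ne_zero
  -- the vector `b2`
  set b2 := D.n j • D.h j t • b with hb2d
  obtain ⟨u3, hu3⟩ := D.ninv_x i j
  obtain ⟨u4, hu4⟩ := D.H0_z (D.H0.inv_mem (D.h_mem j t)) j i
  have hb21 : Wt (D.x i) ((χ.mulShift u4).mulShift (δ' * u3)) b2 :=
    (hb1.conj (Y := D.z j i) fun s => by simpa using hu4 s).conj fun s => by
      rw [hu3, hδ', mul_assoc]
  have h1 : ⟪y, y⟫_ℂ = ⟪y, D.x j r • b2⟫_ℂ := by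
    have h2 : D.x j r • b2 = ((D.n j)⁻¹ * D.x j 1 * D.n j) • b := by
      rw [ht, mul_smul, mul_smul, mul_smul, hb2]
    have h3 : ((D.n j)⁻¹ * D.x j 1 * D.n j)⁻¹ • y = y := by rw [inv_smul_eq_iff, hy4]
    rw [h2, inner_gr, h3, hy, inner_pr_pr (D.x_add i), inner_pr_symm (D.x_add i)]
  obtain ⟨ε, hε⟩ := D.comm a'
  have h2 : ∀ s, ‖⟪D.x j r • b2, D.x i s • b⟫_ℂ‖ = ‖⟪b2, b⟫_ℂ‖ := fun s => by
    rw [inner_gl, ← (D.x_add j).neg, ← mul_smul, hε, mul_smul, mul_smul]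
    erw [hb1]
    rw [gcs, gcs, hb2, inner_smul_right, inner_gr, ← (D.x_add i).neg, hb21, inner_smul_left]
    simp
  have h3 : ‖⟪y, D.x j r • b2⟫_ℂ‖ ≤ ‖⟪b2, b⟫_ℂ‖ := by
    rw [← inner_conj_symm, RCLike.norm_conj, hy, inner_pr_right, norm_mul]
    have := norm_sum_le univ fun s : F => (0 : AddChar F ℂ) (-s) * ⟪D.x j r • b2, D.x i s • b⟫_ℂ
    simp only [AddChar.zero_apply, one_mul, h2, Finset.sum_const, Finset.card_univ,
      nsmul_eq_mul] at this ⊢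
    have hq : (0 : ℝ) < Fintype.card F := Nat.cast_pos.2 Fintype.card_pos
    rw [norm_inv, Complex.norm_natCast, inv_mul_le_iff₀ hq]
    exact this
  obtain ⟨s0, t0, hbr⟩ := D.braid a
  set g := (D.h i s0 * D.h j t0)⁻¹ * ((D.n j)⁻¹ * ((D.n i)⁻¹ * D.h j t * D.n i) * D.n j) with hg
  have hgm : g ∈ D.H0 := D.H0.mul_mem (D.H0.inv_mem (D.H0.mul_mem (D.h_mem _ _) (D.h_mem _ _)))
    (D.n_H0' (D.n_H0' (D.h_mem j t) i) j)
  have hid : (D.n i)⁻¹ * D.n j * D.h j t * D.n i = D.n j * D.n i * g * (D.n j)⁻¹ := by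
    have : D.h i s0 * D.h j t0 = (D.n j * D.n i * D.n j)⁻¹ * (D.n i * D.n j * D.n i) := by
      rw [hbr]; group
    rw [hg, this]; group
  refine ⟨g, hgm, ?_⟩
  set v := (D.n j)⁻¹ • m with hv
  have hvY : v ∈ R.Y1 j := R.Y1_ninv j hm
  obtain ⟨u5, hu5⟩ := D.H0_z (D.H0.inv_mem hgm) j i
  obtain ⟨u6, hu6⟩ := D.H0_x hgm j
  have h4 : Fx (D.x j) (D.n i • g • v) :=
    ((R.Y1_fz a' hvY).conj (Y := D.z j i) fun s => ⟨_, by simpa using hu5 s⟩).conj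
      fun s => ⟨_, hu s⟩
  have h5 : Fx (D.x j) (g⁻¹ • (D.n i)⁻¹ • uu D j m) :=
    ((R.Y1_fz a' (R.E_Y1 (R.uu_mem hm) j)).conj (Y := D.x j)
      fun s => ⟨s, by rw [inv_inv]; rfl⟩).conj fun s => ⟨_, by simpa using hu6 s⟩
  have h6 : ⟪b, b2⟫_ℂ = ⟪uu D j m, D.n i • g • uu D j m⟫_ℂ := by
    have : ⟪b, b2⟫_ℂ = ⟪v, D.n i • g • v⟫_ℂ := by
      rw [hb2d, hb, inner_gl, ← mul_smul, ← mul_smul, ← mul_smul, hid, mul_smul, mul_smul,
        mul_smul, inner_gr]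
    rw [this, ← inner_pr_of_fx' (D.x_add j) h4, inner_gr, inner_gr, inner_gr (D.n i), inner_gr g]
    exact (inner_pr_of_fx (D.x_add j) h5 v).symm
  rw [← h6, ← inner_conj_symm, RCLike.norm_conj]
  refine le_trans (le_of_eq ?_) h3
  rw [← h1, hyy, hb, inner_gg, inner_self_eq_norm_sq_to_K, norm_mul, norm_inv, Complex.norm_natCast]
  simp [div_eq_inv_mul]

theorem uu_ne_zero {i j : I} (a : D.adj i j) (hi : R.Ex i) {χ : AddChar F ℂ} (hχ : χ ≠ 0) {m : M}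
    (hm : m ∈ R.Y1 j) (hmw : Wt (D.x j) χ m) (hm0 : m ≠ 0) : uu D j m ≠ 0 := by
  obtain ⟨g, -, h⟩ := R.key a hi hχ hm hmw
  intro h0
  rw [h0, inner_zero_left, norm_zero] at h
  have hq : (0 : ℝ) < Fintype.card F := Nat.cast_pos.2 Fintype.card_pos
  exact absurd h (not_le.2 (div_pos (pow_pos (norm_pos_iff.2 hm0) 2) hq))

/-- A vector fixed by a pair of opposite root subgroups. -/
theorem fixed_of_fx {i : I} {v : M} (h1 : Fx (D.x i) v) (h2 : Fx (D.x i) (D.n i • v)) :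
    (∀ t, D.h i t • v = v) ∧ D.n i • v = v := by
  have key : ∀ t, D.n i • D.h i t • v = v := fun t => by
    obtain ⟨s, r, r', hs⟩ := D.sl2 i t
    have h3 := congrArg (· • v) hs
    simp only [mul_smul, h2 s, inv_smul_smul, h1 r'] at h3
    rw [eq_comm, smul_eq_iff_eq_inv_smul, ← (D.x_add i).neg, h1] at h3
    exact h3
  have h3 : D.n i • v = v := by simpa [D.h_one] using key 1
  exact ⟨fun t => smul_left_cancel (D.n i) (by rw [key, h3]), h3⟩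

theorem fixed_non {i l : I} (e : i ≠ l) (na : ¬ D.adj i l) {χ : AddChar F ℂ} (hχ : χ ≠ 0) {m : M}
    (hm : m ∈ R.Y1 i) (hmw : Wt (D.x i) χ m) : (∀ t, D.h l t • m = m) ∧ D.n l • m = m := by
  by_cases hm0 : m = 0
  · simp [hm0]
  have h1 : Wt (D.x i) χ (D.n l • m) := fun t => by
    rw [← mul_smul, ← D.n_x_non e na, mul_smul, hmw, gcs]
  obtain ⟨c, hc⟩ := R.mult e hχ m (R.Y1_Y2 e hm) _ (R.inv_n' e (R.Y1_Y2 e hm)) hmw h1
    (fun a => absurd a na) hm0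
  exact fixed_of_fx (R.Y1_fx e hm) (hc ▸ (R.Y1_fx e hm).csmul c)

theorem inner_uu_of_fixed {j : I} {χ : AddChar F ℂ} (hχ : χ ≠ 0) {m : M} (hmw : Wt (D.x j) χ m)
    {v : M} (h1 : Fx (D.x j) v) (h2 : D.n j • v = v) : ⟪v, uu D j m⟫_ℂ = 0 := by
  rw [uu, inner_pr_of_fx (D.x_add j) h1, inner_gr, inv_inv, h2, hmw.inner_fx h1 hχ]

theorem inner_uu_non {i l : I} (e : i ≠ l) (na : ¬ D.adj i l) {χ χ' : AddChar F ℂ} (hχ : χ ≠ 0)
    (hχ' : χ' ≠ 0) {m m' : M} (hm : m ∈ R.Y1 i) (hmw : Wt (D.x i) χ m) (hmw' : Wt (D.x l) χ' m') :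
    ⟪uu D i m, uu D l m'⟫_ℂ = 0 := by
  refine inner_uu_of_fixed hχ' hmw' (R.E_fx (R.uu_mem hm) l) ?_
  rw [uu, smul_pr_of_comm (D.n_x_non e na), ← mul_smul,
    show D.n l * (D.n i)⁻¹ = (D.n i)⁻¹ * D.n l by
      rw [eq_inv_mul_iff_mul_eq, ← mul_assoc, ← D.n_n_non e na, mul_inv_cancel_right],
    mul_smul, (R.fixed_non e na hχ hm hmw).2]

/-! ### The torus acts trivially -/

/-- The torus acts trivially on the fixed space. -/
def St : Prop := ∀ i t, ∀ v ∈ R.E, D.h i t • v = v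

variable {R}

theorem St.H0 (hS : R.St) {g : G} (hg : g ∈ D.H0) {v : M} (hv : v ∈ R.E) : g • v = v :=
  D.H0_induction (p := fun g => g • v = v) (one_smul _ _)
    (fun i t g h => by rw [mul_smul, h, hS i t v hv]) hg

theorem St.ninv (hS : R.St) (i : I) {v : M} (hv : v ∈ R.E) : (D.n i)⁻¹ • v = D.n i • v := by
  rw [inv_smul_eq_iff, ← mul_smul, hS.H0 (D.n_sq_mem i) hv]

theorem St.inner_neg (hS : R.St) (i : I) {v w : M} (hv : v ∈ R.E) (hw : w ∈ R.E) {s : F}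
    (hs : s ≠ 0) : ⟪D.n i • w, D.x i s • D.n i • v⟫_ℂ = ⟪w, D.n i • v⟫_ℂ := by
  obtain ⟨t, r, r', ht⟩ := D.sl2' i s hs
  rw [inner_gl, ← mul_smul, ← mul_smul, ht, mul_smul, mul_smul, mul_smul, R.E_fx hv, hS i t v hv,
    inner_gr, ← (D.x_add i).neg, R.E_fx hw]

theorem St.inner_n_symm (hS : R.St) (i : I) {v w : M} (hw : w ∈ R.E) :
    ⟪D.n i • w, v⟫_ℂ = ⟪w, D.n i • v⟫_ℂ := by rw [inner_gr, hS.ninv i hw]

/-- The component fixed by the rank one subgroup. -/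
theorem St.fixed (hS : R.St) (i : I) {v : M} (hv : v ∈ R.E) :
    D.n i • (v + (Fintype.card F : ℂ) • pr (D.x i) 0 (D.n i • v)) =
      v + (Fintype.card F : ℂ) • pr (D.x i) 0 (D.n i • v) := by
  have hp : pr (D.x i) 0 (D.n i • v) ∈ R.E := R.pr_mem_E (R.Y1_n i (R.E_Y1 hv i))
  set z := v + (Fintype.card F : ℂ) • pr (D.x i) 0 (D.n i • v) with hz
  have hzE : z ∈ R.E := R.E.add_mem hv (R.E.smul_mem _ hp)
  apply eq_of_inner_eq
  have h1 := (inner_pr_of_const (D.x_add i) fun s hs => hS.inner_neg i hv hzE hs).1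
  conv_rhs => rw [hz]
  conv_lhs => rw [← hS.inner_n_symm i hzE]; enter [3]; rw [hz]
  rw [inner_add_right, inner_add_right, inner_smul_right, inner_smul_right, h1,
    inner_pr_of_fx (D.x_add i) (R.E_fx hzE i), inner_gg, hS.inner_n_symm i hzE]
  have := card_ne (A := F)
  field_simp
  ring

theorem St.inner_uu (hS : R.St) {j : I} {χ : AddChar F ℂ} (hχ : χ ≠ 0) {m : M} (hm : m ∈ R.Y1 j)
    (hmw : Wt (D.x j) χ m) {v : M} (hv : v ∈ R.E) :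
    ⟪uu D j m, D.n j • v⟫_ℂ = -(Fintype.card F : ℂ)⁻¹ * ⟪uu D j m, v⟫_ℂ := by
  have hp : pr (D.x j) 0 (D.n j • v) ∈ R.E := R.pr_mem_E (R.Y1_n j (R.E_Y1 hv j))
  have h := inner_uu_of_fixed hχ hmw (R.E_fx (R.E.add_mem hv (R.E.smul_mem _ hp)) j)
    (hS.fixed j hv)
  rw [← inner_conj_symm, map_eq_zero, inner_add_right, inner_smul_right,
    inner_pr_of_fx (D.x_add j) (R.E_fx (R.uu_mem hm) j)] at h
  have := card_ne (A := F)
  field_simp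
  linear_combination h

theorem St.norm_uu (hS : R.St) {j : I} {χ : AddChar F ℂ} (hχ : χ ≠ 0) {m : M} (hm : m ∈ R.Y1 j)
    (hmw : Wt (D.x j) χ m) :
    ‖uu D j m‖ ^ 2 * (Fintype.card F : ℝ) ^ 2 ≤ ‖m‖ ^ 2 * (Fintype.card F + 1) := by
  set u := uu D j m with hu
  have huE : u ∈ R.E := R.uu_mem hm
  have hq : (0 : ℝ) < Fintype.card F := Nat.cast_pos.2 Fintype.card_pos
  have h1 : ⟪u, u⟫_ℂ = ⟪pr (D.x j) χ (D.n j • u), m⟫_ℂ := by
    rw [inner_pr_of_wt' (D.x_add j) hmw]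
    conv_lhs => enter [3]; rw [hu, uu]
    rw [inner_pr_of_fx (D.x_add j) (R.E_fx huE j), inner_gr, inv_inv]
  have h2 := (inner_pr_of_const (D.x_add j) fun s hs => hS.inner_neg j huE huE hs).2 χ hχ
  rw [← inner_pr_pr (D.x_add j), inner_gg, hu, hS.inner_uu hχ hm hmw huE, ← hu,
    inner_self_eq_norm_sq_to_K, inner_self_eq_norm_sq_to_K] at h2
  have h3 : ‖pr (D.x j) χ (D.n j • u)‖ ^ 2 =
      (Fintype.card F : ℝ)⁻¹ * (‖u‖ ^ 2 + (Fintype.card F : ℝ)⁻¹ * ‖u‖ ^ 2) := by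
    apply Complex.ofReal_injective
    push_cast
    erw [h2]
    simp
  have h4 : ‖u‖ ^ 2 ≤ ‖pr (D.x j) χ (D.n j • u)‖ * ‖m‖ := by
    have := norm_inner_le_norm (𝕜 := ℂ) (pr (D.x j) χ (D.n j • u)) m
    rw [← h1, inner_self_eq_norm_sq_to_K] at this
    simpa using this
  rcases (norm_nonneg u).eq_or_lt with e | e
  · rw [← e]; simp only [ne_eq, OfNat.ofNat_ne_zero, not_false_eq_true, zero_pow, zero_mul]
    positivity
  · have h5 : (‖u‖ ^ 2) ^ 2 ≤ (‖pr (D.x j) χ (D.n j • u)‖ * ‖m‖) ^ 2 := by gcongr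
    rw [mul_pow, h3] at h5
    have h6 : ‖u‖ ^ 2 * (‖u‖ ^ 2 * (Fintype.card F : ℝ) ^ 2) ≤
        ‖u‖ ^ 2 * (‖m‖ ^ 2 * (Fintype.card F + 1)) := by
      have := mul_le_mul_of_nonneg_right h5 (sq_nonneg (Fintype.card F : ℝ))
      refine le_trans (le_of_eq (by ring)) (this.trans (le_of_eq ?_))
      field_simp
    exact le_of_mul_le_mul_left h6 (pow_pos e 2)

theorem St.gram (hS : R.St) {i j : I} (a : D.adj i j) (hi : R.Ex i) {χ χ' : AddChar F ℂ}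
    (hχ : χ ≠ 0) (hχ' : χ' ≠ 0) {m m' : M} (hm : m ∈ R.Y1 i) (hmw : Wt (D.x i) χ m) (hm0 : m ≠ 0)
    (hm' : m' ∈ R.Y1 j) (hmw' : Wt (D.x j) χ' m') (hm0' : m' ≠ 0) :
    2 * ‖⟪uu D i m, uu D j m'⟫_ℂ‖ < ‖uu D i m‖ * ‖uu D j m'‖ := by
  set u := uu D j m' with hu
  set w := uu D i m with hw
  have huE : u ∈ R.E := R.uu_mem hm'
  have hu0 : 0 < ‖u‖ := norm_pos_iff.2 (R.uu_ne_zero a hi hχ' hm' hmw' hm0')
  have hw0 : 0 < ‖w‖ :=
    norm_pos_iff.2 (R.uu_ne_zero (D.adj_symm a) (hi.adj R a) hχ hm hmw hm0)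
  set q : ℝ := (Fintype.card F : ℝ) with hqd
  have hq : 2 ≤ q := by rw [hqd]; exact_mod_cast Fintype.one_lt_card
  obtain ⟨g, hg, hk⟩ := R.key a hi hχ' hm' hmw'
  rw [← hu, hS.H0 hg huE] at hk
  have hn := hS.norm_uu hχ' hm' hmw'
  rw [← hu] at hn
  have hp : pr (D.x i) 0 (D.n i • u) ∈ R.E := R.pr_mem_E (R.Y1_n i (R.E_Y1 huE i))
  set z := u + (Fintype.card F : ℂ) • pr (D.x i) 0 (D.n i • u) with hz
  have hzE : z ∈ R.E := R.E.add_mem huE (R.E.smul_mem _ hp)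
  have hzn : D.n i • z = z := hS.fixed i huE
  have hwz : ⟪z, w⟫_ℂ = 0 := inner_uu_of_fixed hχ hmw (R.E_fx hzE i) hzn
  have h1 : ⟪z, z⟫_ℂ = ((q : ℂ) + 1) * ⟪z, u⟫_ℂ := by
    conv_lhs => enter [3]; rw [hz]
    rw [inner_add_right, inner_smul_right, inner_pr_of_fx (D.x_add i) (R.E_fx hzE i),
      ← hS.inner_n_symm i hzE, hzn, hqd]
    push_cast; ring
  have h2 : ⟪u, z⟫_ℂ = ⟪u, u⟫_ℂ + q * ⟪u, D.n i • u⟫_ℂ := by
    rw [hz, inner_add_right, inner_smul_right, inner_pr_of_fx (D.x_add i) (R.E_fx huE i), hqd]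
    push_cast; ring
  have hq1 : (q : ℂ) + 1 ≠ 0 := by exact_mod_cast (by linarith : q + 1 ≠ 0)
  have hq0 : (q : ℂ) ≠ 0 := by exact_mod_cast (by linarith : q ≠ 0)
  have h3 : ⟪z, u⟫_ℂ = ((‖z‖ ^ 2 / (q + 1) : ℝ) : ℂ) := by
    rw [inner_self_eq_norm_sq_to_K] at h1
    push_cast
    rw [eq_div_iff hq1, mul_comm, ← h1]; rfl
  have h3' : ⟪u, z⟫_ℂ = ((‖z‖ ^ 2 / (q + 1) : ℝ) : ℂ) := by
    rw [← inner_conj_symm, h3, Complex.conj_ofReal]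
  have h4 : ⟪u, D.n i • u⟫_ℂ = (((‖z‖ ^ 2 / (q + 1) - ‖u‖ ^ 2) / q : ℝ) : ℂ) := by
    rw [h3', inner_self_eq_norm_sq_to_K] at h2
    rw [Complex.ofReal_div, Complex.ofReal_sub, h2, eq_div_iff hq0]
    push_cast
    erw [add_sub_cancel_left]
    ring
  rw [h4, Complex.norm_real, Real.norm_eq_abs, abs_div, abs_of_pos (by linarith : 0 < q),
    div_le_div_iff_of_pos_right (by linarith)] at hk
  set p := ‖z‖ ^ 2 / (q + 1) with hpd
  have hp0 : 0 ≤ p := by positivity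
  have h5 : ‖u‖ ^ 2 * q ^ 2 ≤ (p - ‖u‖ ^ 2) * (q + 1) := by
    have h6 : ‖u‖ ^ 2 * q ^ 2 ≤ |p - ‖u‖ ^ 2| * (q + 1) := hn.trans (by gcongr)
    rcases abs_cases (p - ‖u‖ ^ 2) with ⟨e, -⟩ | ⟨e, -⟩
    · rwa [e] at h6
    · rw [e] at h6
      have : 0 < ‖u‖ ^ 2 := by positivity
      nlinarith [mul_nonneg hp0 (by linarith : 0 ≤ q + 1), mul_pos this (by nlinarith : 0 < q ^ 2 - q - 1)]
  -- Bessel
  set y := u - ((q + 1 : ℝ) : ℂ)⁻¹ • z with hy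
  have h7 : ⟪w, u⟫_ℂ = ⟪w, y⟫_ℂ := by
    rw [hy, inner_sub_right, inner_smul_right, ← inner_conj_symm w z, hwz]; simp
  have h8 : ‖y‖ ^ 2 = ‖u‖ ^ 2 - p / (q + 1) := by
    apply Complex.ofReal_injective
    have : ⟪y, y⟫_ℂ = ⟪u, u⟫_ℂ - (p : ℂ) / (q + 1) := by
      rw [hy, inner_sub_left, inner_sub_right, inner_sub_right, inner_smul_left, inner_smul_left,
        inner_smul_right, inner_smul_right, h1, h3, h3']
      simp only [map_inv₀, Complex.conj_ofReal]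
      push_cast
      field_simp
      ring
    rw [inner_self_eq_norm_sq_to_K, inner_self_eq_norm_sq_to_K] at this
    push_cast
    exact this
  have h9 : 4 * ‖y‖ ^ 2 < ‖u‖ ^ 2 := by
    have : 0 < ‖u‖ ^ 2 := by positivity
    have h10 : ‖y‖ ^ 2 * (q + 1) ^ 2 = ‖u‖ ^ 2 * (q + 1) ^ 2 - p * (q + 1) := by
      rw [h8]; field_simp
    have h11 : ‖y‖ ^ 2 * (q + 1) ^ 2 ≤ ‖u‖ ^ 2 * q := by nlinarith
    have h12 : 4 * ‖y‖ ^ 2 * (q + 1) ^ 2 < ‖u‖ ^ 2 * (q + 1) ^ 2 := by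
      nlinarith [mul_pos this (by nlinarith : 0 < (q - 1) ^ 2)]
    exact lt_of_mul_lt_mul_right h12 (by positivity)
  have h10 : 2 * ‖y‖ < ‖u‖ := by
    by_contra! h
    nlinarith [norm_nonneg y]
  rw [h7]
  have := norm_inner_le_norm (𝕜 := ℂ) w y
  nlinarith

/-- The result if the torus acts trivially. -/
theorem St.card_le [Fintype I] [DecidableRel D.adj] [FiniteDimensional ℂ M] (hS : R.St)
    (hex : ∀ i, R.Ex i) (w : I → ℝ) (hw : ∀ i, 0 < w i)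
    (hw' : ∀ i, ∑ j with D.adj i j, w j ≤ 2 * w i) : Fintype.card I ≤ finrank ℂ R.E := by
  obtain ⟨χ, hχ⟩ : ∃ χ : AddChar F ℂ, χ ≠ 0 := by
    have : Nontrivial (AddChar F ℂ) := by
      rw [← Fintype.one_lt_card_iff_nontrivial, AddChar.card_eq]; exact Fintype.one_lt_card
    exact exists_ne 0
  choose m hm hm0 hmw using fun i => hex i χ hχ
  refine card_le_finrank_of_gram D.adj w hw hw' (fun i => uu D i (m i)) (fun i => R.uu_mem (hm i))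
    (fun i => ?_) (fun i j e na => R.inner_uu_non e na hχ hχ (hm i) (hmw i) (hmw j)) D.adj_irrefl
    fun i j a => hS.gram a (hex i) hχ hχ (hm i) (hmw i) (hm0 i) (hm j) (hmw j) (hm0 j)
  obtain ⟨j, a⟩ := D.nb i
  exact R.uu_ne_zero (D.adj_symm a) (hex j) hχ (hm i) (hmw i) (hm0 i)

theorem St.exists_neg (hS : R.St) (hex : ∀ i, R.Ex i) (i : I) : ∃ u ∈ R.E, u ≠ 0 ∧ ∀ s ≠ 0,
    ⟪u, ((D.n i)⁻¹ * D.x i s * D.n i) • u⟫_ℂ = -(Fintype.card F : ℂ)⁻¹ * ⟪u, u⟫_ℂ := by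
  obtain ⟨χ, hχ⟩ : ∃ χ : AddChar F ℂ, χ ≠ 0 := by
    have : Nontrivial (AddChar F ℂ) := by
      rw [← Fintype.one_lt_card_iff_nontrivial, AddChar.card_eq]; exact Fintype.one_lt_card
    exact exists_ne 0
  obtain ⟨m, hm, hm0, hmw⟩ := hex i χ hχ
  obtain ⟨j, a⟩ := D.nb i
  refine ⟨uu D i m, R.uu_mem hm, R.uu_ne_zero (D.adj_symm a) (hex j) hχ hm hmw hm0, fun s hs => ?_⟩
  rw [mul_smul, mul_smul, inner_gr, inv_inv, hS.inner_neg i (R.uu_mem hm) (R.uu_mem hm) hs,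
    hS.inner_uu hχ hm hmw (R.uu_mem hm)]

end RD

end Cfsg.Agent.H33.MR
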