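import Cfsg.Agent.H33.MinRep2

/-! The characters of the torus on the vectors fixed by a Sylow subgroup. -/

set_option autoImplicit false
set_option linter.unusedSectionVars false

namespace Cfsg.Agent.H33.MR

open scoped InnerProductSpace ComplexConjugate
open Module Finset

variable {G M F I : Type*} [Group G] [NormedAddCommGroup M] [InnerProductSpace ℂ M]
  [DistribMulAction G M] [UA G M] [Field F]

theorem inner_eq_zero_of_eigen {g : G} {v w : M} {a b : ℂ} (hv : g • v = a • v) (hw : g • w = b • w)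
    (hab : a ≠ b) : ⟪v, w⟫_ℂ = 0 := by
  by_cases h0 : v = 0
  · simp [h0]
  have h1 := inner_gg g v v
  have h2 := inner_gg g v w
  rw [hv, inner_smul_left, inner_smul_right, ← mul_assoc] at h1
  rw [hv, hw, inner_smul_left, inner_smul_right, ← mul_assoc] at h2
  have h3 : conj a * a = 1 := mul_right_cancel₀ (inner_self_ne_zero.2 h0) (by rw [h1, one_mul])
  by_contra h
  have h4 : conj a * b = 1 := mul_right_cancel₀ h (by rw [h2, one_mul])
  exact hab (mul_left_cancel₀ (left_ne_zero_of_mul_eq_one h3) (h3.trans h4.symm))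

namespace RD

variable {D : HD G F I} (R : RD D M) [Finite G] [Fintype F]

/-- The characters of the torus that occur. -/
def Th (θ : I → Fˣ → ℂ) : Prop := ∃ v ∈ R.E, v ≠ 0 ∧ ∀ i t, D.h i t • v = θ i t • v

theorem exists_Th (hS : ¬ R.St) : ∃ θ, R.Th θ ∧ ∃ i t, θ i t ≠ 1 := by
  classical
  simp only [St, not_forall] at hS
  obtain ⟨i, t, v, hv, hne⟩ := hS
  have hc : IsMulCommutative D.H0 := Subgroup.isMulCommutative_closure (by
    rintro _ ⟨i, s, rfl⟩ _ ⟨j, t, rfl⟩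
    exact D.h_comm i j s t)
  letI : CommGroup D.H0 := { (inferInstance : Group D.H0) with mul_comm := hc.is_comm.comm }
  haveI := Fintype.ofFinite (Additive D.H0)
  let X : Additive D.H0 → G := fun a => (Additive.toMul a : D.H0)
  have hX : IsAdd X := fun _ _ => rfl
  by_contra! h
  apply hne
  rw [← sum_pr hX v, Finset.smul_sum]
  refine Finset.sum_congr rfl fun χ _ => ?_
  by_cases h0 : pr X χ v = 0
  · rw [h0, smul_zero]
  · have h1 : ∀ j s, D.h j s • pr X χ v = χ (Additive.ofMul ⟨D.h j s, D.h_mem j s⟩) • pr X χ v :=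
      fun j s => pr_wt hX χ v (Additive.ofMul ⟨D.h j s, D.h_mem j s⟩)
    rw [h1, h (fun j s => χ (Additive.ofMul ⟨D.h j s, D.h_mem j s⟩))
      ⟨_, pr_mem fun a => R.H0_E (Additive.toMul a).2 hv, h0, h1⟩ i t, one_smul]

variable {R}

theorem Th.mul {θ : I → Fˣ → ℂ} (h : R.Th θ) (i : I) (s t : Fˣ) : θ i (s * t) = θ i s * θ i t := by
  obtain ⟨v, -, h0, hv⟩ := h
  have := hv i (s * t)
  rw [D.h_mul, mul_smul, hv, gcs, hv, smul_smul, mul_comm] at this
  exact (smul_left_injective ℂ h0 this).symm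

theorem Th.one {θ : I → Fˣ → ℂ} (h : R.Th θ) (i : I) : θ i 1 = 1 := by
  obtain ⟨v, -, h0, hv⟩ := h
  have := hv i 1
  rw [D.h_one, one_smul] at this
  exact smul_left_injective ℂ h0 (by simpa using this.symm)

theorem Th.mul_inv {θ : I → Fˣ → ℂ} (h : R.Th θ) (i : I) (t : Fˣ) : θ i t * θ i t⁻¹ = 1 := by
  rw [← h.mul, mul_inv_cancel, h.one]

theorem eigen_H0 {θ : I → Fˣ → ℂ} {v : M} (hv : ∀ i t, D.h i t • v = θ i t • v) {g : G}
    (hg : g ∈ D.H0) : ∃ c : ℂ, g • v = c • v := by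
  refine D.H0_induction (p := fun g => ∃ c : ℂ, g • v = c • v) ⟨1, by simp⟩ ?_ hg
  rintro i t g ⟨c, hc⟩
  exact ⟨c * θ i t, by rw [mul_smul, hc, gcs, hv, smul_smul]⟩

theorem uu_ne_zero_of_eigen {θ : I → Fˣ → ℂ} {v : M} (hE : v ∈ R.E) (h0 : v ≠ 0)
    (hv : ∀ i t, D.h i t • v = θ i t • v) (i : I) : uu D i v ≠ 0 := by
  intro h
  obtain ⟨c, hc⟩ := eigen_H0 hv (D.n_sq_mem i)
  have h1 : pr (D.x i) 0 (D.n i • v) = 0 := by
    have : D.n i • v = c • (D.n i)⁻¹ • v := by
      rw [← gcs, ← hc, mul_smul, inv_smul_smul]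
    rw [uu] at h
    rw [this, pr_csmul, h, smul_zero]
  have h2 : ⟪v, D.n i • v⟫_ℂ = 0 := by
    rw [← inner_pr_of_fx (D.x_add i) (R.E_fx hE i), h1, inner_zero_right]
  have h3 := (inner_pr_of_const (D.x_add i) (v := D.n i • v) (w := D.n i • v) (a := 0)
    fun s hs => by
      obtain ⟨t, r, r', ht⟩ := D.sl2' i s hs
      rw [inner_gl, ← mul_smul, ← mul_smul, ht, mul_smul, mul_smul, mul_smul, R.E_fx hE, hv,
        inner_gr, ← (D.x_add i).neg, R.E_fx hE, gcs, inner_smul_right, h2, mul_zero]).1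
  rw [h1, inner_zero_right, mul_zero, add_zero, inner_gg] at h3
  exact mul_ne_zero (inv_ne_zero card_ne) (inner_self_ne_zero.2 h0) h3.symm

theorem Th.step {θ θ' : I → Fˣ → ℂ} (h : R.Th θ) (i : I) (h1 : ∀ t, θ' i t = θ i t⁻¹)
    (h2 : ∀ j, D.adj i j → ∀ t, θ' j t = θ j t * θ i t)
    (h3 : ∀ j, i ≠ j → ¬ D.adj i j → ∀ t, θ' j t = θ j t) : R.Th θ' := by
  obtain ⟨v, hE, h0, hv⟩ := h
  refine ⟨uu D i v, R.uu_mem (R.E_Y1 hE i), uu_ne_zero_of_eigen hE h0 hv i, fun j t => ?_⟩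
  obtain ⟨u, hu⟩ := D.h_x i j t
  rw [uu, smul_pr_zero (Equiv.mulLeft₀ (u : F) u.ne_zero) hu, ← pr_csmul]
  congr 1
  rw [← gcs, eq_inv_smul_iff, ← mul_smul, ← mul_smul]
  by_cases e : i = j
  · subst e; rw [D.n_h_self, mul_inv_cancel_right, hv, h1]
  · by_cases a : D.adj i j
    · rw [D.n_h_adj a, mul_inv_cancel_right, mul_smul, hv, gcs, hv, smul_smul, h2 j a, mul_comm]
    · rw [D.n_h_non e a, mul_inv_cancel_right, hv, h3 j e a]

open Classical in
/-- The action of a simple reflection on the characters. -/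
noncomputable def refl (D : HD G F I) (i : I) (θ : I → Fˣ → ℂ) : I → Fˣ → ℂ := fun j t =>
  if i = j then θ i t⁻¹ else if D.adj i j then θ j t * θ i t else θ j t

theorem refl_self (i : I) (θ : I → Fˣ → ℂ) (t : Fˣ) : refl D i θ i t = θ i t⁻¹ := by simp [refl]

theorem refl_adj {i j : I} (a : D.adj i j) (θ : I → Fˣ → ℂ) (t : Fˣ) :
    refl D i θ j t = θ j t * θ i t := by simp [refl, a, D.ne_of_adj a]

theorem Th.refl {θ : I → Fˣ → ℂ} (h : R.Th θ) (i : I) : R.Th (refl D i θ) :=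
  h.step i (refl_self i θ) (fun _ a => refl_adj a θ) fun j e a t => by simp [RD.refl, e, a]

theorem Th.non {θ : I → Fˣ → ℂ} (h : R.Th θ) {i l : I} (e : i ≠ l) (na : ¬ D.adj i l) {s : Fˣ}
    (hs : θ i s ≠ 1) (t : Fˣ) : θ l t = 1 := by
  obtain ⟨v, hE, h0, hv⟩ := h
  have h1 : ¬ Fx (D.x i) (D.n i • v) := fun h => hs (smul_left_injective ℂ h0 (by
    simpa [hv] using (fixed_of_fx (R.E_fx hE i) h).1 s))
  obtain ⟨χ, hχ, hp⟩ := exists_pr_ne_zero' (D.x_add i) h1
  have h2 := (R.fixed_non e na hχ (pr_mem fun t => R.Y1_x i t (R.Y1_n i (R.E_Y1 hE i)))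
    (pr_wt (D.x_add i) χ _)).1 t
  rw [smul_pr_of_comm (D.h_x_non e na t), ← mul_smul, ← D.n_h_non e na, mul_smul, hv, gcs,
    pr_csmul] at h2
  exact smul_left_injective ℂ hp (by simpa using h2)

theorem card_le_of_Th [FiniteDimensional ℂ M] {κ : Type*} [Fintype κ] (θ : κ → I → Fˣ → ℂ)
    (h : ∀ k, R.Th (θ k)) (hinj : Function.Injective θ) : Fintype.card κ ≤ finrank ℂ R.E := by
  classical
  choose v hE h0 hv using h
  refine card_le_finrank_of_gram (fun _ _ => False) (fun _ => 1) (fun _ => one_pos) (by simp) v hE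
    h0 (fun k l e _ => ?_) (by simp) (by simp)
  obtain ⟨i, hi⟩ := Function.ne_iff.1 (hinj.ne e)
  obtain ⟨t, ht⟩ := Function.ne_iff.1 hi
  exact inner_eq_zero_of_eigen (hv k i t) (hv l i t) ht

variable (R) in
/-- If the diagram has a branch point, then the torus acts trivially. -/
theorem st_of_branch (c l₁ l₂ l₃ : I) (a₁ : D.adj c l₁) (a₂ : D.adj c l₂) (a₃ : D.adj c l₃)
    (e₁₂ : l₁ ≠ l₂) (e₁₃ : l₁ ≠ l₃) (e₂₃ : l₂ ≠ l₃) (n₁₂ : ¬ D.adj l₁ l₂) (n₁₃ : ¬ D.adj l₁ l₃)
    (n₂₃ : ¬ D.adj l₂ l₃) (d : I → ℕ) (hd : ∀ i, i ≠ c → ∃ j, D.adj i j ∧ d j < d i) : R.St := by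
  have key : ∀ (k : ℕ) (i : I), d i = k → ∀ θ, R.Th θ → ∀ t, θ i t = 1 := by
    intro k
    induction k using Nat.strong_induction_on with
    | _ k ih =>
      intro i hi θ hθ t
      by_cases e : i = c
      · subst e
        by_contra hne
        have two : ∀ {a b : I}, D.adj i a → D.adj i b → a ≠ b → ¬ D.adj a b →
            θ a t = 1 → θ b t = 1 → False := fun {a b} ha hb hab nab h1 h2 => by
          have := (hθ.refl i).non hab nab (s := t) (by rwa [refl_adj ha, h1, one_mul]) t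
          rw [refl_adj hb, h2, one_mul] at this
          exact hne this
        by_cases h1 : θ l₁ t = 1
        · by_cases h2 : θ l₂ t = 1
          · exact two a₁ a₂ e₁₂ n₁₂ h1 h2
          · exact two a₁ a₃ e₁₃ n₁₃ h1 (hθ.non e₂₃ n₂₃ h2 t)
        · exact two a₂ a₃ e₂₃ n₂₃ (hθ.non e₁₂ n₁₂ h1 t) (hθ.non e₁₃ n₁₃ h1 t)
      · obtain ⟨j, a, hj⟩ := hd i e
        have h1 := ih _ (hi ▸ hj) j rfl _ (hθ.refl i) t
        rwa [refl_adj a, ih _ (hi ▸ hj) j rfl _ hθ t, one_mul] at h1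
  by_contra h
  obtain ⟨θ, hθ, i, t, ht⟩ := R.exists_Th h
  exact ht (key _ i rfl θ hθ t)

variable (R) in
theorem two_le_of_not_st [FiniteDimensional ℂ M] (hS : ¬ R.St) : 2 ≤ finrank ℂ R.E := by
  obtain ⟨θ, hθ, i, t, ht⟩ := R.exists_Th hS
  obtain ⟨j, a⟩ := D.nb i
  have := card_le_of_Th (κ := Fin 2) ![θ, refl D i θ] (fun k => by
    fin_cases k
    · exact hθ
    · exact hθ.refl i) (by
    have hne : θ ≠ refl D i θ := fun e => by
      have h1 := congrFun (congrFun e j) t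
      rw [refl_adj a] at h1
      exact ht (mul_left_cancel₀ (left_ne_zero_of_mul_eq_one (hθ.mul_inv j t))
        (by rw [← h1, mul_one]))
    intro k l
    fin_cases k <;> fin_cases l <;> simp [hne, hne.symm])
  simpa using this

end RD

/-- The characters in the orbit for a linear diagram. -/
def pat {r : ℕ} (χ : Fˣ → ℂ) (p : ℕ) : Fin r → Fˣ → ℂ := fun i t =>
  if (i : ℕ) = p then χ t else if (i : ℕ) + 1 = p then χ t⁻¹ else 1

theorem RD.succ_le_of_not_st {r : ℕ} {D : HD G F (Fin r)} (R : RD D M) [Finite G] [Fintype F]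
    [FiniteDimensional ℂ M] (hr : 2 ≤ r)
    (hadj : ∀ i j, D.adj i j ↔ (i : ℕ) + 1 = j ∨ (j : ℕ) + 1 = i) (hS : ¬ R.St)
    (h2 : 3 ≤ r ∨ ∀ θ, R.Th θ → ∀ i t, θ i t * θ i t = 1) : r + 1 ≤ finrank ℂ R.E := by
  set i0 : Fin r := ⟨0, by omega⟩
  set i1 : Fin r := ⟨1, by omega⟩
  have a01 : D.adj i0 i1 := (hadj _ _).2 (Or.inl rfl)
  have k0 : ∀ (k : ℕ) (i : Fin r), (i : ℕ) = k → ∀ θ, R.Th θ → (∃ t, θ i t ≠ 1) →
      ∃ θ', R.Th θ' ∧ ∃ t, θ' i0 t ≠ 1 := by
    intro k
    induction k with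
    | zero => intro i hi θ hθ h; exact ⟨θ, hθ, by rwa [show i0 = i from Fin.ext hi.symm]⟩
    | succ k ih =>
      rintro i hi θ hθ ⟨t, ht⟩
      set j : Fin r := ⟨k, by omega⟩
      by_cases h : θ j t = 1
      · refine ih j rfl _ (hθ.refl i) ⟨t, ?_⟩
        rwa [RD.refl_adj ((hadj _ _).2 (Or.inr (by simp [j, hi]))), h, one_mul]
      · exact ih j rfl θ hθ ⟨t, h⟩
  obtain ⟨θ₁, hθ₁, i, hi⟩ := R.exists_Th hS
  obtain ⟨θ, hθ, t, ht⟩ := k0 _ i rfl θ₁ hθ₁ hi
  have k1 : ∀ θ, R.Th θ → (∃ t, θ i0 t ≠ 1) → (∀ t, θ i1 t = 1) → θ = pat (θ i0) 0 := by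
    rintro θ hθ ⟨t, ht⟩ h1
    funext i s
    by_cases e : (i : ℕ) = 0
    · rw [pat, if_pos e, show i = i0 from Fin.ext e]
    · simp only [pat, e, if_false, Nat.add_eq_zero_iff, one_ne_zero, and_false]
      by_cases e' : (i : ℕ) = 1
      · rw [show i = i1 from Fin.ext e', h1]
      · exact hθ.non (fun h => e (by rw [← h])) (by rw [hadj]; simp [i0]; omega) ht s
  obtain ⟨χ, hχ, t, ht⟩ : ∃ χ : Fˣ → ℂ, R.Th (pat χ 0) ∧ ∃ t, χ t ≠ 1 := by
    by_cases h1 : ∀ t, θ i1 t = 1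
    · exact ⟨θ i0, k1 θ hθ ⟨t, ht⟩ h1 ▸ hθ, t, ht⟩
    push Not at h1
    obtain ⟨s, hs⟩ := h1
    have h3 : ∀ u, θ i1 u * θ i0 u = 1 := by
      rcases h2 with h2 | h2
      · set i2 : Fin r := ⟨2, by omega⟩
        have e : i2 ≠ i0 := by simp [i2, i0]
        have na : ¬ D.adj i2 i0 := by rw [hadj]; simp [i2, i0]
        intro u
        have := (hθ.refl i1).non e na (s := s) (by
          rwa [RD.refl_adj ((hadj _ _).2 (Or.inl rfl)),
            hθ.non e.symm (fun a => na (D.adj_symm a)) ht, one_mul]) u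
        rwa [RD.refl_adj (D.adj_symm a01), mul_comm] at this
      · obtain ⟨g, hg⟩ := IsCyclic.exists_monoid_generator (α := Fˣ)
        have k : ∀ i, (∃ t, θ i t ≠ 1) → ∀ m : ℕ, θ i (g ^ m) = (-1) ^ m := by
          rintro i ⟨t, ht⟩
          have hp : ∀ m : ℕ, θ i (g ^ m) = θ i g ^ m := fun m => by
            induction m with
            | zero => simpa using hθ.one i
            | succ m ih => rw [pow_succ, hθ.mul, ih, pow_succ]
          rcases mul_self_eq_one_iff.1 (h2 θ hθ i g) with e | e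
          · obtain ⟨m, rfl⟩ := hg t
            exact absurd (by simp only; rw [hp, e, one_pow]) ht
          · intro m; rw [hp, e]
        intro u
        obtain ⟨m, rfl⟩ := hg u
        simp only
        rw [k i1 ⟨s, hs⟩, k i0 ⟨t, ht⟩, ← mul_pow]; simp
    have h4 : ∃ t, RD.refl D i0 θ i0 t ≠ 1 := ⟨t⁻¹, by rwa [RD.refl_self, inv_inv]⟩
    exact ⟨_, k1 _ (hθ.refl i0) h4 (fun u => by rw [RD.refl_adj a01, h3]) ▸ hθ.refl i0, h4⟩
  have hχ1 : ∀ t, χ t⁻¹ * χ t = 1 := fun t => by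
    have := hχ.mul_inv i0 t⁻¹
    simpa [pat, i0] using this
  have k2 : ∀ p ≤ r, R.Th (pat χ p) := by
    intro p hp
    induction p with
    | zero => exact hχ
    | succ p ih =>
      refine (ih (by omega)).step ⟨p, by omega⟩ (fun t => by simp [pat]) (fun j a t => ?_)
        fun j e a t => ?_
      · rcases (hadj _ _).1 a with h | h
        · simp only at h
          simp [pat, ← h, show p + 1 + 1 ≠ p by omega]
        · simp only at h
          simp [pat, ← h, hχ1, show (j : ℕ) ≠ j + 1 + 1 by omega]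
      · rw [hadj] at a
        have e' : p ≠ j := fun h => e (Fin.ext h)
        simp only at a
        simp only [pat]
        rw [if_neg (by omega), if_neg (by omega), if_neg (by omega), if_neg (by omega)]
  have ht' : χ t⁻¹ ≠ 1 := fun h => ht (by simpa [h] using hχ1 t)
  have := RD.card_le_of_Th (κ := Fin (r + 1)) (fun p => pat χ p) (fun p => k2 p (by omega)) (by
    have k3 : ∀ p p' : ℕ, p < p' → p' ≤ r → (pat χ p : Fin r → _) ≠ pat χ p' := by
      intro p p' h h' e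
      by_cases h1 : p + 1 = p'
      · rcases Nat.eq_zero_or_pos p with h0 | h0
        · have := congrFun (congrFun e i1) t
          simp [pat, i1, h0, ← h1] at this
          exact ht this.symm
        · have := congrFun (congrFun e ⟨p - 1, by omega⟩) t
          simp only [pat] at this
          rw [if_neg (by omega), if_pos (by omega), if_neg (by omega), if_neg (by omega)] at this
          exact ht' this
      · have := congrFun (congrFun e ⟨p, by omega⟩) t
        simp only [pat] at this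
        rw [if_pos trivial, if_neg (by omega), if_neg (by omega)] at this
        exact ht this
    intro p p' e
    rcases lt_trichotomy (p : ℕ) p' with h | h | h
    · exact absurd e (k3 _ _ h (by omega))
    · exact Fin.ext h
    · exact absurd e.symm (k3 _ _ h (by omega)))
  simpa using this

end Cfsg.Agent.H33.MR
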