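import Cfsg.Agent.H33.MinRep3
import Cfsg.Agent.H33.OrthDeg1

/-! Long root elements of orthogonal groups. -/

set_option autoImplicit false
set_option linter.unusedSectionVars false

namespace Cfsg.Agent.H33.MR

open Cfsg.Agent.H30 Cfsg.Agent.H33.OD QuadraticMap Module Finset

variable {F V : Type*} [Field F] [AddCommGroup V] [Module F V] {Q : QuadraticForm F V}

theorem g_ext {g k : eichGroup Q} (h : ∀ v : V, g • v = k • v) : g = k :=
  Subtype.ext (O_ext h)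

theorem T_add_left {p p' w : V} (hp : Q p = 0) (hp' : Q p' = 0) (h : polar Q p p' = 0)
    (hw : polar Q p w = 0) (hw' : polar Q p' w = 0) :
    T Q (p + p') w = T Q p (-Q w • p') * T Q p w * T Q p' w := by
  refine g_ext fun v => ?_
  have h1 : Q (p + p') = 0 := by rw [Q_add, hp, hp', h]; simp
  have h2 : polar Q (p + p') w = 0 := by rw [polar_add_left, hw, hw', add_zero]
  have h3 : polar Q p (-Q w • p') = 0 := by rw [polar_smul_right', h, mul_zero]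
  have h4 : polar Q w p = 0 := by rw [polar_comm, hw]
  have h5 : polar Q w p' = 0 := by rw [polar_comm, hw']
  have h6 : polar Q p' p = 0 := by rw [polar_comm, h]
  rw [mul_smul, mul_smul, T_smul h1 h2, T_smul hp h3, T_smul hp hw, T_smul hp' hw']
  simp only [polar_add_left, polar_sub_left, polar_smul_left', polar_add_right, polar_smul_right',
    h, hw, hw', h4, h5, h6, polar_self_zero hp, polar_self_zero hp', polar_self', Q_smul, hp, hp']
  module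

theorem T_of_not {x u : V} (h : ¬ (Q x = 0 ∧ polar Q x u = 0)) : T Q x u = 1 :=
  Subtype.ext (eich_of_not h)

theorem comm_T {g : eichGroup Q} {x u : V} (h1 : g • x = x) (h2 : g • u = u) :
    g * T Q x u = T Q x u * g := by rw [mul_T, h1, h2]

theorem T_neg_left (x u : V) : T Q (-x) u = T Q x (-u) := by
  rw [← neg_one_smul F x, T_smul_left (by simp), neg_one_smul]

theorem T_swap' {x u : V} (hx : Q x = 0) (hu : Q u = 0) (t : F) :
    T Q x (t • u) = T Q u ((-t) • x) := by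
  by_cases ht : t = 0
  · simp [ht, T_zero]
  · rw [T_swap hx (by rw [Q_smul, hu, mul_zero]), T_smul_left ht, smul_neg, neg_smul]

variable (Q) in
/-- Two orthogonal hyperbolic pairs. -/
structure Fr2 (x x' y y' : V) : Prop where
  hx : IsHyp Q x x'
  hy : IsHyp Q y y'
  o1 : polar Q x y = 0
  o2 : polar Q x y' = 0
  o3 : polar Q x' y = 0
  o4 : polar Q x' y' = 0

variable (Q) in
/-- The Weyl group element. -/
noncomputable def nn (x x' y y' : V) (t : F) : eichGroup Q :=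
  T Q x (t • y') * T Q y ((-t⁻¹) • x') * T Q x (t • y')

variable (Q) in
/-- The torus element. -/
noncomputable def hh (x x' y y' : V) (t : Fˣ) : eichGroup Q :=
  nn Q x x' y y' t * (nn Q x x' y y' 1)⁻¹

namespace Fr2

variable {x x' y y' : V} (h : Fr2 Q x x' y y')
include h

theorem symm : Fr2 Q y y' x x' :=
  ⟨h.hy, h.hx, by rw [polar_comm, h.o1], by rw [polar_comm, h.o3], by rw [polar_comm, h.o2],
    by rw [polar_comm, h.o4]⟩

theorem swapR : Fr2 Q x x' y' y := ⟨h.hx, h.hy.symm, h.o2, h.o1, h.o4, h.o3⟩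

theorem swapL : Fr2 Q x' x y y' := ⟨h.hx.symm, h.hy, h.o3, h.o4, h.o1, h.o2⟩

theorem xp_smul (t : F) (v : V) :
    T Q x (t • y') • v = v + (polar Q v x * t) • y' - (polar Q v y' * t) • x := by
  rw [T_smul h.hx.left (by rw [polar_smul_right', h.o2, mul_zero]), Q_smul, h.hy.right,
    polar_smul_right']
  module

theorem nn_smul {t : F} (ht : t ≠ 0) (v : V) : nn Q x x' y y' t • v =
    v - polar Q v x' • x - polar Q v x • x' - polar Q v y' • y - polar Q v y • y' +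
      (t⁻¹ * polar Q v x') • y - (t * polar Q v y') • x + (t * polar Q v x) • y' -
        (t⁻¹ * polar Q v y) • x' := by
  rw [nn, mul_smul, mul_smul, h.xp_smul, h.symm.xp_smul, h.xp_smul]
  simp only [polar_add_left, polar_sub_left, polar_smul_left', h.o1, h.o2, h.o3, h.o4,
    h.symm.o1, h.symm.o2, h.symm.o3, h.symm.o4, h.hx.pol, h.hy.pol, h.hx.symm.pol, h.hy.symm.pol,
    polar_self_zero h.hx.left, polar_self_zero h.hx.right, polar_self_zero h.hy.left,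
    polar_self_zero h.hy.right]
  match_scalars <;> field_simp <;> ring

theorem nn_x {t : F} (ht : t ≠ 0) : nn Q x x' y y' t • x = t⁻¹ • y := by
  rw [h.nn_smul ht]; simp [h.hx.pol, h.o1, h.o2, polar_self_zero h.hx.left]

theorem nn_y {t : F} (ht : t ≠ 0) : nn Q x x' y y' t • y = -(t • x) := by
  rw [h.nn_smul ht]; simp [h.hy.pol, h.symm.o1, h.symm.o2, polar_self_zero h.hy.left]

theorem nn_x' {t : F} (ht : t ≠ 0) : nn Q x x' y y' t • x' = t • y' := by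
  rw [h.nn_smul ht]; simp [h.hx.symm.pol, h.o3, h.o4, polar_self_zero h.hx.right]

theorem nn_y' {t : F} (ht : t ≠ 0) : nn Q x x' y y' t • y' = -(t⁻¹ • x') := by
  rw [h.nn_smul ht]; simp [h.hy.symm.pol, h.symm.o3, h.symm.o4, polar_self_zero h.hy.right]

theorem nn_perp {t : F} (ht : t ≠ 0) {w : V} (h1 : polar Q w x = 0) (h2 : polar Q w x' = 0)
    (h3 : polar Q w y = 0) (h4 : polar Q w y' = 0) : nn Q x x' y y' t • w = w := by
  rw [h.nn_smul ht]; simp [h1, h2, h3, h4]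

theorem n_x : nn Q x x' y y' 1 • x = y := by rw [h.nn_x one_ne_zero]; simp
theorem n_y : nn Q x x' y y' 1 • y = -x := by rw [h.nn_y one_ne_zero]; simp
theorem n_x' : nn Q x x' y y' 1 • x' = y' := by rw [h.nn_x' one_ne_zero]; simp
theorem n_y' : nn Q x x' y y' 1 • y' = -x' := by rw [h.nn_y' one_ne_zero]; simp

theorem ninv_x : (nn Q x x' y y' 1)⁻¹ • x = -y := by
  rw [inv_smul_eq_iff, gsmul_neg, h.n_y, neg_neg]
theorem ninv_y : (nn Q x x' y y' 1)⁻¹ • y = x := by rw [inv_smul_eq_iff, h.n_x]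
theorem ninv_x' : (nn Q x x' y y' 1)⁻¹ • x' = -y' := by
  rw [inv_smul_eq_iff, gsmul_neg, h.n_y', neg_neg]
theorem ninv_y' : (nn Q x x' y y' 1)⁻¹ • y' = x' := by rw [inv_smul_eq_iff, h.n_x']

theorem hh_x (t : Fˣ) : hh Q x x' y y' t • x = (t : F) • x := by
  rw [hh, mul_smul, h.ninv_x, gsmul_neg, h.nn_y t.ne_zero, neg_neg]
theorem hh_y (t : Fˣ) : hh Q x x' y y' t • y = (t : F)⁻¹ • y := by
  rw [hh, mul_smul, h.ninv_y, h.nn_x t.ne_zero]
theorem hh_x' (t : Fˣ) : hh Q x x' y y' t • x' = (t : F)⁻¹ • x' := by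
  rw [hh, mul_smul, h.ninv_x', gsmul_neg, h.nn_y' t.ne_zero, neg_neg]
theorem hh_y' (t : Fˣ) : hh Q x x' y y' t • y' = (t : F) • y' := by
  rw [hh, mul_smul, h.ninv_y', h.nn_x' t.ne_zero]
theorem hh_perp (t : Fˣ) {w : V} (h1 : polar Q w x = 0) (h2 : polar Q w x' = 0)
    (h3 : polar Q w y = 0) (h4 : polar Q w y' = 0) : hh Q x x' y y' t • w = w := by
  rw [hh, mul_smul, inv_smul_eq_iff.2 (h.nn_perp one_ne_zero h1 h2 h3 h4).symm,
    h.nn_perp t.ne_zero h1 h2 h3 h4]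

theorem decomp (v : V) : ∃ a b c d : F, ∃ w, polar Q w x = 0 ∧ polar Q w x' = 0 ∧
    polar Q w y = 0 ∧ polar Q w y' = 0 ∧ v = a • x + b • x' + c • y + d • y' + w := by
  refine ⟨polar Q v x', polar Q v x, polar Q v y', polar Q v y,
    v - polar Q v x' • x - polar Q v x • x' - polar Q v y' • y - polar Q v y • y',
    ?_, ?_, ?_, ?_, by abel⟩ <;>
  simp only [polar_add_left, polar_sub_left, polar_smul_left', h.o1, h.o2, h.o3, h.o4,
    h.symm.o1, h.symm.o2, h.symm.o3, h.symm.o4, h.hx.pol, h.hy.pol, h.hx.symm.pol, h.hy.symm.pol,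
    polar_self_zero h.hx.left, polar_self_zero h.hx.right, polar_self_zero h.hy.left,
    polar_self_zero h.hy.right] <;> ring

theorem ext2 {g k : eichGroup Q} (h1 : g • x = k • x) (h2 : g • x' = k • x') (h3 : g • y = k • y)
    (h4 : g • y' = k • y') (h5 : ∀ w, polar Q w x = 0 → polar Q w x' = 0 → polar Q w y = 0 →
      polar Q w y' = 0 → g • w = k • w) : g = k := by
  refine g_ext fun v => ?_
  obtain ⟨a, b, c, d, w, w1, w2, w3, w4, rfl⟩ := h.decomp v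
  simp only [gsmul_add, gsmul_smul, h1, h2, h3, h4, h5 w w1 w2 w3 w4]

theorem hh_mul (s t : Fˣ) : hh Q x x' y y' (s * t) = hh Q x x' y y' s * hh Q x x' y y' t := by
  refine h.ext2 ?_ ?_ ?_ ?_ fun w w1 w2 w3 w4 => ?_ <;>
  simp only [mul_smul, gsmul_smul, h.hh_x, h.hh_x', h.hh_y, h.hh_y', h.hh_perp, *] <;>
  simp [smul_smul, mul_comm]

theorem n_hh (t : Fˣ) : nn Q x x' y y' 1 * hh Q x x' y y' t =
    hh Q x x' y y' t⁻¹ * nn Q x x' y y' 1 := by
  refine h.ext2 ?_ ?_ ?_ ?_ fun w w1 w2 w3 w4 => ?_ <;>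
  simp [mul_smul, gsmul_smul, gsmul_neg, h.hh_x, h.hh_x', h.hh_y, h.hh_y', h.n_x, h.n_x', h.n_y,
    h.n_y', h.hh_perp, h.nn_perp, *]

theorem n_sq : nn Q x x' y y' 1 * nn Q x x' y y' 1 = hh Q x x' y y' (-1) := by
  refine h.ext2 ?_ ?_ ?_ ?_ fun w w1 w2 w3 w4 => ?_ <;>
  simp [mul_smul, gsmul_smul, gsmul_neg, h.hh_x, h.hh_x', h.hh_y, h.hh_y', h.n_x, h.n_x', h.n_y,
    h.n_y', h.hh_perp, h.nn_perp, *]

theorem ninv_xp (s : F) : (nn Q x x' y y' 1)⁻¹ * T Q x (s • y') * nn Q x x' y y' 1 =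
    T Q y ((-s) • x') := by
  have := T_conj (nn Q x x' y y' 1)⁻¹ x (s • y')
  rw [inv_inv] at this
  rw [this, gsmul_smul, h.ninv_x, h.ninv_y', T_neg_left, neg_smul]

theorem sl2 (t : Fˣ) : (nn Q x x' y y' 1)⁻¹ * T Q x ((t : F) • y') * nn Q x x' y y' 1 =
    T Q x ((-(t : F)⁻¹) • y') * nn Q x x' y y' 1 * hh Q x x' y y' t * T Q x ((-(t : F)⁻¹) • y') := by
  rw [h.ninv_xp, mul_assoc (T Q x _), h.n_hh, hh, inv_mul_cancel_right, nn, neg_smul _ y',
    ← T_inv]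
  simp [mul_assoc]

theorem xp_add : IsAdd fun t : F => T Q x (t • y') := fun s t => by
  simp only
  rw [T_mul h.hx.left (by rw [polar_smul_right', h.o2, mul_zero])
    (by rw [polar_smul_right', h.o2, mul_zero]), add_smul]

end Fr2

theorem conj_xp {g : eichGroup Q} {x y' : V} {a b : F} (ha : a ≠ 0) (h1 : g • x = a • x)
    (h2 : g • y' = b • y') (s : F) : g * T Q x (s • y') * g⁻¹ = T Q x ((a * b * s) • y') := by
  rw [T_conj, gsmul_smul, h1, h2, T_smul_left ha, smul_smul, smul_smul]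
  congr 2; ring

theorem comm_nn {g : eichGroup Q} {x x' y y' : V} (h1 : ∀ s : F, Commute g (T Q x (s • y')))
    (h2 : ∀ s : F, Commute g (T Q y (s • x'))) (t : F) : Commute g (nn Q x x' y y' t) :=
  ((h1 _).mul_right (h2 _)).mul_right (h1 _)

theorem comm_hh {g : eichGroup Q} {x x' y y' : V} (h1 : ∀ s : F, Commute g (T Q x (s • y')))
    (h2 : ∀ s : F, Commute g (T Q y (s • x'))) (t : Fˣ) : Commute g (hh Q x x' y y' t) :=
  (comm_nn h1 h2 _).mul_right (comm_nn h1 h2 _).inv_right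

variable (Q) in
/-- Three mutually orthogonal hyperbolic pairs. -/
structure Fr3 (a a' b b' c c' : V) : Prop where
  ab : Fr2 Q a a' b b'
  bc : Fr2 Q b b' c c'
  ac : Fr2 Q a a' c c'

namespace Fr3

variable {a a' b b' c c' : V} (h : Fr3 Q a a' b b' c c')
include h

theorem ext3 {g k : eichGroup Q} (h1 : g • a = k • a) (h2 : g • a' = k • a') (h3 : g • b = k • b)
    (h4 : g • b' = k • b') (h5 : g • c = k • c) (h6 : g • c' = k • c')
    (h7 : ∀ w, polar Q w a = 0 → polar Q w a' = 0 → polar Q w b = 0 → polar Q w b' = 0 →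
      polar Q w c = 0 → polar Q w c' = 0 → g • w = k • w) : g = k := by
  refine h.ab.ext2 h1 h2 h3 h4 fun v v1 v2 v3 v4 => ?_
  have : v = polar Q v c' • c + polar Q v c • c' + (v - polar Q v c' • c - polar Q v c • c') := by
    abel
  rw [this]
  simp only [gsmul_add, gsmul_smul, h5, h6]
  congr 1
  apply h7 <;>
  simp [polar_sub_left, polar_smul_left', v1, v2, v3, v4, h.ac.symm.o1, h.ac.symm.o2, h.ac.symm.o3,
    h.ac.symm.o4, h.bc.symm.o1, h.bc.symm.o2, h.bc.symm.o3, h.bc.symm.o4, h.ac.hy.pol,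
    h.ac.hy.symm.pol, polar_self_zero h.ac.hy.left, polar_self_zero h.ac.hy.right]

theorem n1_c : nn Q a a' b b' 1 • c = c :=
  h.ab.nn_perp one_ne_zero h.ac.symm.o1 h.ac.symm.o2 h.bc.symm.o1 h.bc.symm.o2
theorem n1_c' : nn Q a a' b b' 1 • c' = c' :=
  h.ab.nn_perp one_ne_zero h.ac.symm.o3 h.ac.symm.o4 h.bc.symm.o3 h.bc.symm.o4
theorem n2_a : nn Q b b' c c' 1 • a = a :=
  h.bc.nn_perp one_ne_zero h.ab.o1 h.ab.o2 h.ac.o1 h.ac.o2
theorem n2_a' : nn Q b b' c c' 1 • a' = a' :=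
  h.bc.nn_perp one_ne_zero h.ab.o3 h.ab.o4 h.ac.o3 h.ac.o4
theorem h1_c (t : Fˣ) : hh Q a a' b b' t • c = c :=
  h.ab.hh_perp t h.ac.symm.o1 h.ac.symm.o2 h.bc.symm.o1 h.bc.symm.o2
theorem h1_c' (t : Fˣ) : hh Q a a' b b' t • c' = c' :=
  h.ab.hh_perp t h.ac.symm.o3 h.ac.symm.o4 h.bc.symm.o3 h.bc.symm.o4
theorem h2_a (t : Fˣ) : hh Q b b' c c' t • a = a :=
  h.bc.hh_perp t h.ab.o1 h.ab.o2 h.ac.o1 h.ac.o2
theorem h2_a' (t : Fˣ) : hh Q b b' c c' t • a' = a' :=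
  h.bc.hh_perp t h.ab.o3 h.ab.o4 h.ac.o3 h.ac.o4

theorem braid : nn Q a a' b b' 1 * nn Q b b' c c' 1 * nn Q a a' b b' 1 =
    nn Q b b' c c' 1 * nn Q a a' b b' 1 * nn Q b b' c c' 1 := by
  refine h.ext3 ?_ ?_ ?_ ?_ ?_ ?_ fun w w1 w2 w3 w4 w5 w6 => ?_ <;>
  simp [mul_smul, gsmul_neg, h.ab.n_x, h.ab.n_x', h.ab.n_y, h.ab.n_y', h.bc.n_x, h.bc.n_x',
    h.bc.n_y, h.bc.n_y', h.n1_c, h.n1_c', h.n2_a, h.n2_a', h.ab.nn_perp, h.bc.nn_perp, *]

theorem n1_h2 (t : Fˣ) : nn Q a a' b b' 1 * hh Q b b' c c' t =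
    hh Q b b' c c' t * hh Q a a' b b' t * nn Q a a' b b' 1 := by
  refine h.ext3 ?_ ?_ ?_ ?_ ?_ ?_ fun w w1 w2 w3 w4 w5 w6 => ?_ <;>
  simp [mul_smul, gsmul_neg, gsmul_smul, h.ab.n_x, h.ab.n_x', h.ab.n_y, h.ab.n_y',
    h.n1_c, h.n1_c', h.ab.nn_perp, h.ab.hh_perp, h.bc.hh_perp, h.ab.hh_x, h.ab.hh_x', h.ab.hh_y,
    h.ab.hh_y', h.bc.hh_x, h.bc.hh_x', h.bc.hh_y, h.bc.hh_y', h.h1_c, h.h1_c', h.h2_a, h.h2_a',
    smul_smul, *]

theorem n2_h1 (t : Fˣ) : nn Q b b' c c' 1 * hh Q a a' b b' t =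
    hh Q a a' b b' t * hh Q b b' c c' t * nn Q b b' c c' 1 := by
  refine h.ext3 ?_ ?_ ?_ ?_ ?_ ?_ fun w w1 w2 w3 w4 w5 w6 => ?_ <;>
  simp [mul_smul, gsmul_neg, gsmul_smul, h.bc.n_x, h.bc.n_x', h.bc.n_y, h.bc.n_y',
    h.n2_a, h.n2_a', h.bc.nn_perp, h.ab.hh_perp, h.bc.hh_perp, h.ab.hh_x, h.ab.hh_x', h.ab.hh_y,
    h.ab.hh_y', h.bc.hh_x, h.bc.hh_x', h.bc.hh_y, h.bc.hh_y', h.h1_c, h.h1_c', h.h2_a, h.h2_a',
    smul_smul, *]

theorem h_h (s t : Fˣ) : hh Q a a' b b' s * hh Q b b' c c' t =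
    hh Q b b' c c' t * hh Q a a' b b' s := by
  refine h.ext3 ?_ ?_ ?_ ?_ ?_ ?_ fun w w1 w2 w3 w4 w5 w6 => ?_ <;>
  simp only [mul_smul, gsmul_neg, gsmul_smul, h.ab.hh_perp, h.bc.hh_perp, h.ab.hh_x, h.ab.hh_x',
    h.ab.hh_y, h.ab.hh_y', h.bc.hh_x, h.bc.hh_x', h.bc.hh_y, h.bc.hh_y', h.h1_c, h.h1_c', h.h2_a,
    h.h2_a', *] <;>
  simp [smul_smul, mul_comm]

theorem z12 (t : F) : nn Q b b' c c' 1 * T Q a (t • b') * (nn Q b b' c c' 1)⁻¹ = T Q a (t • c') := by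
  rw [T_conj, gsmul_smul, h.n2_a, h.bc.n_x']

theorem z21 (t : F) :
    nn Q a a' b b' 1 * T Q b (t • c') * (nn Q a a' b b' 1)⁻¹ = T Q a ((-t) • c') := by
  rw [T_conj, gsmul_smul, h.n1_c', h.ab.n_y, T_neg_left, neg_smul]

theorem comm12 (s t : F) :
    T Q a (s • b') * T Q b (t • c') = T Q b (t • c') * T Q a (s • b') * T Q a ((-(s * t)) • c') := by
  have h1 := T_conj (T Q b ((-t) • c')) a (s • b')
  rw [gsmul_smul, h.bc.xp_smul, h.bc.xp_smul, neg_smul, ← T_inv, inv_inv] at h1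
  simp only [h.ab.o1, h.ac.o2, h.bc.hx.symm.pol, h.bc.o4, zero_mul, zero_smul, add_zero, sub_zero,
    one_mul] at h1
  rw [mul_assoc, T_mul h.ab.hx.left (by rw [polar_smul_right', h.ab.o2, mul_zero])
    (by rw [polar_smul_right', h.ac.o2, mul_zero]),
    show s • b' + -(s * t) • c' = s • (b' + -t • c') by module, ← h1]
  group

theorem z_x1 (s t : F) : T Q a (t • c') * T Q a (s • b') = T Q a (s • b') * T Q a (t • c') := by
  have h1 : polar Q a (s • b') = 0 := by rw [polar_smul_right', h.ab.o2, mul_zero]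
  have h2 : polar Q a (t • c') = 0 := by rw [polar_smul_right', h.ac.o2, mul_zero]
  rw [T_mul h.ab.hx.left h1 h2, T_mul h.ab.hx.left h2 h1, add_comm]

theorem z_x2 (s t : F) : T Q a (t • c') * T Q b (s • c') = T Q b (s • c') * T Q a (t • c') := by
  symm
  apply comm_T
  · simp [h.bc.xp_smul, h.ab.o1, h.ac.o2]
  · simp [gsmul_smul, h.bc.xp_smul, h.bc.symm.o3, polar_self_zero h.bc.hy.right]

end Fr3

variable (Q) in
/-- Two commuting nodes. -/
def Cm (a a' b b' c c' d d' : V) : Prop := ∀ s t : F,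
  Commute (T Q c (s • d')) (T Q a (t • b')) ∧ Commute (T Q c (s • d')) (T Q b (t • a')) ∧
  Commute (T Q d (s • c')) (T Q a (t • b')) ∧ Commute (T Q d (s • c')) (T Q b (t • a'))

theorem cm_of_orth {a a' b b' c c' d d' : V} (ac : Fr2 Q a a' c c') (ad : Fr2 Q a a' d d')
    (bc : Fr2 Q b b' c c') (bd : Fr2 Q b b' d d') : Cm Q a a' b b' c c' d d' := by
  intro s t
  refine ⟨comm_T ?_ ?_, comm_T ?_ ?_, comm_T ?_ ?_, comm_T ?_ ?_⟩ <;>
  apply T_smul_of_orth <;>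
  simp [polar_smul_left', polar_smul_right', ac.o1, ac.o2, ac.o3, ac.o4, ad.o1, ad.o2, ad.o3, ad.o4,
    bc.o1, bc.o2, bc.o3, bc.o4, bd.o1, bd.o2, bd.o3, bd.o4]

theorem cm_of_swap {a a' b b' : V} (h : Fr2 Q a a' b b') : Cm Q a a' b b' a a' b' b := by
  have k : ∀ {x u w : V}, Q x = 0 → polar Q x u = 0 → polar Q x w = 0 → ∀ s t : F,
      Commute (T Q x (s • u)) (T Q x (t • w)) := fun {x u w} hx hu hw s t => by
    have h1 : polar Q x (s • u) = 0 := by rw [polar_smul_right', hu, mul_zero]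
    have h2 : polar Q x (t • w) = 0 := by rw [polar_smul_right', hw, mul_zero]
    rw [Commute, SemiconjBy, T_mul hx h1 h2, T_mul hx h2 h1, add_comm]
  intro s t
  refine ⟨k h.hx.left h.o1 h.o2 s t, ?_, ?_, ?_⟩
  · rw [T_swap' h.hx.left h.hy.left]; exact k h.hy.left h.symm.o1 h.symm.o2 _ _
  · rw [T_swap' h.hx.left h.hy.right]; exact k h.hy.right h.symm.o4 h.symm.o3 _ _
  · rw [T_swap' h.hy.right h.hx.right, T_swap' h.hy.left h.hx.right]
    exact k h.hx.right h.o4 h.o3 _ _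

/-- The root data attached to a family of pairs of hyperbolic pairs. -/
noncomputable def orthHD {I : Type*} (a a' b b' : I → V) (adj : I → I → Prop)
    (hsymm : ∀ {i j}, adj i j → adj j i) (hirr : ∀ i, ¬ adj i i) (hnb : ∀ i, ∃ j, adj i j)
    (h2 : ∀ i, Fr2 Q (a i) (a' i) (b i) (b' i))
    (h3 : ∀ {i j}, adj i j → (b i = a j ∧ b' i = a' j ∧ Fr2 Q (a i) (a' i) (b j) (b' j)) ∨
      (b j = a i ∧ b' j = a' i ∧ Fr2 Q (a j) (a' j) (b i) (b' i)))
    (h4 : ∀ {i j}, i ≠ j → ¬ adj i j →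
      Cm Q (a i) (a' i) (b i) (b' i) (a j) (a' j) (b j) (b' j)) : HD (eichGroup Q) F I := by
  have k3 : ∀ {i j}, adj i j → ∃ x x' y y' z z', Fr3 Q x x' y y' z z' ∧
      ((a i = x ∧ a' i = x' ∧ b i = y ∧ b' i = y' ∧ a j = y ∧ a' j = y' ∧ b j = z ∧ b' j = z') ∨
      (a j = x ∧ a' j = x' ∧ b j = y ∧ b' j = y' ∧ a i = y ∧ a' i = y' ∧ b i = z ∧ b' i = z')) := by
    intro i j h
    rcases h3 h with ⟨e1, e2, e3⟩ | ⟨e1, e2, e3⟩
    · exact ⟨_, _, _, _, _, _, ⟨h2 i, e1 ▸ e2 ▸ h2 j, e3⟩, Or.inl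
        ⟨rfl, rfl, rfl, rfl, e1.symm, e2.symm, rfl, rfl⟩⟩
    · exact ⟨_, _, _, _, _, _, ⟨h2 j, e1 ▸ e2 ▸ h2 i, e3⟩, Or.inr
        ⟨rfl, rfl, rfl, rfl, e1.symm, e2.symm, rfl, rfl⟩⟩
  have k4 : ∀ {i j}, i ≠ j → ¬ adj i j → ∀ t : F,
      (∀ s : F, Commute (T Q (a i) (t • b' i)) (T Q (a j) (s • b' j))) ∧
      (∀ s : F, Commute (T Q (a i) (t • b' i)) (T Q (b j) (s • a' j))) ∧
      (∀ s : F, Commute (T Q (b i) (t • a' i)) (T Q (a j) (s • b' j))) ∧
      (∀ s : F, Commute (T Q (b i) (t • a' i)) (T Q (b j) (s • a' j))) := fun e na t =>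
    ⟨fun s => (h4 e na s t).1.symm, fun s => (h4 e na s t).2.2.1.symm,
      fun s => (h4 e na s t).2.1.symm, fun s => (h4 e na s t).2.2.2.symm⟩
  exact
  { adj := adj
    x := fun i t => T Q (a i) (t • b' i)
    n := fun i => nn Q (a i) (a' i) (b i) (b' i) 1
    h := fun i t => hh Q (a i) (a' i) (b i) (b' i) t
    adj_symm := hsymm
    adj_irrefl := hirr
    nb := hnb
    x_add := fun i => (h2 i).xp_add
    h_mul := fun i => (h2 i).hh_mul
    h_comm := fun i j s t => by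
      by_cases e : i = j
      · subst e; rw [← (h2 i).hh_mul, mul_comm, (h2 i).hh_mul]
      by_cases ad : adj i j
      · obtain ⟨x, x', y, y', z, z', h, ⟨e1, e2, e3, e4, e5, e6, e7, e8⟩ |
          ⟨e1, e2, e3, e4, e5, e6, e7, e8⟩⟩ := k3 ad <;> simp only [e1, e2, e3, e4, e5, e6, e7, e8]
        · exact h.h_h s t
        · exact (h.h_h t s).symm
      · exact (comm_hh (fun u => (comm_hh (k4 e ad u).1 (k4 e ad u).2.1 t).symm)
          (fun u => (comm_hh (k4 e ad u).2.2.1 (k4 e ad u).2.2.2 t).symm) s).symm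
    h_x := fun i j t => by
      by_cases e : i = j
      · subst e
        exact ⟨t * t, conj_xp t.ne_zero ((h2 i).hh_x t) ((h2 i).hh_y' t)⟩
      by_cases ad : adj i j
      · obtain ⟨x, x', y, y', z, z', h, ⟨e1, e2, e3, e4, e5, e6, e7, e8⟩ |
          ⟨e1, e2, e3, e4, e5, e6, e7, e8⟩⟩ := k3 ad <;> simp only [e1, e2, e3, e4, e5, e6, e7, e8]
        · refine ⟨t⁻¹, fun s => ?_⟩
          rw [conj_xp one_ne_zero (by rw [h.h2_a, one_smul]) (h.bc.hh_x' t)]; simp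
        · refine ⟨t⁻¹, fun s => ?_⟩
          rw [conj_xp (b := 1) (inv_ne_zero t.ne_zero) (h.ab.hh_y t) (by rw [h.h1_c', one_smul])]
          simp
      · refine ⟨1, fun s => ?_⟩
        rw [← (comm_hh (k4 e ad s).1 (k4 e ad s).2.1 t).eq]; simp
    h_x_non := fun e ad t s => (comm_hh (k4 e ad s).1 (k4 e ad s).2.1 t).eq.symm
    n_h_self := fun i => (h2 i).n_hh
    n_h_adj := fun {i j} ad t => by
      obtain ⟨x, x', y, y', z, z', h, ⟨e1, e2, e3, e4, e5, e6, e7, e8⟩ |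
        ⟨e1, e2, e3, e4, e5, e6, e7, e8⟩⟩ := k3 ad <;> simp only [e1, e2, e3, e4, e5, e6, e7, e8]
      · exact h.n1_h2 t
      · exact h.n2_h1 t
    n_h_non := fun e ad t => (comm_nn (fun u => (comm_hh (k4 e ad u).1 (k4 e ad u).2.1 t).symm)
      (fun u => (comm_hh (k4 e ad u).2.2.1 (k4 e ad u).2.2.2 t).symm) 1).eq.symm
    n_sq := fun i => ⟨-1, (h2 i).n_sq⟩
    sl2 := fun i t => ⟨t, _, _, (h2 i).sl2 t⟩
    sl2' := fun i s hs => ⟨Units.mk0 s hs, _, _, (h2 i).sl2 (Units.mk0 s hs)⟩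
    comm := fun {i j} ad => by
      obtain ⟨x, x', y, y', z, z', h, ⟨e1, e2, e3, e4, e5, e6, e7, e8⟩ |
        ⟨e1, e2, e3, e4, e5, e6, e7, e8⟩⟩ := k3 ad <;> simp only [e1, e2, e3, e4, e5, e6, e7, e8]
      · refine ⟨-1, fun s t => ?_⟩
        rw [h.z12, h.comm12]; simp
      · refine ⟨-1, fun s t => ?_⟩
        rw [h.z21, h.comm12, mul_assoc (_ * _), T_mul h.ab.hx.left
          (by rw [polar_smul_right', h.ac.o2, mul_zero])
          (by rw [polar_smul_right', h.ac.o2, mul_zero]), ← add_smul]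
        simp [mul_comm s t, T_zero]
    z_comm := fun {i j} ad s t => by
      obtain ⟨x, x', y, y', z, z', h, ⟨e1, e2, e3, e4, e5, e6, e7, e8⟩ |
        ⟨e1, e2, e3, e4, e5, e6, e7, e8⟩⟩ := k3 ad <;> simp only [e1, e2, e3, e4, e5, e6, e7, e8]
      · rw [h.z12, h.z_x1]
      · rw [h.z21, h.z_x2]
    z_symm := fun {i j} ad => by
      obtain ⟨x, x', y, y', z, z', h, ⟨e1, e2, e3, e4, e5, e6, e7, e8⟩ |
        ⟨e1, e2, e3, e4, e5, e6, e7, e8⟩⟩ := k3 ad <;> simp only [e1, e2, e3, e4, e5, e6, e7, e8]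
      · exact ⟨-1, fun t => by rw [h.z12, h.z21]; simp⟩
      · exact ⟨-1, fun t => by rw [h.z12, h.z21]; simp⟩
    braid := fun {i j} ad => by
      refine ⟨1, 1, ?_⟩
      simp only [hh, Units.val_one, mul_inv_cancel, mul_one]
      obtain ⟨x, x', y, y', z, z', h, ⟨e1, e2, e3, e4, e5, e6, e7, e8⟩ |
        ⟨e1, e2, e3, e4, e5, e6, e7, e8⟩⟩ := k3 ad <;> simp only [e1, e2, e3, e4, e5, e6, e7, e8]
      · exact h.braid
      · exact h.braid.symm
    n_x_non := fun e ad s => (comm_nn (k4 e ad s).1 (k4 e ad s).2.1 1).eq.symm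
    x_x_non := fun e ad s t => ((k4 e ad s).1 t).eq.symm
    n_n_non := fun e ad => (comm_nn (fun u => (comm_nn (k4 e ad u).1 (k4 e ad u).2.1 1).symm)
      (fun u => (comm_nn (k4 e ad u).2.2.1 (k4 e ad u).2.2.2 1).symm) 1).eq }

end Cfsg.Agent.H33.MR
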