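import Cfsg.Agent.H33.MinRep4
import Cfsg.Agent.H33.OrthDeg7

/-! Weights of the unipotent radicals of the point stabilisers of an orthogonal group. -/

set_option autoImplicit false
set_option linter.unusedSectionVars false

namespace Cfsg.Agent.H33.MR

open scoped InnerProductSpace ComplexConjugate
open Cfsg.Agent.H30 Cfsg.Agent.H33.OD QuadraticMap Module Finset

variable {F V : Type*} [Field F] [Fintype F] [AddCommGroup V] [Module F V] [FiniteDimensional F V]
  [Fintype V] {Q : QuadraticForm F V}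

local notation "q" => Fintype.card F

instance finite_eich : Finite (eichGroup Q) := by
  have : Finite (O Q) := finite_O
  infer_instance

noncomputable instance fintypeSub (W : Submodule F V) : Fintype W := Fintype.ofFinite _

theorem exists_ps_ne {a : F} (ha : a ≠ 0) : ∃ c, ps F (c * a) ≠ 1 := by
  by_contra! h
  exact ha (eq_zero_of_ps h)

theorem eq_of_ps {a b : F} (h : ∀ c, ps F (c * a) = ps F (c * b)) : a = b := by
  refine sub_eq_zero.1 (eq_zero_of_ps fun c => ?_)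
  rw [mul_sub, sub_eq_add_neg, AddChar.map_add_eq_mul, h, ← AddChar.map_add_eq_mul, add_neg_cancel,
    AddChar.map_zero_eq_one]

theorem exists_mulShift (χ : AddChar F ℂ) : ∃ c : F, χ = (ps F).mulShift c := by
  have : Function.Bijective (fun c : F => (ps F).mulShift c) := by
    rw [Fintype.bijective_iff_injective_and_card, AddChar.card_eq]
    refine ⟨fun a b h => eq_of_ps fun c => ?_, rfl⟩
    simpa [AddChar.mulShift_apply, mul_comm] using DFunLike.congr_fun h c
  obtain ⟨c, hc⟩ := this.2 χ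
  exact ⟨c, hc.symm⟩

variable (Q) in
/-- The character attached to a vector. -/
noncomputable def ch (W : Submodule F V) (ν : V) : AddChar W ℂ where
  toFun w := ps F (polar Q ν w)
  map_zero_eq_one' := by simp
  map_add_eq_mul' a b := by rw [Submodule.coe_add, polar_add_right, AddChar.map_add_eq_mul]

theorem ch_apply (W : Submodule F V) (ν : V) (w : W) : ch Q W ν w = ps F (polar Q ν w) := rfl

theorem ch_zero (W : Submodule F V) : ch Q W 0 = 0 := by ext w; simp [ch_apply]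

theorem ch_inj {W : Submodule F V} (hW : NondegOn Q W) {ν ν' : V} (h1 : ν ∈ W) (h2 : ν' ∈ W)
    (h : ch Q W ν = ch Q W ν') : ν = ν' := by
  refine sub_eq_zero.1 (hW _ (W.sub_mem h1 h2) fun y hy => ?_)
  rw [polar_sub_left, sub_eq_zero]
  refine eq_of_ps fun c => ?_
  simpa [ch_apply, polar_smul_right'] using DFunLike.congr_fun h ⟨c • y, W.smul_mem c hy⟩

theorem ch_surj {W : Submodule F V} (hW : NondegOn Q W) (χ : AddChar W ℂ) :
    ∃ ν ∈ W, ch Q W ν = χ := by
  have : Function.Bijective (fun ν : W => ch Q W ν) := by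
    rw [Fintype.bijective_iff_injective_and_card, AddChar.card_eq]
    exact ⟨fun a b h => Subtype.ext (ch_inj hW a.2 b.2 h), rfl⟩
  obtain ⟨ν, h⟩ := this.2 χ
  exact ⟨ν, ν.2, h⟩

variable (Q) in
/-- The Siegel transformations with a fixed centre. -/
noncomputable def TX (x : V) (W : Submodule F V) : W → eichGroup Q := fun w => T Q x w

theorem TX_add {x : V} {W : Submodule F V} (hx : Q x = 0) (hW : ∀ w ∈ W, polar Q x w = 0) :
    IsAdd (TX Q x W) := fun s t => (T_mul hx (hW _ s.2) (hW _ t.2)).symm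

theorem T_comm {x u w : V} (hx : Q x = 0) (hu : polar Q x u = 0) (hw : polar Q x w = 0) :
    T Q x u * T Q x w = T Q x w * T Q x u := by rw [T_mul hx hu hw, T_mul hx hw hu, add_comm]

/-! ### The subgroup attached to a non-degenerate subspace -/

/-- The extension by the identity on the orthogonal complement. -/
noncomputable def gam {W : Submodule F V} (hW : NondegOn Q W) :
    eichGroup (Q.restrict W) →* eichGroup Q :=
  (((orthSum hW.orthDec).comp (MonoidHom.inl _ _)).comp (eichGroup _).subtype).codRestrict _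
    fun g => (eichGroup_le (H := (eichGroup Q).comap
      ((orthSum hW.orthDec).comp (MonoidHom.inl _ _))) fun u v _ _ _ => by
        rw [Subgroup.mem_comap, MonoidHom.comp_apply, MonoidHom.inl_apply, orthSum_eich_left]
        exact eich_mem_eichGroup _ _) g.2

theorem gam_T {W : Submodule F V} (hW : NondegOn Q W) (u v : W) :
    gam hW (T (Q.restrict W) u v) = T Q u v := Subtype.ext (orthSum_eich_left hW.orthDec u v)

theorem gam_smul {W : Submodule F V} (hW : NondegOn Q W) (g : eichGroup (Q.restrict W)) (w : W) :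
    gam hW g • (w : V) = (g • w : W) := orthSum_apply_left hW.orthDec _ w

theorem gam_perp {W : Submodule F V} (hW : NondegOn Q W) (g : eichGroup (Q.restrict W)) {u : V}
    (hu : u ∈ perp Q W) : gam hW g • u = u := orthSum_apply_right hW.orthDec _ ⟨u, hu⟩

theorem gam_mem {W : Submodule F V} (hW : NondegOn Q W) (H : Subgroup (eichGroup Q))
    (h : ∀ z ∈ W, ∀ a ∈ W, z ≠ 0 → Q z = 0 → polar Q z a = 0 → T Q z a ∈ H)
    (g : eichGroup (Q.restrict W)) : gam hW g ∈ H := by
  have : eichGroup (Q.restrict W) ≤ (H.comap (gam hW)).map (eichGroup _).subtype :=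
    eichGroup_le fun u v h0 h1 h2 => ⟨T _ u v, by
      rw [SetLike.mem_coe, Subgroup.mem_comap, gam_T]
      exact h u u.2 v v.2 (fun e => h0 (Subtype.ext e)) h1 h2, rfl⟩
  obtain ⟨k, hk, e⟩ := this g.2
  rwa [show g = k from Subtype.ext e.symm]

theorem exists_gam_two {W : Submodule F V} (hW : NondegOn Q W) {e f z : V} (h : IsHyp Q e f)
    (he : e ∈ W) (hf : f ∈ W) (hz : z ∈ W) (hz0 : z ≠ 0) (hQ : Q z = 0) :
    ∃ g, ∃ c : F, c ≠ 0 ∧ (z = c • gam hW g • e ∨ z = c • gam hW g • f) := by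
  have h' : IsHyp (Q.restrict W) ⟨e, he⟩ ⟨f, hf⟩ := ⟨h.left, h.right, h.pol⟩
  obtain ⟨k, hk, a, b, hab⟩ := h'.exists_eichGroup_apply_eq hW.restrict ⟨z, hz⟩
  have h1 : gam hW ⟨k, hk⟩ • z = a • e + b • f := by
    rw [gam_smul hW _ ⟨z, hz⟩, OD.smul_def, hab]; rfl
  have h2 : z = a • gam hW ⟨k, hk⟩⁻¹ • e + b • gam hW ⟨k, hk⟩⁻¹ • f := by
    rw [map_inv, ← gsmul_smul, ← gsmul_smul, ← gsmul_add, ← h1, inv_smul_smul]
  have h3 : a * b = 0 := by rw [← h.Q_comb', ← h1, Q_gsmul, hQ]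
  rcases mul_eq_zero.1 h3 with rfl | rfl
  · rw [zero_smul, zero_add] at h2
    exact ⟨_, b, by rintro rfl; exact hz0 (by simpa using h2), Or.inr h2⟩
  · rw [zero_smul, add_zero] at h2
    exact ⟨_, a, by rintro rfl; exact hz0 (by simpa using h2), Or.inl h2⟩

theorem exists_gam_one {W : Submodule F V} (hW : NondegOn Q W) {e f z u : V} (h : IsHyp Q e f)
    (he : e ∈ W) (hf : f ∈ W) (hu : u ∈ W) (hu' : u ∈ hperp Q e f) (hQu : Q u ≠ 0) (hz : z ∈ W)
    (hz0 : z ≠ 0) (hQ : Q z = 0) : ∃ g, ∃ c : F, c ≠ 0 ∧ z = c • gam hW g • e := by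
  obtain ⟨g, c, hc, h1 | h1⟩ := exists_gam_two hW h he hf hz hz0 hQ
  · exact ⟨g, c, hc, h1⟩
  refine ⟨g * (T _ ⟨e, he⟩ ⟨u, hu⟩)⁻¹ * T _ ⟨f, hf⟩ ⟨(-(Q u)⁻¹) • u, W.smul_mem _ hu⟩, c * -Q u,
    mul_ne_zero hc (neg_ne_zero.2 hQu), ?_⟩
  rw [h1, map_mul, map_mul, map_inv, gam_T, gam_T, mul_smul, mul_smul, mul_smul, ← gsmul_smul _ (-Q u),
    ← gsmul_smul _ (-Q u)]
  congr 2
  have h2 : polar Q e u = 0 := by rw [polar_comm, hu'.1]
  have h3 : polar Q f u = 0 := by rw [polar_comm, hu'.2]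
  rw [eq_inv_smul_iff, T_smul h.left h2, T_smul h.right (by simp [polar_smul_right', h3])]
  simp only [h.pol, h.pol', h2, h3, polar_smul_right', Q_smul]
  match_scalars <;> field_simp <;> ring

/-! ### Weights -/

variable {M : Type*} [NormedAddCommGroup M] [InnerProductSpace ℂ M]
  [DistribMulAction (eichGroup Q) M] [UA (eichGroup Q) M]

variable (Q) in
/-- Weight vectors for the unipotent radical of the stabiliser of `x`. -/
def WT (x ν : V) (v : M) : Prop := ∀ w, polar Q x w = 0 → T Q x w • v = ps F (polar Q ν w) • v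

variable (Q M) in
/-- Weight spaces. -/
def WTs (x ν : V) : Submodule ℂ M where
  carrier := {v | WT Q x ν v}
  add_mem' {a b} ha hb w hw := by rw [smul_add, ha w hw, hb w hw, smul_add]
  zero_mem' w _ := by simp
  smul_mem' c v hv w hw := by rw [gcs, hv w hw, smul_comm]

theorem WT.smul {x x' ν : V} {v : M} (h : WT Q x ν v) {g : eichGroup Q} {t : F} (ht : t ≠ 0)
    (hg : g • x = t • x') : WT Q x' (t⁻¹ • g • ν) (g • v) := fun w hw => by
  have h1 : g⁻¹ • x' = t⁻¹ • x := by rw [inv_smul_eq_iff, gsmul_smul, hg, inv_smul_smul₀ ht]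
  have h2 : T Q x' w * g = g * T Q x (t⁻¹ • g⁻¹ • w) := by
    rw [← T_smul_left (inv_ne_zero ht), ← h1, ← T_conj]; group
  rw [← mul_smul, h2, mul_smul, h _ (by
    rw [polar_smul_right', ← polar_gsmul_left, hg, polar_smul_left', hw, mul_zero, mul_zero]), gcs,
    polar_smul_right', polar_smul_left', polar_gsmul_left]

theorem WT.smul' {x x' ν : V} {v : M} (h : WT Q x ν v) {g : eichGroup Q} (hg : g • x = x') :
    WT Q x' (g • ν) (g • v) := by
  simpa using h.smul one_ne_zero (by rw [one_smul]; exact hg)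

theorem WT.add_smul {x ν : V} {v : M} (h : WT Q x ν v) (c : F) : WT Q x (ν + c • x) v :=
  fun w hw => by rw [h w hw, polar_add_left, polar_smul_left', hw, mul_zero, add_zero]

theorem wt_iff {x x' ν : V} (h : IsHyp Q x x') (hν : polar Q x ν = 0) {v : M} :
    Wt (TX Q x (hperp Q x x')) (ch Q _ ν) v ↔ WT Q x ν v := by
  refine ⟨fun H w hw => ?_, fun H w => H w (hperp_polar w.2)⟩
  have := H ⟨_, h.hproj_mem w⟩
  rw [hproj_eq h hw, T_add_smul, polar_add_right, polar_smul_right', polar_comm Q ν x, hν, mul_zero,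
    add_zero]
  exact this

theorem WT.hproj {x x' ν : V} (h : IsHyp Q x x') (hν : polar Q x ν = 0) {v : M} :
    WT Q x (hproj Q x x' ν) v ↔ WT Q x ν v := by
  refine ⟨fun H => ?_, fun H => ?_⟩
  · rw [hproj_eq h hν]; exact H.add_smul _
  · have := H.add_smul (-polar Q ν x')
    rwa [neg_smul, ← sub_eq_add_neg, sub_eq_of_eq_add (hproj_eq h hν)] at this

theorem exists_WT' (hQ : (polarBilin Q).Nondegenerate) {x x' : V} (h : IsHyp Q x x') {v : M}
    (hv : ¬ WT Q x 0 v) : ∃ ν ∈ hperp Q x x', ν ≠ 0 ∧ ∃ v' : M, v' ≠ 0 ∧ WT Q x ν v' ∧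
      ∀ N : Submodule ℂ M, (∀ w, polar Q x w = 0 → T Q x w • v ∈ N) → v' ∈ N := by
  have hX := TX_add h.left fun w hw => hperp_polar (x' := x') hw
  rw [← wt_iff h (by simp), ch_zero, wt_zero] at hv
  obtain ⟨χ, hχ, h1⟩ := exists_pr_ne_zero' hX hv
  obtain ⟨ν, hν, rfl⟩ := ch_surj (h.nondegOn_hperp hQ) χ
  exact ⟨ν, hν, fun e => hχ (by rw [e, ch_zero]), _, h1,
    (wt_iff h (hperp_polar hν)).1 (pr_wt hX _ v), fun N hN => pr_mem fun t => hN _ (hperp_polar t.2)⟩

theorem exists_WT (hQ : (polarBilin Q).Nondegenerate) {x : V} (hx0 : x ≠ 0) (hx : Q x = 0) {v : M}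
    (hv : v ≠ 0) : ∃ ν, polar Q x ν = 0 ∧ ∃ v' : M, v' ≠ 0 ∧ WT Q x ν v' ∧
      ∀ N : Submodule ℂ M, (∀ w, polar Q x w = 0 → T Q x w • v ∈ N) → v' ∈ N := by
  obtain ⟨x', h⟩ := exists_isHyp hQ hx hx0
  by_cases h1 : WT Q x 0 v
  · exact ⟨0, by simp, v, hv, h1, fun N hN => by simpa [T_zero] using hN 0 (by simp)⟩
  · obtain ⟨ν, hν, -, h2⟩ := exists_WT' hQ h h1
    exact ⟨ν, hperp_polar hν, h2⟩

/-- The eigenspace of a group element. -/
def eig (g : eichGroup Q) (c : ℂ) : Submodule ℂ M where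
  carrier := {v | g • v = c • v}
  add_mem' {a b} ha hb := by
    simp only [Set.mem_ofPred_eq] at ha hb ⊢
    rw [smul_add, ha, hb, smul_add]
  zero_mem' := by simp
  smul_mem' d v hv := by
    simp only [Set.mem_ofPred_eq] at hv ⊢
    rw [gcs, hv, smul_comm]

/-- A weight of a vector in the span of an orbit extends the known partial weight. -/
theorem polar_eq_of_partial {x ν μ w : V} (hx : Q x = 0) {v v' : M} (h0 : v' ≠ 0)
    (h1 : WT Q x ν v')
    (h2 : ∀ N : Submodule ℂ M, (∀ w, polar Q x w = 0 → T Q x w • v ∈ N) → v' ∈ N)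
    (hw : polar Q x w = 0) (h3 : ∀ c : F, T Q x (c • w) • v = ps F (polar Q μ (c • w)) • v) :
    polar Q ν w = polar Q μ w := by
  refine eq_of_ps fun c => ?_
  have hc : polar Q x (c • w) = 0 := by rw [polar_smul_right', hw, mul_zero]
  have h4 : T Q x (c • w) • v' = ps F (polar Q μ (c • w)) • v' :=
    h2 (eig (T Q x (c • w)) (ps F (polar Q μ (c • w)))) fun u hu => by
      change _ = _
      rw [← mul_smul, T_comm hx hc hu, mul_smul, h3, gcs]
  rw [h1 _ hc, polar_smul_right', polar_smul_right'] at h4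
  exact smul_left_injective ℂ h0 h4

variable (Q M) in
/-- All non-trivial weights have multiplicity at most one. -/
def Mult1 : Prop := ∀ (x ν : V) (v v' : M), x ≠ 0 → Q x = 0 → polar Q x ν = 0 → ν ∉ F ∙ x →
  WT Q x ν v → WT Q x ν v' → v ≠ 0 → ∃ c : ℂ, v' = c • v

variable (Q M) in
/-- All weights are singular. -/
def PureS : Prop := ∀ (x ν : V) (v : M), x ≠ 0 → Q x = 0 → polar Q x ν = 0 → WT Q x ν v → v ≠ 0 →
  Q ν = 0

variable (Q M) in
/-- All non-trivial weights are non-singular. -/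
def PureN : Prop := ∀ (x ν : V) (v : M), x ≠ 0 → Q x = 0 → polar Q x ν = 0 → ν ∉ F ∙ x →
  WT Q x ν v → v ≠ 0 → Q ν ≠ 0

/-- Multiplicity one for partial weights. -/
theorem up (hQ : (polarBilin Q).Nondegenerate) (hM : Mult1 Q M) {a l w0 : V} (ha0 : a ≠ 0)
    (ha : Q a = 0) (P : Set V) (hP : ∀ p ∈ P, Q p = 0 ∧ polar Q a p = 0 ∧ polar Q l p = 0 ∧
      polar Q p w0 = 0 ∧ ∀ p' ∈ P, polar Q p' p = 0) (haw : polar Q a w0 = 0)
    (hlw : polar Q l w0 ≠ 0) (hal : polar Q a l = 0) {v v' : M}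
    (h1 : ∀ w, polar Q a w = 0 → (∀ p ∈ P, polar Q p w = 0) → T Q a w • v = ps F (polar Q l w) • v)
    (h2 : ∀ p ∈ P, ∀ s : F, T Q p (s • w0) • v = v)
    (h1' : ∀ w, polar Q a w = 0 → (∀ p ∈ P, polar Q p w = 0) →
      T Q a w • v' = ps F (polar Q l w) • v')
    (h2' : ∀ p ∈ P, ∀ s : F, T Q p (s • w0) • v' = v') (h0 : v ≠ 0) : ∃ c : ℂ, v' = c • v := by
  classical
  obtain ⟨a', h⟩ := exists_isHyp hQ ha ha0
  have hX := TX_add h.left fun w hw => hperp_polar (x' := a') hw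
  have key : ∀ v : M, (∀ w, polar Q a w = 0 → (∀ p ∈ P, polar Q p w = 0) →
      T Q a w • v = ps F (polar Q l w) • v) → (∀ p ∈ P, ∀ s : F, T Q p (s • w0) • v = v) →
      pr (TX Q a (hperp Q a a')) (ch Q _ l) v = 0 → v = 0 := by
    intro v h1 h2 h3
    have h4 := inner_pr_right (TX Q a (hperp Q a a')) (ch Q _ l) v v
    have h5 : ∀ u : hperp Q a a', ch Q _ l (-u) * ⟪v, TX Q a _ u • v⟫_ℂ =
        if ∀ p ∈ P, polar Q p u = 0 then ⟪v, v⟫_ℂ else 0 := by
      intro u
      have hu := hperp_polar u.2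
      split_ifs with hh
      · rw [TX, h1 _ hu hh, inner_smul_right, ← ch_apply, ← mul_assoc, ← AddChar.map_add_eq_mul,
          neg_add_cancel, AddChar.map_zero_eq_one, one_mul]
      · push Not at hh
        obtain ⟨p, hp, hh⟩ := hh
        obtain ⟨p1, p2, p3, p4, p5⟩ := hP p hp
        obtain ⟨s, hs⟩ := exists_ps_ne (mul_ne_zero hh hlw)
        have e1 : T Q p (s • w0) • a = a :=
          T_smul_of_orth p2 (by rw [polar_smul_right', haw, mul_zero])
        have e2 := T_smul p1 (show polar Q p (s • w0) = 0 by rw [polar_smul_right', p4, mul_zero]) u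
        set u1 := polar Q (u : V) p • s • w0 - polar Q (u : V) (s • w0) • p -
          (Q (s • w0) * polar Q (u : V) p) • p with hu1
        have e3 : polar Q a u1 = 0 := by
          simp only [hu1, polar_sub_right, polar_smul_right', haw, p2, mul_zero, sub_zero]
        have e4 : T Q a u1 • v = ps F (s * (polar Q p u * polar Q l w0)) • v := by
          rw [h1 u1 e3 fun p' hp' => by
            simp only [hu1, polar_sub_right, polar_smul_right', (hP p' hp').2.2.2.1, p5 p' hp',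
              mul_zero, sub_zero]]
          simp only [hu1, polar_sub_right, polar_smul_right', p3, mul_zero, sub_zero]
          rw [polar_comm Q p]; congr 2; ring
        have e5 := inner_gg (T Q p (s • w0)) v (T Q a u • v)
        rw [h2 p hp, ← mul_smul, mul_T, e1, e2, mul_smul, h2 p hp, add_sub_assoc, add_sub_assoc,
          ← hu1, ← T_mul ha hu e3, mul_smul, e4, gcs, inner_smul_right] at e5
        rw [TX, (mul_left_eq_self₀.1 e5).resolve_left hs, mul_zero]
    rw [h3, inner_zero_right, Finset.sum_congr rfl fun u _ => h5 u, ← Finset.sum_filter,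
      Finset.sum_const, nsmul_eq_mul] at h4
    by_contra h0
    refine mul_ne_zero (inv_ne_zero card_ne) (mul_ne_zero (Nat.cast_ne_zero.2 ?_)
      (inner_self_ne_zero.2 h0)) h4.symm
    exact Finset.card_ne_zero.2 ⟨0, by simp⟩
  obtain ⟨c, hc⟩ := hM a l _ _ ha0 ha hal (fun hl => by
    obtain ⟨c, rfl⟩ := Submodule.mem_span_singleton.1 hl
    exact hlw (by rw [polar_smul_left', haw, mul_zero])) ((wt_iff h hal).1 (pr_wt hX _ v))
    ((wt_iff h hal).1 (pr_wt hX _ v')) (fun e => h0 (key v h1 h2 e))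
  refine ⟨c, sub_eq_zero.1 (key _ (fun w hw hw' => ?_) (fun p hp s => ?_) ?_)⟩
  · rw [smul_sub, gcs, h1 w hw hw', h1' w hw hw', smul_sub, smul_comm c]
  · rw [smul_sub, gcs, h2 p hp, h2' p hp]
  · rw [sub_eq_add_neg, ← neg_smul, pr_add, pr_csmul, hc, neg_smul, add_neg_cancel]

theorem conj_eigen {g k : eichGroup Q} {m : M} {c d : ℂ} (h1 : g • m = c • m) (h2 : k • m = d • m) :
    (g * k * g⁻¹) • m = k • m := by
  have : g • k • m = k • g • m := by rw [h1, h2, gcs, gcs, h1, h2, smul_comm]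
  by_cases h0 : m = 0
  · simp [h0]
  have hc : c ≠ 0 := by rintro rfl; exact g_ne_zero g h0 (by simpa using h1)
  have h3 : g⁻¹ • m = c⁻¹ • m := by rw [inv_smul_eq_iff, gcs, h1, inv_smul_smul₀ hc]
  rw [mul_smul, mul_smul, h3, gcs, gcs, this, h1, gcs, inv_smul_smul₀ hc]

theorem T_sub_smul {x u w : V} (hx : Q x = 0) (hu : polar Q x u = 0) (hw : polar Q x w = 0) {m : M}
    (h : T Q x u • m = T Q x w • m) : T Q x (u - w) • m = m := by
  rw [sub_eq_neg_add, ← T_mul hx (by simp [hw]) hu, mul_smul, h, ← T_inv, inv_smul_smul]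

/-- An invariant character is trivial. -/
theorem inv_char {x z z' r r' : V} (hx : Q x = 0) (W : Submodule F V)
    (hW : ∀ w ∈ W, polar Q x w = 0) {m : M} (h1 : ∀ w ∈ W, ∃ c : ℂ, T Q x w • m = c • m)
    (h2 : ∀ z ∈ W, ∀ a ∈ W, Q z = 0 → polar Q z a = 0 → ∃ c : ℂ, T Q z a • m = c • m)
    (h : IsHyp Q z z') (hz : z ∈ W) (hz' : z' ∈ W) (hr : r ∈ W) (hr' : r' ∈ W)
    (hr1 : r ∈ hperp Q z z') (hr1' : r' ∈ hperp Q z z') (hrr : polar Q r r' = 1) :
    ∀ w ∈ W, T Q x w • m = m := by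
  have key : ∀ z ∈ W, ∀ a ∈ W, Q z = 0 → polar Q z a = 0 → ∀ w ∈ W,
      T Q x (polar Q w z • a - polar Q w a • z - (Q a * polar Q w z) • z) • m = m := by
    intro z hz a ha h3 h4 w hw
    obtain ⟨c, hc⟩ := h2 z hz a ha h3 h4
    obtain ⟨d, hd⟩ := h1 w hw
    have h5 := conj_eigen hc hd
    rw [T_conj, T_smul_of_orth (hW z hz) (hW a ha)] at h5
    have h6 := T_sub_smul hx (by
      rw [← T_smul_of_orth (x := z) (u := a) (hW z hz) (hW a ha), polar_gsmul, hW w hw]) (hW w hw) h5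
    rw [T_smul h3 h4] at h6
    convert h6 using 3
    abel
  have k1 : ∀ {z z' : V}, IsHyp Q z z' → z ∈ W → r ∈ hperp Q z z' → r' ∈ hperp Q z z' → ∀ t : F,
      T Q x (t • z) • m = m := fun {z z'} h hz hr1 hr1' t => by
    have := key z hz r hr h.left (hperp_polar hr1) ((-t) • r') (W.smul_mem _ hr')
    simpa [polar_smul_left', hr1'.1, polar_comm Q r' r, hrr] using this
  have k2 : ∀ {u w : V}, u ∈ W → w ∈ W → T Q x u • m = m → T Q x w • m = m →
      T Q x (u + w) • m = m := fun hu hw e1 e2 => by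
    rw [← T_mul hx (hW _ hu) (hW _ hw), mul_smul, e2, e1]
  intro w hw
  have hp : hproj Q z z' w ∈ W := W.sub_mem (W.sub_mem hw (W.smul_mem _ hz)) (W.smul_mem _ hz')
  have hp' := h.hproj_mem w
  have k3 := key z hz _ hp h.left (hperp_polar hp') z' hz'
  rw [h.pol', polar_comm Q z', hp'.2, one_smul, zero_smul, sub_zero, mul_one] at k3
  have k4 := k2 (W.sub_mem hp (W.smul_mem _ hz)) (W.smul_mem _ hz) k3
    (k1 h hz hr1 hr1' (Q (hproj Q z z' w)))
  rw [sub_add_cancel] at k4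
  rw [IsHyp.decomp (Q := Q) (e := z) (f := z') w]
  exact k2 (W.add_mem (W.smul_mem _ hz) (W.smul_mem _ hz')) hp (k2 (W.smul_mem _ hz)
    (W.smul_mem _ hz') (k1 h hz hr1 hr1' _) (k1 h.symm hz' ⟨hr1.2, hr1.1⟩ ⟨hr1'.2, hr1'.1⟩ _)) k4

/-- A character that is invariant under the torus is trivial. -/
theorem inv_torus (hq : 4 ≤ q) (hQ : (polarBilin Q).Nondegenerate) (h3 : 3 ≤ finrank F V)
    {x x' w : V} (h : IsHyp Q x x') (hw : w ∈ hperp Q x x') {m : M}
    (h1 : ∀ t : F, ∃ c : ℂ, T Q x (t • w) • m = c • m)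
    (h2 : ∀ g : eichGroup Q, (∀ u ∈ hperp Q x x', g • u = u) → ∃ c : ℂ, g • m = c • m) :
    T Q x w • m = m := by
  obtain ⟨μ, hμ, hμ'⟩ := exists_sq_ne_one hq
  obtain ⟨k, hk, hk'⟩ := exists_diag hQ h3 h hμ
  obtain ⟨c, hc⟩ := h2 k hk'
  obtain ⟨d, hd⟩ := h1 (μ * μ - 1)⁻¹
  have h5 := conj_eigen hc hd
  have hp : ∀ t : F, polar Q x (t • w) = 0 := fun t => hperp_polar (Submodule.smul_mem _ t hw)
  rw [T_conj, hk, hk' _ (Submodule.smul_mem _ _ hw), T_smul_left (mul_ne_zero hμ hμ),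
    smul_smul] at h5
  have h6 := T_sub_smul h.left (hp _) (hp _) h5
  rwa [← sub_smul, ← sub_one_mul, mul_inv_cancel₀ (sub_ne_zero.2 hμ'), one_smul] at h6

end Cfsg.Agent.H33.MR
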