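import Cfsg.Agent.H33.MinRep5

/-! Frames of hyperbolic pairs and fixed spaces of unipotent radicals. -/

set_option autoImplicit false
set_option linter.unusedSectionVars false

namespace Cfsg.Agent.H33.MR

open scoped InnerProductSpace ComplexConjugate
open Cfsg.Agent.H30 Cfsg.Agent.H33.OD QuadraticMap Module Finset

section

variable {F V : Type*} [Field F] [AddCommGroup V] [Module F V]

/-- A maximal system of hyperbolic pairs. -/
structure Fr (Q : QuadraticForm F V) (k : ℕ) where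
  v : ℕ → V
  hQ : ∀ p < 2 * k, Q (v p) = 0
  pol : ∀ p < 2 * k, ∀ p' < 2 * k, polar Q (v p) (v p') = if p + p' + 1 = 2 * k then 1 else 0
  an : ∀ r, (∀ p < 2 * k, polar Q (v p) r = 0) → Q r = 0 → r = 0

end

universe u

theorem exists_Fr {F : Type*} [Field F] [Fintype F] (k : ℕ) : ∀ {V : Type u} [AddCommGroup V]
    [Module F V] [FiniteDimensional F V] {Q : QuadraticForm F V},
    (polarBilin Q).Nondegenerate → (finrank F V = 2 * k + 1 ∨
      (finrank F V = 2 * k ∧ H79.IsPlus (F := F) Q) ∨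
      (finrank F V = 2 * k + 2 ∧ ¬ H79.IsPlus (F := F) Q)) → Nonempty (Fr Q k) := by
  induction k with
  | zero =>
    intro V _ _ _ Q hQ h
    refine ⟨⟨fun _ => 0, by simp, by simp, fun r _ hr => ?_⟩⟩
    rcases h with h | h | h
    · exact anisotropic_of_finrank_one hQ h r hr
    · have : Subsingleton V := Module.finrank_zero_iff.1 h.1
      exact Subsingleton.elim _ _
    · exact anisotropic_of_not_isPlus h.1 h.2 r hr
  | succ k ih =>
    intro V _ _ _ Q hQ h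
    obtain ⟨e, f, hh⟩ : ∃ e f, IsHyp Q e f := by
      rcases h with h | h | h
      · exact exists_isHyp_of_three_le hQ (by omega)
      · obtain ⟨e, f, hh, -⟩ := exists_isHyp_isPlus hQ h.2 (by omega)
        exact ⟨e, f, hh⟩
      · exact exists_isHyp_of_three_le hQ (by omega)
    have hd := hh.finrank_hperp
    obtain ⟨fr⟩ := ih (hh.nondegOn_hperp hQ).restrict (by
      rw [← hh.isPlus_iff hQ]
      rcases h with h | h | h
      · exact Or.inl (by omega)
      · exact Or.inr (Or.inl ⟨by omega, h.2⟩)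
      · exact Or.inr (Or.inr ⟨by omega, h.2⟩))
    have tri : ∀ p < 2 * (k + 1), p = 0 ∨ p = 2 * k + 1 ∨ ∃ p' < 2 * k, p = p' + 1 := fun p hp => by
      by_cases h0 : p = 0
      · exact Or.inl h0
      by_cases h1 : p = 2 * k + 1
      · exact Or.inr (Or.inl h1)
      · exact Or.inr (Or.inr ⟨p - 1, by omega, by omega⟩)
    let v : ℕ → V := fun p => if p = 0 then e else if p = 2 * k + 1 then f else fr.v (p - 1)
    have v0 : v 0 = e := by simp [v]
    have v1 : v (2 * k + 1) = f := by simp [v]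
    have v2 : ∀ p < 2 * k, v (p + 1) = fr.v p := fun p hp => by simp [v, hp.ne]
    refine ⟨⟨v, fun p hp => ?_, fun p hp p' hp' => ?_, fun r hr hr' => ?_⟩⟩
    · have h1 := tri p hp
      clear hp
      rcases h1 with rfl | rfl | ⟨p, hp, rfl⟩
      · rw [v0, hh.left]
      · rw [v1, hh.right]
      · rw [v2 p hp]; exact fr.hQ p hp
    · have h1 := tri p hp
      have h2 := tri p' hp'
      clear hp hp'
      rcases h1 with rfl | rfl | ⟨p, hp, rfl⟩ <;>
      rcases h2 with rfl | rfl | ⟨p', hp', rfl⟩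
      · rw [v0, hh.polar_left, if_neg (by omega)]
      · rw [v0, v1, hh.pol, if_pos (by omega)]
      · rw [v0, v2 p' hp', hperp_polar (fr.v p').2, if_neg (by omega)]
      · rw [v0, v1, hh.pol', if_pos (by omega)]
      · rw [v1, hh.polar_right, if_neg (by omega)]
      · rw [v1, v2 p' hp', polar_comm, (fr.v p').2.2, if_neg (by omega)]
      · rw [v0, v2 p hp, (fr.v p).2.1, if_neg (by omega)]
      · rw [v1, v2 p hp, (fr.v p).2.2, if_neg (by omega)]
      · rw [v2 p hp, v2 p' hp', ← polar_restrict, fr.pol p hp p' hp']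
        exact if_congr (by omega) rfl rfl
    · have h1 : r ∈ hperp Q e f := ⟨by rw [polar_comm, ← v0]; exact hr 0 (by omega),
        by rw [polar_comm, ← v1]; exact hr _ (by omega)⟩
      exact congrArg Subtype.val (fr.an ⟨r, h1⟩ (fun p hp => by
        rw [polar_restrict, ← v2 p hp]; exact hr _ (by omega)) hr')

variable {F V : Type*} [Field F] [Fintype F] [AddCommGroup V] [Module F V] [FiniteDimensional F V]
  [Fintype V] {Q : QuadraticForm F V}

local notation "q" => Fintype.card F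

theorem nc_inf {W : Submodule F V} {e f : V} (h : IsHyp Q e f) (he : e ∈ W) (hf : f ∈ W) (c : F) :
    nc (Q.restrict W) c = (q - 1) * q ^ finrank F ↥(W ⊓ hperp Q e f) +
      q * nc (Q.restrict (W ⊓ hperp Q e f)) c := by
  have h' : IsHyp (Q.restrict W) ⟨e, he⟩ ⟨f, hf⟩ := ⟨h.left, h.right, h.pol⟩
  have heq : W ⊓ hperp Q e f = (hperp (Q.restrict W) ⟨e, he⟩ ⟨f, hf⟩).map W.subtype := by
    ext x
    constructor
    · rintro ⟨hx, hx'⟩; exact ⟨⟨x, hx⟩, hx', rfl⟩
    · rintro ⟨y, hy, rfl⟩; exact ⟨y.2, hy⟩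
  rw [h'.nc_eq, Nat.card_eq_fintype_card]
  congr 2
  · rw [heq, Submodule.finrank_map_subtype_eq]
  · exact Nat.card_congr ⟨fun w => ⟨⟨w.1.1.1, w.1.1.2, w.1.2⟩, w.2⟩,
      fun w => ⟨⟨⟨w.1.1, w.1.2.1⟩, w.1.2.2⟩, w.2⟩, fun _ => rfl, fun _ => rfl⟩

namespace Fr

variable {k : ℕ} (fr : Fr Q k)

theorem pol0 {p p' : ℕ} (hp : p < 2 * k) (hp' : p' < 2 * k) (h : p + p' + 1 ≠ 2 * k) :
    polar Q (fr.v p) (fr.v p') = 0 := by rw [fr.pol p hp p' hp', if_neg h]

theorem pol1 {p p' : ℕ} (h : p + p' + 1 = 2 * k) : polar Q (fr.v p) (fr.v p') = 1 := by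
  rw [fr.pol p (by omega) p' (by omega), if_pos h]

theorem hyp {p p' : ℕ} (h : p + p' + 1 = 2 * k) : IsHyp Q (fr.v p) (fr.v p') :=
  ⟨fr.hQ p (by omega), fr.hQ p' (by omega), fr.pol1 h⟩

theorem ne_zero {p : ℕ} (hp : p < 2 * k) : fr.v p ≠ 0 :=
  (fr.hyp (p' := 2 * k - 1 - p) (by omega)).left_ne_zero

/-- The vectors orthogonal to a part of the frame. -/
def Pp (S : ℕ → Prop) : Submodule F V where
  carrier := {w | ∀ p < 2 * k, S p → polar Q (fr.v p) w = 0}
  add_mem' {a b} ha hb p hp h := by rw [polar_add_right, ha p hp h, hb p hp h, add_zero]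
  zero_mem' p _ _ := by simp
  smul_mem' c a ha p hp h := by rw [polar_smul_right', ha p hp h, mul_zero]

/-- The anisotropic kernel. -/
abbrev R0 : Submodule F V := fr.Pp fun _ => True

/-- The span of a part of the frame. -/
def sp (S : ℕ → Prop) : Submodule F V := Submodule.span F (fr.v '' {p | p < 2 * k ∧ S p})

theorem mem_sp {S : ℕ → Prop} {p : ℕ} (hp : p < 2 * k) (h : S p) : fr.v p ∈ fr.sp S :=
  Submodule.subset_span ⟨p, ⟨hp, h⟩, rfl⟩

theorem mem_Pp {S : ℕ → Prop} {b : ℕ} (hb : b < 2 * k) (h : ¬ S (2 * k - 1 - b)) :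
    fr.v b ∈ fr.Pp S := fun p hp hS => fr.pol0 hp hb fun e => h (by
  rwa [show 2 * k - 1 - b = p by omega])

theorem Pp_mono {S S' : ℕ → Prop} (h : ∀ p < 2 * k, S p → S' p) {w : V} (hw : w ∈ fr.Pp S') :
    w ∈ fr.Pp S := fun p hp hS => hw p hp (h p hp hS)

theorem polar_sp {S : ℕ → Prop} {z w : V} (hz : z ∈ fr.sp S) (hw : w ∈ fr.Pp S) :
    polar Q z w = 0 :=
  mem_perp.1 (mem_perp_span.2 (by rintro _ ⟨p, hp, rfl⟩; exact hw p hp.1 hp.2)) z hz

/-- Totally singular parts of the frame. -/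
def Ts (k : ℕ) (S : ℕ → Prop) : Prop := ∀ p p', S p → S p' → p + p' + 1 ≠ 2 * k

theorem sp_le {S : ℕ → Prop} (hS : Ts k S) : fr.sp S ≤ fr.Pp S :=
  Submodule.span_le.2 (by
    rintro _ ⟨p, hp, rfl⟩
    exact fr.mem_Pp hp.1 fun h => hS _ _ hp.2 h (by have := hp.1; omega))

theorem Q_sp {S : ℕ → Prop} (hS : Ts k S) {z : V} (hz : z ∈ fr.sp S) : Q z = 0 := by
  induction hz using Submodule.span_induction with
  | mem a ha => obtain ⟨p, hp, rfl⟩ := ha; exact fr.hQ p hp.1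
  | zero => simp
  | add a b ha hb ha' hb' => rw [Q_add, ha', hb', fr.polar_sp ha (fr.sp_le hS hb)]; simp
  | smul c a _ ha => rw [Q_smul, ha, mul_zero]

theorem sub_mem_R0 (w : V) :
    w - ∑ b ∈ range (2 * k), polar Q (fr.v (2 * k - 1 - b)) w • fr.v b ∈ fr.R0 := fun p hp _ => by
  rw [polar_sub_right, polar_sum_right, sum_eq_single (2 * k - 1 - p)]
  · rw [polar_smul_right', fr.pol1 (by omega), show 2 * k - 1 - (2 * k - 1 - p) = p by omega,
      mul_one, sub_self]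
  · intro b hb e
    rw [polar_smul_right', fr.pol0 hp (mem_range.1 hb) (by omega), mul_zero]
  · intro h
    exact absurd (mem_range.2 (by omega)) h

theorem induction (S : ℕ → Prop) {P : V → Prop}
    (hadd : ∀ u ∈ fr.Pp S, ∀ w ∈ fr.Pp S, P u → P w → P (u + w))
    (hv : ∀ b < 2 * k, ¬ S (2 * k - 1 - b) → ∀ t : F, P (t • fr.v b)) (hR : ∀ r ∈ fr.R0, P r) :
    ∀ w ∈ fr.Pp S, P w := by
  intro w hw
  have h1 := fr.sub_mem_R0 w
  have h0 : P 0 := hR 0 (Submodule.zero_mem _)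
  have h2 := Finset.sum_induction (s := range (2 * k))
    (fun b => polar Q (fr.v (2 * k - 1 - b)) w • fr.v b) (fun u => u ∈ fr.Pp S ∧ P u)
    (fun a b ha hb => ⟨Submodule.add_mem _ ha.1 hb.1, hadd _ ha.1 _ hb.1 ha.2 hb.2⟩)
    ⟨Submodule.zero_mem _, h0⟩ fun b hb => by
      have hb := mem_range.1 hb
      by_cases h : S (2 * k - 1 - b)
      · rw [hw _ (by omega) h, zero_smul]; exact ⟨Submodule.zero_mem _, h0⟩
      · exact ⟨Submodule.smul_mem _ _ (fr.mem_Pp hb h), hv b hb h _⟩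
  have h3 := hadd _ h2.1 _ (fr.Pp_mono (fun _ _ _ => trivial) h1) h2.2 (hR _ h1)
  rwa [add_sub_cancel] at h3

theorem nondeg (hQ : (polarBilin Q).Nondegenerate) {S : ℕ → Prop}
    (hS : ∀ p < 2 * k, S (2 * k - 1 - p) → S p) : NondegOn Q (fr.Pp S) := fun x hx h =>
  eq_zero_of_polar hQ fun y => fr.induction (fun _ => False) (P := fun y => polar Q x y = 0)
    (fun u _ w _ h1 h2 => by rw [polar_add_right, h1, h2, add_zero]) (fun b hb _ t => by
      rw [polar_smul_right']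
      by_cases e : S b
      · rw [polar_comm, hx b hb e, mul_zero]
      · rw [h _ (fr.mem_Pp hb fun e' => e (hS b hb e')), mul_zero])
    (fun r hr => h r (fr.Pp_mono (fun _ _ _ => trivial) hr)) y fun _ _ h => h.elim

theorem nondeg_R0 (hQ : (polarBilin Q).Nondegenerate) : NondegOn Q fr.R0 :=
  fr.nondeg hQ fun _ _ _ => trivial

theorem exists_sp {S : ℕ → Prop} : ∀ w ∈ fr.Pp S,
    ∃ z ∈ fr.sp S, w - z ∈ fr.Pp fun p => S p ∨ S (2 * k - 1 - p) := by
  refine fr.induction S ?_ (fun b hb h t => ?_) fun r hr =>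
    ⟨0, Submodule.zero_mem _, fr.Pp_mono (fun _ _ _ => trivial) (by simpa using hr)⟩
  · rintro u - w - ⟨a, ha, ha'⟩ ⟨b, hb, hb'⟩
    exact ⟨a + b, Submodule.add_mem _ ha hb, by
      rw [add_sub_add_comm]; exact Submodule.add_mem _ ha' hb'⟩
  · by_cases e : S b
    · exact ⟨_, Submodule.smul_mem _ t (fr.mem_sp hb e), by simp⟩
    · refine ⟨0, Submodule.zero_mem _, ?_⟩
      rw [sub_zero]
      refine Submodule.smul_mem _ t (fr.mem_Pp hb ?_)
      rw [show 2 * k - 1 - (2 * k - 1 - b) = b by omega]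
      tauto

/-- The orthogonal complement of the first `j` pairs. -/
abbrev Vj (j : ℕ) : Submodule F V := fr.Pp fun p => p < j ∨ 2 * k ≤ p + j

theorem nondeg_Vj (hQ : (polarBilin Q).Nondegenerate) (j : ℕ) : NondegOn Q (fr.Vj j) :=
  fr.nondeg hQ fun _ _ _ => by omega

theorem Vj_succ {j : ℕ} (hj : j < k) :
    fr.Vj (j + 1) = fr.Vj j ⊓ hperp Q (fr.v j) (fr.v (2 * k - 1 - j)) := by
  ext w
  refine ⟨fun h => ⟨fr.Pp_mono (fun _ _ _ => by omega) h, ?_, ?_⟩, fun h p hp h' => ?_⟩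
  · rw [polar_comm]; exact h _ (by omega) (by omega)
  · rw [polar_comm]; exact h _ (by omega) (by omega)
  · by_cases e : p = j
    · rw [e, polar_comm, h.2.1]
    by_cases e' : p = 2 * k - 1 - j
    · rw [e', polar_comm, h.2.2]
    · exact h.1 p hp (by omega)

theorem Vj_zero : fr.Vj 0 = ⊤ := eq_top_iff.2 fun _ _ _ _ _ => by omega

theorem Vj_top : fr.Vj k = fr.R0 := by
  ext w
  exact ⟨fr.Pp_mono fun _ _ _ => by omega, fr.Pp_mono fun _ _ _ => trivial⟩

theorem finrank_Vj (hQ : (polarBilin Q).Nondegenerate) {j : ℕ} (hj : j ≤ k) :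
    finrank F (fr.Vj j) + 2 * j = finrank F V := by
  induction j with
  | zero => rw [fr.Vj_zero, finrank_top]; rfl
  | succ j ih =>
    have := ((fr.nondeg_Vj hQ j).inf_hperp (fr.hyp (p := j) (p' := 2 * k - 1 - j) (by omega))
      (fr.mem_Pp (by omega) (by omega)) (fr.mem_Pp (by omega) (by omega))).2
    rw [← fr.Vj_succ hj] at this
    have := ih (by omega)
    omega

theorem nc_Vj (hQ : (polarBilin Q).Nondegenerate) {j : ℕ} (hj : j < k) :
    nc (Q.restrict (fr.Vj j)) 0 =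
      (q - 1) * q ^ (finrank F V - 2 * (j + 1)) + q * nc (Q.restrict (fr.Vj (j + 1))) 0 := by
  rw [nc_inf (fr.hyp (p := j) (p' := 2 * k - 1 - j) (by omega))
    (fr.mem_Pp (by omega) (by omega)) (fr.mem_Pp (by omega) (by omega)), ← fr.Vj_succ hj,
    ← fr.finrank_Vj hQ (j := j + 1) hj, Nat.add_sub_cancel]

theorem nc_top : nc (Q.restrict (fr.Vj k)) 0 = 1 :=
  nc_zero_of_anisotropic fun w hw => Subtype.ext (fr.an w (fun p hp => w.2 p hp (by omega)) hw)

variable {M : Type*} [NormedAddCommGroup M] [InnerProductSpace ℂ M]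
  [DistribMulAction (eichGroup Q) M] [UA (eichGroup Q) M]

/-- Fixed by a long root subgroup. -/
def Rt (v : M) (a b : ℕ) : Prop := ∀ t : F, T Q (fr.v a) (t • fr.v b) • v = v

/-- Fixed by a short root subgroup. -/
def Rs (v : M) (a : ℕ) : Prop := ∀ r ∈ fr.R0, T Q (fr.v a) r • v = v

variable {fr} in
theorem Rt.symm {v : M} {a b : ℕ} (h : fr.Rt v a b) (ha : a < 2 * k) (hb : b < 2 * k) :
    fr.Rt v b a := fun t => by rw [T_swap' (fr.hQ b hb) (fr.hQ a ha), h]

theorem Rt_self (v : M) (a : ℕ) : fr.Rt v a a := fun t => by rw [T_smul_self, one_smul]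

theorem wt_of_roots {S : ℕ → Prop} {a : ℕ} (ha : a < 2 * k) (hS : S a) {v : M} {ν : V}
    (h1 : ∀ b < 2 * k, ¬ S (2 * k - 1 - b) → ∀ t : F,
      T Q (fr.v a) (t • fr.v b) • v = ps F (polar Q ν (t • fr.v b)) • v)
    (h2 : ∀ r ∈ fr.R0, T Q (fr.v a) r • v = ps F (polar Q ν r) • v) :
    ∀ w ∈ fr.Pp S, T Q (fr.v a) w • v = ps F (polar Q ν w) • v :=
  fr.induction S (fun u hu w hw e1 e2 => by
    rw [← T_mul (fr.hQ a ha) (hu a ha hS) (hw a ha hS), mul_smul, e2, gcs, e1, smul_smul,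
      polar_add_right, AddChar.map_add_eq_mul, mul_comm]) h1 h2

theorem fix_of_roots {S : ℕ → Prop} {a : ℕ} (ha : a < 2 * k) (hS : S a) {v : M}
    (h1 : ∀ b < 2 * k, ¬ S (2 * k - 1 - b) → fr.Rt v a b) (h2 : fr.Rs v a) :
    ∀ w ∈ fr.Pp S, T Q (fr.v a) w • v = v := by
  simpa using fr.wt_of_roots ha hS (v := v) (ν := 0) (by simpa [Rt] using h1) (by simpa [Rs] using h2)

variable (M) in
/-- The fixed space of the unipotent radical. -/
def YS (S : ℕ → Prop) : Submodule ℂ M :=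
  fxs M {g : eichGroup Q | ∃ z ∈ fr.sp S, ∃ w ∈ fr.Pp S, g = T Q z w}

theorem mem_YS {S : ℕ → Prop} (hS : Ts k S) {v : M} :
    v ∈ fr.YS M S ↔ ∀ a < 2 * k, S a → ∀ w ∈ fr.Pp S, T Q (fr.v a) w • v = v := by
  refine ⟨fun h a ha h' w hw => h _ ⟨_, fr.mem_sp ha h', w, hw, rfl⟩, fun h => ?_⟩
  rintro _ ⟨z, hz, w, hw, rfl⟩
  induction hz using Submodule.span_induction generalizing w with
  | mem a ha => obtain ⟨p, hp, rfl⟩ := ha; exact h p hp.1 hp.2 w hw
  | zero => rw [show T Q 0 w = 1 from Subtype.ext (eich_zero_left w), one_smul]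
  | add a b ha hb ha' hb' =>
    rw [T_add_left (fr.Q_sp hS ha) (fr.Q_sp hS hb) (fr.polar_sp ha (fr.sp_le hS hb))
      (fr.polar_sp ha hw) (fr.polar_sp hb hw), mul_smul, mul_smul, hb' w hw, ha' w hw,
      ha' _ (Submodule.smul_mem _ _ (fr.sp_le hS hb))]
  | smul c a _ ha =>
    by_cases hc : c = 0
    · rw [hc, zero_smul, show T Q 0 w = 1 from Subtype.ext (eich_zero_left w), one_smul]
    · rw [T_smul_left hc, ha _ (Submodule.smul_mem _ _ hw)]

theorem mem_YS' {S : ℕ → Prop} (hS : Ts k S) {v : M} :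
    v ∈ fr.YS M S ↔ (∀ a < 2 * k, ∀ b < 2 * k, S a → ¬ S (2 * k - 1 - b) → fr.Rt v a b) ∧
      ∀ a < 2 * k, S a → fr.Rs v a := by
  rw [fr.mem_YS hS]
  exact ⟨fun h => ⟨fun a ha b hb h1 h2 t => h a ha h1 _ (Submodule.smul_mem _ t (fr.mem_Pp hb h2)),
    fun a ha h1 r hr => h a ha h1 r (fr.Pp_mono (fun _ _ _ => trivial) hr)⟩,
    fun h a ha h1 => fr.fix_of_roots ha h1 (fun b hb => h.1 a ha b hb h1) (h.2 a ha h1)⟩

theorem YS_smul {S : ℕ → Prop} {g : eichGroup Q} (h : ∀ p < 2 * k, S p → g • fr.v p ∈ fr.sp S)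
    {v : M} (hv : v ∈ fr.YS M S) : g • v ∈ fr.YS M S := by
  rintro _ ⟨z, hz, w, hw, rfl⟩
  have h1 : ∀ u ∈ fr.sp S, g.1.1 u ∈ fr.sp S := fun u hu =>
    (Submodule.span_le (p := (fr.sp S).comap (g.1.1 : V →ₗ[F] V))).2
      (by rintro _ ⟨p, hp, rfl⟩; exact h p hp.1 hp.2) hu
  rw [← mul_smul, show T Q z w * g = g * T Q (g⁻¹ • z) (g⁻¹ • w) by rw [← T_conj]; group, mul_smul,
    hv _ ⟨g⁻¹ • z, inv_mem_of_forall_mem g.1 _ h1 z hz, g⁻¹ • w, fun p hp h' => by
      rw [← polar_gsmul_left, fr.polar_sp (h p hp h') hw], rfl⟩]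

theorem T_mem_sp {S : ℕ → Prop} {a b : ℕ} (ha : a < 2 * k) (hb : b < 2 * k)
    (hab : a + b + 1 ≠ 2 * k) (h1 : S (2 * k - 1 - a) → S b) (h2 : S (2 * k - 1 - b) → S a) (t : F) :
    ∀ p < 2 * k, S p → T Q (fr.v a) (t • fr.v b) • fr.v p ∈ fr.sp S := by
  intro p hp h
  rw [T_smul (fr.hQ a ha) (by rw [polar_smul_right', fr.pol0 ha hb hab, mul_zero]), Q_smul,
    fr.hQ b hb, mul_zero, zero_mul, zero_smul, sub_zero, polar_smul_right']
  refine Submodule.sub_mem _ (Submodule.add_mem _ (fr.mem_sp hp h) ?_) ?_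
  · by_cases e : p + a + 1 = 2 * k
    · exact Submodule.smul_mem _ _ (Submodule.smul_mem _ _ (fr.mem_sp hb (h1 (by
        rwa [show 2 * k - 1 - a = p by omega]))))
    · rw [fr.pol0 hp ha e, zero_smul]; exact Submodule.zero_mem _
  · by_cases e : p + b + 1 = 2 * k
    · exact Submodule.smul_mem _ _ (fr.mem_sp ha (h2 (by rwa [show 2 * k - 1 - b = p by omega])))
    · rw [fr.pol0 hp hb e, mul_zero, zero_smul]; exact Submodule.zero_mem _

theorem pure_frame (hQ : (polarBilin Q).Nondegenerate) (hP : PureS Q M) {S : ℕ → Prop}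
    (hS : Ts k S) {a : ℕ} (ha : a < 2 * k) (hSa : S a) {v : M} (h0 : v ≠ 0)
    (h1 : ∀ p < 2 * k, S p → fr.Rt v a p) {ν : V}
    (hν : ν ∈ fr.Pp fun p => S p ∨ S (2 * k - 1 - p))
    (h2 : ∀ w ∈ fr.Pp fun p => S p ∨ S (2 * k - 1 - p),
      T Q (fr.v a) w • v = ps F (polar Q ν w) • v) : Q ν = 0 := by
  obtain ⟨ν', h3, v', h4, h5, h6⟩ := exists_WT hQ (fr.ne_zero ha) (fr.hQ a ha) h0
  have h7 := hP _ _ _ (fr.ne_zero ha) (fr.hQ a ha) h3 h5 h4
  have h8 : ν' - ν ∈ fr.Pp S := fun p hp h => by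
    rw [polar_sub_right, hν p hp (Or.inl h), sub_zero, polar_comm,
      polar_eq_of_partial (μ := 0) (fr.hQ a ha) h4 h5 h6 (fr.pol0 ha hp (hS _ _ hSa h))
        (by simpa [Rt] using h1 p hp h)]
    simp
  obtain ⟨z, hz, hz'⟩ := fr.exists_sp _ h8
  have h9 : ν' - ν - z = 0 := fr.nondeg hQ (fun p hp h => by
    rw [show 2 * k - 1 - (2 * k - 1 - p) = p by omega] at h; tauto) _ hz' fun y hy => by
      rw [polar_sub_left, polar_sub_left, polar_eq_of_partial (fr.hQ a ha) h4 h5 h6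
        (hy a ha (Or.inl hSa)) fun c => h2 _ (Submodule.smul_mem _ c hy), sub_self,
        fr.polar_sp hz (fr.Pp_mono (fun _ _ h => Or.inl h) hy), sub_zero]
  rw [show ν' = z + ν by rw [← sub_eq_zero, ← h9]; abel, Q_add, fr.Q_sp hS hz,
    fr.polar_sp hz (fr.Pp_mono (fun _ _ h => Or.inl h) hν)] at h7
  simpa using h7

theorem Rs_of_pure (hQ : (polarBilin Q).Nondegenerate) (hP : PureS Q M) {S : ℕ → Prop}
    (hS : Ts k S) (hS' : ∀ p < 2 * k, S p ∨ S (2 * k - 1 - p)) {a : ℕ} (ha : a < 2 * k) (hSa : S a)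
    {v : M} (h1 : ∀ p < 2 * k, S p → fr.Rt v a p) : fr.Rs v a := by
  have hX : IsAdd (TX Q (fr.v a) fr.R0) := TX_add (fr.hQ a ha) fun w hw => hw a ha trivial
  by_contra h
  obtain ⟨χ, hχ, h2⟩ := exists_pr_ne_zero' hX (v := v) fun h' => h fun r hr => h' ⟨r, hr⟩
  obtain ⟨ν, hν, rfl⟩ := ch_surj (fr.nondeg_R0 hQ) χ
  refine hχ ?_
  rw [fr.an ν (fun p hp => hν p hp trivial) (fr.pure_frame hQ hP hS ha hSa h2 (fun p hp h t => ?_)
    (fr.Pp_mono (fun _ _ _ => trivial) hν) fun w hw =>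
      pr_wt hX _ v ⟨w, fr.Pp_mono (fun p hp _ => hS' p hp) hw⟩), ch_zero]
  rw [smul_pr_of_comm (X := TX Q (fr.v a) fr.R0) fun r => T_comm (fr.hQ a ha) (by
    rw [polar_smul_right', fr.pol0 ha hp (hS _ _ hSa h), mul_zero]) (r.2 a ha trivial), h1 p hp h]

/-- The highest weight vector is fixed by the unipotent radical. -/
theorem fix_top (hQ : (polarBilin Q).Nondegenerate) (hP : PureS Q M) (hM : Mult1 Q M) (hk : 3 ≤ k)
    (h7 : 7 ≤ finrank F V) (hq : 4 ≤ q ∨ 2 * k < finrank F V) {c : F} (hc : c ≠ 0) {m : M}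
    (hm : WT Q (fr.v 0) (c • fr.v 1) m) {a : ℕ} (ha : a + 2 < 2 * k) {w : V}
    (hw : w ∈ fr.Pp fun p => p = 0 ∨ p = 1 ∨ p = a) : T Q (fr.v a) w • m = m := by
  by_cases h0 : m = 0
  · simp [h0]
  have eig : ∀ g : eichGroup Q, g • fr.v 0 = fr.v 0 → g • fr.v 1 = fr.v 1 → ∃ d : ℂ, g • m = d • m :=
    fun g g0 g1 => hM _ _ _ _ (fr.ne_zero (by omega)) (fr.hQ 0 (by omega))
      (by rw [polar_smul_right', fr.pol0 (by omega) (by omega) (by omega), mul_zero]) (fun h => by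
        obtain ⟨d, hd⟩ := Submodule.mem_span_singleton.1 h
        have := congrArg (fun z => polar Q z (fr.v (2 * k - 2))) hd
        simp only [polar_smul_left'] at this
        rw [fr.pol0 (by omega) (by omega) (by omega), fr.pol1 (by omega)] at this
        exact hc (by simpa using this.symm)) hm (by simpa [gsmul_smul, g1] using hm.smul' g0) h0
  have eigT : ∀ z ∈ fr.Pp fun p => p = 0 ∨ p = 1, ∀ w ∈ fr.Pp fun p => p = 0 ∨ p = 1,
      ∃ d : ℂ, T Q z w • m = d • m := fun z hz w hw => eig _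
    (T_smul_of_orth (hz 0 (by omega) (by simp)) (hw 0 (by omega) (by simp)))
    (T_smul_of_orth (hz 1 (by omega) (by simp)) (hw 1 (by omega) (by simp)))
  have k0 : ∀ w ∈ fr.Pp fun p => p = 0 ∨ p = 1, T Q (fr.v 0) w • m = m := fun w hw => by
    rw [hm w (hw 0 (by omega) (by simp)), polar_smul_left', hw 1 (by omega) (by simp)]; simp
  have k1 : ∀ w ∈ fr.Pp fun p => p = 0 ∨ p = 1, T Q (fr.v 1) w • m = m := by
    have hd := fr.finrank_Vj hQ hk
    obtain ⟨r, hr, hr0⟩ := Submodule.exists_mem_ne_zero_of_ne_bot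
      (ne_bot_of_finrank_pos (W := fr.Vj 3) (by omega))
    obtain ⟨r', hr', hrr⟩ := (fr.nondeg_Vj hQ 3).exists_polar_eq_one hr hr0
    exact inv_char (fr.hQ 1 (by omega)) (fr.Pp fun p => p = 0 ∨ p = 1)
      (fun w hw => hw 1 (by omega) (by simp))
      (eigT _ (fr.mem_Pp (by omega) (by omega))) (fun z hz a ha _ _ => eigT z hz a ha)
      (fr.hyp (p := 2) (p' := 2 * k - 3) (by omega)) (fr.mem_Pp (by omega) (by omega))
      (fr.mem_Pp (by omega) (by omega)) (fr.Pp_mono (fun _ _ _ => by omega) hr)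
      (fr.Pp_mono (fun _ _ _ => by omega) hr')
      ⟨by rw [polar_comm]; exact hr _ (by omega) (by omega),
        by rw [polar_comm]; exact hr _ (by omega) (by omega)⟩
      ⟨by rw [polar_comm]; exact hr' _ (by omega) (by omega),
        by rw [polar_comm]; exact hr' _ (by omega) (by omega)⟩ hrr
  by_cases e0 : a = 0
  · subst e0; exact k0 w (fr.Pp_mono (fun _ _ _ => by omega) hw)
  by_cases e1 : a = 1
  · subst e1; exact k1 w (fr.Pp_mono (fun _ _ _ => by omega) hw)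
  have hva : fr.v a ∈ fr.Pp fun p => p = 0 ∨ p = 1 := fr.mem_Pp (by omega) (by omega)
  have hh := fr.hyp (p := a) (p' := 2 * k - 1 - a) (by omega)
  by_cases hq' : 4 ≤ q
  · have hw' : hproj Q (fr.v a) (fr.v (2 * k - 1 - a)) w ∈ fr.Pp fun p => p = 0 ∨ p = 1 :=
      Submodule.sub_mem _ (Submodule.sub_mem _ (fr.Pp_mono (fun _ _ _ => by omega) hw)
        (Submodule.smul_mem _ _ hva)) (Submodule.smul_mem _ _ (fr.mem_Pp (by omega) (by omega)))
    rw [hproj_eq hh (hw a (by omega) (by simp)), T_add_smul]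
    exact inv_torus hq' hQ (by omega) hh (hh.hproj_mem w)
      (fun t => eigT _ hva _ (Submodule.smul_mem _ _ hw')) fun g hg => eig g
        (hg _ ⟨fr.pol0 (by omega) (by omega) (by omega), fr.pol0 (by omega) (by omega) (by omega)⟩)
        (hg _ ⟨fr.pol0 (by omega) (by omega) (by omega), fr.pol0 (by omega) (by omega) (by omega)⟩)
  by_cases e3 : k = 3
  · have k2 : ∀ p < 2 * k, (p = 0 ∨ p = 1 ∨ p = a) → fr.Rt m a p := by
      rintro p hp (rfl | rfl | rfl)
      · exact Rt.symm (fun t => k0 _ (Submodule.smul_mem _ t hva)) (by omega) (by omega)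
      · exact Rt.symm (fun t => k1 _ (Submodule.smul_mem _ t hva)) (by omega) (by omega)
      · exact fr.Rt_self _ _
    exact fr.fix_of_roots (by omega) (by simp) (fun b hb h => k2 b hb (by omega))
      (fr.Rs_of_pure hQ hP (fun _ _ _ _ => by omega) (fun _ _ => by omega) (by omega) (by simp) k2)
      w hw
  · have hd := fr.finrank_Vj hQ le_rfl
    obtain ⟨r, hr, hr0⟩ := Submodule.exists_mem_ne_zero_of_ne_bot
      (ne_bot_of_finrank_pos (W := fr.Vj k) (by omega))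
    rw [fr.Vj_top] at hr
    obtain ⟨r', hr', hrr⟩ := (fr.nondeg_R0 hQ).exists_polar_eq_one hr hr0
    obtain ⟨b, hb⟩ : ∃ b, 2 ≤ b ∧ b ≤ 3 ∧ b ≠ a ∧ a + b + 1 ≠ 2 * k := by
      by_cases e : a = 2 ∨ a + 3 = 2 * k
      · exact ⟨3, by omega⟩
      · exact ⟨2, by omega⟩
    exact inv_char hh.left (fr.Pp fun p => p = 0 ∨ p = 1 ∨ p = a)
      (fun w hw => hw a (by omega) (by simp))
      (fun w hw => eigT _ hva w (fr.Pp_mono (fun _ _ _ => by omega) hw))
      (fun z hz a ha _ _ => eigT z (fr.Pp_mono (fun _ _ _ => by omega) hz) a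
        (fr.Pp_mono (fun _ _ _ => by omega) ha))
      (fr.hyp (p := b) (p' := 2 * k - 1 - b) (by omega)) (fr.mem_Pp (by omega) (by omega))
      (fr.mem_Pp (by omega) (by omega)) (fr.Pp_mono (fun _ _ _ => trivial) hr)
      (fr.Pp_mono (fun _ _ _ => trivial) hr')
      ⟨by rw [polar_comm]; exact hr _ (by omega) trivial,
        by rw [polar_comm]; exact hr _ (by omega) trivial⟩
      ⟨by rw [polar_comm]; exact hr' _ (by omega) trivial,
        by rw [polar_comm]; exact hr' _ (by omega) trivial⟩ hrr w hw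

end Fr

end Cfsg.Agent.H33.MR
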