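import Cfsg.Agent.H33.MinRep6

/-! The parabolic fixed spaces attached to a system of long simple roots. -/

set_option autoImplicit false
set_option linter.unusedSectionVars false

namespace Cfsg.Agent.H33.MR

open scoped InnerProductSpace ComplexConjugate
open Cfsg.Agent.H30 Cfsg.Agent.H33.OD QuadraticMap Module Finset

/-- The combinatorics of the long simple roots. -/
structure Cfg (k : ℕ) (I : Type) where
  pa : I → ℕ
  pb : I → ℕ
  σ : I → ℕ → Prop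
  base : ℕ → Prop
  i0 : I
  lt1 : ∀ i, pa i < pb i
  lt2 : ∀ i, pa i + 2 ≤ k
  lt3 : ∀ i, pb i ≤ k
  inj : ∀ i j, pb i = pb j → i = j
  nb : ∀ i, ∃ j, pb i = pa j ∨ pb j = pa i
  non : ∀ i j, i ≠ j → (pa i ≠ pa j ∧ pb i + pb j + 1 ≠ 2 * k) ∨
    (pa i = pa j ∧ pb i + pb j + 1 = 2 * k)
  ts : ∀ l, Fr.Ts k (σ l)
  ts' : Fr.Ts k base
  stab : ∀ i l, l ≠ i → (σ l (pa i) ↔ σ l (pb i)) ∧
    (σ l (2 * k - 1 - pa i) ↔ σ l (2 * k - 1 - pb i))
  stab' : ∀ i, (base (pa i) ↔ base (pb i)) ∧ (base (2 * k - 1 - pa i) ↔ base (2 * k - 1 - pb i))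
  own : ∀ i, σ i (pa i) ∧ ¬ σ i (pb i)
  pos : ∀ l a b, a < 2 * k → b < 2 * k → σ l a → ¬ σ l (2 * k - 1 - b) → a = b ∨ a + b + 1 < 2 * k
  cls : ∀ i j a b, a < b → a + b + 1 < 2 * k →
    (∀ l, l ≠ i → l ≠ j → σ l a → σ l (2 * k - 1 - b)) → (base a → base (2 * k - 1 - b)) →
    (a = pa i ∧ b = 2 * k - 1 - pb i) ∨ (a = pa j ∧ b = 2 * k - 1 - pb j) ∨
    (pb i = pa j ∧ a = pa i ∧ b = 2 * k - 1 - pb j) ∨ (pb j = pa i ∧ a = pa j ∧ b = 2 * k - 1 - pb i)
  a0 : pa i0 = 0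
  b0 : pb i0 = 1
  top : ∀ l a, l ≠ i0 → σ l a → a + 2 < 2 * k ∧ σ l 0 ∧ σ l 1
  top' : ∀ a, base a → a + 2 < 2 * k ∧ base 0 ∧ base 1
  conn : ∀ P : I → Prop, P i0 → (∀ i j, pb i = pa j → P i → P j) → ∀ i, P i
  lev : ∀ j, j + 2 ≤ k → ∃ i, pa i = j ∧ pb i = j + 1

variable {F V : Type*} [Field F] [Fintype F] [AddCommGroup V] [Module F V] [FiniteDimensional F V]
  [Fintype V] {Q : QuadraticForm F V} {k : ℕ} {I : Type}

local notation "q" => Fintype.card F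

theorem Fr.fr2 (fr : Fr Q k) {a b : ℕ} (ha : a < 2 * k) (hb : b < 2 * k) (h1 : a ≠ b)
    (h2 : a + b + 1 ≠ 2 * k) :
    Fr2 Q (fr.v a) (fr.v (2 * k - 1 - a)) (fr.v b) (fr.v (2 * k - 1 - b)) :=
  ⟨fr.hyp (by omega), fr.hyp (by omega), fr.pol0 ha hb h2, fr.pol0 ha (by omega) (by omega),
    fr.pol0 (by omega) hb (by omega), fr.pol0 (by omega) (by omega) (by omega)⟩

namespace Cfg

variable (C : Cfg k I) (fr : Fr Q k)

theorem fr2 (i : I) : Fr2 Q (fr.v (C.pa i)) (fr.v (2 * k - 1 - C.pa i)) (fr.v (C.pb i))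
    (fr.v (2 * k - 1 - C.pb i)) := by
  have := C.lt1 i; have := C.lt2 i; have := C.lt3 i
  exact fr.fr2 (by omega) (by omega) (by omega) (by omega)

/-- The root data. -/
noncomputable def hd : HD (eichGroup Q) F I :=
  orthHD (fun i => fr.v (C.pa i)) (fun i => fr.v (2 * k - 1 - C.pa i)) (fun i => fr.v (C.pb i))
    (fun i => fr.v (2 * k - 1 - C.pb i)) (fun i j => C.pb i = C.pa j ∨ C.pb j = C.pa i)
    (fun h => h.symm) (fun i h => by have := C.lt1 i; omega) C.nb (C.fr2 fr)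
    (fun {i j} h => by
      have := C.lt1 i; have := C.lt2 i; have := C.lt3 i
      have := C.lt1 j; have := C.lt2 j; have := C.lt3 j
      rcases h with h | h
      · exact Or.inl ⟨by rw [h], by rw [h], fr.fr2 (by omega) (by omega) (by omega) (by omega)⟩
      · exact Or.inr ⟨by rw [h], by rw [h], fr.fr2 (by omega) (by omega) (by omega) (by omega)⟩)
    (fun {i j} e h => by
      have := C.lt1 i; have := C.lt2 i; have := C.lt3 i
      have := C.lt1 j; have := C.lt2 j; have := C.lt3 j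
      have h1 : C.pb i ≠ C.pb j := fun h => e (C.inj i j h)
      rcases C.non i j e with h2 | h2
      · exact cm_of_orth (fr.fr2 (by omega) (by omega) (by omega) (by omega))
          (fr.fr2 (by omega) (by omega) (by omega) (by omega))
          (fr.fr2 (by omega) (by omega) (by omega) (by omega))
          (fr.fr2 (by omega) (by omega) (by omega) (by omega))
      · simp only [← h2.1, show C.pb j = 2 * k - 1 - C.pb i by omega,
          show 2 * k - 1 - (2 * k - 1 - C.pb i) = C.pb i by omega]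
        exact cm_of_swap (C.fr2 fr i))

theorem hd_x (i : I) (t : F) :
    (C.hd fr).x i t = T Q (fr.v (C.pa i)) (t • fr.v (2 * k - 1 - C.pb i)) := rfl

theorem hd_n (i : I) : (C.hd fr).n i = nn Q (fr.v (C.pa i)) (fr.v (2 * k - 1 - C.pa i))
    (fr.v (C.pb i)) (fr.v (2 * k - 1 - C.pb i)) 1 := rfl

theorem hd_h (i : I) (t : Fˣ) : (C.hd fr).h i t = hh Q (fr.v (C.pa i)) (fr.v (2 * k - 1 - C.pa i))
    (fr.v (C.pb i)) (fr.v (2 * k - 1 - C.pb i)) t := rfl

theorem hd_adj (i j : I) : (C.hd fr).adj i j ↔ C.pb i = C.pa j ∨ C.pb j = C.pa i := Iff.rfl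

theorem hd_z1 {i j : I} (h : C.pb i = C.pa j) (t : F) :
    (C.hd fr).z i j t = T Q (fr.v (C.pa i)) (t • fr.v (2 * k - 1 - C.pb j)) := by
  have := C.lt1 i; have := C.lt2 i; have := C.lt3 i
  have := C.lt1 j; have := C.lt2 j; have := C.lt3 j
  have h3 := Fr3.mk (C.fr2 fr i) (h ▸ C.fr2 fr j)
    (fr.fr2 (a := C.pa i) (b := C.pb j) (by omega) (by omega) (by omega) (by omega))
  rw [HD.z, hd_n, hd_x, ← h, h3.z12]

theorem hd_z2 {i j : I} (h : C.pb j = C.pa i) (t : F) :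
    (C.hd fr).z i j t = T Q (fr.v (C.pa j)) ((-t) • fr.v (2 * k - 1 - C.pb i)) := by
  have := C.lt1 i; have := C.lt2 i; have := C.lt3 i
  have := C.lt1 j; have := C.lt2 j; have := C.lt3 j
  have h3 := Fr3.mk (C.fr2 fr j) (h ▸ C.fr2 fr i)
    (fr.fr2 (a := C.pa j) (b := C.pb i) (by omega) (by omega) (by omega) (by omega))
  rw [HD.z, hd_n, hd_x, ← h, h3.z21]

variable {M : Type*} [NormedAddCommGroup M] [InnerProductSpace ℂ M]
  [DistribMulAction (eichGroup Q) M] [UA (eichGroup Q) M]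

/-- Fixed by the root subgroup for the sum of two simple roots. -/
def Fz (i j : I) (v : M) : Prop :=
  (C.pb i = C.pa j → fr.Rt v (C.pa i) (2 * k - 1 - C.pb j)) ∧
    (C.pb j = C.pa i → fr.Rt v (C.pa j) (2 * k - 1 - C.pb i))

theorem fz_iff {i j : I} {v : M} : ((C.hd fr).adj i j → Fx ((C.hd fr).z i j) v) ↔ C.Fz fr i j v := by
  refine ⟨fun h => ⟨fun e t => ?_, fun e t => ?_⟩, fun h a t => ?_⟩
  · rw [← C.hd_z1 fr e, h (Or.inl e)]
  · rw [← neg_neg t, ← C.hd_z2 fr e, h (Or.inr e)]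
  · rcases a with e | e
    · rw [C.hd_z1 fr e, h.1 e]
    · rw [C.hd_z2 fr e, h.2 e]

theorem fz_self (i : I) (v : M) : C.Fz fr i i v := by
  have := C.lt1 i
  exact ⟨fun e => by omega, fun e => by omega⟩

variable (M) in
/-- The fixed space of the unipotent radical of a parabolic subgroup of rank two. -/
def Y2 (i j : I) : Submodule ℂ M where
  carrier := {v | (∀ l, l ≠ i → l ≠ j → v ∈ fr.YS M (C.σ l)) ∧ v ∈ fr.YS M C.base}
  add_mem' ha hb := ⟨fun l h h' => add_mem (ha.1 l h h') (hb.1 l h h'), add_mem ha.2 hb.2⟩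
  zero_mem' := ⟨fun _ _ _ => zero_mem _, zero_mem _⟩
  smul_mem' c _ ha := ⟨fun l h h' => Submodule.smul_mem _ c (ha.1 l h h'),
    Submodule.smul_mem _ c ha.2⟩

variable (M) in
/-- The fixed space of the Sylow subgroup. -/
def E : Submodule ℂ M where
  carrier := {v | (∀ l, v ∈ fr.YS M (C.σ l)) ∧ v ∈ fr.YS M C.base}
  add_mem' ha hb := ⟨fun l => add_mem (ha.1 l) (hb.1 l), add_mem ha.2 hb.2⟩
  zero_mem' := ⟨fun _ => zero_mem _, zero_mem _⟩
  smul_mem' c _ ha := ⟨fun l => Submodule.smul_mem _ c (ha.1 l), Submodule.smul_mem _ c ha.2⟩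

variable (M) in
/-- The short root subgroups act trivially. -/
def HRs : Prop := ∀ v ∈ fr.YS M C.base, ∀ a < 2 * k, (a < k ∨ ∃ l, C.σ l a) → fr.Rs v a

variable {C fr}

theorem root {i j : I} {v : M} (hv : v ∈ C.Y2 fr M i j) (hz : C.Fz fr i j v) {a b : ℕ}
    (h : a + b + 1 < 2 * k) : fr.Rt v a b ∨
      ((a = C.pa i ∧ b = 2 * k - 1 - C.pb i) ∨ (b = C.pa i ∧ a = 2 * k - 1 - C.pb i)) ∨
      ((a = C.pa j ∧ b = 2 * k - 1 - C.pb j) ∨ (b = C.pa j ∧ a = 2 * k - 1 - C.pb j)) := by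
  have key : ∀ a b, a < b → a + b + 1 < 2 * k → fr.Rt v a b ∨
      (a = C.pa i ∧ b = 2 * k - 1 - C.pb i) ∨ (a = C.pa j ∧ b = 2 * k - 1 - C.pb j) := by
    intro a b h1 h2
    by_cases h3 : fr.Rt v a b
    · exact Or.inl h3
    rcases C.cls i j a b h1 h2 (fun l e e' h => by
      by_contra h'
      exact h3 (((fr.mem_YS' (C.ts l)).1 (hv.1 l e e')).1 a (by omega) b (by omega) h h'))
      (fun h => by
        by_contra h'
        exact h3 (((fr.mem_YS' C.ts').1 hv.2).1 a (by omega) b (by omega) h h')) with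
      h | h | ⟨e, rfl, rfl⟩ | ⟨e, rfl, rfl⟩
    · exact Or.inr (Or.inl h)
    · exact Or.inr (Or.inr h)
    · exact Or.inl (hz.1 e)
    · exact Or.inl (hz.2 e)
  rcases lt_trichotomy a b with e | rfl | e
  · have := key a b e h
    tauto
  · exact Or.inl (fr.Rt_self _ _)
  · rcases key b a e (by omega) with h1 | h1
    · exact Or.inl (h1.symm (by omega) (by omega))
    · tauto

theorem YS_x {S : ℕ → Prop} {i : I} (h : (S (C.pa i) ↔ S (C.pb i)) ∧
    (S (2 * k - 1 - C.pa i) ↔ S (2 * k - 1 - C.pb i))) {v : M} (hv : v ∈ fr.YS M S) (t : F) :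
    (C.hd fr).x i t • v ∈ fr.YS M S := by
  have := C.lt1 i; have := C.lt2 i; have := C.lt3 i
  exact fr.YS_smul (fr.T_mem_sp (by omega) (by omega) (by omega) h.2.1 (by
    rw [show 2 * k - 1 - (2 * k - 1 - C.pb i) = C.pb i by omega]; exact h.1.2) t) hv

theorem YS_n {S : ℕ → Prop} {i : I} (h : (S (C.pa i) ↔ S (C.pb i)) ∧
    (S (2 * k - 1 - C.pa i) ↔ S (2 * k - 1 - C.pb i))) {v : M} (hv : v ∈ fr.YS M S) :
    (C.hd fr).n i • v ∈ fr.YS M S := by
  have := C.lt1 i; have := C.lt2 i; have := C.lt3 i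
  rw [hd_n, nn, mul_smul, mul_smul]
  exact YS_x h (fr.YS_smul (fr.T_mem_sp (by omega) (by omega) (by omega) h.2.2 (by
    rw [show 2 * k - 1 - (2 * k - 1 - C.pa i) = C.pa i by omega]; exact h.1.1) _) (YS_x h hv 1)) 1

theorem YS_h {S : ℕ → Prop} (i : I) (t : Fˣ) {v : M} (hv : v ∈ fr.YS M S) :
    (C.hd fr).h i t • v ∈ fr.YS M S := by
  have := C.lt1 i; have := C.lt2 i; have := C.lt3 i
  refine fr.YS_smul (fun p hp h => ?_) hv
  have h1 := fr.mem_sp hp h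
  rw [hd_h]
  by_cases e1 : p = C.pa i
  · rw [e1, (C.fr2 fr i).hh_x]; exact Submodule.smul_mem _ _ (e1 ▸ h1)
  by_cases e2 : p = 2 * k - 1 - C.pa i
  · rw [e2, (C.fr2 fr i).hh_x']; exact Submodule.smul_mem _ _ (e2 ▸ h1)
  by_cases e3 : p = C.pb i
  · rw [e3, (C.fr2 fr i).hh_y]; exact Submodule.smul_mem _ _ (e3 ▸ h1)
  by_cases e4 : p = 2 * k - 1 - C.pb i
  · rw [e4, (C.fr2 fr i).hh_y']; exact Submodule.smul_mem _ _ (e4 ▸ h1)
  rwa [(C.fr2 fr i).hh_perp t (fr.pol0 hp (by omega) (by omega)) (fr.pol0 hp (by omega) (by omega))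
    (fr.pol0 hp (by omega) (by omega)) (fr.pol0 hp (by omega) (by omega))]

theorem Y2_x {i j : I} (t : F) {v : M} (hv : v ∈ C.Y2 fr M i j) :
    (C.hd fr).x i t • v ∈ C.Y2 fr M i j :=
  ⟨fun l e e' => YS_x (C.stab i l e) (hv.1 l e e') t, YS_x (C.stab' i) hv.2 t⟩

theorem Y2_symm {i j : I} {v : M} (hv : v ∈ C.Y2 fr M i j) : v ∈ C.Y2 fr M j i :=
  ⟨fun l e e' => hv.1 l e' e, hv.2⟩

theorem fx_of_YS {i : I} {v : M} (hv : v ∈ fr.YS M (C.σ i)) : Fx ((C.hd fr).x i) v := by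
  have := C.lt1 i; have := C.lt2 i; have := C.lt3 i
  exact ((fr.mem_YS' (C.ts i)).1 hv).1 _ (by omega) _ (by omega) (C.own i).1 (by
    rw [show 2 * k - 1 - (2 * k - 1 - C.pb i) = C.pb i by omega]; exact (C.own i).2)

theorem mem_YS_of (hR : C.HRs fr M) {i j : I} {v : M} (hv : v ∈ C.Y2 fr M i j) (hz : C.Fz fr i j v)
    (hx : Fx ((C.hd fr).x j) v) : v ∈ fr.YS M (C.σ j) := by
  have := C.lt1 i; have := C.lt2 i; have := C.lt3 i
  have := C.lt1 j; have := C.lt2 j; have := C.lt3 j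
  refine (fr.mem_YS' (C.ts j)).2 ⟨fun a ha b hb h1 h2 => ?_,
    fun a ha h => hR v hv.2 a ha (Or.inr ⟨j, h⟩)⟩
  have hx' : fr.Rt v (C.pa j) (2 * k - 1 - C.pb j) := hx
  rcases C.pos j a b ha hb h1 h2 with rfl | h
  · exact fr.Rt_self _ _
  by_cases e : j = i
  · subst e
    rcases root hv hz h with h3 | (⟨rfl, rfl⟩ | ⟨rfl, rfl⟩) | ⟨rfl, rfl⟩ | ⟨rfl, rfl⟩
    exacts [h3, hx', hx'.symm hb ha, hx', hx'.symm hb ha]
  rcases root hv hz h with h3 | (⟨rfl, rfl⟩ | ⟨rfl, rfl⟩) | ⟨rfl, rfl⟩ | ⟨rfl, rfl⟩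
  · exact h3
  · rw [show 2 * k - 1 - (2 * k - 1 - C.pb i) = C.pb i by omega] at h2
    exact absurd ((C.stab i j e).1.1 h1) h2
  · exact absurd ((C.stab i j e).2.2 h1) h2
  · exact hx'
  · exact hx'.symm hb ha

theorem partial_wt (hR : C.HRs fr M) {i j : I} {v : M} (hv : v ∈ C.Y2 fr M i j)
    (hz : C.Fz fr i j v) {c c' : F} (h1 : Wt ((C.hd fr).x i) ((ps F).mulShift c) v)
    (h2 : i ≠ j → C.pa i = C.pa j → Wt ((C.hd fr).x j) ((ps F).mulShift c') v)
    (h3 : c' = 0 ∨ (i ≠ j ∧ C.pa i = C.pa j)) : ∀ w ∈ fr.Pp (· ≤ C.pa i), T Q (fr.v (C.pa i)) w • v =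
      ps F (polar Q (c • fr.v (C.pb i) + c' • fr.v (C.pb j)) w) • v := by
  have := C.lt1 i; have := C.lt2 i; have := C.lt3 i
  have := C.lt1 j; have := C.lt2 j; have := C.lt3 j
  refine fr.wt_of_roots (S := (· ≤ C.pa i)) (a := C.pa i) (by omega) le_rfl (fun b hb h t => ?_)
    fun r hr => ?_
  swap
  · rw [hR v hv.2 (C.pa i) (by omega) (Or.inl (by omega)) r hr, polar_add_left, polar_smul_left',
      polar_smul_left', hr (C.pb i) (by omega) trivial, hr (C.pb j) (by omega) trivial]; simp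
  simp only [polar_add_left, polar_smul_left', polar_smul_right']
  have k1 : c' * polar Q (fr.v (C.pb j)) (fr.v (2 * k - 1 - C.pb i)) = 0 := by
    rcases h3 with h3 | h3
    · rw [h3, zero_mul]
    · have : C.pb i ≠ C.pb j := fun h => h3.1 (C.inj i j h)
      rw [fr.pol0 (by omega) (by omega) (by omega)]; simp
  by_cases e1 : b = 2 * k - 1 - C.pb i
  · rw [e1, k1, fr.pol1 (by omega), mul_one, add_zero, mul_comm t]
    exact h1 t
  rw [fr.pol0 (p := C.pb i) (by omega) hb (by omega), mul_zero, zero_add]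
  by_cases e2 : C.pa i = C.pa j ∧ b = 2 * k - 1 - C.pb j
  · rw [e2.2, fr.pol1 (by omega), mul_one, e2.1, mul_comm t]
    exact h2 (by rintro rfl; exact e1 e2.2) e2.1 t
  have k2 : c' * polar Q (fr.v (C.pb j)) (fr.v b) = 0 := by
    rcases h3 with h3 | h3
    · rw [h3, zero_mul]
    · rw [fr.pol0 (by omega) hb (by omega)]; simp
  rw [k2, mul_zero, AddChar.map_zero_eq_one, one_smul]
  exact ((root hv hz (a := C.pa i) (b := b) (by omega)).resolve_right (by omega)) t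

theorem fx_special (hQ : (polarBilin Q).Nondegenerate) (hP : PureS Q M) (hR : C.HRs fr M) {i j : I}
    (e : i ≠ j) (e' : C.pa i = C.pa j) {v : M} (hv : v ∈ C.Y2 fr M i j) {c : F} (hc : c ≠ 0)
    (h1 : Wt ((C.hd fr).x i) ((ps F).mulShift c) v) : Fx ((C.hd fr).x j) v := by
  have := C.lt1 i; have := C.lt2 i; have := C.lt3 i
  have := C.lt1 j; have := C.lt2 j; have := C.lt3 j
  have h2 : C.pb i + C.pb j + 1 = 2 * k := ((C.non i j e).resolve_left fun h => h.1 e').2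
  by_contra h
  obtain ⟨χ, hχ, h3⟩ := exists_pr_ne_zero' ((C.hd fr).x_add j) h
  obtain ⟨c', rfl⟩ := exists_mulShift χ
  have h4 : pr ((C.hd fr).x j) ((ps F).mulShift c') v ∈ C.Y2 fr M i j :=
    pr_mem fun t => Y2_symm (Y2_x t (Y2_symm hv))
  have hz : ∀ v : M, C.Fz fr i j v := fun v => ⟨fun e => by omega, fun e => by omega⟩
  have h5 := fr.pure_frame hQ hP (S := (· ≤ C.pa i)) (fun _ _ _ _ => by omega) (a := C.pa i)
    (by omega) le_rfl h3 (fun p hp h => by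
      rcases (show p ≤ C.pa i from h).eq_or_lt with rfl | h
      · exact fr.Rt_self _ _
      · exact (root h4 (hz _) (by omega)).resolve_right (by omega))
    (ν := c • fr.v (C.pb i) + c' • fr.v (C.pb j)) (Submodule.add_mem _
      (Submodule.smul_mem _ _ (fr.mem_Pp (by omega) (by omega)))
      (Submodule.smul_mem _ _ (fr.mem_Pp (by omega) (by omega)))) fun w hw =>
    partial_wt hR h4 (hz _) (pr_wt' fun t s => by
      rw [← mul_smul, ← (C.hd fr).x_x_non e (by rw [hd_adj]; omega), mul_smul, h1, gcs])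
      (fun _ _ => pr_wt ((C.hd fr).x_add j) _ _) (Or.inr ⟨e, e'⟩) w
      (fr.Pp_mono (fun _ _ h => Or.inl h) hw)
  rw [(fr.hyp h2).Q_comb'] at h5
  exact hχ (by rw [(mul_eq_zero.1 h5).resolve_left hc]; ext t; simp)

variable (C fr) in
/-- The fixed spaces. -/
noncomputable def rd (hQ : (polarBilin Q).Nondegenerate) (hP : PureS Q M) (hM : Mult1 Q M)
    (hR : C.HRs fr M) : RD (C.hd fr) M where
  Y2 := C.Y2 fr M
  Y1 i := C.Y2 fr M i i
  E := C.E fr M
  symm i j := by ext v; exact ⟨Y2_symm, Y2_symm⟩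
  inv_x _ t _ hv := Y2_x t hv
  inv_n {i j} _ v hv := ⟨fun l e e' => YS_n (C.stab i l e) (hv.1 l e e'), YS_n (C.stab' i) hv.2⟩
  mem_Y1 {i j} e v := by
    have := C.lt1 i; have := C.lt2 i; have := C.lt3 i
    have := C.lt1 j; have := C.lt2 j; have := C.lt3 j
    rw [fz_iff]
    refine ⟨fun h => ⟨⟨fun l e _ => h.1 l e e, h.2⟩, fx_of_YS (h.1 j e.symm e.symm), ?_⟩,
      fun h => ⟨fun l e1 _ => ?_, h.1.2⟩⟩
    · have h1 := ((fr.mem_YS' (C.ts j)).1 (h.1 j e.symm e.symm)).1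
      refine ⟨fun e' => h1 _ (by omega) _ (by omega) ?_ ?_,
        fun e' => h1 _ (by omega) _ (by omega) (C.own j).1 ?_⟩
      · rw [(C.stab i j e.symm).1, e']; exact (C.own j).1
      · rw [show 2 * k - 1 - (2 * k - 1 - C.pb j) = C.pb j by omega]; exact (C.own j).2
      · rw [show 2 * k - 1 - (2 * k - 1 - C.pb i) = C.pb i by omega, ← (C.stab i j e.symm).1, ← e']
        exact (C.own j).2
    · by_cases e2 : l = j
      · rw [e2]; exact mem_YS_of hR h.1 h.2.2 h.2.1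
      · exact h.1.1 l e1 e2
  mem_E i v := ⟨fun h => ⟨⟨fun l _ _ => h.1 l, h.2⟩, fx_of_YS (h.1 i)⟩, fun h => ⟨fun l => by
    by_cases e : l = i
    · rw [e]; exact mem_YS_of hR h.1 (C.fz_self fr i v) h.2
    · exact h.1.1 l e e, h.1.2⟩⟩
  inv_h i t v hv := ⟨fun l => YS_h i t (hv.1 l), YS_h i t hv.2⟩
  mult {i j} e χ hχ v hv w hw h1 h2 hz h0 := by
    have := C.lt1 i; have := C.lt2 i; have := C.lt3 i
    have := C.lt1 j; have := C.lt2 j; have := C.lt3 j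
    have : C.pb i ≠ C.pb j := fun h => e (C.inj i j h)
    obtain ⟨c, rfl⟩ := exists_mulShift χ
    have hc : c ≠ 0 := by rintro rfl; exact hχ (by ext t; simp)
    have key : ∀ v ∈ C.Y2 fr M i j, Wt ((C.hd fr).x i) ((ps F).mulShift c) v → C.Fz fr i j v →
        (∀ w, polar Q (fr.v (C.pa i)) w = 0 → (∀ p ∈ fr.v '' {p | p < C.pa i}, polar Q p w = 0) →
          T Q (fr.v (C.pa i)) w • v = ps F (polar Q (c • fr.v (C.pb i)) w) • v) ∧
        ∀ p ∈ fr.v '' {p | p < C.pa i}, ∀ s : F, T Q p (s • fr.v (2 * k - 1 - C.pb i)) • v = v := by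
      intro v hv h1 hz
      refine ⟨fun w hw hw' => ?_, ?_⟩
      · simpa using partial_wt hR hv hz (c' := 0) h1 (fun _ e' t => by
          simpa using fx_special hQ hP hR e e' hv hc h1 t) (Or.inl rfl) w fun p _ h => by
            rcases (show p ≤ C.pa i from h).eq_or_lt with rfl | h
            · exact hw
            · exact hw' _ ⟨p, h, rfl⟩
      · rintro _ ⟨p, hp : p < C.pa i, rfl⟩
        exact (root hv hz (by omega)).resolve_right (by omega)
    have k1 := key v hv h1 ((C.fz_iff fr).1 fun a => (hz a).1)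
    have k2 := key w hw h2 ((C.fz_iff fr).1 fun a => (hz a).2)
    refine up hQ hM (fr.ne_zero (by omega)) (fr.hQ _ (by omega)) _ ?_
      (fr.pol0 (by omega) (by omega) (by omega)) ?_ ?_ k1.1 k1.2 k2.1 k2.2 h0
    · rintro _ ⟨p, hp : p < C.pa i, rfl⟩
      refine ⟨fr.hQ _ (by omega), fr.pol0 (by omega) (by omega) (by omega), ?_,
        fr.pol0 (by omega) (by omega) (by omega), ?_⟩
      · rw [polar_smul_left', fr.pol0 (by omega) (by omega) (by omega), mul_zero]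
      · rintro _ ⟨p', hp' : p' < C.pa i, rfl⟩
        exact fr.pol0 (by omega) (by omega) (by omega)
    · rwa [polar_smul_left', fr.pol1 (by omega), mul_one]
    · rw [polar_smul_right', fr.pol0 (by omega) (by omega) (by omega), mul_zero]

variable (Q M) in
/-- All singular weights occur. -/
def _root_.Cfsg.Agent.H33.MR.ExS : Prop := ∀ x ν : V, x ≠ 0 → Q x = 0 → polar Q x ν = 0 →
  ν ∉ F ∙ x → Q ν = 0 → ∃ v : M, v ≠ 0 ∧ WT Q x ν v

theorem ex (hQ : (polarBilin Q).Nondegenerate) (hP : PureS Q M) (hM : Mult1 Q M)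
    (hR : C.HRs fr M) (hE : ExS Q M) (hk : 3 ≤ k) (h7 : 7 ≤ finrank F V)
    (hq : 4 ≤ q ∨ 2 * k < finrank F V) : ∀ i, (C.rd fr hQ hP hM hR).Ex i := by
  refine C.conn _ (fun χ hχ => ?_) fun i j a h => h.adj _ (Or.inl a)
  obtain ⟨c, rfl⟩ := exists_mulShift χ
  have hc : c ≠ 0 := by rintro rfl; exact hχ (by ext t; simp)
  obtain ⟨m, h0, hm⟩ := hE (fr.v 0) (c • fr.v 1) (fr.ne_zero (by omega)) (fr.hQ _ (by omega))
    (by rw [polar_smul_right', fr.pol0 (by omega) (by omega) (by omega), mul_zero]) (fun h => by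
      obtain ⟨d, hd⟩ := Submodule.mem_span_singleton.1 h
      have := congrArg (fun z => polar Q z (fr.v (2 * k - 2))) hd
      simp only [polar_smul_left'] at this
      rw [fr.pol0 (by omega) (by omega) (by omega), fr.pol1 (by omega)] at this
      exact hc (by simpa using this.symm)) (by rw [Q_smul, fr.hQ _ (by omega), mul_zero])
  have key : ∀ S : ℕ → Prop, Fr.Ts k S → (∀ a, S a → a + 2 < 2 * k ∧ S 0 ∧ S 1) → m ∈ fr.YS M S :=
    fun S hS h => (fr.mem_YS hS).2 fun a _ ha w hw => fr.fix_top hQ hP hM hk h7 hq hc hm (h a ha).1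
      (fr.Pp_mono (by rintro p - (rfl | rfl | rfl); exacts [(h a ha).2.1, (h a ha).2.2, ha]) hw)
  refine ⟨m, ⟨fun l e _ => key _ (C.ts l) fun a => C.top l a e, key _ C.ts' C.top'⟩, h0, fun t => ?_⟩
  rw [hd_x, C.a0, C.b0, hm _ (by
    rw [polar_smul_right', fr.pol0 (by omega) (by omega) (by omega), mul_zero]), polar_smul_left',
    polar_smul_right', fr.pol1 (by omega), mul_one, AddChar.mulShift_apply]

end Cfg

variable {M : Type*} [NormedAddCommGroup M] [InnerProductSpace ℂ M]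
  [DistribMulAction (eichGroup Q) M] [UA (eichGroup Q) M] [FiniteDimensional ℂ M]

variable (M) in
/-- The chain of fixed spaces. -/
def Fr.Nj (fr : Fr Q k) (j : ℕ) : Submodule ℂ M where
  carrier := {v | ∀ l < j, v ∈ fr.YS M (· ≤ l)}
  add_mem' ha hb l h := add_mem (ha l h) (hb l h)
  zero_mem' _ _ := zero_mem _
  smul_mem' c _ ha l h := Submodule.smul_mem _ c (ha l h)

theorem Fr.Nj_smul (fr : Fr Q k) {j : ℕ} {g : eichGroup Q} (hg : ∀ p < j, g • fr.v p = fr.v p)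
    {v : M} (hv : v ∈ fr.Nj M j) : g • v ∈ fr.Nj M j := fun l h =>
  fr.YS_smul (fun p hp h' => by
    rw [hg p (by have : p ≤ l := h'; omega)]; exact fr.mem_sp hp h') (hv l h)

theorem Fr.gam_v (fr : Fr Q k) (hQ : (polarBilin Q).Nondegenerate) {j : ℕ}
    (g : eichGroup (Q.restrict (fr.Vj j))) {p : ℕ} (hp : p < 2 * k) (h : p < j ∨ 2 * k ≤ p + j) :
    gam (fr.nondeg_Vj hQ j) g • fr.v p = fr.v p :=
  gam_perp _ g (mem_perp'.2 fun _ hw => hw p hp h)

theorem Fr.step (fr : Fr Q k) (hQ : (polarBilin Q).Nondegenerate) {j : ℕ} (hj : j + 2 ≤ k)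
    (h1 : ∀ c : F, c ≠ 0 → ∃ m ∈ fr.Nj M j, m ≠ 0 ∧ ∀ w ∈ fr.Vj (j + 1),
      T Q (fr.v j) w • m = ps F (polar Q (c • fr.v (j + 1)) w) • m)
    (h2 : 2 * (j + 2) < finrank F V ∨ ∀ c : F, c ≠ 0 → ∃ m ∈ fr.Nj M j, m ≠ 0 ∧ ∀ w ∈ fr.Vj (j + 1),
      T Q (fr.v j) w • m = ps F (polar Q (c • fr.v (2 * k - 1 - (j + 1))) w) • m) :
    finrank ℂ (fr.Nj M (j + 1)) + nc (Q.restrict (fr.Vj (j + 1))) 0 ≤ finrank ℂ (fr.Nj M j) + 1 := by
  classical
  have hW := fr.nondeg_Vj hQ (j + 1)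
  have hh := fr.hyp (p := j + 1) (p' := 2 * k - 1 - (j + 1)) (by omega)
  have he : fr.v (j + 1) ∈ fr.Vj (j + 1) := fr.mem_Pp (by omega) (by omega)
  have hf : fr.v (2 * k - 1 - (j + 1)) ∈ fr.Vj (j + 1) := fr.mem_Pp (by omega) (by omega)
  have tr : ∀ (g : eichGroup (Q.restrict (fr.Vj (j + 1)))) (c : F) (e : V),
      (∃ m ∈ fr.Nj M j, m ≠ 0 ∧ ∀ w ∈ fr.Vj (j + 1),
        T Q (fr.v j) w • m = ps F (polar Q (c • e) w) • m) →
      ∃ m ∈ fr.Nj M j, m ≠ 0 ∧ Wt (TX Q (fr.v j) (fr.Vj (j + 1))) (ch Q _ (c • gam hW g • e)) m := by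
    rintro g c e ⟨m, hm, h0, h⟩
    refine ⟨gam hW g • m, fr.Nj_smul (fun p hp => fr.gam_v hQ g (by omega) (by omega)) hm,
      g_ne_zero _ h0, fun w => ?_⟩
    have : T Q (fr.v j) w * gam hW g = gam hW g * T Q (fr.v j) (gam hW g⁻¹ • (w : V)) := by
      rw [mul_T, fr.gam_v hQ g (by omega) (by omega), map_inv, smul_inv_smul]
    rw [TX, ← mul_smul, this, mul_smul, h _ (by rw [gam_smul]; exact Subtype.prop _), gcs, ch_apply,
      ← gsmul_smul, polar_gsmul_left, map_inv]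
  have ex : ∀ ν ∈ fr.Vj (j + 1), ν ≠ 0 → Q ν = 0 →
      ∃ m ∈ fr.Nj M j, m ≠ 0 ∧ Wt (TX Q (fr.v j) (fr.Vj (j + 1))) (ch Q _ ν) m := by
    intro ν hν h0 hQν
    rcases h2 with h2 | h2
    · have hd := fr.finrank_Vj hQ hj
      obtain ⟨u, hu, hu'⟩ := (fr.nondeg_Vj hQ (j + 2)).exists_Q_ne_zero
        (ne_bot_of_finrank_pos (by omega))
      rw [fr.Vj_succ (by omega)] at hu
      obtain ⟨g, c, hc, rfl⟩ := exists_gam_one hW hh he hf hu.1 hu.2 hu' hν h0 hQν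
      exact tr g c _ (h1 c hc)
    · obtain ⟨g, c, hc, rfl | rfl⟩ := exists_gam_two hW hh he hf hν h0 hQν
      · exact tr g c _ (h1 c hc)
      · exact tr g c _ (h2 c hc)
  set s := univ.filter (fun ν => ν ∈ fr.Vj (j + 1) ∧ Q ν = 0) with hs
  have h0s : (0 : V) ∈ s := by simp [hs]
  have h3 := sum_finrank_le_of_orth
    (fun ν => fr.Nj M j ⊓ wt M (TX Q (fr.v j) (fr.Vj (j + 1))) (ch Q _ ν)) s (N := fr.Nj M j)
    (fun _ _ => inf_le_left) fun a ha b hb e v hv w hw => Wt.inner_eq_zero hv.2 hw.2 fun h =>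
      e (ch_inj hW (mem_filter.1 ha).2.1 (mem_filter.1 hb).2.1 h)
  rw [← add_sum_erase _ _ h0s] at h3
  have h4 := card_nsmul_le_sum (s.erase 0) (fun ν => finrank ℂ
    ↥(fr.Nj M j ⊓ wt M (TX Q (fr.v j) (fr.Vj (j + 1))) (ch Q _ ν))) 1 fun ν hν => by
      obtain ⟨m, hm, h0, h⟩ := ex ν (mem_filter.1 (mem_of_mem_erase hν)).2.1 (ne_of_mem_erase hν)
        (mem_filter.1 (mem_of_mem_erase hν)).2.2
      exact one_le_finrank (v := m) ⟨hm, h⟩ h0
  have h5 : finrank ℂ (fr.Nj M (j + 1)) ≤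
      finrank ℂ ↥(fr.Nj M j ⊓ wt M (TX Q (fr.v j) (fr.Vj (j + 1))) (ch Q _ 0)) :=
    Submodule.finrank_mono fun v hv => ⟨fun l h => hv l (by omega), by
      rw [ch_zero]
      exact wt_zero.2 fun w => (fr.mem_YS fun _ _ _ _ => by omega).1 (hv j (by omega)) j (by omega)
        le_rfl w (fr.Pp_mono (fun _ _ _ => by omega) w.2)⟩
  rw [card_erase_of_mem h0s, smul_eq_mul, mul_one, show s.card = _ from card_nrm _ _] at h4
  have := nc_zero_pos (Q := Q.restrict (fr.Vj (j + 1)))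
  omega

namespace Cfg

variable {C : Cfg k I} {fr : Fr Q k}

theorem Y1_le (hR : C.HRs fr M) {i : I} {v : M} (hv : v ∈ C.Y2 fr M i i) : v ∈ fr.Nj M (C.pa i) := by
  have := C.lt1 i; have := C.lt2 i; have := C.lt3 i
  exact fun l h => (fr.mem_YS' fun _ _ _ _ => by omega).2 ⟨fun a ha b hb h1 h2 =>
    (root hv (C.fz_self fr i v) (by omega)).resolve_right (by omega),
    fun a ha h1 => hR v hv.2 a ha (Or.inl (by omega))⟩

theorem E_le (hR : C.HRs fr M) {v : M} (hv : v ∈ C.E fr M) {j : ℕ} (hj : j ≤ k) : v ∈ fr.Nj M j := by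
  have hx : fr.Rt v (C.pa C.i0) (2 * k - 1 - C.pb C.i0) := fx_of_YS (hv.1 C.i0)
  refine fun l h => (fr.mem_YS' fun _ _ _ _ => by omega).2 ⟨fun a ha b hb h1 h2 => ?_,
    fun a ha h1 => hR v hv.2 a ha (Or.inl (by omega))⟩
  rcases root (i := C.i0) (j := C.i0) ⟨fun l _ _ => hv.1 l, hv.2⟩ (C.fz_self fr _ v) (a := a) (b := b)
    (by omega) with h3 | (⟨rfl, rfl⟩ | ⟨rfl, rfl⟩) | ⟨rfl, rfl⟩ | ⟨rfl, rfl⟩
  exacts [h3, hx, hx.symm hb ha, hx, hx.symm hb ha]

theorem sum_le (hQ : (polarBilin Q).Nondegenerate) (hP : PureS Q M) (hM : Mult1 Q M)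
    (hR : C.HRs fr M) (hex : ∀ i, (C.rd fr hQ hP hM hR).Ex i)
    (h2 : ∀ j, j + 2 ≤ k → 2 * (j + 2) < finrank F V ∨
      ∃ i, C.pa i = j ∧ C.pb i = 2 * k - 1 - (j + 1)) (hk : 1 ≤ k) :
    finrank ℂ (C.E fr M) + ∑ j ∈ range (k - 1), nc (Q.restrict (fr.Vj (j + 1))) 0 ≤
      finrank ℂ M + (k - 1) := by
  have key : ∀ i, ∀ c : F, c ≠ 0 → ∃ m ∈ fr.Nj M (C.pa i), m ≠ 0 ∧ ∀ w ∈ fr.Vj (C.pa i + 1),
      T Q (fr.v (C.pa i)) w • m = ps F (polar Q (c • fr.v (C.pb i)) w) • m := fun i c hc => by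
    obtain ⟨m, hm, h0, h⟩ := hex i ((ps F).mulShift c) fun e => by
      obtain ⟨s, hs⟩ := exists_ps_ne hc
      exact hs (by simpa [mul_comm] using DFunLike.congr_fun e s)
    refine ⟨m, Y1_le hR hm, h0, fun w hw => ?_⟩
    simpa using partial_wt hR hm (C.fz_self fr i m) (c' := 0) h (fun e => absurd rfl e) (Or.inl rfl)
      w (fr.Pp_mono (fun _ _ _ => by omega) hw)
  have ind : ∀ j, j + 1 ≤ k → finrank ℂ (fr.Nj M j) +
      ∑ j ∈ range j, nc (Q.restrict (fr.Vj (j + 1))) 0 ≤ finrank ℂ M + j := by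
    intro j
    induction j with
    | zero => intro _; simpa using Submodule.finrank_le _
    | succ j ih =>
      intro hj
      have h3 := fr.step (M := M) hQ hj (by
        obtain ⟨i, rfl, e⟩ := C.lev j hj
        exact e ▸ key i) ((h2 j hj).imp id (by
          rintro ⟨i, rfl, e⟩
          exact e ▸ key i))
      have := ih (by omega)
      rw [sum_range_succ]
      omega
  have h3 := ind (k - 1) (by omega)
  have h4 : finrank ℂ (C.E fr M) ≤ finrank ℂ (fr.Nj M (k - 1)) :=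
    Submodule.finrank_mono fun v hv => E_le hR hv (by omega)
  omega

end Cfg

end Cfsg.Agent.H33.MR
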