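import Cfsg.Agent.H33.MinRep7

/-! The diagrams of types A and D, and the dimension of the fixed space of a Sylow subgroup. -/

set_option autoImplicit false
set_option linter.unusedSectionVars false

namespace Cfsg.Agent.H33.MR

open scoped InnerProductSpace ComplexConjugate
open Cfsg.Agent.H30 Cfsg.Agent.H33.OD QuadraticMap Module Finset

theorem clsA {k i j a b : ℕ} (hab : a < b) (hb : b < k)
    (H : ∀ l, l + 1 < k → a ≤ l → l < b → l = i ∨ l = j) :
    (a = i ∧ b = i + 1) ∨ (a = j ∧ b = j + 1) ∨ (i + 1 = j ∧ a = i ∧ b = j + 1) ∨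
      (j + 1 = i ∧ a = j ∧ b = i + 1) := by
  have h1 := H a (by omega) le_rfl hab
  by_cases e1 : b = a + 1
  · omega
  have h2 := H (a + 1) (by omega) (by omega) (by omega)
  by_cases e2 : b = a + 2
  · omega
  have h3 := H (a + 2) (by omega) (by omega) (by omega)
  omega

theorem clsD {k i j a b : ℕ} (hab : a < b) (hb : a + b + 1 < 2 * k)
    (H : ∀ l, l < k → a ≤ l → l < b → ¬ (l + 2 = k ∧ b = k) → l = i ∨ l = j) :
    (a = min i (k - 2) ∧ b = i + 1) ∨ (a = min j (k - 2) ∧ b = j + 1) ∨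
      (i + 1 = min j (k - 2) ∧ a = min i (k - 2) ∧ b = j + 1) ∨
      (j + 1 = min i (k - 2) ∧ a = min j (k - 2) ∧ b = i + 1) := by
  by_cases e0 : a + 2 = k ∧ b = k
  · rcases H (a + 1) (by omega) (by omega) (by omega) (by omega) with h1 | h1
    exacts [Or.inl (by omega), Or.inr (Or.inl (by omega))]
  have h1 := H a (by omega) le_rfl hab e0
  by_cases e1 : b = a + 1
  · clear H
    rcases h1 with h1 | h1
    exacts [Or.inl (by omega), Or.inr (Or.inl (by omega))]
  by_cases e3 : a + 3 = k ∧ b = k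
  · have h2 := H (a + 2) (by omega) (by omega) (by omega) (by omega)
    clear H
    rcases h1 with h1 | h1
    exacts [Or.inr (Or.inr (Or.inl (by omega))), Or.inr (Or.inr (Or.inr (by omega)))]
  have h2 := H (a + 1) (by omega) (by omega) (by omega) (by omega)
  by_cases e2 : b = a + 2
  · clear H
    rcases h1 with h1 | h1
    exacts [Or.inr (Or.inr (Or.inl (by omega))), Or.inr (Or.inr (Or.inr (by omega)))]
  exfalso
  by_cases e4 : a + 4 = k ∧ b = k
  · have h3 := H (a + 3) (by omega) (by omega) (by omega) (by omega)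
    omega
  have h3 := H (a + 2) (by omega) (by omega) (by omega) (by omega)
  omega

/-- The linear diagram. -/
def cfgA {k : ℕ} (hk : 3 ≤ k) : Cfg k (Fin (k - 1)) where
  pa i := i
  pb i := i + 1
  σ l p := p ≤ l
  base p := p < k
  i0 := ⟨0, by omega⟩
  lt1 i := by omega
  lt2 i := by omega
  lt3 i := by omega
  inj i j h := Fin.ext (by omega)
  nb i := by
    by_cases h : (i : ℕ) = 0
    · exact ⟨⟨1, by omega⟩, Or.inl (by simp [h])⟩
    · exact ⟨⟨i - 1, by omega⟩, Or.inr (by simp; omega)⟩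
  non i j e := Or.inl ⟨fun h => e (Fin.ext h), by omega⟩
  ts l _ _ _ _ := by omega
  ts' _ _ _ _ := by omega
  stab i l e := by
    have : (l : ℕ) ≠ i := fun h => e (Fin.ext h)
    omega
  stab' i := by omega
  own i := by omega
  pos l a b _ _ _ _ := by omega
  cls i j a b h1 h2 h3 h4 := by
    have := clsA (k := k) (i := i) (j := j) (a := a) (b := 2 * k - 1 - b) (by omega) (by omega)
      fun l hl h5 h6 => by
        have := h3 ⟨l, by omega⟩
        simp only [ne_eq, Fin.ext_iff] at this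
        omega
    omega
  a0 := rfl
  b0 := rfl
  top l a e h := by
    have : (l : ℕ) ≠ 0 := fun h => e (Fin.ext h)
    omega
  top' a h := by omega
  conn P h0 h1 i := by
    obtain ⟨i, hi⟩ := i
    induction i with
    | zero => exact h0
    | succ i ih => exact h1 ⟨i, by omega⟩ _ rfl (ih _)
  lev j hj := ⟨⟨j, by omega⟩, rfl, rfl⟩

/-- The diagram of type D. -/
def cfgD {k : ℕ} (hk : 4 ≤ k) : Cfg k (Fin k) where
  pa i := min i (k - 2)
  pb i := i + 1
  σ l p := p ≤ l ∨ ((l : ℕ) + 2 = k ∧ p = k)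
  base _ := False
  i0 := ⟨0, by omega⟩
  lt1 i := by omega
  lt2 i := by omega
  lt3 i := by omega
  inj i j h := Fin.ext (by omega)
  nb i := by
    by_cases h : (i : ℕ) = 0
    · exact ⟨⟨1, by omega⟩, Or.inl (by simp only; omega)⟩
    · exact ⟨⟨min (i : ℕ) (k - 2) - 1, by omega⟩, Or.inr (by simp only; omega)⟩
  non i j e := by
    have : (i : ℕ) ≠ j := fun h => e (Fin.ext h)
    omega
  ts l _ _ _ _ := by omega
  ts' _ _ h := h.elim
  stab i l e := by
    have : (l : ℕ) ≠ i := fun h => e (Fin.ext h)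
    omega
  stab' i := by simp
  own i := by omega
  pos l a b _ _ _ _ := by omega
  cls i j a b h1 h2 h3 _ := by
    have := clsD (k := k) (i := i) (j := j) (a := a) (b := 2 * k - 1 - b) (by omega) (by omega)
      fun l hl h5 h6 h7 => by
        have := h3 ⟨l, hl⟩
        simp only [ne_eq, Fin.ext_iff] at this
        omega
    rcases this with h | h | h | h
    · exact Or.inl ⟨h.1, by omega⟩
    · exact Or.inr (Or.inl ⟨h.1, by omega⟩)
    · exact Or.inr (Or.inr (Or.inl ⟨h.1, h.2.1, by omega⟩))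
    · exact Or.inr (Or.inr (Or.inr ⟨h.1, h.2.1, by omega⟩))
  a0 := by simp
  b0 := rfl
  top l a e h := by
    have : (l : ℕ) ≠ 0 := fun h => e (Fin.ext h)
    omega
  top' a h := h.elim
  conn P h0 h1 i := by
    obtain ⟨i, hi⟩ := i
    induction i using Nat.strong_induction_on with
    | _ i ih =>
      by_cases h : i = 0
      · subst h; exact h0
      · exact h1 ⟨min i (k - 2) - 1, by omega⟩ _ (by simp only; omega) (ih _ (by omega) _)
  lev j hj := ⟨⟨j, by omega⟩, by simp only; omega, rfl⟩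

theorem card_le_two_of {r : ℕ} (s : Finset (Fin r)) (a b : ℕ) (h : ∀ j ∈ s, (j : ℕ) = a ∨ (j : ℕ) = b) :
    s.card ≤ 2 :=
  (card_le_card_of_injOn (t := {a, b}) Fin.val (fun j hj => by simpa using h j hj)
    Fin.val_injective.injOn).trans card_le_two

theorem card_le_one_of {r : ℕ} (s : Finset (Fin r)) (a : ℕ) (h : ∀ j ∈ s, (j : ℕ) = a) :
    s.card ≤ 1 := card_le_one.2 fun i hi j hj => Fin.ext (by rw [h i hi, h j hj])

theorem sum_le_mul {ι : Type*} (s : Finset ι) (w : ι → ℝ) {c : ℝ} {n : ℕ} (hc : 0 ≤ c)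
    (h : ∀ j ∈ s, w j ≤ c) (hn : s.card ≤ n) : ∑ j ∈ s, w j ≤ n * c :=
  (sum_le_card_nsmul s w c h).trans (by
    rw [nsmul_eq_mul]; exact mul_le_mul_of_nonneg_right (Nat.cast_le.2 hn) hc)

/-- A positivity argument. -/
theorem pos_contra {G M F A : Type*} [Group G] [NormedAddCommGroup M] [InnerProductSpace ℂ M]
    [DistribMulAction G M] [UA G M] [Field F] [Fintype F] [AddCommGroup A] [Module F A] [Fintype A]
    {X : A → G} (hX : IsAdd X) {u : M} (hu : u ≠ 0) (s : Finset A)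
    (hs : s.card < Fintype.card F ^ 2)
    (h1 : ∀ z ∈ s, ∀ t : F, t ≠ 0 → ⟪u, X (t • z) • u⟫_ℂ = -(Fintype.card F : ℂ)⁻¹ * ⟪u, u⟫_ℂ)
    (h2 : ∀ χ, pr X χ u ≠ 0 → ∃ z ∈ s, ∀ t : F, χ (t • z) = 1) : False := by
  classical
  have hq : (0 : ℝ) < Fintype.card F := Nat.cast_pos.2 Fintype.card_pos
  have k0 : ∀ χ, ⟪u, pr X χ u⟫_ℂ = (‖pr X χ u‖ ^ 2 : ℝ) := fun χ => by
    rw [← inner_pr_pr hX, inner_self_eq_norm_sq_to_K]; simp
  have k1 : ∀ z ∈ s, (‖u‖ ^ 2 / Fintype.card F ^ 2 : ℝ) =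
      ∑ χ : AddChar A ℂ, if ∀ t : F, χ (t • z) = 1 then ‖pr X χ u‖ ^ 2 else 0 := fun z hz => by
    have hY : IsAdd fun t : F => X (t • z) := fun a b => by simp only [add_smul, hX _ _]
    have e1 := (inner_pr_of_const hY (h1 z hz)).1
    have e2 : pr (fun t : F => X (t • z)) 0 u =
        ∑ χ : AddChar A ℂ, if ∀ t : F, χ (t • z) = 1 then pr X χ u else 0 := by
      conv_lhs => rw [← sum_pr hX u]
      refine (map_sum (prL (fun t : F => X (t • z)) 0) _ _).trans (sum_congr rfl fun χ _ => ?_)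
      have e3 : Wt (fun t : F => X (t • z)) (χ.compAddMonoidHom
          (LinearMap.toSpanSingleton F A z).toAddMonoidHom) (pr X χ u) := fun t => pr_wt hX χ u _
      split_ifs with h
      · exact pr_of_wt fun t => by rw [e3 t]; simp [h t]
      · refine pr_of_wt_ne e3 fun e => h fun t => ?_
        simpa using DFunLike.congr_fun e t
    rw [e2, inner_sum, inner_self_eq_norm_sq_to_K] at e1
    apply Complex.ofReal_injective
    have hq' := card_ne (A := F)
    rw [Complex.ofReal_sum, ← sum_congr rfl fun χ _ => show ⟪u, if ∀ t : F, χ (t • z) = 1 then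
      pr X χ u else 0⟫_ℂ = _ by split_ifs <;> simp [k0], e1]
    simp
    field_simp
    ring
  have k2 : ‖u‖ ^ 2 = ∑ χ : AddChar A ℂ, ‖pr X χ u‖ ^ 2 := by
    apply Complex.ofReal_injective
    rw [Complex.ofReal_sum, ← sum_congr rfl fun χ _ => k0 χ, ← inner_sum, sum_pr hX,
      inner_self_eq_norm_sq_to_K]
    simp
  have k3 : ‖u‖ ^ 2 ≤ ∑ z ∈ s, (‖u‖ ^ 2 / Fintype.card F ^ 2 : ℝ) := by
    rw [sum_congr rfl k1, sum_comm]
    refine k2.le.trans (sum_le_sum fun χ _ => ?_)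
    by_cases h : pr X χ u = 0
    · simp [h]
    · obtain ⟨z, hz, hz'⟩ := h2 χ h
      refine le_trans (by rw [if_pos hz']) (single_le_sum (f := fun z =>
        if ∀ t : F, χ (t • z) = 1 then ‖pr X χ u‖ ^ 2 else 0) (fun z _ => ?_) hz)
      split_ifs <;> positivity
  rw [sum_const, nsmul_eq_mul, ← mul_div_assoc, le_div_iff₀ (by positivity)] at k3
  have k4 : (s.card : ℝ) < Fintype.card F ^ 2 := by exact_mod_cast hs
  have k5 : 0 < ‖u‖ ^ 2 := pow_pos (norm_pos_iff.2 hu) 2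
  nlinarith

variable {F V : Type*} [Field F] [Fintype F] [AddCommGroup V] [Module F V] [FiniteDimensional F V]
  [Fintype V] {Q : QuadraticForm F V} {k : ℕ} {I : Type}

local notation "q" => Fintype.card F

theorem exists_diag_gam (hQ : (polarBilin Q).Nondegenerate) {W : Submodule F V} (hW : NondegOn Q W)
    (h3 : 3 ≤ finrank F W) {e f : V} (h : IsHyp Q e f) (he : e ∈ W) (hf : f ∈ W) {μ : F}
    (hμ : μ ≠ 0) : ∃ g, gam hW g • e = (μ * μ) • e ∧ gam hW g • f = (μ * μ)⁻¹ • f ∧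
      ∀ w ∈ hperp Q e f, gam hW g • w = w := by
  have h' : IsHyp (Q.restrict W) ⟨e, he⟩ ⟨f, hf⟩ := ⟨h.left, h.right, h.pol⟩
  obtain ⟨g, h1, h2⟩ := exists_diag hW.restrict h3 h' hμ
  have h4 : gam hW g • e = (μ * μ) • e := by rw [gam_smul hW g ⟨e, he⟩, h1]; rfl
  have h5 : ∀ w ∈ hperp Q e f, gam hW g • w = w := fun w hw => by
    obtain ⟨a, ha, b, hb, rfl⟩ := hW.orthDec.exists_add w
    rw [gsmul_add, gam_perp hW g hb, gam_smul hW g ⟨a, ha⟩, h2 ⟨a, ha⟩ ⟨by
      simpa [polar_add_left, mem_perp'.1 hb e he, polar_restrict] using hw.1, by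
      simpa [polar_add_left, mem_perp'.1 hb f hf, polar_restrict] using hw.2⟩]
  refine ⟨g, h4, ?_, h5⟩
  obtain ⟨a, b, w, hw, h6⟩ := h.exists_decomp (gam hW g • f)
  have h7 : w = 0 := h.nondegOn_hperp hQ w hw fun y hy => by
    rw [← h.polar_comb_mem a b w hy, ← h6, ← h5 y hy, polar_gsmul, polar_comm, hy.2]
  have h8 : μ * μ * b = 1 := by
    rw [← h.polar_comb_left a b hw, ← h6, ← polar_smul_right', ← h4, polar_gsmul, h.pol']
  have h9 : a * b = 0 := by
    have := h.Q_comb a b hw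
    rwa [← h6, Q_gsmul, h.right, h7, map_zero, add_zero, eq_comm] at this
  rw [h6, h7, (mul_eq_zero.1 h9).resolve_right (right_ne_zero_of_mul_eq_one h8),
    eq_inv_of_mul_eq_one_right h8]
  simp

variable {M : Type*} [NormedAddCommGroup M] [InnerProductSpace ℂ M]
  [DistribMulAction (eichGroup Q) M] [UA (eichGroup Q) M] [FiniteDimensional ℂ M]

theorem Fr.exists_gam (fr : Fr Q k) (hQ : (polarBilin Q).Nondegenerate) (hk : 1 ≤ k)
    (hN : 2 * k < finrank F V) {z : V} (hz : z ∈ fr.Vj (k - 1)) (h0 : z ≠ 0) (hQz : Q z = 0) :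
    ∃ g, ∃ c : F, c ≠ 0 ∧ z = c • gam (fr.nondeg_Vj hQ (k - 1)) g • fr.v (k - 1) := by
  have hd := fr.finrank_Vj hQ le_rfl
  obtain ⟨u, hu, hu'⟩ := (fr.nondeg_Vj hQ k).exists_Q_ne_zero (ne_bot_of_finrank_pos (by omega))
  exact exists_gam_one _ (fr.hyp (p' := k) (by omega)) (fr.mem_Pp (by omega) (by omega))
    (fr.mem_Pp (by omega) (by omega)) (fr.Pp_mono (fun _ _ _ => by omega) hu)
    ⟨by rw [polar_comm]; exact hu _ (by omega) (by omega),
      by rw [polar_comm]; exact hu _ (by omega) (by omega)⟩ hu' hz h0 hQz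

theorem Fr.gam_fix (fr : Fr Q k) (hQ : (polarBilin Q).Nondegenerate) (hP : PureS Q M) (hk : 1 ≤ k)
    (hN : 2 * k < finrank F V) (g : eichGroup (Q.restrict (fr.Vj (k - 1)))) {v : M}
    (hv : v ∈ fr.Nj M (k - 1)) : gam (fr.nondeg_Vj hQ (k - 1)) g • v = v := by
  refine gam_mem _ (MulAction.stabilizer _ v) (fun z hz a ha h0 h1 h2 => ?_) g
  obtain ⟨g, c, hc, rfl⟩ := fr.exists_gam hQ hk hN hz h0 h1
  set hW := fr.nondeg_Vj hQ (k - 1)
  have h3 : gam hW g⁻¹ • v ∈ fr.Nj M (k - 1) :=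
    fr.Nj_smul (fun p hp => fr.gam_v hQ _ (by omega) (by omega)) hv
  have h4 : ∀ p < 2 * k, p < k → fr.Rt (gam hW g⁻¹ • v) (k - 1) p := fun p _ hp => by
    by_cases e : p = k - 1
    · rw [e]; exact fr.Rt_self _ _
    · exact (((fr.mem_YS' fun _ _ _ _ => by omega).1 (h3 p (by omega))).1 p (by omega) (k - 1)
        (by omega) le_rfl (by omega)).symm (by omega) (by omega)
  have h5 := fr.fix_of_roots (S := (· < k)) (a := k - 1) (by omega) (by omega)
    (fun b hb h => h4 b hb (by omega)) (fr.Rs_of_pure hQ hP (S := (· < k)) (fun _ _ _ _ => by omega)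
      (fun _ _ => by omega) (by omega) (by omega) h4) (c • gam hW g⁻¹ • a) fun p hp h => by
        by_cases e : p = k - 1
        · rwa [e, polar_smul_right', map_inv, ← polar_gsmul_left, ← polar_smul_left']
        · rw [polar_smul_right', gam_smul hW _ ⟨a, ha⟩, (g⁻¹ • (⟨a, ha⟩ : fr.Vj (k - 1))).2 p hp
            (by omega), mul_zero]
  rw [map_inv, ← T_smul_left hc] at h5
  rw [MulAction.mem_stabilizer_iff, ← gsmul_smul, ← smul_inv_smul (gam hW g) a, ← T_conj, mul_smul,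
    mul_smul, h5, smul_inv_smul]

namespace Cfg

variable {C : Cfg k I} {fr : Fr Q k} {hQ : (polarBilin Q).Nondegenerate} {hP : PureS Q M}
  {hM : Mult1 Q M} {hR : C.HRs fr M}

theorem theta_sq (hN : 2 * k < finrank F V) {i : I} (hi : C.pb i = k - 1) {θ : I → Fˣ → ℂ}
    (h : (C.rd fr hQ hP hM hR).Th θ) (t : Fˣ) : θ i (t * t) = 1 := by
  have := C.lt1 i; have := C.lt2 i; have := C.lt3 i
  obtain ⟨v, hE, h0, hv⟩ := h
  have hd := fr.finrank_Vj hQ (j := k - 1) (by omega)
  have h2 := C.fr2 fr i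
  obtain ⟨g, g1, g2, g3⟩ := exists_diag_gam hQ (fr.nondeg_Vj hQ (k - 1)) (by omega) h2.hy
    (fr.mem_Pp (by omega) (by omega)) (fr.mem_Pp (by omega) (by omega)) t.ne_zero
  have fix : ∀ v ∈ C.E fr M, gam (fr.nondeg_Vj hQ (k - 1)) g • v = v := fun v hv =>
    fr.gam_fix hQ hP (by omega) hN g (E_le hR hv (by omega))
  set d := gam (fr.nondeg_Vj hQ (k - 1)) g
  have g4 := g3 _ ⟨h2.o1, h2.o2⟩
  have g5 := g3 _ ⟨h2.o3, h2.o4⟩
  have h3 : (C.hd fr).n i * d = (C.hd fr).h i (t * t) * d * (C.hd fr).n i := by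
    rw [hd_n, hd_h]
    refine h2.ext2 ?_ ?_ ?_ ?_ fun w w1 w2 w3 w4 => ?_
    · simp [mul_smul, gsmul_smul, g1, g4, h2.n_x, h2.hh_y]
    · simp [mul_smul, gsmul_smul, g2, g5, h2.n_x', h2.hh_y']
    · simp [mul_smul, gsmul_smul, gsmul_neg, g1, g4, h2.n_y, h2.hh_x]
    · simp [mul_smul, gsmul_smul, gsmul_neg, g2, g5, h2.n_y', h2.hh_x']
    · rw [mul_smul, mul_smul, mul_smul, h2.nn_perp one_ne_zero w1 w2 w3 w4, g3 w ⟨w3, w4⟩,
        h2.nn_perp one_ne_zero w1 w2 w3 w4, h2.hh_perp _ w1 w2 w3 w4]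
  have h4 := RD.uu_ne_zero_of_eigen hE h0 hv i
  have h5 := fix _ ((C.rd fr hQ hP hM hR).uu_mem ((C.rd fr hQ hP hM hR).E_Y1 hE i))
  have ht : ((t : F) * t)⁻¹ ≠ 0 := inv_ne_zero (mul_ne_zero t.ne_zero t.ne_zero)
  rw [RD.uu, smul_pr_zero (Equiv.mulLeft₀ _ ht) fun s => by
    rw [hd_x, hd_x, conj_xp one_ne_zero (by rw [g4, one_smul]) g2, one_mul]; rfl,
    show d • ((C.hd fr).n i)⁻¹ • v = θ i (t * t) • ((C.hd fr).n i)⁻¹ • v by
      rw [← gcs, eq_inv_smul_iff, ← mul_smul, h3, mul_smul, smul_inv_smul, mul_smul, fix v hE, hv],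
    pr_csmul] at h5
  exact smul_left_injective ℂ h4 (by simpa [RD.uu] using h5)

theorem not_st (hN : finrank F V = 2 * k + 1) {i : I} (hi : C.pa i = k - 2) (hi' : C.pb i = k - 1)
    (hex : ∀ i, (C.rd fr hQ hP hM hR).Ex i) : ¬ (C.rd fr hQ hP hM hR).St := by
  classical
  intro hS
  have := C.lt1 i; have := C.lt2 i; have := C.lt3 i
  obtain ⟨u, hE, h0, hu⟩ := hS.exists_neg hex i
  have hW := fr.nondeg_Vj hQ (k - 1)
  have hN' := E_le hR hE (j := k - 1) (by omega)
  have hX : IsAdd (TX Q (fr.v (k + 1)) (fr.Vj (k - 1))) :=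
    TX_add (fr.hQ _ (by omega)) fun w hw => hw _ (by omega) (by omega)
  have hy : fr.v (k - 1) ∈ fr.Vj (k - 1) := fr.mem_Pp (by omega) (by omega)
  refine pos_contra (F := F) hX h0 (univ.filter fun z => z ≠ 0 ∧ Q.restrict _ z = 0) ?_
    (fun z hz t ht => ?_) fun χ hχ => ?_
  · have h1 := fr.nc_Vj hQ (j := k - 1) (by omega)
    rw [show k - 1 + 1 = k by omega, fr.nc_top, hN, Nat.add_sub_cancel_left] at h1
    rw [← Fintype.card_subtype, ← Nat.card_eq_fintype_card, card_singular, h1]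
    obtain ⟨r, hr⟩ : ∃ r, q = r + 1 := ⟨q - 1, by have : 0 < q := Fintype.card_pos; omega⟩
    rw [hr, Nat.add_sub_cancel, show r * (r + 1) ^ 1 + (r + 1) * 1 = (r + 1) ^ 2 by ring]
    exact Nat.sub_lt (by positivity) one_pos
  · obtain ⟨h1, h2⟩ := (mem_filter.1 hz).2
    obtain ⟨g, c, hc, e⟩ := fr.exists_gam hQ (by omega) (by omega) z.2
      (fun e => h1 (Subtype.ext e)) h2
    have h3 := hu (t * c) (mul_ne_zero ht hc)
    rw [hd_n, hd_x, (C.fr2 fr i).ninv_xp, T_swap' (fr.hQ _ (by omega)) (fr.hQ _ (by omega)), neg_neg,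
      hi', show 2 * k - 1 - C.pa i = k + 1 by omega] at h3
    rw [← h3, TX, Submodule.coe_smul, e, smul_smul, ← gsmul_smul,
      ← inner_gg (gam hW g) u (T Q _ ((t * c) • _) • u),
      ← mul_smul (gam hW g), mul_T, fr.gam_v hQ g (by omega) (by omega), mul_smul (T Q _ _),
      fr.gam_fix hQ hP (by omega) (by omega) g hN']
  · obtain ⟨ν, hν, rfl⟩ := ch_surj hW χ
    have h1 := fr.pure_frame hQ hP (S := fun p => p + 2 < k ∨ p = k + 1) (fun _ _ _ _ => by omega)
      (a := k + 1) (by omega) (Or.inr rfl) hχ (fun p hp h => by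
        rcases h with h | rfl
        · intro t
          rw [smul_pr_of_comm (X := TX Q (fr.v (k + 1)) (fr.Vj (k - 1))) fun r =>
            T_comm (fr.hQ _ (by omega)) (by
              rw [polar_smul_right', fr.pol0 (by omega) hp (by omega), mul_zero])
              (r.2 _ (by omega) (by omega)),
            (((fr.mem_YS' fun _ _ _ _ => by omega).1 (hN' p (by omega))).1 p hp (k + 1) (by omega)
              le_rfl (by omega)).symm hp (by omega)]
        · exact fr.Rt_self _ _) (fr.Pp_mono (fun _ _ _ => by omega) hν) fun w hw =>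
      pr_wt hX _ u ⟨w, fr.Pp_mono (fun _ _ _ => by omega) hw⟩
    by_cases e : ν = 0
    · exact ⟨⟨_, hy⟩, mem_filter.2 ⟨mem_univ _, fun e => fr.ne_zero (by omega)
        (congrArg Subtype.val e), fr.hQ _ (by omega)⟩, fun t => by simp [e, ch_zero]⟩
    · exact ⟨⟨ν, hν⟩, mem_filter.2 ⟨mem_univ _, fun e' => e (congrArg Subtype.val e'), h1⟩,
        fun t => by simp [ch_apply, polar_smul_right', polar_self_zero h1]⟩

end Cfg

theorem hRs_A (hk : 3 ≤ k) (fr : Fr Q k) : (cfgA hk).HRs fr M := fun v hv a ha h =>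
  ((fr.mem_YS' (cfgA hk).ts').1 hv).2 a ha (by
    rcases h with h | ⟨l, h⟩
    · exact h
    · have : a ≤ l := h
      change a < k
      omega)

theorem hRs_D (hQ : (polarBilin Q).Nondegenerate) (hk : 4 ≤ k) (hN : finrank F V = 2 * k)
    (fr : Fr Q k) : (cfgD hk).HRs fr M := fun v _ a _ _ r hr => by
  have hd := fr.finrank_Vj hQ le_rfl
  rw [fr.Vj_top] at hd
  have : fr.R0 = ⊥ := Submodule.finrank_eq_zero.1 (by omega)
  rw [this] at hr
  rw [show r = 0 from hr, T_zero, one_smul]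

theorem bound_A (hQ : (polarBilin Q).Nondegenerate) (hP : PureS Q M) (hM : Mult1 Q M)
    (hE : ExS Q M) (hk : 3 ≤ k) (hN : 2 * k < finrank F V) (fr : Fr Q k) :
    ∑ j ∈ range (k - 1), nc (Q.restrict (fr.Vj (j + 1))) 0 +
      (if finrank F V = 2 * k + 1 then 1 else 0) ≤ finrank ℂ M := by
  classical
  have hR := hRs_A (M := M) hk fr
  have hex := Cfg.ex hQ hP hM hR hE hk (by omega) (Or.inr hN)
  have h1 := Cfg.sum_le hQ hP hM hR hex (fun j hj => Or.inl (by omega)) (by omega)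
  have hadj : ∀ i j, ((cfgA hk).hd fr).adj i j ↔ (i : ℕ) + 1 = j ∨ (j : ℕ) + 1 = i :=
    fun _ _ => Iff.rfl
  suffices k - 1 + (if finrank F V = 2 * k + 1 then 1 else 0) ≤ finrank ℂ ((cfgA hk).E fr M) by
    omega
  by_cases hS : ((cfgA hk).rd fr hQ hP hM hR).St
  · rw [if_neg fun h => Cfg.not_st h (i := ⟨k - 2, by omega⟩) rfl (by change k - 2 + 1 = _; omega)
      hex hS]
    have h2 := hS.card_le hex (fun _ => 1) (fun _ => one_pos) fun i =>
      sum_le_mul _ _ zero_le_one (fun _ _ => le_rfl) (card_le_two_of _ (i + 1) (i - 1) fun j hj => by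
        have := (hadj _ _).1 (mem_filter.1 hj).2
        omega)
    rw [Fintype.card_fin] at h2
    exact h2
  · have h2 := RD.succ_le_of_not_st _ (by omega) hadj hS (by
      by_cases h : 3 ≤ k - 1
      · exact Or.inl h
      obtain rfl : k = 3 := by omega
      refine Or.inr fun θ hθ i t => ?_
      have h3 := Cfg.theta_sq hN (i := 1) rfl hθ t
      have h4 := Cfg.theta_sq hN (i := 1) rfl (hθ.refl 0) t
      rw [RD.refl_adj (Or.inl rfl), h3, one_mul] at h4
      rw [← hθ.mul]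
      fin_cases i
      exacts [h4, h3])
    refine le_trans ?_ h2
    split_ifs <;> omega

theorem bound_D (hQ : (polarBilin Q).Nondegenerate) (hP : PureS Q M) (hM : Mult1 Q M)
    (hE : ExS Q M) (hk : 4 ≤ k) (hN : finrank F V = 2 * k) (hq : 4 ≤ q) (fr : Fr Q k) :
    ∑ j ∈ range (k - 1), nc (Q.restrict (fr.Vj (j + 1))) 0 + 1 ≤ finrank ℂ M := by
  classical
  have hR := hRs_D (M := M) hQ hk hN fr
  have hex := Cfg.ex hQ hP hM hR hE (by omega) (by omega) (Or.inl hq)
  have h1 := Cfg.sum_le hQ hP hM hR hex (fun j hj => by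
    by_cases h : j + 2 = k
    · refine Or.inr ⟨⟨k - 1, by omega⟩, ?_, ?_⟩ <;> simp only [cfgD] <;> omega
    · exact Or.inl (by omega)) (by omega)
  have hadj : ∀ i j, ((cfgD hk).hd fr).adj i j ↔
      (i : ℕ) + 1 = min (j : ℕ) (k - 2) ∨ (j : ℕ) + 1 = min (i : ℕ) (k - 2) := fun _ _ => Iff.rfl
  have hS := ((cfgD hk).rd fr hQ hP hM hR).st_of_branch ⟨k - 3, by omega⟩ ⟨k - 4, by omega⟩
    ⟨k - 2, by omega⟩ ⟨k - 1, by omega⟩ (by rw [hadj]; simp only; omega)
    (by rw [hadj]; simp only; omega) (by rw [hadj]; simp only; omega)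
    (by simp only [ne_eq, Fin.ext_iff]; omega) (by simp only [ne_eq, Fin.ext_iff]; omega)
    (by simp only [ne_eq, Fin.ext_iff]; omega) (by rw [hadj]; simp only; omega)
    (by rw [hadj]; simp only; omega) (by rw [hadj]; simp only; omega)
    (fun i => if (i : ℕ) ≤ k - 3 then k - 3 - i else 1) fun i e => by
      simp only [ne_eq, Fin.ext_iff] at e
      by_cases h : (i : ℕ) ≤ k - 3
      · refine ⟨⟨i + 1, by omega⟩, by rw [hadj]; simp only; omega, ?_⟩
        simp only
        rw [if_pos (by omega), if_pos h]; omega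
      · refine ⟨⟨k - 3, by omega⟩, by rw [hadj]; simp only; omega, ?_⟩
        simp only
        rw [if_pos (by omega), if_neg h]; omega
  have h2 := hS.card_le hex (fun i => if (i : ℕ) = 0 ∨ k - 2 ≤ i then 1 else 2)
    (fun i => by split_ifs <;> norm_num) fun i => by
      have hw : ∀ j : Fin k, (if (j : ℕ) = 0 ∨ k - 2 ≤ j then (1 : ℝ) else 2) ≤ 2 := fun j => by
        split_ifs <;> norm_num
      by_cases h : (i : ℕ) = 0 ∨ k - 2 ≤ i
      · rw [if_pos h]
        refine (sum_le_mul _ _ zero_le_two (fun j _ => hw j) (card_le_one_of _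
          (if (i : ℕ) = 0 then 1 else k - 3) fun j hj => ?_)).trans (by norm_num)
        have := (hadj _ _).1 (mem_filter.1 hj).2
        split_ifs <;> omega
      rw [if_neg h]
      by_cases h' : (i : ℕ) = k - 3
      · rw [← sum_filter_add_sum_filter_not _ (fun j : Fin k => (j : ℕ) < k - 3)]
        refine (add_le_add (sum_le_mul _ _ zero_le_two (fun j _ => hw j) (card_le_one_of _ (k - 4)
          fun j hj => ?_)) (sum_le_mul _ _ zero_le_one (fun j hj => ?_) (card_le_two_of _ (k - 2)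
          (k - 1) fun j hj => ?_))).trans (by norm_num) <;>
        have := (hadj _ _).1 (mem_filter.1 (mem_filter.1 hj).1).2 <;>
        have := (mem_filter.1 hj).2
        · omega
        · rw [if_pos (by omega)]
        · omega
      · refine (sum_le_mul _ _ zero_le_two (fun j _ => hw j) (card_le_two_of _ (i + 1) (i - 1)
          fun j hj => ?_)).trans (by norm_num)
        have := (hadj _ _).1 (mem_filter.1 hj).2
        omega
  rw [Fintype.card_fin] at h2
  have h3 : k ≤ finrank ℂ ((cfgD hk).E fr M) := h2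
  omega

end Cfsg.Agent.H33.MR
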