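import Cfsg.Agent.H33.MinRep8
import Cfsg.Agent.H33.OrthDeg8
import Cfsg.Agent.H11.Basic

/-! Minimal degrees of complex representations of orthogonal groups. -/

set_option autoImplicit false
set_option linter.unusedSectionVars false

namespace Cfsg.Agent.H33.MR

open scoped InnerProductSpace ComplexConjugate
open Cfsg.Agent.H30 Cfsg.Agent.H33.OD QuadraticMap Module Finset

section

variable {F V : Type*} [Field F] [Fintype F] [AddCommGroup V] [Module F V] [FiniteDimensional F V]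
  [Fintype V] {Q : QuadraticForm F V} {k : ℕ}
  {M : Type*} [NormedAddCommGroup M] [InnerProductSpace ℂ M]
  [DistribMulAction (eichGroup Q) M] [UA (eichGroup Q) M] [FiniteDimensional ℂ M]

local notation "q" => Fintype.card F

theorem not_mem_smul {x ν : V} (g : eichGroup Q) (h : ν ∉ F ∙ x) : g • ν ∉ F ∙ (g • x) := fun h' => by
  obtain ⟨c, hc⟩ := Submodule.mem_span_singleton.1 h'
  rw [← gsmul_smul, smul_left_cancel_iff] at hc
  exact h (Submodule.mem_span_singleton.2 ⟨c, hc⟩)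

theorem WTs_le (hQ : (polarBilin Q).Nondegenerate) (h7 : 7 ≤ finrank F V) {x y ν w : V}
    (hx0 : x ≠ 0) (hx : Q x = 0) (hν : polar Q x ν = 0) (hν' : ν ∉ F ∙ x) (hy0 : y ≠ 0)
    (hy : Q y = 0) (hw : polar Q y w = 0) (hw' : w ∉ F ∙ y) {t : F} (ht : t ≠ 0)
    (h : Q ν = t * t * Q w) : finrank ℂ (WTs Q M x ν) ≤ finrank ℂ (WTs Q M y w) := by
  obtain ⟨g, rfl⟩ := exists_smul_eq_one hQ (by omega) hx0 hy0 (hx.trans hy.symm)
  obtain ⟨g', h1, h2⟩ := exists_smul_eq_two hQ h7 hy0 hy (by rw [polar_gsmul, hν]) hw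
    (not_mem_smul g hν') hw' ht (by rw [Q_gsmul, h])
  refine finrank_le_of_smul (g' * g) fun v hv => ?_
  have := (WT.smul' hv rfl (g := g)).smul ht h1
  rwa [h2, inv_smul_smul₀ ht, ← mul_smul] at this

theorem sum_WTs (hQ : (polarBilin Q).Nondegenerate) {x x' : V} (h : IsHyp Q x x') (s : Finset V)
    (hs : s ⊆ nz Q x x') :
    finrank ℂ (WTs Q M x 0) + ∑ w ∈ s, finrank ℂ (WTs Q M x w) ≤ finrank ℂ M := by
  classical
  have h0 : (0 : V) ∉ s := fun h0 => (mem_nz.1 (hs h0)).2 rfl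
  have h1 : ∀ w ∈ insert 0 s, w ∈ hperp Q x x' := fun w hw => by
    rcases mem_insert.1 hw with rfl | hw
    exacts [Submodule.zero_mem _, (mem_nz.1 (hs hw)).1]
  have := sum_finrank_le_of_orth (fun w => WTs Q M x w) (insert 0 s) (N := ⊤) (fun _ _ => le_top)
    fun a ha b hb e v hv w hw => Wt.inner_eq_zero ((wt_iff h (hperp_polar (h1 a ha))).2 hv)
      ((wt_iff h (hperp_polar (h1 b hb))).2 hw) fun e' =>
        e (ch_inj (h.nondegOn_hperp hQ) (h1 a ha) (h1 b hb) e')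
  rwa [sum_insert h0, finrank_top] at this

theorem le_sum_cl (hQ : (polarBilin Q).Nondegenerate) (h7 : 7 ≤ finrank F V) {y ν x x' : V}
    (hy0 : y ≠ 0) (hy : Q y = 0) (hν : polar Q y ν = 0) (hν' : ν ∉ F ∙ y) (h : IsHyp Q x x') {j : ℕ}
    (hj : j ≤ finrank ℂ (WTs Q M y ν)) :
    (cl Q x x' (Q ν)).card * j ≤ ∑ w ∈ cl Q x x' (Q ν), finrank ℂ (WTs Q M x w) :=
  card_nsmul_le_sum _ _ _ fun w hw => by
    obtain ⟨⟨h1, h2⟩, t, ht, h3⟩ := mem_cl.1 hw
    exact hj.trans (WTs_le hQ h7 hy0 hy hν hν' h.left_ne_zero h.left (hperp_polar h1)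
      (not_mem_span_of_hperp h h1 h2) ht h3)

theorem exists_occ (hQ : (polarBilin Q).Nondegenerate) (hne : ∃ (g : eichGroup Q) (v : M), g • v ≠ v) :
    ∃ x ν : V, x ≠ 0 ∧ Q x = 0 ∧ polar Q x ν = 0 ∧ ν ∉ F ∙ x ∧ 1 ≤ finrank ℂ (WTs Q M x ν) := by
  by_contra hcon
  obtain ⟨g, v, hg⟩ := hne
  have : eichGroup Q ≤ (MulAction.stabilizer (eichGroup Q) v).map (eichGroup Q).subtype :=
    eichGroup_le fun x u h0 h1 h2 => ⟨T Q x u, by
      obtain ⟨x', h⟩ := exists_isHyp hQ h1 h0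
      by_cases h3 : WT Q x 0 v
      · simpa using h3 u h2
      · obtain ⟨ν, hν, hν0, v', h4, h5, -⟩ := exists_WT' hQ h h3
        exact absurd ⟨x, ν, h0, h1, hperp_polar hν, not_mem_span_of_hperp h hν hν0,
          one_le_finrank (v := v') h5 h4⟩ hcon, rfl⟩
  obtain ⟨g', h1, h2⟩ := this g.2
  exact hg (by rwa [← show g' = g from Subtype.ext h2])

theorem exists_of_one_le {N : Submodule ℂ M} (h : 1 ≤ finrank ℂ N) : ∃ v ∈ N, v ≠ 0 :=
  Submodule.exists_mem_ne_zero_of_ne_bot (by rintro rfl; simp at h)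

theorem cases0 (hQ : (polarBilin Q).Nondegenerate) (h7 : 7 ≤ finrank F V)
    (hne : ∃ (g : eichGroup Q) (v : M), g • v ≠ v) {x x' : V} (h : IsHyp Q x x')
    (hs : ∀ c c', finrank ℂ M < (cl Q x x' c).card + (cl Q x x' c').card) :
    Mult1 Q M ∧ ((PureS Q M ∧ ExS Q M) ∨ (PureN Q M ∧ ∃ c, c ≠ 0 ∧
      (∀ y ν, y ≠ 0 → Q y = 0 → polar Q y ν = 0 → Q ν = c → ∃ v : M, v ≠ 0 ∧ WT Q y ν v) ∧
      ∀ x x', IsHyp Q x x' → finrank ℂ (WTs Q M x 0) + (cl Q x x' c).card ≤ finrank ℂ M)) := by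
  classical
  refine ⟨fun y ν v v' h0 h1 h2 h3 h4 h5 h6 => prop_of_finrank_le_one (N := WTs Q M y ν) ?_ h4 h6 h5,
    ?_⟩
  · by_contra! h8
    have := le_sum_cl hQ h7 h0 h1 h2 h3 h h8
    have := sum_WTs (M := M) hQ h _ (cl_subset (Q ν))
    have := hs (Q ν) (Q ν)
    omega
  have two : ∀ y ν y' ν', y ≠ 0 → Q y = 0 → polar Q y ν = 0 → ν ∉ F ∙ y → y' ≠ 0 → Q y' = 0 →
      polar Q y' ν' = 0 → 1 ≤ finrank ℂ (WTs Q M y ν) → 1 ≤ finrank ℂ (WTs Q M y' ν') → Q ν = 0 →
      Q ν' = 0 := by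
    intro y ν y' ν' a1 a2 a3 a4 b1 b2 b3 a5 b5 a6
    by_contra b6
    have b4 : ν' ∉ F ∙ y' := fun h => by
      obtain ⟨c, rfl⟩ := Submodule.mem_span_singleton.1 h
      exact b6 (by rw [Q_smul, b2, mul_zero])
    have h1 := le_sum_cl hQ h7 a1 a2 a3 a4 h a5
    have h2 := le_sum_cl hQ h7 b1 b2 b3 b4 h b5
    have h3 := sum_WTs (M := M) hQ h (cl Q x x' (Q ν) ∪ cl Q x x' (Q ν'))
      (union_subset (cl_subset _) (cl_subset _))
    rw [sum_union (disjoint_left.2 fun w hw hw' => by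
      rw [a6] at hw
      obtain ⟨-, t, -, ht⟩ := mem_cl.1 hw'
      exact b6 (by rw [ht, (mem_cl_zero.1 hw).2, mul_zero]))] at h3
    have := hs (Q ν) (Q ν')
    omega
  obtain ⟨y, ν, a1, a2, a3, a4, a5⟩ := exists_occ hQ hne
  have ex : ∀ y' ν', y' ≠ 0 → Q y' = 0 → polar Q y' ν' = 0 → ν' ∉ F ∙ y' → Q ν' = Q ν →
      ∃ v : M, v ≠ 0 ∧ WT Q y' ν' v := fun y' ν' b1 b2 b3 b4 b5 => by
    obtain ⟨v, hv, h0⟩ := exists_of_one_le
      (a5.trans (WTs_le hQ h7 a1 a2 a3 a4 b1 b2 b3 b4 one_ne_zero (by rw [b5]; simp)))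
    exact ⟨v, h0, hv⟩
  by_cases a6 : Q ν = 0
  · exact Or.inl ⟨fun y' ν' v b1 b2 b3 b4 b5 =>
      two y ν y' ν' a1 a2 a3 a4 b1 b2 b3 a5 (one_le_finrank (v := v) b4 b5) a6,
      fun y' ν' b1 b2 b3 b4 b5 => ex y' ν' b1 b2 b3 b4 (b5.trans a6.symm)⟩
  · refine Or.inr ⟨fun y' ν' v b1 b2 b3 b4 b5 b6 b7 =>
      a6 (two y' ν' y ν b1 b2 b3 b4 a1 a2 a3 (one_le_finrank (v := v) b5 b6) a5 b7), Q ν, a6,
      fun y' ν' b1 b2 b3 b5 => ex y' ν' b1 b2 b3 (fun h => ?_) b5, fun x x' h => ?_⟩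
    · obtain ⟨c, rfl⟩ := Submodule.mem_span_singleton.1 h
      exact a6 (by rw [← b5, Q_smul, b2, mul_zero])
    · have := le_sum_cl hQ h7 a1 a2 a3 a4 h a5
      have := sum_WTs (M := M) hQ h _ (cl_subset (Q ν))
      omega

/-- If all weights are non-singular, the Levi factor acts non-trivially on the fixed space. -/
theorem down (hQ : (polarBilin Q).Nondegenerate) (hP : PureN Q M) (hM : Mult1 Q M) (fr : Fr Q k)
    (hk : 4 ≤ k) {l : V} (hl : l ∈ fr.R0) (hl' : Q l ≠ 0) {m : M} (h0 : m ≠ 0)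
    (hm : WT Q (fr.v 0) l m) : ∃ x x', IsHyp Q x x' ∧ ∃ v : M, WT Q x 0 v ∧
      ∃ y ∈ hperp Q x x', ∃ a ∈ hperp Q x x', T Q y a • v ≠ v := by
  have hx := fr.hQ 0 (by omega)
  have hy := fr.hQ 1 (by omega)
  have hxy : polar Q (fr.v 0) (fr.v 1) = 0 := fr.pol0 (by omega) (by omega) (by omega)
  have hyx : polar Q (fr.v 1) (fr.v 0) = 0 := fr.pol0 (by omega) (by omega) (by omega)
  have hlv : ∀ p < 2 * k, polar Q l (fr.v p) = 0 := fun p hp => by
    rw [polar_comm]; exact hl p hp trivial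
  have eigT : ∀ z w, polar Q (fr.v 0) z = 0 → polar Q (fr.v 0) w = 0 → polar Q l z = 0 →
      polar Q l w = 0 → ∃ d : ℂ, T Q z w • m = d • m := fun z w a1 a2 a3 a4 =>
    hM _ _ _ _ (fr.ne_zero (by omega)) hx (hl 0 (by omega) trivial) (fun h => by
      obtain ⟨c, rfl⟩ := Submodule.mem_span_singleton.1 h
      exact hl' (by rw [Q_smul, hx, mul_zero])) hm (by
        simpa [T_smul_of_orth a3 a4] using hm.smul' (T_smul_of_orth a1 a2)) h0
  have mem : ∀ p, 2 ≤ p → p + 2 < 2 * k → fr.v p ∈ fr.Vj 2 ⊓ perp Q (F ∙ l) := fun p h1 h2 =>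
    ⟨fr.mem_Pp (by omega) (by omega), mem_perp_singleton.2 (hlv p (by omega))⟩
  have k1 := inv_char hy (fr.Vj 2 ⊓ perp Q (F ∙ l)) (fun w hw => hw.1 1 (by omega) (by omega))
    (fun w hw => eigT _ w hxy (hw.1 0 (by omega) (by omega)) (hlv 1 (by omega))
      (mem_perp_singleton.1 hw.2))
    (fun z hz a ha _ _ => eigT z a (hz.1 0 (by omega) (by omega)) (ha.1 0 (by omega) (by omega))
      (mem_perp_singleton.1 hz.2) (mem_perp_singleton.1 ha.2))
    (fr.hyp (p := 2) (p' := 2 * k - 3) (by omega)) (mem _ (by omega) (by omega))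
    (mem _ (by omega) (by omega)) (mem 3 (by omega) (by omega))
    (mem (2 * k - 4) (by omega) (by omega))
    ⟨fr.pol0 (by omega) (by omega) (by omega), fr.pol0 (by omega) (by omega) (by omega)⟩
    ⟨fr.pol0 (by omega) (by omega) (by omega), fr.pol0 (by omega) (by omega) (by omega)⟩
    (fr.pol1 (by omega))
  have hW := fr.nondeg_Vj hQ 2
  have hX : IsAdd (TX Q (fr.v 1) (fr.Vj 2)) := TX_add hy fun w hw => hw 1 (by omega) (by omega)
  obtain ⟨χ, h1⟩ := exists_pr_ne_zero hX h0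
  obtain ⟨μ, hμ, rfl⟩ := ch_surj hW χ
  set m1 := pr (TX Q (fr.v 1) (fr.Vj 2)) (ch Q _ μ) m
  have k2 : ∀ w ∈ fr.Vj 2, T Q (fr.v 1) w • m1 = ps F (polar Q μ w) • m1 := fun w hw =>
    pr_wt hX _ m ⟨w, hw⟩
  have k3 : ∀ u, polar Q (fr.v 0) u = 0 → polar Q (fr.v 1) u = 0 →
      T Q (fr.v 0) u • m1 = ps F (polar Q l u) • m1 := fun u a1 a2 =>
    pr_mem (N := eig (T Q (fr.v 0) u) (ps F (polar Q l u))) fun w => by
      have := hm.smul' (T_smul_of_orth hxy (w.2 0 (by omega) (by omega))) u a1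
      rwa [T_smul hy (w.2 1 (by omega) (by omega)), hlv 1 (by omega), zero_smul, add_zero, mul_zero,
        zero_smul, sub_zero, polar_sub_left, polar_smul_left', a2, mul_zero, sub_zero] at this
  obtain ⟨w0, hw0, hw0'⟩ := hW.exists_polar_eq_one (fr.Pp_mono (fun _ _ _ => trivial) hl)
    (ne_zero_of_Q_ne_zero hl')
  have k4 : ∀ w ∈ fr.Vj 2, polar Q μ w = polar Q μ w0 * polar Q l w := fun w hw => by
    have a1 : w - polar Q l w • w0 ∈ fr.Vj 2 ⊓ perp Q (F ∙ l) :=
      ⟨Submodule.sub_mem _ hw (Submodule.smul_mem _ _ hw0), mem_perp_singleton.2 (by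
        rw [polar_sub_right, polar_smul_right', hw0', mul_one, sub_self])⟩
    have a2 : polar Q μ (w - polar Q l w • w0) = 0 := eq_zero_of_ps fun c => by
      have a3 := Submodule.smul_mem _ c a1
      have a4 := k2 _ a3.1
      rw [smul_pr_of_comm (X := TX Q (fr.v 1) (fr.Vj 2)) fun r =>
        T_comm hy (a3.1 1 (by omega) (by omega)) (r.2 1 (by omega) (by omega)), k1 _ a3,
        polar_smul_right'] at a4
      exact smul_left_injective ℂ h1 (by simpa using a4.symm)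
    rw [polar_sub_right, polar_smul_right'] at a2
    linear_combination a2
  set s := polar Q μ w0
  have hv0 : ∀ w ∈ fr.Vj 2, polar Q (fr.v 0) w = 0 := fun w hw => hw 0 (by omega) (by omega)
  have hv1 : ∀ w ∈ fr.Vj 2, polar Q (fr.v 1) w = 0 := fun w hw => hw 1 (by omega) (by omega)
  have hp : IsHyp Q (fr.v 1 + (-s) • fr.v 0) (fr.v (2 * k - 2)) := ⟨by
      rw [Q_add, Q_smul, polar_smul_right', hx, hy, hyx]; simp, fr.hQ _ (by omega), by
      rw [polar_add_left, polar_smul_left', fr.pol1 (by omega),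
        fr.pol0 (by omega) (by omega) (by omega)]; simp⟩
  have hpx : polar Q (fr.v 1 + (-s) • fr.v 0) (fr.v 0) = 0 := by
    rw [polar_add_left, polar_smul_left', hyx, polar_self_zero hx]; simp
  have hpw : ∀ w ∈ fr.Vj 2, polar Q (fr.v 1 + (-s) • fr.v 0) w = 0 := fun w hw => by
    rw [polar_add_left, polar_smul_left', hv0 w hw, hv1 w hw]; simp
  have k5 : ∀ c : F, T Q (fr.v 1) (c • fr.v 0) • m1 = m1 := fun c => by
    rw [T_swap' hy hx, k3 _ (by rw [polar_smul_right', hxy, mul_zero])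
      (by rw [polar_smul_right', polar_self_zero hy, mul_zero]), polar_smul_right',
      hlv 1 (by omega)]
    simp
  have k6 : ∀ w ∈ fr.Vj 2, T Q (fr.v 1 + (-s) • fr.v 0) w • m1 = m1 := fun w hw => by
    have a1 : T Q ((-s) • fr.v 0) w • m1 = ps F (-s * polar Q l w) • m1 := by
      by_cases e : s = 0
      · simp [e, show T Q 0 w = 1 from Subtype.ext (eich_zero_left w)]
      · rw [T_smul_left (neg_ne_zero.2 e), k3 _ (hv0 _ (Submodule.smul_mem _ _ hw))
          (hv1 _ (Submodule.smul_mem _ _ hw)), polar_smul_right']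
    rw [T_add_left hy (by rw [Q_smul, hx, mul_zero]) (by rw [polar_smul_right', hyx, mul_zero])
      (hv1 w hw) (by rw [polar_smul_left', hv0 w hw, mul_zero]), mul_smul, mul_smul, a1, gcs,
      k2 w hw, gcs, gcs, smul_smul (-Q w), k5, smul_smul, ← AddChar.map_add_eq_mul, k4 w hw]
    simp
  have k7 : ∀ c : F, T Q (fr.v 1 + (-s) • fr.v 0) (c • fr.v 0) • m1 = m1 := fun c => by
    rw [T_swap' hp.left hx, k3 _ (by rw [polar_smul_right', polar_comm, hpx, mul_zero]) (by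
      rw [polar_smul_right', polar_add_right, polar_smul_right', hyx, polar_self_zero hy]; simp),
      polar_smul_right', polar_add_right, polar_smul_right', hlv 1 (by omega), hlv 0 (by omega)]
    simp
  obtain ⟨t, ht⟩ := exists_ps_ne (F := F) one_ne_zero
  refine ⟨_, _, hp, m1, ?_, fr.v 0, ⟨by rw [polar_comm, hpx],
    fr.pol0 (by omega) (by omega) (by omega)⟩, t • w0, Submodule.smul_mem _ _
      ⟨by rw [polar_comm, hpw w0 hw0], by rw [polar_comm]; exact hw0 _ (by omega) (by omega)⟩,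
      fun h => ht ?_⟩
  · by_contra h
    obtain ⟨ν, hν, hν0, v', a1, a2, a3⟩ := exists_WT' hQ hp h
    refine hP _ ν v' hp.left_ne_zero hp.left (hperp_polar hν) (not_mem_span_of_hperp hp hν hν0) a2
      a1 ?_
    have b1 : polar Q ν (fr.v 0) = 0 := by
      simpa using polar_eq_of_partial (μ := 0) hp.left a1 a2 a3 hpx (by simpa using k7)
    have b2 : ∀ w ∈ fr.Vj 2, polar Q ν w = 0 := fun w hw => by
      simpa using polar_eq_of_partial (μ := 0) hp.left a1 a2 a3 (hpw w hw) fun c => by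
        simpa using k6 _ (Submodule.smul_mem _ c hw)
    have b3 : polar Q ν (fr.v 1) = 0 := by
      simpa [polar_add_right, polar_smul_right', b1] using hν.1
    have b4 : ν - polar Q ν (fr.v (2 * k - 1)) • fr.v 0 = 0 := hW _ (fun p hp h => by
      rw [polar_comm, polar_sub_left, polar_smul_left']
      by_cases e : p = 2 * k - 1
      · rw [e, fr.pol1 (by omega), mul_one, sub_self]
      rw [fr.pol0 (by omega) hp (by omega), mul_zero, sub_zero]
      rcases (by omega : p = 0 ∨ p = 1 ∨ p = 2 * k - 2) with rfl | rfl | rfl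
      exacts [b1, b3, hν.2]) fun w hw => by
        rw [polar_sub_left, polar_smul_left', b2 w hw, hv0 w hw, mul_zero, sub_zero]
    rw [sub_eq_zero.1 b4, Q_smul, hx, mul_zero]
  · rw [k3 _ (hv0 _ (Submodule.smul_mem _ _ hw0)) (hv1 _ (Submodule.smul_mem _ _ hw0)),
      polar_smul_right', hw0'] at h
    exact smul_left_injective ℂ h1 (by simpa using h)

theorem Fr.nc_closed (fr : Fr Q k) (hQ : (polarBilin Q).Nondegenerate) {d : ℕ}
    (hN : finrank F V = 2 * k + d) (a : ℕ) : ∀ j, j + a = k →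
    (q : ℤ) * nc (Q.restrict (fr.Vj j)) 0 = (q : ℤ) ^ (d + 2 * a) + q ^ (a + 1) - q ^ (d + a) := by
  induction a with
  | zero => intro j hj; obtain rfl : j = k := hj; simp [fr.nc_top]
  | succ a ih =>
    intro j hj
    have h1 : 1 ≤ q := Fintype.card_pos
    rw [fr.nc_Vj hQ (by omega), show finrank F V - 2 * (j + 1) = d + 2 * a by omega]
    push_cast [h1]
    rw [ih (j + 1) (by omega)]
    ring

theorem Fr.sum_closed (fr : Fr Q k) (hQ : (polarBilin Q).Nondegenerate) {d r : ℕ} (hr : k = r + 1)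
    (hN : finrank F V = 2 * k + d) :
    (q : ℤ) * ∑ j ∈ range (k - 1), (nc (Q.restrict (fr.Vj (j + 1))) 0 : ℤ) =
      ∑ a ∈ range r, ((q : ℤ) ^ (d + 2 * (a + 1)) + q ^ (a + 2) - q ^ (d + (a + 1))) := by
  rw [mul_sum, show k - 1 = r by omega, ← sum_range_reflect]
  exact sum_congr rfl fun a ha => fr.nc_closed hQ hN (a + 1) _ (by have := mem_range.1 ha; omega)

theorem two_mul_le_cl (hq : 4 ≤ q) {x x' : V} {c : F} (hc : c ≠ 0) :
    2 * nc (Q.restrict (hperp Q x x')) c ≤ (cl Q x x' c).card := by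
  by_cases h2 : (2 : F) = 0
  · have := mul_nc_le' (Q := Q) (x := x) (x' := x') h2 hc
    have := Nat.mul_le_mul_right (nc (Q.restrict (hperp Q x x')) c) (show 2 ≤ q - 1 by omega)
    omega
  · obtain ⟨j, hj⟩ := two_ne_zero_iff_odd_card.1 h2
    have := mul_nc_le (Q := Q) (x := x) (x' := x') hc
    have := Nat.mul_le_mul_right (nc (Q.restrict (hperp Q x x')) c) (show 4 ≤ q - 1 by omega)
    omega

/-- The reduction to modules with small weight multiplicities. -/
theorem reduce (hQ : (polarBilin Q).Nondegenerate) (h7 : 7 ≤ finrank F V)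
    (hne : ∃ (g : eichGroup Q) (v : M), g • v ≠ v) {L : ℤ}
    (hL : ∀ x x', IsHyp Q x x' → L + 1 ≤ nc (Q.restrict (hperp Q x x')) 0 ∧
      ∀ c, c ≠ 0 → L ≤ nc (Q.restrict (hperp Q x x')) c) (hs : (finrank ℂ M : ℤ) < 2 * L) :
    Mult1 Q M ∧ ((PureS Q M ∧ ExS Q M) ∨ (q ≤ 3 ∧ PureN Q M ∧ ∃ c, c ≠ 0 ∧
      (∀ y ν, y ≠ 0 → Q y = 0 → polar Q y ν = 0 → Q ν = c → ∃ v : M, v ≠ 0 ∧ WT Q y ν v) ∧
      ∀ x x', IsHyp Q x x' →
        finrank ℂ (WTs Q M x 0) + nc (Q.restrict (hperp Q x x')) c ≤ finrank ℂ M)) := by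
  obtain ⟨x, x', h⟩ := exists_isHyp_of_three_le hQ (by omega)
  have key : ∀ c, L ≤ (cl Q x x' c).card := fun c => by
    by_cases hc : c = 0
    · have := card_cl_zero (Q := Q) (x := x) (x' := x')
      have := (hL x x' h).1
      rw [hc]; omega
    · have := nc_le_card_cl (Q := Q) (x := x) (x' := x') hc
      have := (hL x x' h).2 c hc
      omega
  obtain ⟨h1, h2⟩ := cases0 hQ h7 hne h fun c c' => by
    have := key c
    have := key c'
    omega
  refine ⟨h1, h2.imp id fun ⟨h3, c, hc, h4, h5⟩ => ⟨?_, h3, c, hc, h4, fun y y' hy => ?_⟩⟩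
  · by_contra hq
    have := two_mul_le_cl (Q := Q) (x := x) (x' := x') (by omega) hc
    have := (hL x x' h).2 c hc
    have := h5 x x' h
    omega
  · have := nc_le_card_cl (Q := Q) (x := y) (x' := y') hc
    have := h5 y y' hy
    omega

theorem min_odd (hQ : (polarBilin Q).Nondegenerate) (hk : 3 ≤ k) (hN : finrank F V = 2 * k + 1)
    (hq : 4 ≤ q) (hne : ∃ (g : eichGroup Q) (v : M), g • v ≠ v) :
    (q : ℤ) ^ (2 * k) - 1 ≤ ((q : ℤ) ^ 2 - 1) * finrank ℂ M := by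
  classical
  obtain ⟨r, rfl⟩ : ∃ r, k = r + 1 := ⟨k - 1, by omega⟩
  by_contra! hcon
  obtain ⟨a, s, ha, hs, e1, e2⟩ := param q 4 r hq (by omega) (by omega)
  have hq1 : (0 : ℤ) < (q : ℤ) ^ 2 - 1 := by rw [e1]; push_cast; nlinarith
  obtain ⟨h1, h2 | h2⟩ := reduce hQ (by omega) hne (L := (q : ℤ) ^ (2 * r) - q ^ r)
    (fun x x' h => by
      have hd : finrank F (hperp Q x x') = 2 * r + 1 := by have := h.finrank_hperp; omega
      refine ⟨?_, fun c _ => nc_odd_ge (h.nondegOn_hperp hQ).restrict hd c⟩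
      rw [nc_odd (h.nondegOn_hperp hQ).restrict hd, Nat.card_eq_fintype_card]
      have : (1 : ℤ) ≤ (q : ℤ) ^ r := one_le_pow₀ (by omega)
      push_cast
      omega) (lt_of_mul_lt_mul_left (hcon.trans_le (by
        rw [show 2 * (r + 1) = r + r + 2 by ring, two_mul r, pow_add, pow_add, e2, e1,
          ← sub_nonneg]
        push_cast; ring_nf; positivity)) hq1.le)
  · obtain ⟨fr⟩ := exists_Fr (r + 1) hQ (Or.inl hN)
    have h3 := bound_A hQ h2.1 h1 h2.2 hk (by omega) fr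
    rw [if_pos hN] at h3
    have h4 := fr.sum_closed hQ rfl hN
    have h5 : ∀ r : ℕ, ((q : ℤ) ^ 2 - 1) * (∑ a ∈ range r,
        ((q : ℤ) ^ (1 + 2 * (a + 1)) + q ^ (a + 2) - q ^ (1 + (a + 1))) + q) =
        q * (q ^ (2 * (r + 1)) - 1) := fun r => by
      induction r with
      | zero => simp; ring
      | succ r ih => rw [sum_range_succ]; linear_combination ih
    have h6 := h5 r
    rw [← h4, ← mul_add_one, mul_left_comm] at h6
    have h7 := mul_left_cancel₀ (by omega) h6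
    have h8 := mul_le_mul_of_nonneg_left (Int.ofNat_le.2 h3) hq1.le
    rw [Nat.cast_add, Nat.cast_sum, Nat.cast_one, h7] at h8
    omega
  · omega

theorem min_plus (hQ : (polarBilin Q).Nondegenerate) (hk : 4 ≤ k) (hN : finrank F V = 2 * k)
    (hp : H79.IsPlus (F := F) Q) (hq : 4 ≤ q) (hne : ∃ (g : eichGroup Q) (v : M), g • v ≠ v) :
    ((q : ℤ) ^ k - 1) * (q ^ (k - 1) + q) ≤ ((q : ℤ) ^ 2 - 1) * finrank ℂ M := by
  classical
  obtain ⟨r, rfl⟩ : ∃ r, k = r + 2 := ⟨k - 2, by omega⟩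
  by_contra! hcon
  obtain ⟨a, s, ha, hs, e1, e2⟩ := param q 4 r hq (by omega) (by omega)
  have hq1 : (0 : ℤ) < (q : ℤ) ^ 2 - 1 := by rw [e1]; push_cast; nlinarith
  obtain ⟨h1, h2 | h2⟩ := reduce hQ (by omega) hne (L := (q : ℤ) ^ (2 * r + 1) - q ^ r)
    (fun x x' h => by
      have hd : finrank F (hperp Q x x') = 2 * r + 2 := by have := h.finrank_hperp; omega
      have hp' := (h.isPlus_iff hQ).1 hp
      refine ⟨?_, fun c hc => ?_⟩
      · rw [nc_plus_zero_int (h.nondegOn_hperp hQ).restrict hd hp', Nat.card_eq_fintype_card]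
        have : (1 : ℤ) ≤ (q : ℤ) ^ (r + 1) := one_le_pow₀ (by omega)
        omega
      · rw [nc_plus_ne_zero_int (h.nondegOn_hperp hQ).restrict hd hp' hc, Nat.card_eq_fintype_card])
    (lt_of_mul_lt_mul_left (hcon.trans_le (by
        rw [show r + 2 - 1 = r + 1 by omega, two_mul r, pow_add, pow_add, pow_add, pow_add, e2, e1,
          ← sub_nonneg]
        push_cast; ring_nf; positivity)) hq1.le)
  · obtain ⟨fr⟩ := exists_Fr (r + 2) hQ (Or.inr (Or.inl ⟨hN, hp⟩))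
    have h3 := bound_D hQ h2.1 h1 h2.2 hk hN hq fr
    have h4 := fr.sum_closed hQ (d := 0) rfl hN
    have h5 : ∀ r : ℕ, ((q : ℤ) ^ 2 - 1) * (∑ a ∈ range r,
        ((q : ℤ) ^ (0 + 2 * (a + 1)) + q ^ (a + 2) - q ^ (0 + (a + 1))) + q) =
        q * ((q ^ (r + 1) - 1) * (q ^ r + q)) := fun r => by
      induction r with
      | zero => simp; ring
      | succ r ih => rw [sum_range_succ]; linear_combination ih
    have h6 := h5 (r + 1)
    rw [← h4, ← mul_add_one, mul_left_comm] at h6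
    have h7 := mul_left_cancel₀ (by omega) h6
    have h8 := mul_le_mul_of_nonneg_left (Int.ofNat_le.2 h3) hq1.le
    rw [Nat.cast_add, Nat.cast_sum, Nat.cast_one, h7] at h8
    exact absurd h8 (not_le.2 hcon)
  · omega

end

universe u w

theorem min_minus {F : Type*} [Field F] [Fintype F] (r : ℕ) (hr : 2 ≤ r) : ∀ {V : Type u}
    [AddCommGroup V] [Module F V] [FiniteDimensional F V] [Fintype V] {Q : QuadraticForm F V}
    {M : Type w} [NormedAddCommGroup M] [InnerProductSpace ℂ M] [DistribMulAction (eichGroup Q) M]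
    [UA (eichGroup Q) M] [FiniteDimensional ℂ M], (polarBilin Q).Nondegenerate →
    finrank F V = 2 * (r + 1) + 2 → ¬ H79.IsPlus (F := F) Q →
    (∃ (g : eichGroup Q) (v : M), g • v ≠ v) →
    ((Fintype.card F : ℤ) ^ (r + 2) + 1) * (Fintype.card F ^ (r + 1) - Fintype.card F) ≤
      ((Fintype.card F : ℤ) ^ 2 - 1) * finrank ℂ M := by
  induction r using Nat.strong_induction_on with
  | _ r ih =>
  intro V _ _ _ _ Q M _ _ _ _ _ hQ hN hp hne
  classical
  set q := Fintype.card F with hq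
  have hq2 : 2 ≤ q := Fintype.one_lt_card
  by_contra! hcon
  obtain ⟨a, s, ha, hs, e1, e2⟩ := param q 2 r hq2 (by omega) hr
  have hq1 : (0 : ℤ) < (q : ℤ) ^ 2 - 1 := by rw [e1]; push_cast; nlinarith
  have hd : ∀ x x', IsHyp Q x x' → finrank F (hperp Q x x') = 2 * r + 2 := fun x x' h => by
    have := h.finrank_hperp; omega
  have hp' : ∀ x x', IsHyp Q x x' → ¬ H79.IsPlus (F := F) (Q.restrict (hperp Q x x')) :=
    fun x x' h h' => hp ((h.isPlus_iff hQ).2 h')
  obtain ⟨fr⟩ := exists_Fr (r + 1) hQ (Or.inr (Or.inr ⟨hN, hp⟩))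
  obtain ⟨h1, h2 | ⟨-, h2, c, hc, h3, h4⟩⟩ := reduce hQ (by omega) hne
    (L := (q : ℤ) ^ (2 * r + 1) + q ^ r - q ^ (r + 1) - 1) (fun x x' h => by
      refine ⟨?_, fun c hc => ?_⟩ <;>
      rw [nc_minus_int (h.nondegOn_hperp hQ).restrict (hd x x' h) (hp' x x' h),
        Nat.card_eq_fintype_card]
      · simp [hq]
      · have : (1 : ℤ) ≤ (q : ℤ) ^ (r + 1) := one_le_pow₀ (by omega)
        rw [if_neg hc, ← hq]
        omega)
    (lt_of_mul_lt_mul_left (hcon.trans_le (by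
        rw [two_mul r, pow_add, pow_add, pow_add, pow_add, e2, e1, ← sub_nonneg]
        push_cast; ring_nf; positivity)) hq1.le)
  · have h3 := bound_A hQ h2.1 h1 h2.2 (by omega) (by omega) fr
    rw [if_neg (by omega), add_zero] at h3
    have h4 := fr.sum_closed hQ rfl hN
    have h5 : ∀ r : ℕ, ((q : ℤ) ^ 2 - 1) * (∑ a ∈ range r,
        ((q : ℤ) ^ (2 + 2 * (a + 1)) + q ^ (a + 2) - q ^ (2 + (a + 1)))) =
        q * ((q ^ (r + 2) + 1) * (q ^ (r + 1) - q)) := fun r => by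
      induction r with
      | zero => simp
      | succ r ih => rw [sum_range_succ]; linear_combination ih
    have h6 := h5 r
    rw [← h4, mul_left_comm] at h6
    have h7 := mul_left_cancel₀ (by omega) h6
    have h8 := mul_le_mul_of_nonneg_left (Int.ofNat_le.2 h3) hq1.le
    rw [Nat.cast_sum, h7] at h8
    exact absurd h8 (not_le.2 hcon)
  have key : ∀ x x', IsHyp Q x x' →
      (finrank ℂ (WTs Q M x 0) : ℤ) + (q ^ (2 * r + 1) + q ^ r) ≤ finrank ℂ M := fun x x' h => by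
    have := Int.ofNat_le.2 (h4 x x' h)
    push_cast at this
    rwa [nc_minus_int (h.nondegOn_hperp hQ).restrict (hd x x' h) (hp' x x' h),
      Nat.card_eq_fintype_card, if_neg hc, sub_zero] at this
  by_cases e : r = 2
  · subst e
    have h5 := key _ _ (fr.hyp (p := 0) (p' := 5) rfl)
    have h6 := mul_le_mul_of_nonneg_left (le_trans (le_add_of_nonneg_left (by positivity)) h5) hq1.le
    refine absurd (h6.trans_lt hcon) (not_lt.2 ?_)
    rw [e1, ← sub_nonneg]
    push_cast; ring_nf; positivity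
  obtain ⟨r, rfl⟩ : ∃ r', r = r' + 1 := ⟨r - 1, by omega⟩
  have hd0 := fr.finrank_Vj hQ le_rfl
  rw [fr.Vj_top] at hd0
  obtain ⟨l, hl, hl'⟩ := (fr.nondeg_R0 hQ).exists_Q_eq (by omega) c
  obtain ⟨m, h0, hm⟩ := h3 (fr.v 0) l (fr.ne_zero (by omega)) (fr.hQ _ (by omega))
    (hl 0 (by omega) trivial) hl'
  obtain ⟨x, x', h, v, hv, y, hy, b, hb, hyb⟩ := down hQ h2 h1 fr (by omega) hl (hl' ▸ hc) h0 hm
  have hW := h.nondegOn_hperp hQ
  have hinv : ∀ (g : eichGroup (Q.restrict (hperp Q x x'))) (v : WTs Q M x 0),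
      gam hW g • (v : M) ∈ WTs Q M x 0 := fun g v => by
    have := WT.smul' v.2 (gam_perp hW g (mem_perp.2 fun w hw => hw.1))
    rwa [gsmul_zero] at this
  letI : DistribMulAction (eichGroup (Q.restrict (hperp Q x x'))) (WTs Q M x 0) :=
    { smul := fun g v => ⟨_, hinv g v⟩
      one_smul := fun v => Subtype.ext (by change gam hW 1 • (v : M) = v; rw [map_one, one_smul])
      mul_smul := fun g g' v => Subtype.ext (by
        change gam hW (g * g') • (v : M) = gam hW g • gam hW g' • (v : M); rw [map_mul, mul_smul])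
      smul_zero := fun g => Subtype.ext (smul_zero (gam hW g))
      smul_add := fun g v w => Subtype.ext (smul_add (gam hW g) (v : M) w) }
  haveI : UA (eichGroup (Q.restrict (hperp Q x x'))) (WTs Q M x 0) :=
    ⟨fun g c v => Subtype.ext (gcs (gam hW g) c (v : M)), fun g v w => inner_gg (gam hW g) (v : M) w⟩
  have h5 := ih r (by omega) (by omega) (M := WTs Q M x 0) hW.restrict (hd x x' h) (hp' x x' h)
    ⟨T _ ⟨y, hy⟩ ⟨b, hb⟩, ⟨v, hv⟩, fun e => hyb (by
      rw [← gam_T hW ⟨y, hy⟩ ⟨b, hb⟩]; exact congrArg Subtype.val e)⟩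
  have h6 := mul_le_mul_of_nonneg_left (key x x' h) hq1.le
  have h7 : (0 : ℤ) ≤ (q ^ 2 - 1) * q ^ (r + 2) := by positivity
  refine absurd (h6.trans_lt hcon) (not_lt.2 ?_)
  linear_combination h5 + h7

/-- Transfer to irreducible representations of the commutator subgroup. -/
theorem le_of_UA {F : Type*} [Field F] [Fintype F] {ι : Type} [Fintype ι] [DecidableEq ι]
    {Q : QuadraticForm F (ι → F)} (hQ : (polarBilin Q).Nondegenerate) (h5 : 5 ≤ Fintype.card ι)
    {X : ℤ} (h : ∀ (E : Type) [NormedAddCommGroup E] [InnerProductSpace ℂ E] [FiniteDimensional ℂ E]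
      [DistribMulAction (eichGroup Q) E] [UA (eichGroup Q) E],
      (∃ (g : eichGroup Q) (v : E), g • v ≠ v) → X ≤ ((Fintype.card F : ℤ) ^ 2 - 1) * finrank ℂ E)
    {N : ℕ} (hN : (N : ℤ) = X) (k : ℕ) (ρ : Representation ℂ (Omega F ⇑Q) (Fin k → ℂ))
    (hρ : ρ.IsIrreducible) (hk : 2 ≤ k) : N / (Fintype.card F ^ 2 - 1) ≤ k := by
  have e := omegaEquivEich hQ (not_isExc_of_finrank (by rw [finrank_pi']; omega)) (by omega)
  obtain ⟨E, _, _, _, _, _, h1, h2⟩ := exists_UA (G := eichGroup Q) (ρ.comp e.symm.toMonoidHom)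
  have h3 := h E (by
    by_contra! hcon
    have h4 : ∀ g, ρ g = 1 := fun g => by simpa using h2 (e g) (hcon _)
    obtain ⟨hV, hW⟩ := (H11.isIrreducible_iff ρ).mp hρ
    obtain ⟨v, hv⟩ := exists_ne (0 : Fin k → ℂ)
    rcases hW (Submodule.span ℂ {v}) (fun g w hw => by rwa [h4]) with h6 | h6
    · exact hv (Submodule.span_singleton_eq_bot.mp h6)
    · have := finrank_span_singleton (K := ℂ) hv
      rw [h6, finrank_top, finrank_fin_fun] at this
      omega)
  refine Nat.div_le_of_le_mul ?_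
  have hq : 1 ≤ Fintype.card F ^ 2 := Nat.one_le_pow _ _ Fintype.card_pos
  zify [hq]
  rwa [hN, ← h1]

end Cfsg.Agent.H33.MR
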