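import Cfsg.Agent.H54.O84Defs

/-! The centralisers of the hyperplanes of the torus generate a subgroup containing `Ω₈⁺(4)`. -/

set_option autoImplicit false

namespace Cfsg.Agent.H33.O84X7

open Cfsg.Agent.H54.O84 H30
open scoped commutatorElement

universe u

theorem key {G : Type*} [Group G] (Z : Subgroup G) [Z.Normal] (r : G)
    (h : ∀ x, x ∈ Z ∨ x * r ∈ Z) : commutator G ≤ Z := by
  have h1 : ∀ x, QuotientGroup.mk' Z x = 1 ∨ QuotientGroup.mk' Z x = (QuotientGroup.mk' Z r)⁻¹ :=
    fun x => (h x).imp (fun e => (QuotientGroup.eq_one_iff x).2 e) fun e => by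
      rw [eq_inv_iff_mul_eq_one, ← map_mul]
      exact (QuotientGroup.eq_one_iff _).2 e
  refine Subgroup.commutator_le.2 fun x _ y _ => ?_
  rw [← QuotientGroup.eq_one_iff, ← QuotientGroup.mk'_apply, map_commutatorElement,
    commutatorElement_def]
  rcases h1 x with e | e <;> rcases h1 y with e' | e' <;> rw [e, e'] <;> group

theorem x7 (x0 : X0Stmt.{u}) (x3 : X3Stmt.{u}) (x4 : X4Stmt.{u}) (x5 : X5Stmt.{u}) :
    X7Stmt.{u} := by
  intro F _ _ o hF ho ζ b hb
  obtain ⟨hQ, hexc, -⟩ := x0 F o hF ho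
  have h4 := x4 F o hF ho _ (x3 F o hF ho ζ b hb)
  have h5 := x5 F o hF ho ζ b hb
  generalize (⨆ k, Cz b k) = Z at h4 h5 ⊢
  set r := refl (Qn F o) (Pi.single 0 1) with hr
  have rr : r * r = 1 := refl_mul_self _ _
  have h1 : ∀ y, Qn F o y ≠ 0 → refl (Qn F o) y * r ∈ Z := fun y hy => by
    obtain ⟨g, hg, s, hs, e⟩ := h4 y hy
    have e1 := refl_conj (Q := Qn F o) g y
    rw [e, refl_smul (Q := Qn F o) hs, ← hr] at e1
    have := mul_mem (inv_mem hg) ((Subgroup.mem_normalizer_iff.1 h5 g).1 hg)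
    rw [show r⁻¹ = r from refl_inv _ _] at this
    convert this using 1
    nth_rewrite 2 [← e1]
    group
  have h2 : Subgroup.normalizer (Z : Set _) = ⊤ := eq_top_of_refl hQ hexc _ fun y hy => by
    have := mul_mem (Subgroup.le_normalizer (h1 y hy)) h5
    rwa [mul_assoc, rr, mul_one] at this
  have : Z.Normal := Subgroup.normalizer_eq_top_iff.1 h2
  refine key Z r (refl_induction hQ hexc (.inl (one_mem _)) fun v g hv ih => ?_)
  rcases ih with ih | ih
  · right
    have := mul_mem (this.conj_mem _ ih (refl (Qn F o) v)) (h1 v hv)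
    convert this using 1
    group
  · left
    have := mul_mem (h1 v hv) (this.conj_mem _ ih r)
    convert this using 1
    rw [show refl (Qn F o) v * r * (r * (g * r) * r⁻¹) = refl (Qn F o) v * (r * r) * g by group, rr,
      mul_one]

end Cfsg.Agent.H33.O84X7
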