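import Mathlib

set_option autoImplicit false

open scoped Pointwise

namespace Cfsg.Agent.H33

open MulAction Equiv

section
variable {Ω ι : Type*}

/-- The stabiliser of the partition of `Ω` into the fibres of `f`. -/
def partStab (f : Ω → ι) : Subgroup (Perm Ω) where
  carrier := {g | ∀ x y : Ω, f x = f y ↔ f (g x) = f (g y)}
  one_mem' := fun _ _ => Iff.rfl
  mul_mem' := fun {a b} ha hb x y => (hb x y).trans (ha _ _)
  inv_mem' := fun {a} ha x y => by
    have := ha (a⁻¹ x) (a⁻¹ y)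
    simpa using this.symm

theorem mem_partStab {f : Ω → ι} {g : Perm Ω} :
    g ∈ partStab f ↔ ∀ x y : Ω, f x = f y ↔ f (g x) = f (g y) := Iff.rfl

theorem closure_partStab (f : Ω → ι) :
    Subgroup.closure {g : Perm Ω | ∀ x y : Ω, f x = f y ↔ f (g x) = f (g y)} = partStab f :=
  Subgroup.closure_eq (partStab f)

theorem mem_partStab_of_apply {f : Ω → ι} {g : Perm Ω} (σ : ι → ι) (hσ : Function.Injective σ)
    (h : ∀ x, f (g x) = σ (f x)) : g ∈ partStab f := by
  intro x y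
  rw [h, h, hσ.eq_iff]

theorem apply_swap_of_eq [DecidableEq Ω] {f : Ω → ι} {u v : Ω} (h : f u = f v) (x : Ω) :
    f (swap u v x) = f x := by
  by_cases h1 : x = u
  · rw [h1, swap_apply_left, h]
  · by_cases h2 : x = v
    · rw [h2, swap_apply_right, h]
    · rw [swap_apply_of_ne_of_ne h1 h2]

theorem swap_mem_partStab [DecidableEq Ω] {f : Ω → ι} {u v : Ω} (h : f u = f v) :
    swap u v ∈ partStab f :=
  mem_partStab_of_apply id Function.injective_id (apply_swap_of_eq h)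

theorem mem_partStab_of_imp {f : Ω → ι} {K : Subgroup (Perm Ω)}
    (h : ∀ g ∈ K, ∀ x y, f x = f y → f (g x) = f (g y)) : K ≤ partStab f := by
  intro g hg x y
  refine ⟨h g hg x y, fun h1 => ?_⟩
  simpa using h g⁻¹ (K.inv_mem hg) _ _ h1

theorem exists_equiv_prod [Finite Ω] {a : ℕ} {f : Ω → ι} (hf : ∀ i, Nat.card {x // f x = i} = a) :
    ∃ e : Ω ≃ ι × Fin a, ∀ x, (e x).1 = f x := by
  have h : ∀ i, Nonempty ({x // f x = i} ≃ Fin a) := fun i =>
    Finite.card_eq.1 (by rw [hf, Nat.card_eq_fintype_card, Fintype.card_fin])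
  let e := fun i => Classical.choice (h i)
  exact ⟨(sigmaFiberEquiv f).symm.trans ((sigmaCongrRight e).trans (sigmaEquivProd ι (Fin a))),
    fun x => rfl⟩

theorem exists_fiber_two [Finite Ω] {a : ℕ} {f : Ω → ι} (hf : ∀ i, Nat.card {x // f x = i} = a)
    (ha : 2 ≤ a) (i : ι) : ∃ u v, u ≠ v ∧ f u = i ∧ f v = i := by
  have : Nontrivial {x // f x = i} := Finite.one_lt_card_iff_nontrivial.1 (by rw [hf]; omega)
  obtain ⟨u, v, huv⟩ := exists_pair_ne {x // f x = i}
  exact ⟨u, v, fun h => huv (Subtype.ext h), u.2, v.2⟩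

theorem exists_fiber_three [Finite Ω] {a : ℕ} {f : Ω → ι} (hf : ∀ i, Nat.card {x // f x = i} = a)
    (ha : 3 ≤ a) (x : Ω) : ∃ u v, u ≠ v ∧ u ≠ x ∧ v ≠ x ∧ f u = f x ∧ f v = f x := by
  classical
  have h1 : 2 < {y | f y = f x}.ncard := by
    rw [← Nat.card_coe_set_eq]
    exact lt_of_lt_of_le (by omega) (hf (f x)).ge
  have h2 : 1 < ({y | f y = f x} \ {x}).ncard := by
    rw [Set.ncard_sdiff_singleton_of_mem (by simp)]
    omega
  obtain ⟨u, v, hu, hv, huv⟩ := (Set.one_lt_ncard_iff (Set.toFinite _)).1 h2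
  exact ⟨u, v, huv, hu.2, hv.2, hu.1, hv.1⟩

theorem exists_partner [Finite Ω] {a : ℕ} {f : Ω → ι} (hf : ∀ i, Nat.card {x // f x = i} = a)
    (ha : 2 ≤ a) (x : Ω) : ∃ u, u ≠ x ∧ f u = f x := by
  obtain ⟨u, v, huv, hu, hv⟩ := exists_fiber_two hf ha (f x)
  by_cases h : u = x
  · exact ⟨v, fun h' => huv (h.trans h'.symm), hv⟩
  · exact ⟨u, h, hu⟩

theorem exists_block_swap [Finite Ω] [DecidableEq ι] {a : ℕ} {f : Ω → ι}
    (hf : ∀ i, Nat.card {x // f x = i} = a) (j k : ι) :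
    ∃ h ∈ partStab f, (∀ x, f (h x) = swap j k (f x)) ∧ ∀ x, f x ≠ j → f x ≠ k → h x = x := by
  obtain ⟨e, he⟩ := exists_equiv_prod hf
  have h1 : ∀ x, f ((e.trans ((Equiv.prodCongr (swap j k) (Equiv.refl _)).trans e.symm)) x) =
      swap j k (f x) := by
    intro x
    rw [← he, ← he]
    simp
  refine ⟨e.trans ((Equiv.prodCongr (swap j k) (Equiv.refl _)).trans e.symm),
    mem_partStab_of_apply _ (swap j k).injective h1, h1, fun x hj hk => ?_⟩
  simp only [Equiv.trans_apply, Equiv.symm_apply_eq]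
  ext
  · simp [he, swap_apply_of_ne_of_ne hj hk]
  · simp

/-- A permutation preserving the partition, moving `y` to `y'` and fixing the other fibres. -/
theorem exists_partStab_apply [Finite Ω] {a : ℕ} {f : Ω → ι}
    (hf : ∀ i, Nat.card {x // f x = i} = a) (y y' : Ω) :
    ∃ h ∈ partStab f, h y = y' ∧ ∀ x, f x ≠ f y → f x ≠ f y' → h x = x := by
  classical
  obtain ⟨h, hh, h1, h2⟩ := exists_block_swap hf (f y) (f y')
  have h3 : f (h y) = f y' := by rw [h1, swap_apply_left]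
  refine ⟨swap (h y) y' * h, (partStab f).mul_mem (swap_mem_partStab h3) hh, by simp,
    fun x hx hx' => ?_⟩
  rw [Perm.mul_apply, h2 x hx hx', swap_apply_of_ne_of_ne]
  · intro h4; exact hx' (by rw [h4, h3])
  · intro h4; exact hx' (by rw [h4])

theorem exists_even [Fintype Ω] [DecidableEq Ω] {f : Ω → ι} {h : Perm Ω} (hh : h ∈ partStab f)
    {u v : Ω} (huv : u ≠ v) (hf : f u = f v) :
    ∃ h' ∈ partStab f ⊓ alternatingGroup Ω, ∀ z, h z ≠ u → h z ≠ v → h' z = h z := by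
  rcases Int.units_eq_one_or (Perm.sign h) with h1 | h1
  · exact ⟨h, ⟨hh, h1⟩, fun _ _ _ => rfl⟩
  · refine ⟨swap u v * h, ⟨(partStab f).mul_mem (swap_mem_partStab hf) hh, ?_⟩, fun z h2 h3 => ?_⟩
    · simp [Perm.mem_alternatingGroup, Perm.sign_swap huv, h1]
    · rw [Perm.mul_apply, swap_apply_of_ne_of_ne h2 h3]

theorem exists_even_partStab_apply [Fintype Ω] [DecidableEq Ω] [Nontrivial ι] {a : ℕ} {f : Ω → ι}
    (hf : ∀ i, Nat.card {x // f x = i} = a) (ha : 2 ≤ a) (x y : Ω) :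
    ∃ h ∈ partStab f ⊓ alternatingGroup Ω, h x = y := by
  obtain ⟨h, hh, h1, -⟩ := exists_partStab_apply hf x y
  obtain ⟨k, hk⟩ := exists_ne (f y)
  obtain ⟨u, v, huv, hu, hv⟩ := exists_fiber_two hf ha k
  obtain ⟨h', hh', h4⟩ := exists_even hh huv (hu.trans hv.symm)
  refine ⟨h', hh', ?_⟩
  rw [h4 x, h1] <;> rw [h1] <;> intro h <;> apply hk
  · rw [h, hu]
  · rw [h, hv]

theorem eq_or_eq_of_fiber_two [Finite Ω] {f : Ω → ι} (hf : ∀ i, Nat.card {x // f x = i} = 2)
    {u u' z : Ω} (hu : u' ≠ u) (hfu : f u' = f u) (hz : f z = f u) : z = u ∨ z = u' := by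
  by_contra hcon
  push Not at hcon
  have h1 : {y | f y = f u}.ncard = 2 := by
    rw [← Nat.card_coe_set_eq]
    exact hf (f u)
  have h2 : 2 < {y | f y = f u}.ncard :=
    (Set.two_lt_ncard_iff (Set.toFinite _)).2 ⟨u, u', z, rfl, hfu, hz, hu.symm, hcon.1.symm, hcon.2.symm⟩
  omega

theorem card_eq_mul_of_fibers [Finite Ω] [Finite ι] {a : ℕ} {f : Ω → ι}
    (hf : ∀ i, Nat.card {x // f x = i} = a) : Nat.card Ω = Nat.card ι * a := by
  obtain ⟨e, -⟩ := exists_equiv_prod hf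
  rw [Nat.card_congr e, Nat.card_prod, Nat.card_eq_fintype_card (α := Fin a), Fintype.card_fin]

/-- The stabiliser of a partition into equal blocks is maximal in the symmetric group. -/
theorem isCoatom_partStab [Finite Ω] [Nontrivial ι] {a : ℕ} {f : Ω → ι}
    (hf : ∀ i, Nat.card {x // f x = i} = a) (ha : 2 ≤ a) : IsCoatom (partStab f) := by
  classical
  haveI := Fintype.ofFinite Ω
  obtain ⟨i, j, hij⟩ := exists_pair_ne ι
  constructor
  · intro htop
    obtain ⟨u, v, huv, hu, hv⟩ := exists_fiber_two hf ha i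
    obtain ⟨w, -, -, hw, -⟩ := exists_fiber_two hf ha j
    have h1 : swap u w ∈ partStab f := htop ▸ Subgroup.mem_top _
    have h2 := (h1 u v).1 (hu.trans hv.symm)
    rw [swap_apply_left, swap_apply_of_ne_of_ne huv.symm (fun h => hij (by rw [← hv, h, hw])), hw,
      hv] at h2
    exact hij h2.symm
  · intro K hK
    obtain ⟨g, hg, x, y, hxy, hne⟩ : ∃ g ∈ K, ∃ x y, f x = f y ∧ f (g x) ≠ f (g y) := by
      by_contra hcon
      push Not at hcon
      exact hK.not_ge (mem_partStab_of_imp hcon)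
    have h1 : swap (g x) (g y) ∈ K := by
      rw [swap_apply_apply]
      exact K.mul_mem (K.mul_mem hg (hK.le (swap_mem_partStab hxy))) (K.inv_mem hg)
    rw [eq_top_iff, ← Perm.closure_isSwap, Subgroup.closure_le]
    rintro _ ⟨s, t, hst, rfl⟩
    by_cases h2 : f s = f t
    · exact hK.le (swap_mem_partStab h2)
    obtain ⟨h, hh, h3, -⟩ := exists_partStab_apply hf (g x) s
    have h4 : f s ≠ f (h (g y)) := by
      rw [← h3]
      exact fun h5 => hne ((hh _ _).2 h5)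
    obtain ⟨h', hh', h5, h6⟩ := exists_partStab_apply hf (h (g y)) t
    have h7 : swap s t = (h' * h) * swap (g x) (g y) * (h' * h)⁻¹ := by
      rw [← swap_apply_apply, Perm.mul_apply, Perm.mul_apply, h3, h5, h6 s h4 h2]
    have h8 : h' * h ∈ K := hK.le ((partStab f).mul_mem hh' hh)
    rw [h7]
    exact K.mul_mem (K.mul_mem h8 h1) (K.inv_mem h8)

/-- A group containing the even part of the stabiliser of the partition and not preserving the
partition is primitive. -/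
theorem isPreprimitive_of_partStab_le [Fintype Ω] [DecidableEq Ω] [Nontrivial ι] {a : ℕ} {f : Ω → ι}
    (hf : ∀ i, Nat.card {x // f x = i} = a) (ha : 2 ≤ a)
    (h3 : 3 ≤ a ∨ ∀ i j : ι, ∃ k, k ≠ i ∧ k ≠ j) {K : Subgroup (Perm Ω)}
    (hK : partStab f ⊓ alternatingGroup Ω ≤ K) (hK' : ¬ K ≤ partStab f) : IsPreprimitive K Ω := by
  classical
  have T1 : ∀ x y y', f y ≠ f x → f y' ≠ f x →
      ∃ h ∈ partStab f ⊓ alternatingGroup Ω, h x = x ∧ h y = y' := by
    intro x y y' hy hy'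
    obtain ⟨h, hh, h1, h2⟩ := exists_partStab_apply hf y y'
    have hx := h2 x hy.symm hy'.symm
    obtain ⟨u, v, huv, hfuv, hxu, hxv, hyu, hyv⟩ :
        ∃ u v, u ≠ v ∧ f u = f v ∧ x ≠ u ∧ x ≠ v ∧ y' ≠ u ∧ y' ≠ v := by
      rcases h3 with h3 | h3
      · obtain ⟨u, v, huv, hu, hv, hu', hv'⟩ := exists_fiber_three hf h3 x
        exact ⟨u, v, huv, hu'.trans hv'.symm, hu.symm, hv.symm, fun h => hy' (by rw [h, hu']),
          fun h => hy' (by rw [h, hv'])⟩
      · obtain ⟨k, hk1, hk2⟩ := h3 (f x) (f y')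
        obtain ⟨u, v, huv, hu, hv⟩ := exists_fiber_two hf ha k
        exact ⟨u, v, huv, hu.trans hv.symm, fun h => hk1 (by rw [h, hu]), fun h => hk1 (by rw [h, hv]),
          fun h => hk2 (by rw [h, hu]), fun h => hk2 (by rw [h, hv])⟩
    obtain ⟨h', hh', h4⟩ := exists_even hh huv hfuv
    exact ⟨h', hh', by rw [h4 x (hx.symm ▸ hxu) (hx.symm ▸ hxv), hx],
      by rw [h4 y (h1.symm ▸ hyu) (h1.symm ▸ hyv), h1]⟩
  have T2 : ∀ x y y', f y = f x → f y' = f x → y ≠ x → y' ≠ x →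
      ∃ h ∈ partStab f ⊓ alternatingGroup Ω, h x = x ∧ h y = y' := by
    intro x y y' hy hy' hyx hyx'
    obtain ⟨k, hk⟩ := exists_ne (f x)
    obtain ⟨u, v, huv, hu, hv⟩ := exists_fiber_two hf ha k
    obtain ⟨h', hh', h4⟩ := exists_even (swap_mem_partStab (hy.trans hy'.symm)) huv (hu.trans hv.symm)
    have hx : swap y y' x = x := swap_apply_of_ne_of_ne hyx.symm hyx'.symm
    refine ⟨h', hh', ?_, ?_⟩
    · rw [h4 x, hx] <;> rw [hx] <;> intro h <;> apply hk
      · rw [h, hu]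
      · rw [h, hv]
    · rw [h4 y, swap_apply_left] <;> rw [swap_apply_left] <;> intro h <;> apply hk
      · rw [← hy', h, hu]
      · rw [← hy', h, hv]
  have T3 := exists_even_partStab_apply hf ha
  have hmove : ∀ {B : Set Ω}, IsBlock K B → ∀ h ∈ partStab f ⊓ alternatingGroup Ω, ∀ x ∈ B, h x = x →
      ∀ y ∈ B, h y ∈ B := by
    intro B hB h hh x hx hhx y hy
    have : (⟨h, hK hh⟩ : K) • B = B :=
      isBlock_iff_smul_eq_of_mem.1 hB hx (by change h x ∈ B; rw [hhx]; exact hx)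
    rw [← this]
    exact Set.smul_mem_smul_set hy
  have hA : ∀ {B : Set Ω}, IsBlock K B → ∀ x ∈ B, ∀ y ∈ B, f x ≠ f y → B = Set.univ := by
    intro B hB x hx y hy hxy
    rw [Set.eq_univ_iff_forall]
    intro z
    by_cases hz : f z = f x
    · obtain ⟨h, hh, h1, h2⟩ := T1 y x z hxy (hz ▸ hxy)
      exact h2 ▸ hmove hB h hh y hy h1 x hx
    · obtain ⟨h, hh, h1, h2⟩ := T1 x y z hxy.symm hz
      exact h2 ▸ hmove hB h hh x hx h1 y hy
  have hB2 : ∀ {B : Set Ω}, IsBlock K B → B ≠ Set.univ → ∀ x ∈ B, ∀ y ∈ B, y ≠ x → ∀ z, f z = f x →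
      z ∈ B := by
    intro B hB hBu x hx y hy hxy z hz
    by_cases hzx : z = x
    · exact hzx ▸ hx
    have hfy : f y = f x := by
      by_contra h
      exact hBu (hA hB y hy x hx h)
    obtain ⟨h, hh, h1, h2⟩ := T2 x y z hfy hz hxy hzx
    exact h2 ▸ hmove hB h hh x hx h1 y hy
  haveI : IsPretransitive K Ω := ⟨fun x y => by
    obtain ⟨h, hh, h1⟩ := T3 x y
    exact ⟨⟨h, hK hh⟩, h1⟩⟩
  refine ⟨fun {B} hB => ?_⟩
  by_contra hnt
  simp only [IsTrivialBlock, not_or, Set.not_subsingleton_iff] at hnt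
  obtain ⟨⟨x, hx, y, hy, hxy⟩, hBu⟩ := hnt
  have hne : ∀ k : K, k • B ≠ Set.univ := by
    intro k h
    apply hBu
    rw [← inv_smul_smul k B, h, Set.smul_set_univ]
  apply hK'
  apply mem_partStab_of_imp
  intro k hk u v huv
  obtain ⟨h, hh, h1⟩ := T3 x u
  let h' : K := ⟨h, hK hh⟩
  have hu : u ∈ h' • B := h1 ▸ Set.smul_mem_smul_set hx
  have hv : v ∈ h' • B := hB2 (hB.translate h') (hne h') u hu (h y) (Set.smul_mem_smul_set hy)
    (fun h2 => hxy (h.injective (h1.trans h2.symm))) v huv.symm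
  by_contra hcon
  refine hne ((⟨k, hk⟩ : K) * h') (hA (hB.translate _) (k u) ?_ (k v) ?_ hcon)
  · rw [mul_smul]; exact Set.smul_mem_smul_set hu
  · rw [mul_smul]; exact Set.smul_mem_smul_set hv

end

end Cfsg.Agent.H33
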