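import Cfsg.Agent.H79.R3Defs

/-! Rank three actions of `PSL_n(q)`: both types of flags occur in every plane. -/

set_option autoImplicit false

namespace Cfsg.Agent.H33.R3Cc1

open Module Cfsg.Agent.H79.R3
open scoped Pointwise

universe u

theorem dc {α : Type*} [Finite α] (S T : Set α) (r : α → α → Prop) {a b : ℕ}
    (ha : ∀ x ∈ S, {y | y ∈ T ∧ r x y}.ncard = a) (hb : ∀ y ∈ T, {x | x ∈ S ∧ r x y}.ncard = b) :
    S.ncard * a = T.ncard * b := by
  classical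
  have := Fintype.ofFinite α
  rw [Set.ncard_eq_toFinset_card' S, Set.ncard_eq_toFinset_card' T]
  refine Finset.card_mul_eq_card_mul r (fun x hx => ?_) fun y hy => ?_
  · rw [← ha x (Set.mem_toFinset.1 hx), ← Set.ncard_coe_finset]
    congr 1; ext y; simp [Finset.mem_bipartiteAbove]
  · rw [← hb y (Set.mem_toFinset.1 hy), ← Set.ncard_coe_finset]
    congr 1; ext x; simp [Finset.mem_bipartiteBelow]

theorem br_succ (q k : ℕ) : br q (k + 1) = br q k + q ^ k := Finset.sum_range_succ _ _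

theorem br_succ' (q k : ℕ) : br q (k + 1) = q * br q k + 1 := by
  rw [br, Finset.sum_range_succ', br, Finset.mul_sum]
  simp [pow_succ']

theorem br_two (q : ℕ) : br q 2 = q + 1 := by simp [br_succ', br]

theorem cc1 (cov : CovStmt.{u}) (zb : ZbStmt.{u}) : Cc1Stmt.{u} := by
  intro F V _ _ _ _ _ K hn t1 t2 ⟨c, c1, c2⟩ ⟨d, _, d2⟩ x E x' L' xE hx hE xL hx' hL'
  by_contra hno
  have fin : Finite (Submodule F V) := Finite.of_injective _ SetLike.coe_injective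
  have fd : FiniteDimensional F V := Module.Finite.of_finite
  have q1 : 1 ≤ Nat.card F := Nat.card_pos
  generalize hi : c x' L' = i
  have inv : ∀ g ∈ K, ∀ y L, y ≤ L → dm y = 1 → dm L = 2 → c (g • y) (g • L) = c y L :=
    fun g hg y L l e f => ((c2 y L _ _ l e f (smul_le_smul.2 l) ((dm_smul g y).trans e)
      ((dm_smul g L).trans f)).2 ⟨g, hg, rfl, rfl⟩).symm
  have cinv : ∀ g ∈ K, ∀ y D, dm y = 1 →
      cnt (fun L => c (g • y) L = i) (g • y) (g • D) = cnt (fun L => c y L = i) y D :=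
    fun g hg y D e => cnt_smul g fun P hP => by rw [inv g hg y P hP.1 e (by rw [hP.2.2, e])]
  have h0 : cnt (fun L => c x L = i) x E = 0 := by
    rw [cnt, Set.ncard_eq_zero, Set.eq_empty_iff_forall_notMem]
    rintro L ⟨⟨l1, l2, l3⟩, l4⟩
    rw [hx] at l3
    exact hno ⟨L, l1, l2, l3, (c2 x L x' L' l1 hx l3 xL hx' hL').1 (l4.trans hi.symm)⟩
  have ex : ∀ j, ∃ L, x ≤ L ∧ dm L = 2 ∧ c x L = j := fun j => by
    obtain ⟨A, B, l, e, f, h⟩ := c1 j
    obtain ⟨g, hg, rfl⟩ := t1 A x e hx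
    exact ⟨g • B, smul_le_smul.2 l, (dm_smul g B).trans f, (inv g hg A B l e f).trans h⟩
  obtain ⟨L1, a1, a2, a3⟩ := ex i
  obtain ⟨L2, b1, b2, b3⟩ := ex (i + 1)
  have b4 : c x L2 ≠ i := by
    rw [b3]; exact (by decide : ∀ i : Fin 2, i + 1 ≠ i) i
  have hE1 : dm (L1 ⊔ L2) = 3 := by
    have e1 := Submodule.finrank_sup_add_finrank_inf_eq L1 L2
    have e2 : dm x ≤ dm (L1 ⊓ L2) := Submodule.finrank_mono (le_inf a1 b1)
    have e3 : dm (L1 ⊓ L2) ≤ dm L1 := Submodule.finrank_mono inf_le_left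
    have e4 : dm (L1 ⊓ L2) ≠ 2 := fun e => by
      have f1 := Submodule.eq_of_le_of_finrank_eq (inf_le_left (a := L1) (b := L2)) (e.trans a2.symm)
      have f2 := Submodule.eq_of_le_of_finrank_eq (inf_le_right (a := L1) (b := L2))
        (e.trans b2.symm)
      exact b4 (by rw [← f2, f1, a3])
    simp only [dm] at *
    omega
  have xE1 : x ≤ L1 ⊔ L2 := a1.trans le_sup_left
  have m1 : L1 ∈ Cov x (L1 ⊔ L2) := ⟨a1, le_sup_left, by rw [a2, hx]⟩
  have m2 : L2 ∈ Cov x (L1 ⊔ L2) := ⟨b1, le_sup_right, by rw [b2, hx]⟩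
  have p1 : cnt (fun L => c x L = i) x (L1 ⊔ L2) ≠ 0 :=
    Set.ncard_ne_zero_of_mem (a := L1) ⟨m1, a3⟩
  have p2 : cnt (fun L => c x L = i) x (L1 ⊔ L2) ≤ Nat.card F := by
    have e := cov F V x _ xE1
    rw [hE1, hx, br_two] at e
    have := Set.ncard_lt_ncard (s := {P | P ∈ Cov x (L1 ⊔ L2) ∧ c x P = i}) (t := Cov x (L1 ⊔ L2))
      ⟨fun _ h => h.1, fun h => b4 (h m2).2⟩
    rw [e] at this
    exact Nat.lt_succ_iff.1 this
  have same : ∀ D D', x ≤ D → dm D = 3 → x ≤ D' → dm D' = 3 → d x D = d x D' →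
      cnt (fun L => c x L = i) x D' = cnt (fun L => c x L = i) x D := fun D D' l e l' e' h => by
    obtain ⟨g, hg, g1, rfl⟩ := (d2 x D x D' l hx e l' hx e').1 h
    have := cinv g hg x D hx
    rwa [g1] at this
  have hX : ∃ k, cnt (fun L => c x L = i) x ⊤ = Nat.card F ^ k := by
    rcases zb F V x (fun L => c x L = i) _ (by rw [hx]; exact hn) p2 (fun D l e => by
        rw [hx] at e
        have n1 : d x E ≠ d x (L1 ⊔ L2) := fun h => p1 ((same _ _ xE hE xE1 hE1 h).trans h0)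
        have : d x E = d x D ∨ d x (L1 ⊔ L2) = d x D := by
          revert n1
          generalize d x E = a, d x (L1 ⊔ L2) = b, d x D = e
          revert a b e; decide
        exact this.imp (fun h => (same _ _ xE hE l e h).trans h0) (same _ _ xE1 hE1 l e))
      ⟨E, xE, by rw [hE, hx], h0⟩ ⟨L1, ⟨a1, le_top, m1.2.2⟩, a3⟩ with ⟨P, hP, h⟩ | ⟨H, h1, h2, h⟩
    · refine ⟨0, ?_⟩
      rw [cnt, pow_zero, ← Set.ncard_singleton P]
      congr 1; ext Q
      exact ⟨fun hQ => (h Q hQ.1).1 hQ.2, by rintro rfl; exact ⟨hP, (h _ hP).2 rfl⟩⟩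
    · refine ⟨dm H - 1, ?_⟩
      have e1 := cov F V x ⊤ le_top
      have e2 := cov F V x H h1
      have e3 : dm x ≤ dm H := Submodule.finrank_mono h1
      rw [hx] at e1 e2 e3
      rw [dm, finrank_top, ← h2, show dm H + 1 - 1 = dm H - 1 + 1 by omega, br_succ, ← e2] at e1
      have e4 : {P | P ∈ Cov x ⊤ ∧ c x P = i} = Cov x ⊤ \ Cov x H := by
        ext Q
        exact ⟨fun hQ => ⟨hQ.1, fun k => (h Q hQ.1).1 hQ.2 k.2.1⟩,
          fun hQ => ⟨hQ.1, (h Q hQ.1).2 fun k => hQ.2 ⟨hQ.1.1, k, hQ.1.2.2⟩⟩⟩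
      rw [cnt, e4, Set.ncard_sdiff (s := Cov x H) (t := Cov x ⊤) (fun Q hQ => ⟨hQ.1, le_top, hQ.2.2⟩),
        e1]
      omega
  obtain ⟨k, hk⟩ := hX
  have z : dm (⊥ : Submodule F V) = 0 := finrank_bot F V
  have s1 := dc {y : Submodule F V | dm y = 1} {L | dm L = 2} (fun y L => y ≤ L ∧ c y L = i)
    (a := Nat.card F ^ k) (b := cnt (fun y => c y L1 = i) ⊥ L1) (fun y hy => by
      obtain ⟨g, hg, rfl⟩ := t1 x y hx hy
      rw [← hk, ← cinv g hg x ⊤ hx, smul_top, cnt]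
      congr 1; ext Q
      exact ⟨fun h => ⟨⟨h.2.1, le_top, by rw [h.1, hy]⟩, h.2.2⟩,
        fun h => ⟨by rw [Set.mem_ofPred_eq, h.1.2.2, hy], h.1.1, h.2⟩⟩) (fun L hL => by
      obtain ⟨g, hg, rfl⟩ := t2 L1 L a2 hL
      rw [← cnt_smul g (s' := fun y => c y (g • L1) = i) (fun P hP => by
        rw [inv g hg P L1 hP.2.1 (by rw [hP.2.2, z]) a2]), smul_bot, cnt]
      congr 1; ext Q
      exact ⟨fun h => ⟨⟨bot_le, h.2.1, by rw [h.1, z]⟩, h.2.2⟩,
        fun h => ⟨by rw [Set.mem_ofPred_eq, h.1.2.2, z], h.1.2.1, h.2⟩⟩)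
  have s2 := dc {y : Submodule F V | dm y = 1} {L | dm L = 2} (fun y L => y ≤ L)
    (a := br (Nat.card F) (finrank F V - 1)) (b := Nat.card F + 1) (fun y hy => by
      have e := cov F V y ⊤ le_top
      rw [dm, finrank_top, hy] at e
      rw [← e]
      congr 1; ext Q
      exact ⟨fun h => ⟨h.2, le_top, by rw [h.1, hy]⟩,
        fun h => ⟨by rw [Set.mem_ofPred_eq, h.2.2, hy], h.1⟩⟩) (fun L hL => by
      have e := cov F V ⊥ L bot_le
      rw [z, hL, br_two] at e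
      rw [← e]
      congr 1; ext Q
      exact ⟨fun h => ⟨bot_le, h.2, by rw [h.1, z]⟩,
        fun h => ⟨by rw [Set.mem_ofPred_eq, h.2.2, z], h.2.1⟩⟩)
  have pp : 0 < {y : Submodule F V | dm y = 1}.ncard := (Set.ncard_pos).2 ⟨x, hx⟩
  generalize {y : Submodule F V | dm y = 1}.ncard = P at s1 s2 pp
  generalize {L : Submodule F V | dm L = 2}.ncard = N at s1 s2
  generalize cnt (fun y => c y L1 = i) ⊥ L1 = m at s1
  generalize Nat.card F = q at s1 s2 q1
  obtain ⟨l, hl⟩ := Nat.exists_eq_add_of_le' hn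
  rw [hl, show l + 5 - 1 = l + 3 + 1 by omega] at s2
  have e1 : q ^ k * (q + 1) = br q (l + 3 + 1) * m := Nat.eq_of_mul_eq_mul_left pp (by
    rw [← mul_assoc, ← mul_assoc, s1, s2]; ring)
  have e2 : (br q (l + 3 + 1)).Coprime (q ^ k) := by
    rw [br_succ']
    exact Nat.Coprime.pow_right _ (by simp)
  have e3 := Nat.le_of_dvd (by omega) (e2.dvd_of_dvd_mul_left ⟨m, e1⟩)
  rw [br_succ', br_succ', br_succ'] at e3
  nlinarith [Nat.zero_le (q * (q * (q * br q (l + 1))))]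

end Cfsg.Agent.H33.R3Cc1
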