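import Cfsg.Agent.H54.RfKitP

/-! # Standard subgroups of type `²F₄(q)`: the doubled group `V` -/

set_option autoImplicit false
set_option linter.unusedSimpArgs false
set_option linter.unnecessarySeqFocus false
set_option linter.unusedSectionVars false

namespace Cfsg.Agent.H33.RfVhat

open Cfsg Cfsg.Agent.H15.O8 Cfsg.Agent.H39 Cfsg.Agent.H36.O8T Cfsg.Agent.H54.RF Subgroup
open scoped commutatorElement

universe u v

variable {K : Type v} [Field K] {T : Tits K} {G : Type u} [Group G] {M : FF T G} {t : G}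
  {p : K → G}

/-! ### Facts on the unipotent group -/

theorem nD : (D T).Normal := ⟨fun v ⟨h1, h2, h3, h4, h5, h6⟩ g => by
  o8s; simp only [h1, h2, h3, h4, h5, h6]; refine ⟨?_, ?_, ?_, ?_, ?_, ?_⟩ <;> o8ring T⟩

theorem tor_D (c : Kˣ × Kˣ) {u : U T} (h : u ∈ D T) : tor T c u ∈ D T := by
  obtain ⟨h1, h2, h3, h4, h5, h6⟩ := h
  rw [tor_apply]; o8s; simp [*]

theorem qv {u v : U T} (hu : u ∈ Q T) (hv : v ∈ V T) :
    u * v * u⁻¹ = v * x4 T (u.a1 * v.a6 + u.b2 * v.a5 + u.b6 * v.a3 + u.a7 * v.a2) := by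
  obtain ⟨h1, h2⟩ := hu
  obtain ⟨k1, k2, k3, k4, k5, k6, k7⟩ := hv
  rw [mul_inv_eq_iff_eq_mul]
  ext <;> o8s <;> (try simp only [h1, h2, k1, k2, k3, k4, k5, k6, k7]) <;> o8ring T

theorem tor_U8_eq (b : Kˣ) {v : U T} (hv : v ∈ U8 T) : tor T (θu T b, b) v = v := by
  obtain ⟨h1, h2, h3, h4, h5, h6, h7, h8, h9, h10⟩ := hv
  have b0 := b.ne_zero
  have b1 := T.θ_ne_zero.2 b0
  rw [tor_apply]
  ext <;> o8s <;> (try simp only [h1, h2, h3, h4, h5, h6, h7, h8, h9, h10, mul_zero]) <;>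
    simp only [θu_val, map_inv₀, T.θθ] <;> field_simp

theorem e5 (c : K) : x2 T c * (x8 T 1 * x2 T c * (x8 T 1)⁻¹) * x6 T c * x4 T (T.θ c) = x5 T c := by
  ext <;> o8s <;> o8ring T

theorem e3 (c : K) : x2 T c * (y8 T 1 * x2 T c * (y8 T 1)⁻¹) * x5 T c * x6 T c = x3 T c := by
  ext <;> o8s <;> o8ring T

theorem e8 (a u : K) : x2 T a * x5 T (a * u) * x6 T (a * T.θ u) * x4 T (T.θ a * u) =
    x8 T u * x2 T a * (x8 T u)⁻¹ := by
  ext <;> o8s <;> o8ring T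

theorem x2V (a : K) : x2 T a ∈ V T := by o8s
theorem x3V (a : K) : x3 T a ∈ V T := by o8s
theorem x4V (a : K) : x4 T a ∈ V T := by o8s
theorem x5V (a : K) : x5 T a ∈ V T := by o8s
theorem x6V (a : K) : x6 T a ∈ V T := by o8s

/-! ### Elements moving `t` -/

theorem mv_mul {a b : G} {v w : U T} (h1 : a * t * a⁻¹ = t * M.φ v)
    (h2 : b * t * b⁻¹ = t * M.φ w) (hc : Commute a (M.φ w)) :
    a * b * t * (a * b)⁻¹ = t * M.φ (v * w) := by
  calc a * b * t * (a * b)⁻¹ = a * (b * t * b⁻¹) * a⁻¹ := by group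
    _ = a * t * a⁻¹ * (a * M.φ w * a⁻¹) := by rw [h2]; group
    _ = _ := by rw [h1, conj_eq_iff.2 hc, map_mul, mul_assoc]

theorem mv_inv {a : G} {v : U T} (h1 : a * t * a⁻¹ = t * M.φ v) (hc : Commute a (M.φ v)) :
    a⁻¹ * t * a⁻¹⁻¹ = t * M.φ v⁻¹ := by
  have e := conj_eq_iff.2 hc
  calc a⁻¹ * t * a⁻¹⁻¹ = a⁻¹ * (t * M.φ v) * (a * M.φ v * a⁻¹)⁻¹ * a := by rw [e]; group
    _ = _ := by rw [← h1, map_inv]; group

theorem mv_conj {k g x : G} (hk : Commute k t) (h : g * t * g⁻¹ = t * x) :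
    k * g * k⁻¹ * t * (k * g * k⁻¹)⁻¹ = t * (k * x * k⁻¹) := by
  have e := conj_eq_iff.2 hk
  have e' := conj_eq_iff.2 hk.inv_left
  calc k * g * k⁻¹ * t * (k * g * k⁻¹)⁻¹ = k * (g * (k⁻¹ * t * k⁻¹⁻¹) * g⁻¹) * k⁻¹ := by group
    _ = k * t * k⁻¹ * (k * x * k⁻¹) := by rw [e', h]; group
    _ = _ := by rw [e]

theorem conjK {H : Subgroup (U T)} (hH : M.cf.C ≤ normalizer (M.cf.s H : Set G)) {k : G}
    (hk : k ∈ M.cf.C) {u : U T} (hu : u ∈ H) : ∃ u' ∈ H, k * M.φ u * k⁻¹ = M.φ u' := by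
  obtain ⟨u', hu', e⟩ := (mem_normalizer_iff.1 (hH hk) _).1 (M.cf.φ_mem_s.2 hu)
  exact ⟨u', hu', e.symm⟩

variable (M t) in
/-- Elements centralizing `D` and `O` which move `t` by an element of `V`. -/
def NV : Subgroup G where
  carrier := {g | (∀ d ∈ D T, Commute g (M.φ d)) ∧ (∀ k, Od M t k → Commute g k) ∧
    ∃ v ∈ V T, g * t * g⁻¹ = t * M.φ v}
  one_mem' := ⟨fun _ _ => Commute.one_left _, fun _ _ => Commute.one_left _, 1, one_mem _, by simp⟩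
  mul_mem' := by
    rintro a b ⟨a1, a2, v, hv, a3⟩ ⟨b1, b2, w, hw, b3⟩
    exact ⟨fun d hd => (a1 d hd).mul_left (b1 d hd), fun k hk => (a2 k hk).mul_left (b2 k hk),
      v * w, mul_mem hv hw, mv_mul a3 b3 (a1 w (V_le_D hw))⟩
  inv_mem' := by
    rintro a ⟨a1, a2, v, hv, a3⟩
    exact ⟨fun d hd => (a1 d hd).inv_left, fun k hk => (a2 k hk).inv_left, v⁻¹, inv_mem hv,
      mv_inv a3 (a1 v (V_le_D hv))⟩

theorem NV_conj (c : Ctx M t) {k g : G} (hk : k ∈ M.cf.C) (hg : g ∈ NV M t) :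
    k * g * k⁻¹ ∈ NV M t := by
  obtain ⟨a1, a2, v, hv, a3⟩ := hg
  refine ⟨fun d hd => ?_, fun o ho => ?_, ?_⟩
  · obtain ⟨d', hd', e⟩ := conjK (M.cf.C_norm nD (fun c _ => tor_D c) D_le_Q fun _ => w8_D)
      (inv_mem hk) hd
    have := comm_conj (a1 d' hd') k
    rwa [← e, show k * (k⁻¹ * M.φ d * k⁻¹⁻¹) * k⁻¹ = M.φ d by group] at this
  · have := comm_conj (a2 o ho) k
    rwa [conj_eq_iff.2 (ho.comm (KX M hk)).symm] at this
  · obtain ⟨v', hv', e⟩ := conjK M.cf.nV hk hv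
    exact ⟨v', hv', e ▸ mv_conj (c.tX (KX M hk)) a3⟩

theorem φ_NV (c : Ctx M t) {v : U T} (hv : v ∈ V T) : M.φ v ∈ NV M t :=
  ⟨fun d hd => (φ_comm M).2 ((H92.UL.cV d).1 hd v hv).symm, fun _ hk => (hk.φ v).symm, 1,
    one_mem _, by rw [conj_eq_iff.2 (c.tφ v), map_one, mul_one]⟩

theorem gen_mem {k : G} (hk : k ∈ M.cf.C) (a : K) : k * P6 M p a * k⁻¹ ∈ Vh M p :=
  mem_sup_left (subset_closure ⟨k, hk, a, rfl⟩)

theorem φ_mem {v : U T} (hv : v ∈ V T) : M.φ v ∈ Vh M p := mem_sup_right ⟨v, hv, rfl⟩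

theorem P6_mem (a : K) : P6 M p a ∈ Vh M p := by simpa using gen_mem (M := M) (one_mem _) a

theorem P2_mem (a : K) : P2 M p a ∈ Vh M p := by
  have := gen_mem (p := p) (n8K M) a
  rwa [n8_inv] at this

theorem Vh_ind {P : G → Prop} (h1 : ∀ k ∈ M.cf.C, ∀ a, P (k * P6 M p a * k⁻¹))
    (h2 : ∀ v ∈ V T, P (M.φ v)) (hm : ∀ a ∈ Vh M p, ∀ b ∈ Vh M p, P a → P b → P (a * b))
    (hi : ∀ a ∈ Vh M p, P a → P a⁻¹) : ∀ g ∈ Vh M p, P g := by
  let H : Subgroup G :=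
    { carrier := {g | g ∈ Vh M p ∧ P g}
      one_mem' := ⟨one_mem _, by simpa using h2 1 (one_mem _)⟩
      mul_mem' := fun {a b} ha hb => ⟨mul_mem ha.1 hb.1, hm a ha.1 b hb.1 ha.2 hb.2⟩
      inv_mem' := fun {a} ha => ⟨inv_mem ha.1, hi a ha.1 ha.2⟩ }
  have : Vh M p ≤ H := sup_le ((closure_le _).2 (by
    rintro _ ⟨k, hk, a, rfl⟩
    exact ⟨gen_mem hk a, h1 k hk a⟩)) (by
    rintro _ ⟨v, hv, rfl⟩
    exact ⟨φ_mem hv, h2 v hv⟩)
  exact fun g hg => (this hg).2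

theorem nK {k : G} (hk : k ∈ M.cf.C) : ∀ g ∈ Vh M p, k * g * k⁻¹ ∈ Vh M p := by
  refine Vh_ind (fun k' hk' a => ?_) (fun v hv => ?_) (fun a _ b _ ha hb => ?_) fun a _ ha => ?_
  · have := gen_mem (p := p) (mul_mem hk hk') a
    rwa [show k * k' * P6 M p a * (k * k')⁻¹ = k * (k' * P6 M p a * k'⁻¹) * k⁻¹ by group] at this
  · obtain ⟨v', hv', e⟩ := conjK M.cf.nV hk hv
    exact e ▸ φ_mem hv'
  · rw [show k * (a * b) * k⁻¹ = k * a * k⁻¹ * (k * b * k⁻¹) by group]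
    exact mul_mem ha hb
  · rw [show k * a⁻¹ * k⁻¹ = (k * a * k⁻¹)⁻¹ by group]
    exact inv_mem ha

section

variable (c : Ctx2 M t) (h : H4 M t p)
include c h

theorem le_NV : ∀ g ∈ Vh M p, g ∈ NV M t :=
  Vh_ind (fun _ hk a => NV_conj c.toCtx hk ⟨fun _ hd => h.cen6 a (D_le_E hd),
      (h.f6 c.toCtx).odd a, _, x6V a, (h.f6 c.toCtx).mov a⟩)
    (fun _ hv => φ_NV c.toCtx hv) (fun _ _ _ _ => mul_mem) fun _ _ => inv_mem

theorem cV {g : G} (hg : g ∈ Vh M p) {v : U T} (hv : v ∈ V T) : Commute g (M.φ v) :=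
  (le_NV c h g hg).1 v (V_le_D hv)

omit c in
theorem nH (d : Kˣ × Kˣ) : ∀ g ∈ Vh M p, M.h d * g * (M.h d)⁻¹ ∈ Vh M p := by
  refine Vh_ind (fun k hk a => ?_) (fun v hv => ?_) (fun a _ b _ ha hb => ?_) fun a _ ha => ?_
  · have := gen_mem (p := p) ((mem_normalizer_iff.1 (h_norm_C M.toPF d) k).1 hk)
      (d.2 * T.θ d.2 * a)
    rwa [← h.tor6, show M.h d * k * (M.h d)⁻¹ * (M.h d * P6 M p a * (M.h d)⁻¹) *
      (M.h d * k * (M.h d)⁻¹)⁻¹ = M.h d * (k * P6 M p a * k⁻¹) * (M.h d)⁻¹ by group] at this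
  · rw [M.hφ]
    exact φ_mem (tor_V d hv)
  · rw [show M.h d * (a * b) * (M.h d)⁻¹ = M.h d * a * (M.h d)⁻¹ * (M.h d * b * (M.h d)⁻¹) by group]
    exact mul_mem ha hb
  · rw [show M.h d * a⁻¹ * (M.h d)⁻¹ = (M.h d * a * (M.h d)⁻¹)⁻¹ by group]
    exact inv_mem ha

omit c in
theorem pm (a : K) : p a ∈ Vh M p := by
  have := gen_mem (p := p) (φK M (x1 T 1)) a
  rw [h.line, one_mul] at this
  exact (mul_mem_cancel_left (P6_mem a)).1 this

omit c in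
theorem cp (a : K) : ∀ g ∈ Vh M p, Commute (p a) g := by
  refine Vh_ind (fun k hk b => ?_) (fun v _ => h.pφ a v) (fun _ _ _ _ => Commute.mul_right)
    fun _ _ => Commute.inv_right
  exact ((h.cen a k hk).mul_right (h.c46 a b)).mul_right (h.cen a k hk).inv_right

omit c in
theorem u6 (u : U T) (a : K) : M.φ u * P6 M p a * (M.φ u)⁻¹ = P6 M p a * p (u.a1 * a) := by
  have he : (x1 T u.a1)⁻¹ * u ∈ E T := by o8s; o8ring T
  have := conj_eq_iff.2 (h.cen6 a he).symm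
  rw [map_mul, map_inv] at this
  rw [← h.line]
  conv_rhs => rw [← this]
  group

theorem qz : ∀ g ∈ Vh M p, ∀ u ∈ Q T,
    ∃ a b, M.φ u * g * (M.φ u)⁻¹ = g * p a * M.φ (x4 T b) := by
  refine Vh_ind (fun k hk a u hu => ?_) (fun v hv u hu => ?_) (fun g _ g' hg' hg hg'' u hu => ?_)
    fun g hg' hg u hu => ?_
  · obtain ⟨u', -, e⟩ := conjK M.cf.nQ (inv_mem hk) hu
    refine ⟨u'.a1 * a, 0, ?_⟩
    have e1 : M.φ u = k * M.φ u' * k⁻¹ := by rw [← e]; group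
    have e2 := conj_eq_iff.2 (h.cen (u'.a1 * a) k hk).symm
    rw [x4_zero, map_one, mul_one, e1, ← e2]
    calc _ = k * (M.φ u' * P6 M p a * (M.φ u')⁻¹) * k⁻¹ := by group
      _ = _ := by rw [u6 h]; group
  · exact ⟨0, _, by rw [h.f4.zero, mul_one, ← map_inv, ← map_mul, ← map_mul, qv hu hv, map_mul]⟩
  · obtain ⟨a, b, e⟩ := hg u hu
    obtain ⟨a', b', e'⟩ := hg'' u hu
    refine ⟨a + a', b + b', ?_⟩
    have c1 := (cp h a g' hg').eq
    have c2 := (cV c h hg' (x4V b)).eq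
    have c3 := (h.pφ a' (x4 T b)).eq
    calc _ = M.φ u * g * (M.φ u)⁻¹ * (M.φ u * g' * (M.φ u)⁻¹) := by group
      _ = g * p a * (M.φ (x4 T b) * g') * p a' * M.φ (x4 T b') := by rw [e, e']; group
      _ = g * (p a * g') * (M.φ (x4 T b) * p a') * M.φ (x4 T b') := by rw [← c2]; group
      _ = _ := by rw [c1, ← c3, h.add, x4_add, map_mul]; group
  · obtain ⟨a, b, e⟩ := hg u hu
    refine ⟨a, b, ?_⟩
    have c1 := (cp h a _ (inv_mem hg')).eq
    have c2 := (cV c h (inv_mem hg') (x4V b)).eq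
    have c3 := (h.pφ a (x4 T b)).eq
    have i1 : (M.φ (x4 T b))⁻¹ = M.φ (x4 T b) :=
      inv_eq_of_mul_eq_one_right (by rw [← map_mul, sqV _ (x4V b), map_one])
    calc _ = (M.φ u * g * (M.φ u)⁻¹)⁻¹ := by group
      _ = M.φ (x4 T b) * (p a * g⁻¹) := by rw [e, mul_inv_rev, mul_inv_rev, i1, h.f4.inv]
      _ = _ := by rw [c1, ← mul_assoc, ← c2, mul_assoc, ← c3, mul_assoc]

omit c in
/-- The normal form of the generators. -/
theorem gen_form {k : G} (hk : k ∈ M.cf.C) (a : K) : ∃ s a' a'',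
    (s = 1 ∨ ∃ v ∈ U8 T, s = M.φ v * M.n8) ∧ k * P6 M p a * k⁻¹ = s * P6 M p a' * s⁻¹ * p a'' := by
  have hB : ∀ b ∈ M.cf.B, ∃ a' a'', b * P6 M p a * b⁻¹ = P6 M p a' * p a'' := fun b hb => by
    obtain ⟨u, d, rfl⟩ := (M.cf.mem_B b).1 hb
    refine ⟨_, _, Eq.trans ?_ (u6 h u (d * T.θ d * a))⟩
    rw [← h.tor6 (1, d)]
    show M.φ u * M.h (1, d) * _ * (M.φ u * M.h (1, d))⁻¹ = _
    group
  rcases M.cf.mem_C _ (inv_mem hk) with hb | ⟨b, hb, v, hv, e⟩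
  · obtain ⟨a', a'', e⟩ := hB k (by simpa using inv_mem hb)
    exact ⟨1, a', a'', .inl rfl, by simpa using e⟩
  · obtain ⟨a', a'', e'⟩ := hB _ (inv_mem hb)
    refine ⟨_, a', a'', .inr ⟨v⁻¹, inv_mem hv, rfl⟩, ?_⟩
    have e1 : k = M.φ v⁻¹ * M.n8 * b⁻¹ := by
      rw [← inv_inv k, e, mul_inv_rev, mul_inv_rev, M.cf.n_inv, map_inv, mul_assoc]
      rfl
    have e2 := conj_eq_iff.2 (h.cen a'' _ (mul_mem (φK M v⁻¹) (n8K M))).symm
    rw [← e2, e1]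
    calc _ = M.φ v⁻¹ * M.n8 * (b⁻¹ * P6 M p a * b⁻¹⁻¹) * (M.φ v⁻¹ * M.n8)⁻¹ := by group
      _ = _ := by rw [e']; group

variable [Finite K] [Finite G]

omit h in
theorem ker {g : G} (hg : g ∈ NV M t) (ht : Commute g t) :
    ∃ e ∈ V T, ∃ o, Od M t o ∧ Dec M t g e o := by
  obtain ⟨e, -, o, ho, -, hd⟩ := c.cw ht fun w hw => hg.1 w (V_le_D (R_le_V (W_le_R hw)))
  exact ⟨e, H54.RF.cD e (fun d hd' => c.dec_φ hd ho (hg.1 d hd')) c.q2, o, ho, hd⟩

omit h in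
theorem comm_inv {g g' : G} (hg : g ∈ NV M t) (hg' : g' ∈ NV M t) (h2 : g * g = 1) :
    ∃ v ∈ V T, ⁅g, g'⁆ = M.φ v := by
  obtain ⟨v, hv, e⟩ := hg.2.2
  obtain ⟨v', hv', e'⟩ := hg'.2.2
  by_cases v1 : v = 1
  · rw [v1, map_one, mul_one, conj_eq_iff] at e
    obtain ⟨w, hw, o, ho, hd⟩ := ker c hg e
    have c1 := (hg'.1 w (V_le_D hw)).symm
    have c2 := (hg'.2.1 o ho).symm
    rcases hd with rfl | rfl
    · exact ⟨1, one_mem _, by rw [map_one]; exact (c1.mul_left c2).commutator_eq⟩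
    · refine ⟨v', hv', ?_⟩
      have c3 := conj_eq_iff.2 c2
      have c4 := conj_eq_iff.2 (((c.tφ w).mul_right c1).mul_right (c.tφ w))
      calc _ = M.φ w * (t * (o * g' * o⁻¹) * t⁻¹) * (M.φ w)⁻¹ * g'⁻¹ := by
            rw [commutatorElement_def]; group
        _ = t * (g' * t * g'⁻¹) := by rw [c3, c.t_inv, c4]; group
        _ = _ := by rw [e', ← mul_assoc, c.tt, one_mul]
  · have hk : ⁅g, g'⁆ ∈ NV M t := mul_mem (mul_mem (mul_mem hg hg') (inv_mem hg)) (inv_mem hg')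
    have m1 := mv_mul e e' (hg.1 v' (V_le_D hv'))
    have m2 := mv_mul e' e (hg'.1 v (V_le_D hv))
    rw [((H92.UL.cV v').1 (V_le_D hv') v hv :), ← m1] at m2
    have ht : Commute ⁅g, g'⁆ t := by
      have m3 : (g' * g)⁻¹ * (g * g') * t * ((g' * g)⁻¹ * (g * g'))⁻¹ = t := by
        calc _ = (g' * g)⁻¹ * (g * g' * t * (g * g')⁻¹) * (g' * g) := by group
          _ = t := by rw [← m2]; group
      obtain ⟨w, hw, e1⟩ := hk.2.2
      have m4 := mv_mul e1 (m2.trans m1) (hk.1 _ (V_le_D (mul_mem hv hv')))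
      rw [show ⁅g, g'⁆ * (g' * g) = g * g' by rw [commutatorElement_def]; group, m1] at m4
      have : w = 1 := by simpa using M.inj (mul_left_cancel m4)
      rwa [this, map_one, mul_one, conj_eq_iff] at e1
    obtain ⟨w, hw, o, ho, hd⟩ := ker c hk ht
    refine ⟨w, hw, c.di hd ho (hg.2.1 o ho) (hg.1 w (V_le_D hw)) (sqV w hw) e v1 ?_⟩
    have i1 : g⁻¹ = g := inv_eq_of_mul_eq_one_right h2
    calc _ = g * g * g' * g⁻¹ * g'⁻¹ * g⁻¹ := by rw [commutatorElement_def]; group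
      _ = _ := by rw [h2, commutatorElement_inv, commutatorElement_def, i1, one_mul]

theorem comm_V : ∀ g ∈ Vh M p, ∀ g' ∈ Vh M p, ∃ v ∈ V T, ⁅g, g'⁆ = M.φ v := by
  refine Vh_ind (fun k hk a g' hg' => ?_) (fun v hv g' hg' => ?_)
    (fun a ha b _ h1 h2 g' hg' => ?_) fun a ha h1 g' hg' => ?_
  · exact comm_inv c (le_NV c h _ (gen_mem hk a)) (le_NV c h _ hg')
      (conj_sq ((h.f6 c.toCtx).sq a) k)
  · exact ⟨1, one_mem _, by rw [map_one]; exact (cV c h hg' hv).symm.commutator_eq⟩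
  · obtain ⟨v, hv, e⟩ := h1 g' hg'
    obtain ⟨w, hw, e'⟩ := h2 g' hg'
    refine ⟨w * v, mul_mem hw hv, ?_⟩
    rw [map_mul, ← conj_eq_iff.2 (cV c h ha hw), ← e, ← e']
    simp only [commutatorElement_def]
    group
  · obtain ⟨v, hv, e⟩ := h1 g' hg'
    refine ⟨v⁻¹, inv_mem hv, ?_⟩
    rw [← conj_eq_iff.2 (cV c h (inv_mem ha) (inv_mem hv)), map_inv, ← e]
    simp only [commutatorElement_def]
    group

theorem sq_V : ∀ g ∈ Vh M p, ∃ v ∈ V T, g * g = M.φ v := by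
  refine Vh_ind (fun k _ a => ⟨1, one_mem _, ?_⟩) (fun v hv => ⟨v * v, mul_mem hv hv, ?_⟩)
    (fun a ha b hb h1 h2 => ?_) fun a _ h1 => ?_
  · rw [map_one]; exact conj_sq ((h.f6 c.toCtx).sq a) k
  · rw [map_mul]
  · obtain ⟨v, hv, e⟩ := h1
    obtain ⟨w, hw, e'⟩ := h2
    obtain ⟨x, hx, e''⟩ := comm_V c h _ (inv_mem ha) b hb
    refine ⟨v * x * w, mul_mem (mul_mem hv hx) hw, ?_⟩
    rw [map_mul, map_mul, ← e, ← e', ← e'', commutatorElement_def]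
    group
  · obtain ⟨v, hv, e⟩ := h1
    exact ⟨v⁻¹, inv_mem hv, by rw [map_inv, ← e, mul_inv_rev]⟩

theorem t_not_mem : t ∉ Vh M p := by
  obtain ⟨b, hb⟩ := CF.exists_unit_ne (K := K) c.q2
  set η := M.h (θu T b, b) with hη
  have key : ∀ g ∈ Vh M p, ∃ g' ∈ Vh M p, ∃ v ∈ V T, η * g' * η⁻¹ = g * M.φ v * g' := by
    have hm : ∀ a ∈ Vh M p, ∀ b ∈ Vh M p,
        (∃ g' ∈ Vh M p, ∃ v ∈ V T, η * g' * η⁻¹ = a * M.φ v * g') →
        (∃ g' ∈ Vh M p, ∃ v ∈ V T, η * g' * η⁻¹ = b * M.φ v * g') →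
        ∃ g' ∈ Vh M p, ∃ v ∈ V T, η * g' * η⁻¹ = a * b * M.φ v * g' := by
      rintro a _ b hb ⟨a', ha', v, hv, e⟩ ⟨b', hb', w, hw, e'⟩
      obtain ⟨x, hx, e''⟩ := comm_V c h a' ha' b hb
      refine ⟨a' * b', mul_mem ha' hb', v * x * w, mul_mem (mul_mem hv hx) hw, ?_⟩
      have c1 := (cV c h hb (mul_mem hv hx)).eq
      have c2 := (cV c h ha' hw).eq
      calc _ = η * a' * η⁻¹ * (η * b' * η⁻¹) := by group
        _ = a * (M.φ v * ⁅a', b⁆ * b) * (a' * M.φ w) * b' := by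
          rw [e, e', commutatorElement_def]; group
        _ = _ := by rw [e'', ← map_mul, ← c1, c2, map_mul _ _ w]; group
    have hs : ∀ (P : K → G) (χ : Kˣ) (s : G), χ ≠ 1 → (∀ a b, P (a + b) = P a * P b) →
        (∀ a, η * P a * η⁻¹ = P (χ * a)) → Commute η s → (∀ a, s * P a * s⁻¹ ∈ Vh M p) → ∀ a,
        ∃ g' ∈ Vh M p, ∃ v ∈ V T, η * g' * η⁻¹ = s * P a * s⁻¹ * M.φ v * g' := by
      intro P χ s h1 h2 h3 h4 h5 a
      have h0 : (χ : K) - 1 ≠ 0 := sub_ne_zero.2 fun e => h1 (Units.ext e)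
      refine ⟨_, h5 (a / (χ - 1)), 1, one_mem _, ?_⟩
      have e := conj_eq_iff.2 h4
      calc _ = η * s * η⁻¹ * (η * P (a / (χ - 1)) * η⁻¹) * (η * s * η⁻¹)⁻¹ := by group
        _ = s * P (a + a / (χ - 1)) * s⁻¹ := by
          rw [e, h3, show χ * (a / ((χ : K) - 1)) = a + a / (χ - 1) by field_simp; ring]
        _ = _ := by rw [h2, map_one]; group
    refine Vh_ind (fun k hk a => ?_) (fun v hv => ⟨1, one_mem _, v⁻¹, inv_mem hv, by simp⟩) hm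
      fun a ha ⟨a', ha', v, hv, e⟩ => ?_
    · obtain ⟨s, a', a'', hs', e⟩ := gen_form h hk a
      have sK : s ∈ M.cf.C := by
        rcases hs' with rfl | ⟨v, -, rfl⟩
        · exact one_mem _
        · exact mul_mem (φK M v) (n8K M)
      have cs : Commute η s := by
        rcases hs' with rfl | ⟨v, hv, rfl⟩
        · exact Commute.one_right _
        · refine Commute.mul_right (conj_eq_iff.1 ?_) (conj_eq_iff.1 ?_)
          · rw [hη, M.hφ, tor_U8_eq b hv]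
          · rw [hη, h_n8, θu_θu, sq, div_self', Prod.mk_one_one, map_one, one_mul]
      rw [e]
      refine hm _ (gen_mem sK a') _ (pm h a'')
        (hs _ (Nu T b) s (fun e => hb (Nu_eq_one e)) (h.f6 c.toCtx).add (h.tor6 _) cs
          (gen_mem sK) a') ?_
      simpa using hs p (Nu T (θu T b)) 1 (fun e => hb (θu_eq_one (Nu_eq_one e))) h.add (h.tor _)
        (Commute.one_right _) (fun a => by simpa using pm h a) a''
    · obtain ⟨w, hw, e'⟩ := sq_V c h a ha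
      exact ⟨a', ha', w * v, mul_mem hw hv, by rw [e, map_mul, ← e']; group⟩
  intro ht
  obtain ⟨g, hg, v, hv, e⟩ := key t ht
  have it : ∀ i : ℕ, ∃ w ∈ V T, η ^ i * g * (η ^ i)⁻¹ = t ^ i * M.φ w * g := by
    intro i
    induction i with
    | zero => exact ⟨1, one_mem _, by simp⟩
    | succ i ih =>
      obtain ⟨w, hw, e'⟩ := ih
      refine ⟨tor T (θu T b, b) w * v, mul_mem (tor_V _ hw) hv, ?_⟩
      have c1 := conj_eq_iff.2 ((c.th (θu T b, b)).pow_right i)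
      have c2 := (c.tφ (tor T (θu T b, b) w)).eq
      calc _ = η * (η ^ i * g * (η ^ i)⁻¹) * η⁻¹ := by rw [pow_succ']; group
        _ = η * t ^ i * η⁻¹ * (η * M.φ w * η⁻¹) * (η * g * η⁻¹) := by rw [e']; group
        _ = t ^ i * (M.φ (tor T (θu T b, b) w) * t) * M.φ v * g := by
          rw [e, hη, c1, M.hφ]; group
        _ = _ := by rw [c2, map_mul, pow_succ]; group
  obtain ⟨w, hw, e'⟩ := it (Nat.card Kˣ)
  have h1 : η ^ Nat.card Kˣ = 1 := by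
    rw [hη, ← map_pow, Prod.pow_mk, pow_card_eq_one', pow_card_eq_one', Prod.mk_one_one, map_one]
  have h2 : t ^ Nat.card Kˣ = t := by
    have : Odd (Nat.card Kˣ) := by
      rw [Nat.card_units]
      exact Nat.Even.sub_odd (by have := c.q2; omega) (CF.even_card (T := T)) odd_one
    obtain ⟨m, hm⟩ := this
    rw [hm, pow_succ, pow_mul, sq, c.tt, one_pow, one_mul]
  rw [h1, h2, one_mul, inv_one, mul_one, eq_comm, mul_eq_right] at e'
  exact c.t_not (eq_inv_of_mul_eq_one_left e' ▸ inv_mem (φX M w))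

theorem fix {g : G} (hg : g ∈ Vh M p) (ht : Commute g t) : ∃ v ∈ V T, g = M.φ v := by
  obtain ⟨e, he, o, ho, hd⟩ := ker c (le_NV c h g hg) ht
  obtain ⟨w, hw, e'⟩ := sq_V c h g hg
  have e1 : M.φ e * M.φ e = 1 := by rw [← map_mul, sqV e he, map_one]
  have o1 : g * g = o * o := by
    rcases hd with rfl | rfl
    · rw [← sq, (ho.φ e).symm.mul_pow, sq, e1, one_mul, sq]
    · rw [← sq, ((ho.φ e).mul_right ho.2.1).symm.mul_pow, (c.tφ e).mul_pow, sq, sq, sq, e1, c.tt,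
        one_mul, one_mul]
  have o2 : o = 1 := eq_one_of_odd_sq ho.2.2
    (c.zl _ (by rw [← o1, e']; exact φX M w) (mul_mem ho.1 ho.1))
  rcases hd with rfl | rfl
  · exact ⟨e, he, by rw [o2, mul_one]⟩
  · rw [o2, mul_one, mul_mem_cancel_left (φ_mem he)] at hg
    exact absurd hg (t_not_mem c h)

theorem same {g g' x : G} (hg : g ∈ Vh M p) (hg' : g' ∈ Vh M p) (e : g * t * g⁻¹ = x)
    (e' : g' * t * g'⁻¹ = x) : ∃ w ∈ V T, g' = g * M.φ w := by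
  obtain ⟨w, hw, e1⟩ := fix c h (mul_mem (inv_mem hg) hg') (conj_eq_iff.1 (by
    calc _ = g⁻¹ * (g' * t * g'⁻¹) * g := by group
      _ = t := by rw [e', ← e]; group))
  exact ⟨w, hw, by rw [← e1]; group⟩

theorem kap (a b : K) : ∃ z, ⁅P2 M p a, P6 M p b⁆ = M.φ (x4 T z) := by
  obtain ⟨v, hv, e⟩ := comm_V c h _ (P2_mem a) _ (P6_mem b)
  have : v ∈ Z T := cQ v fun u hu => ((φ_comm M).1 (conj_eq_iff.1 (by
    obtain ⟨a1, b1, e1⟩ := qz c h _ (P2_mem a) u hu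
    have e2 := u6 h u b
    have m1 := mul_mem (pm h a1) (φ_mem (p := p) (x4V b1))
    have c1 : ∀ g ∈ Vh M p, Commute (p a1 * M.φ (x4 T b1)) g :=
      fun g hg => (cp h a1 g hg).mul_left (cV c h hg (x4V b1)).symm
    have c2 := conj_eq_iff.2 (c1 _ (mul_mem (P6_mem b) (pm h (u.a1 * b))))
    have c3 := conj_eq_iff.2 (cp h (u.a1 * b) _ (inv_mem (P2_mem a)))
    rw [← e]
    calc _ = M.φ u * P2 M p a * (M.φ u)⁻¹ * (M.φ u * P6 M p b * (M.φ u)⁻¹) *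
          (M.φ u * P2 M p a * (M.φ u)⁻¹)⁻¹ * (M.φ u * P6 M p b * (M.φ u)⁻¹)⁻¹ := by
          rw [commutatorElement_def]; group
      _ = P2 M p a * (p a1 * M.φ (x4 T b1) * (P6 M p b * p (u.a1 * b)) *
          (p a1 * M.φ (x4 T b1))⁻¹) * (P2 M p a)⁻¹ * (P6 M p b * p (u.a1 * b))⁻¹ := by
          rw [e1, e2]; group
      _ = P2 M p a * P6 M p b * (p (u.a1 * b) * (P2 M p a)⁻¹ * (p (u.a1 * b))⁻¹) *
          (P6 M p b)⁻¹ := by rw [c2]; group
      _ = _ := by rw [c3, commutatorElement_def]))).symm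
  exact ⟨v.a4, by rw [e, ← eq_x4 this]⟩

variable (M t p) in
/-- `v` is the displacement of an element commuting with all `P₆ b`. -/
def Cm (v : U T) : Prop :=
  ∃ g ∈ Vh M p, g * t * g⁻¹ = t * M.φ v ∧ ∀ b, Commute g (P6 M p b)

theorem Cm.mul {v w : U T} (h1 : Cm M t p v) (h2 : Cm M t p w) (hw : w ∈ V T) :
    Cm M t p (v * w) := by
  obtain ⟨g, hg, e, c1⟩ := h1
  obtain ⟨g', hg', e', c2⟩ := h2
  exact ⟨g * g', mul_mem hg hg', mv_mul e e' (cV c h hg hw), fun b => (c1 b).mul_left (c2 b)⟩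

theorem Cm.comm {v : U T} (h1 : Cm M t p v) {g : G} (hg : g ∈ Vh M p)
    (e : g * t * g⁻¹ = t * M.φ v) (b : K) : Commute g (P6 M p b) := by
  obtain ⟨g', hg', e', c1⟩ := h1
  obtain ⟨w, hw, rfl⟩ := same c h hg' hg e' e
  exact (c1 b).mul_left (cV c h (P6_mem b) hw).symm

theorem cm4 (a : K) : Cm M t p (x4 T a) := ⟨p a, pm h a, h.mov a, h.c46 a⟩

theorem cm6 (a : K) : Cm M t p (x6 T a) :=
  ⟨_, P6_mem a, (h.f6 c.toCtx).mov a, (h.f6 c.toCtx).comm a⟩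

theorem mv2 (a : K) (u : U T) : M.φ u * P2 M p a * (M.φ u)⁻¹ * t * (M.φ u * P2 M p a * (M.φ u)⁻¹)⁻¹ =
    t * M.φ (u * x2 T a * u⁻¹) := by
  rw [map_mul, map_mul, map_inv]
  exact mv_conj (c.tφ u) ((h.f2 c.toCtx).mov a)

theorem cm2 (a : K) {u : U T} (hu : u ∈ E T) : Cm M t p (x2 T a * (u * x2 T a * u⁻¹)) := by
  refine ⟨_, mul_mem (P2_mem a) (nK (φK M u) _ (P2_mem a)),
    mv_mul ((h.f2 c.toCtx).mov a) (mv2 c h a u) (cV c h (P2_mem a) (nV.conj_mem _ (x2V a) u)),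
    fun b => ?_⟩
  obtain ⟨z, e⟩ := kap c h a b
  have c1 := conj_eq_iff.2 (h.cen6 b hu).symm
  have c2 : M.φ u * M.φ (x4 T z) * (M.φ u)⁻¹ = M.φ (x4 T z) :=
    conj_eq_iff.2 ((φ_comm M).2 (cZ _ (x4_mem z) u))
  have c3 := conj_eq_iff.2 (cV c h (P2_mem a) (x4V z))
  rw [← commutatorElement_eq_one_iff_commute]
  calc _ = P2 M p a * (M.φ u * (P2 M p a * ((M.φ u)⁻¹ * P6 M p b * M.φ u) * (P2 M p a)⁻¹ *
        ((M.φ u)⁻¹ * P6 M p b * M.φ u)⁻¹) * (M.φ u)⁻¹) * (P2 M p a)⁻¹ * ⁅P2 M p a, P6 M p b⁆ := by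
        simp only [commutatorElement_def]; group
    _ = 1 := by
        have : (M.φ u)⁻¹ * P6 M p b * M.φ u = P6 M p b := by
          conv_lhs => rw [← c1]
          group
        rw [this, ← commutatorElement_def, e, c2, c3, ← map_mul, sqV _ (x4V z), map_one]

theorem cm5 (a : K) : Cm M t p (x5 T a) :=
  e5 (T := T) a ▸ ((cm2 c h a (u := x8 T 1) rfl).mul c h (cm6 c h a) (x6V a)).mul c h
    (cm4 c h _) (x4V _)

theorem cm3 (a : K) : Cm M t p (x3 T a) :=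
  e3 (T := T) a ▸ ((cm2 c h a (u := y8 T 1) rfl).mul c h (cm5 c h a) (x5V a)).mul c h
    (cm6 c h _) (x6V _)

theorem sur {v : U T} (hv : v ∈ V T) : ∃ g ∈ Vh M p, g * t * g⁻¹ = t * M.φ v := by
  obtain ⟨g, hg, e, -⟩ := (((cm3 c h v.a3).mul c h (cm4 c h v.a4) (x4V _)).mul c h (cm5 c h v.a5)
    (x5V _)).mul c h (cm6 c h v.a6) (x6V _)
  refine ⟨_, mul_mem (P2_mem v.a2) hg, (mv_mul ((h.f2 c.toCtx).mov v.a2) e (cV c h (P2_mem _)
    (mul_mem (mul_mem (mul_mem (x3V _) (x4V _)) (x5V _)) (x6V _)))).trans ?_⟩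
  conv_rhs => rw [eq_V hv]
  simp only [mul_assoc]

theorem c25 {g : G} (hg : g ∈ Vh M p) {a : K} (e : g * t * g⁻¹ = t * M.φ (x5 T a)) (b : K) :
    Commute g (P2 M p b) := by
  have h1 := nK (n8K M) g hg
  have h2 := mv_conj c.tn8 e
  rw [n8_inv, n8_x5] at h2
  rw [n8_inv] at h1
  have := comm_conj' M.n8n8 ((cm3 c h a).comm c h h1 h2 b)
  rwa [conj_conj' M.n8n8] at this

theorem sq5 {g : G} (hg : g ∈ Vh M p) {a u : K} (e : g * t * g⁻¹ = t * M.φ (x5 T (a * u))) :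
    g * g * ⁅P2 M p a, P6 M p (a * T.θ u)⁆ = 1 := by
  have f2 := h.f2 c.toCtx
  have f6 := h.f6 c.toCtx
  have m1 := mul_mem (P2_mem a) hg
  have m2 := mul_mem m1 (P6_mem (a * T.θ u))
  have m3 := mul_mem m2 (pm h (T.θ a * u))
  have e1 := mv_mul (mv_mul (mv_mul (f2.mov a) e (cV c h (P2_mem a) (x5V _))) (f6.mov (a * T.θ u))
    (cV c h m1 (x6V _))) (h.mov (T.θ a * u)) (cV c h m2 (x4V _))
  rw [e8] at e1
  obtain ⟨w, hw, e2⟩ := same c h m3 (nK (φK M (x8 T u)) _ (P2_mem a)) e1 (mv2 c h a _)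
  have e3 := conj_sq (f2.sq a) (M.φ (x8 T u))
  rw [e2, ← sq, (cV c h m3 hw).mul_pow, (cp h _ _ m2).symm.mul_pow, sq (M.φ w), ← map_mul,
    sqV w hw, map_one, mul_one, sq (p _), h.f4.sq, mul_one, ← (c25 c h hg e a).eq, mul_assoc,
    ((c25 c h hg e a).mul_right ((cm5 c h _).comm c h hg e _)).mul_pow, sq, sq] at e3
  rw [commutatorElement_def, f2.inv, f6.inv, ← e3]
  group

theorem c26 (a b : K) : Commute (P2 M p a) (P6 M p b) := by
  choose β hβ using kap c h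
  have f2 := h.f2 c.toCtx
  have f6 := h.f6 c.toCtx
  have inj : ∀ {x y : K}, M.φ (x4 T x) = M.φ (x4 T y) → x = y :=
    fun e => congrArg U.a4 (M.inj e)
  have a1 : ∀ a a' b, β (a + a') b = β a' b + β a b := fun a a' b => inj (by
    rw [x4_add, map_mul, ← conj_eq_iff.2 (cV c h (P2_mem a) (x4V (β a' b))), ← hβ, ← hβ, ← hβ,
      f2.add]
    simp only [commutatorElement_def]
    group)
  have a2 : ∀ a b b', β a (b + b') = β a b + β a b' := fun a b b' => inj (by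
    rw [x4_add, map_mul, ← conj_eq_iff.2 (cV c h (P6_mem b) (x4V (β a b'))), ← hβ, ← hβ, ← hβ,
      f6.add]
    simp only [commutatorElement_def]
    group)
  have a3 : ∀ a x, β a (a * x) = β 1 (T.θ a * x) := fun a x => inj (by
    obtain ⟨u, rfl⟩ := θ_surj (T := T) x
    obtain ⟨g, hg, e⟩ := sur c h (x5V (a * u))
    have h1 := sq5 c h hg e
    have h2 := sq5 c h hg (a := 1) (u := a * u) (by rwa [one_mul])
    rw [one_mul, map_mul] at h2
    rw [← hβ, ← hβ]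
    exact mul_left_cancel (h1.trans h2.symm))
  have ch := T.charP
  have a4 : ∀ a x, β a x = β 1 (a * x) := fun a x => by
    have h1 := a3 (a + 1) x
    rw [map_add, map_one, add_mul, add_mul, one_mul, a1, a2, a2, a2, a3] at h1
    grind
  obtain ⟨s, s0, s1⟩ := H92.UL.exists_ne c.q2
  have s2 : s * s + T.θ s ≠ 0 := fun e => by
    have e1 : T.θ s = s * s := by grind
    have e2 := congrArg T.θ e1
    rw [T.θθ, map_mul, e1] at e2
    have e3 : s ^ 2 * (s + 1) ^ 2 = 0 := by grind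
    rcases mul_eq_zero.1 e3 with k | k
    · exact s0 (pow_eq_zero_iff two_ne_zero |>.1 k)
    · have := pow_eq_zero_iff two_ne_zero |>.1 k
      exact s1 (by grind)
  have a5 : ∀ y, β 1 y = 0 := fun y => by
    have h1 := a3 s (y / (s * s + T.θ s))
    have h2 := a2 1 (s * (s * (y / (s * s + T.θ s)))) (T.θ s * (y / (s * s + T.θ s)))
    rw [show s * (s * (y / (s * s + T.θ s))) + T.θ s * (y / (s * s + T.θ s)) = y by
      rw [← mul_assoc, ← add_mul, mul_div_cancel₀ _ s2], ← a4, h1] at h2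
    grind
  rw [← commutatorElement_eq_one_iff_commute, hβ, a4, a5, x4_zero, map_one]

theorem comm_all : ∀ g ∈ Vh M p, ∀ g' ∈ Vh M p, Commute g g' := by
  have k1 : ∀ k ∈ M.cf.C, ∀ a b, Commute (P6 M p a) (k * P6 M p b * k⁻¹) := fun k hk a b => by
    obtain ⟨s, a', a'', hs, e⟩ := gen_form h hk b
    rw [e]
    refine Commute.mul_right ?_ (h.c46 a'' a).symm
    rcases hs with rfl | ⟨v, hv, rfl⟩
    · simpa using (h.f6 c.toCtx).comm a a'
    · have := comm_conj (c26 c h a' a).symm (M.φ v)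
      rw [conj_eq_iff.2 (h.cen6 a (u := v) hv.1).symm] at this
      rwa [mul_inv_rev, n8_inv, show M.φ v * M.n8 * P6 M p a' * (M.n8 * (M.φ v)⁻¹) =
        M.φ v * (M.n8 * P6 M p a' * M.n8) * (M.φ v)⁻¹ by group]
  refine Vh_ind (fun k hk a => ?_) (fun v hv g hg => (cV c h hg hv).symm)
    (fun a _ b _ h1 h2 g hg => (h1 g hg).mul_left (h2 g hg)) fun a _ h1 g hg => (h1 g hg).inv_left
  refine Vh_ind (fun k' hk' b => ?_) (fun v hv => cV c h (gen_mem hk a) hv)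
    (fun _ _ _ _ => Commute.mul_right) fun _ _ => Commute.inv_right
  have := comm_conj (k1 _ (mul_mem (inv_mem hk) hk') a b) k
  rwa [show k * (k⁻¹ * k' * P6 M p b * (k⁻¹ * k')⁻¹) * k⁻¹ = k' * P6 M p b * k'⁻¹ by group] at this

theorem sq_all : ∀ g ∈ Vh M p, g * g = 1 := by
  refine Vh_ind (fun k _ a => conj_sq ((h.f6 c.toCtx).sq a) k)
    (fun v hv => by rw [← map_mul, sqV v hv, map_one]) (fun a ha b hb h1 h2 => ?_)
    fun a _ h1 => by rw [← mul_inv_rev, h1, inv_one]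
  rw [← sq, (comm_all c h a ha b hb).mul_pow, sq, sq, h1, h2, one_mul]

end

/-- **VHAT** -/
theorem vhat : VhatStmt.{u, v} := fun M t c p h =>
  { sq := sq_all c h
    fix := fun _ hg ht => fix c h hg ht
    mov := fun g hg => (le_NV c h g hg).2.2
    sur := fun _ hv => sur c h hv
    cD := fun g hg => (le_NV c h g hg).1
    odd := fun g hg => (le_NV c h g hg).2.1
    nK := fun _ hk => nK hk
    nH := nH h
    pm := pm h
    qz := fun u hu g hg => qz c h g hg u hu }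

end Cfsg.Agent.H33.RfVhat
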