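import Cfsg.Agent.H35.S4Defs
import Cfsg.Agent.H4.CoprimeAction

/-! S1778, case `Sp₄(q)`, piece LV3A: the coprime decomposition of the group `R`. -/

set_option autoImplicit false
set_option linter.unusedSectionVars false

namespace Cfsg.Agent.H33.S4Lv3a

open Cfsg Cfsg.Agent.H63 Cfsg.Agent.H63.SL Cfsg.Agent.H35.S4 Subgroup
open scoped commutatorElement

universe u v

variable {F : Type v} [Field F] [Finite F] {G : Type u} [Group G] [Finite G] {L : Subgroup G}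
  {x : ZMod 8 → F → G} {t : G} {A : Type v} [CommRing A] {j : F →+* A} {σ : A ≃+* A}
  {y : ZMod 8 → A → G} {Yh : ZMod 8 → Subgroup G} {S P R : Subgroup G} {i k : ZMod 8}
  {h h' g g' e e' s p : G}

/-- The hypotheses. -/
structure Hy (L : Subgroup G) (x : ZMod 8 → F → G) (t : G) (j : F →+* A) (σ : A ≃+* A)
    (y : ZMod 8 → A → G) (Yh : ZMod 8 → Subgroup G) (S P R : Subgroup G) : Prop where
  c : Ctx L x t
  ds : DblS L x t j σ y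
  hl : HatL L x t y Yh
  l1 : Lv1 L x t y Yh S P
  l2 : Lv2 L x t S P R
  l2' : Lv2' y S R

/-- One side of the decomposition. -/
structure Sd (L : Subgroup G) (x : ZMod 8 → F → G) (j : F →+* A) (y : ZMod 8 → A → G)
    (Yh : ZMod 8 → Subgroup G) (S P : Subgroup G) (i k : ZMod 8) (h : G) : Prop where
  li : ¬ sh i
  lk : ¬ sh k
  hT : h ∈ TT x L i
  w3 : ∃ δ : F, δ ≠ 1 ∧ ∀ b, h * y 3 b * h⁻¹ = y 3 (j δ * b)
  wk : ∃ ε : F, ε ≠ 1 ∧ ∀ c, h * x k c * h⁻¹ = x k (ε * c)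
  xi : ∀ a, x i a ∈ S
  yi : Yh i ≤ P
  memS : ∀ g ∈ S, ∃ a b c, g = x i a * y 3 b * x k c
  uniqS : ∀ a b c, x i a * y 3 b * x k c = 1 → a = 0 ∧ b = 0 ∧ c = 0
  memP : ∀ g ∈ P, ∃ p ∈ Yh i, ∃ s ∈ S, ∃ p' ∈ Yh k, g = p * s * p'
  uniqP : ∀ p ∈ Yh k, p ∈ S → p ∈ XR x k

/-- the cocycle of `t` -/
def lam (t g : G) : G := t⁻¹ * (g * t * g⁻¹)

theorem lam_mul (t g g' : G) : lam t (g * g') = lam t g * (g * lam t g' * g⁻¹) := by
  unfold lam; group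

theorem lam_conj (hc : Commute t h) (g : G) : lam t (h * g * h⁻¹) = h * lam t g * h⁻¹ := by
  have e1 : h⁻¹ * t * h = t := by rw [mul_assoc, hc.eq, inv_mul_cancel_left]
  have e2 : h⁻¹ * t⁻¹ * h = t⁻¹ := by rw [mul_assoc, hc.inv_left.eq, inv_mul_cancel_left]
  calc lam t (h * g * h⁻¹) = h * ((h⁻¹ * t⁻¹ * h) * (g * (h⁻¹ * t * h) * g⁻¹)) * h⁻¹ := by
        unfold lam; group
    _ = h * lam t g * h⁻¹ := by rw [e1, e2]; rfl

theorem conj_of_cent {T : Subgroup G} (hg : g ∈ C[T]) (hh : h ∈ T) : h * g * h⁻¹ = g := by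
  rw [hg h hh, mul_inv_cancel_right]

theorem sh3 : sh 3 := by decide

theorem kill {δ : F} (hd : δ ≠ 1) {b : A} (hb : j δ * b = b) : b = 0 := by
  have h1 : j (δ - 1)⁻¹ * j (δ - 1) = 1 := by
    rw [← map_mul, inv_mul_cancel₀ (sub_ne_zero.2 hd), map_one]
  rw [← one_mul b, ← h1, mul_assoc, map_sub, map_one, sub_mul, hb, one_mul, sub_self, mul_zero]

theorem kill' {δ : F} (hd : δ ≠ 1) {b : F} (hb : δ * b = b) : b = 0 :=
  kill (j := RingHom.id F) hd hb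

/-- a fixed-point-free element: every element is a commutator -/
theorem surj_of_fpf {W : Subgroup G} (hn : ∀ w ∈ W, h * w * h⁻¹ ∈ W)
    (hf : ∀ w ∈ W, h * w * h⁻¹ = w → w = 1) (he : e ∈ W) :
    ∃ w ∈ W, e = w⁻¹ * (h * w * h⁻¹) := by
  let f : W → W := fun w => ⟨(w : G)⁻¹ * (h * w * h⁻¹), W.mul_mem (W.inv_mem w.2) (hn w w.2)⟩
  have hinj : Function.Injective f := by
    rintro ⟨a, ha⟩ ⟨b, hb⟩ hab
    have h1 : a⁻¹ * (h * a * h⁻¹) = b⁻¹ * (h * b * h⁻¹) := congrArg Subtype.val hab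
    have h2 := hf (a * b⁻¹) (W.mul_mem ha (W.inv_mem hb)) (by
      calc h * (a * b⁻¹) * h⁻¹ = a * (a⁻¹ * (h * a * h⁻¹)) * (h * b * h⁻¹)⁻¹ := by group
        _ = a * b⁻¹ := by rw [h1]; group)
    exact Subtype.ext (mul_inv_eq_one.1 h2)
  obtain ⟨w, hw⟩ := Finite.injective_iff_surjective.1 hinj ⟨e, he⟩
  exact ⟨w, w.2, (congrArg Subtype.val hw).symm⟩

namespace Hy

variable (H : Hy L x t j σ y Yh S P R)
include H

theorem x0 (i : ZMod 8) : x i 0 = 1 := by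
  have := H.c.mod.pin.add i 0 0
  rw [add_zero] at this
  exact left_eq_mul.1 this

theorem y0 : y 3 0 = 1 := by
  have := H.ds.add 3 sh3 0 0
  rw [add_zero] at this
  exact left_eq_mul.1 this

theorem xsub (i : ZMod 8) (a b : F) : x i (a - b) = x i a * (x i b)⁻¹ := by
  rw [eq_mul_inv_iff_mul_eq, ← H.c.mod.pin.add, sub_add_cancel]

theorem ysub (a b : A) : y 3 (a - b) = (y 3 b)⁻¹ * y 3 a := by
  rw [eq_inv_mul_iff_mul_eq, ← H.ds.add 3 sh3, add_sub_cancel]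

theorem yS (b : A) : y 3 b ∈ S :=
  (H.l1.memS _).2 ⟨0, b, 0, by rw [H.x0, H.x0, one_mul, mul_one]⟩

theorem xX (i : ZMod 8) (a : F) : x i a ∈ XR x i := (H.c.kp.memX i _).2 ⟨a, rfl⟩

theorem SR : S ≤ R := H.l1.SP.trans H.l2.le

theorem cen (hg : g ∈ R) (hs : s ∈ S) : s * g = g * s := ((H.l2.mem g).1 hg).2.1 s hs

theorem cj1 (hg : g ∈ R) (hs : s ∈ S) : g * s * g⁻¹ = s := by
  rw [← H.cen hg hs, mul_inv_cancel_right]

theorem cj2 (hg : g ∈ R) (hs : s ∈ S) : g⁻¹ * s * g = s := by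
  rw [mul_assoc, H.cen hg hs, inv_mul_cancel_left]

theorem com (hg : g ∈ R) (hg' : g' ∈ R) : ⁅g, g'⁆ ∈ S := by
  have h1 := H.l2'.sq _ (R.mul_mem hg hg')
  have h2 := S.inv_mem (H.l2'.sq _ hg)
  have h3 := S.inv_mem (H.l2'.sq _ hg')
  have e1 : ⁅g, g'⁆ = g * g' * (g * g') * (g'⁻¹ * (g * g)⁻¹ * g') * (g' * g')⁻¹ := by
    rw [commutatorElement_def]; group
  rw [e1, H.cj2 hg' h2]
  exact S.mul_mem (S.mul_mem h1 h2) h3

theorem lamP (hg : g ∈ R) : lam t g ∈ P := ((H.l2.mem g).1 hg).2.2.2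

theorem kerP (hg : g ∈ R) (hl : lam t g ∈ S) : g ∈ P := by
  refine H.l1.fix g ((H.l2.mem g).1 hg).2.1 ((H.l2.mem g).1 hg).1 ?_
  have e1 : ⁅g, t⁆ = t * lam t g * t⁻¹ := by rw [commutatorElement_def]; unfold lam; group
  rw [e1]
  exact (mem_normalizer_iff.1 H.l1.nS.1 _).1 hl

theorem lamS (hg : g ∈ P) : lam t g ∈ S := by
  have e1 : ⁅g, t⁆ = t * lam t g * t⁻¹ := by rw [commutatorElement_def]; unfold lam; group
  exact (mem_normalizer_iff.1 H.l1.nS.1 _).2 (e1 ▸ H.l1.tP g hg)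

theorem kerP2 (hg : g ∈ R) (hg' : g' ∈ R) (hl : (lam t g)⁻¹ * lam t g' ∈ S) : g⁻¹ * g' ∈ P := by
  refine H.kerP (R.mul_mem (R.inv_mem hg) hg') ?_
  have e1 : lam t (g⁻¹ * g') = g⁻¹ * ((lam t g)⁻¹ * lam t g') * g := by unfold lam; group
  rw [e1, H.cj2 hg hl]
  exact hl

theorem tH (hh : h ∈ HH x L) : Commute t h := H.c.kb.tL h hh.1

theorem yT (hi : ¬ sh i) (hp : p ∈ Yh i) : p ∈ C[TT x L i] := ((H.hl.mem i hi p).1 hp).2.1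

theorem yH (hi : ¬ sh i) (hh : h ∈ HH x L) (hp : p ∈ Yh i) : h * p * h⁻¹ ∈ Yh i :=
  (H.hl.mem i hi _).2 (H.c.kb.hatH h hh 1 i p ((H.hl.mem i hi p).1 hp))

theorem nW (hh : h ∈ HH x L) (he : e ∈ R ⊓ C[TT x L i]) : h * e * h⁻¹ ∈ R ⊓ C[TT x L i] := by
  refine ⟨(mem_normalizer_iff.1 (H.l2.nR.2.1 hh) _).1 he.1, fun b hb => ?_⟩
  have h1 : Commute b h := H.c.kb.comH b hb.1 h hh
  have h2 : Commute b e := he.2 b hb
  exact ((h1.mul_right h2).mul_right h1.inv_right).eq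

section Side

variable (D : Sd L x j y Yh S P i k h)
include D

theorem uq {b b' : A} {c c' : F} (he : y 3 b * x k c = y 3 b' * x k c') : b = b' ∧ c = c' := by
  have := D.uniqS 0 (b - b') (c - c') (by
    rw [H.x0, one_mul, H.ysub, H.xsub, mul_assoc, ← mul_assoc (y 3 b), he]; group)
  exact ⟨sub_eq_zero.1 this.2.1, sub_eq_zero.1 this.2.2⟩

theorem xk0 {c : F} (he : h * x k c * h⁻¹ = x k c) : c = 0 := by
  obtain ⟨ε, h1, h2⟩ := D.wk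
  exact kill' h1 (H.uq D (b := 0) (b' := 0) (by rw [← h2, he])).2

theorem hxi (a : F) : h * x i a * h⁻¹ = x i a := by
  rw [← D.hT.2 _ (H.xX i a), mul_inv_cancel_right]

/-- the fixed points in `S` -/
theorem fixS (hs : s ∈ S) (he : h * s * h⁻¹ = s) : s ∈ XR x i := by
  obtain ⟨a, b, c, rfl⟩ := D.memS s hs
  obtain ⟨δ, d1, d2⟩ := D.w3
  obtain ⟨ε, h1, h2⟩ := D.wk
  have e1 : h * (x i a * y 3 b * x k c) * h⁻¹ =
      (h * x i a * h⁻¹) * ((h * y 3 b * h⁻¹) * (h * x k c * h⁻¹)) := by group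
  rw [e1, H.hxi D, d2, h2, mul_assoc] at he
  obtain ⟨e2, e3⟩ := H.uq D (mul_left_cancel he)
  rw [kill d1 e2, kill' h1 e3, H.y0, H.x0, mul_one, mul_one]
  exact H.xX i a

theorem fpfY (hp : p ∈ Yh k) (he : h * p * h⁻¹ = p) : p = 1 := by
  obtain ⟨a, ha, -⟩ := ((H.hl.mem k D.lk p).1 hp).2.2.1
  have e1 : lam t p = x k a := by unfold lam; rw [ha, inv_mul_cancel_left]
  have e2 := lam_conj (H.tH D.hT.1) p
  rw [he, e1] at e2
  rw [H.xk0 D e2.symm, H.x0, mul_one] at ha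
  obtain ⟨c, rfl⟩ := H.hl.fix k D.lk p hp (mul_inv_eq_iff_eq_mul.1 ha)
  rw [H.xk0 D he, H.x0]

/-- the fixed points in `P` -/
theorem fixP (hg : g ∈ P) (he : h * g * h⁻¹ = g) : g ∈ Yh i := by
  obtain ⟨p, hp, s, hs, p', hp', rfl⟩ := D.memP g hg
  obtain ⟨a, b, c, rfl⟩ := D.memS s hs
  obtain ⟨δ, d1, d2⟩ := D.w3
  have hq : x k c * p' ∈ Yh k := mul_mem (H.hl.le k D.lk c) hp'
  have hr : p * x i a ∈ Yh i := mul_mem hp (H.hl.le i D.li a)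
  have e0 : p * (x i a * y 3 b * x k c) * p' = p * x i a * (y 3 b * (x k c * p')) := by group
  rw [e0] at he ⊢
  generalize x k c * p' = q at hq he
  generalize p * x i a = r at hr he
  have e1 : h * (r * (y 3 b * q)) * h⁻¹ =
      (h * r * h⁻¹) * ((h * y 3 b * h⁻¹) * (h * q * h⁻¹)) := by group
  rw [e1, conj_of_cent (H.yT D.li hr) D.hT, d2] at he
  have e2 : h * q * h⁻¹ * q⁻¹ = (y 3 (j δ * b))⁻¹ * y 3 b := by
    rw [eq_inv_mul_iff_mul_eq, ← mul_assoc, mul_left_cancel he, mul_inv_cancel_right]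
  obtain ⟨d, hd⟩ := (H.c.kp.memX k _).1 (D.uniqP _ (mul_mem (H.yH D.lk D.hT.1 hq) (inv_mem hq))
    (e2 ▸ mul_mem (inv_mem (H.yS _)) (H.yS _)))
  obtain ⟨e3, e4⟩ := H.uq D (b := j δ * b) (b' := b) (c := d) (c' := 0)
    (by rw [← hd, e2, H.x0, mul_one, mul_inv_cancel_left])
  rw [e4, H.x0, mul_inv_eq_one] at hd
  rw [kill d1 e3, H.fpfY D hq hd, H.y0, mul_one, mul_one]
  exact hr

theorem mov (he : e ∈ R ⊓ C[TT x L i]) : lam t e ∈ Yh i :=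
  H.fixP D (H.lamP he.1) (by rw [← lam_conj (H.tH D.hT.1), conj_of_cent he.2 D.hT])

theorem ker (he : e ∈ R ⊓ C[TT x L i]) (hl : lam t e ∈ S) : e ∈ Yh i :=
  H.fixP D (H.kerP he.1 hl) (conj_of_cent he.2 D.hT)

theorem leW : Yh i ≤ R ⊓ C[TT x L i] := fun _ hp => ⟨H.l2.le (D.yi hp), H.yT D.li hp⟩

theorem XS (hs : s ∈ XR x i) : s ∈ S := by
  obtain ⟨a, rfl⟩ := (H.c.kp.memX i _).1 hs
  exact D.xi a

theorem onto (hp : p ∈ Yh i) : ∃ e ∈ R ⊓ C[TT x L i], p⁻¹ * lam t e ∈ XR x i := by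
  obtain ⟨g, hg, hs⟩ := H.l2.onto p (D.yi hp)
  change p⁻¹ * lam t g ∈ S at hs
  have : Fact (Nat.Prime 2) := ⟨Nat.prime_two⟩
  have hP : IsPGroup 2 P := fun a =>
    let ⟨n, hn⟩ := ((H.l2.mem a).1 (H.l2.le a.2)).1
    ⟨n, Subtype.ext hn⟩
  have hle : TT x L i ≤ HH x L := inf_le_left
  have hco : (Nat.card (TT x L i)).Coprime (Nat.card P) := by
    obtain ⟨n, hn⟩ := hP.exists_card_eq
    rw [hn]
    exact Nat.Coprime.pow_right _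
      (Nat.coprime_two_right.2 (H.c.kb.oddH.of_dvd_nat (card_dvd_of_le hle)))
  have := hP.isNilpotent
  obtain ⟨n, hn, hc⟩ := H4.exists_centralizer_of_fixed_mod (k := g⁻¹) (hle.trans H.l1.nP.2.1) hco
    (.inr inferInstance) fun a ha => by
      have e1 : ⁅a, g⁻¹⁆ = (a * g * a⁻¹)⁻¹ * g := by rw [commutatorElement_def]; group
      rw [e1]
      refine H.kerP2 ((mem_normalizer_iff.1 (H.l2.nR.2.1 ha.1) _).1 hg) hg ?_
      have e2 : (a * lam t g * a⁻¹)⁻¹ * lam t g =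
          (a * (p⁻¹ * lam t g) * a⁻¹)⁻¹ * ((a * p * a⁻¹)⁻¹ * lam t g) := by group
      rw [lam_conj (H.tH ha.1), e2, conj_of_cent (H.yT D.li hp) ha]
      exact mul_mem (inv_mem ((mem_normalizer_iff.1 (H.l1.nS.2.1 ha.1) _).1 hs)) hs
  have he : (n * g⁻¹)⁻¹ ∈ R ⊓ C[TT x L i] :=
    inv_mem ⟨R.mul_mem (H.l2.le hn) (R.inv_mem hg), hc⟩
  refine ⟨_, he, H.fixS D ?_ ?_⟩
  · have h1 := H.lamS (inv_mem hn)
    rw [mul_inv_rev, inv_inv, lam_mul, H.cj1 hg h1, ← mul_assoc]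
    exact mul_mem hs h1
  · have e1 : h * (p⁻¹ * lam t (n * g⁻¹)⁻¹) * h⁻¹ =
        (h * p * h⁻¹)⁻¹ * (h * lam t (n * g⁻¹)⁻¹ * h⁻¹) := by group
    rw [e1, ← lam_conj (H.tH D.hT.1), conj_of_cent he.2 D.hT, conj_of_cent (H.yT D.li hp) D.hT]

theorem comW (he : e ∈ R ⊓ C[TT x L i]) (he' : e' ∈ R ⊓ C[TT x L i]) : ⁅e, e'⁆ ∈ XR x i :=
  H.fixS D (H.com he.1 he'.1) (conj_of_cent (T := TT x L i) (by
    rw [commutatorElement_def]
    exact (mul_mem (mul_mem (mul_mem he he') (inv_mem he)) (inv_mem he')).2) D.hT)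

variable (D' : Sd L x j y Yh S P k i h')
include D'

theorem fpfW (he : e ∈ R ⊓ C[TT x L k]) (hf : h * e * h⁻¹ = e) : e = 1 := by
  have h1 := H.fpfY D (H.mov D' he) (by rw [← lam_conj (H.tH D.hT.1), hf])
  exact H.fpfY D (H.ker D' he (h1 ▸ one_mem S)) hf

theorem cm' (he : e ∈ R ⊓ C[TT x L i]) (he' : e' ∈ R ⊓ C[TT x L k]) :
    ∃ b c, ⁅e, e'⁆ = y 3 b * x k c := by
  obtain ⟨w, hw, rfl⟩ := surj_of_fpf (fun w hw => H.nW D.hT.1 hw) (fun w => H.fpfW D D') he'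
  have hs := H.com he.1 hw.1
  have e1 : ⁅e, w⁻¹ * (h * w * h⁻¹)⁆ = w⁻¹ * (⁅e, w⁆⁻¹ * (h * ⁅e, w⁆ * h⁻¹)) * w := by
    have e2 : h * ⁅e, w⁆ * h⁻¹ = ⁅h * e * h⁻¹, h * w * h⁻¹⁆ := by
      simp only [commutatorElement_def]; group
    rw [e2, conj_of_cent he.2 D.hT]
    simp only [commutatorElement_def]; group
  rw [e1, H.cj2 hw.1 (mul_mem (inv_mem hs) ((mem_normalizer_iff.1 (H.l1.nS.2.1 D.hT.1) _).1 hs))]
  obtain ⟨a, b, c, hc⟩ := D.memS _ hs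
  obtain ⟨δ, -, d2⟩ := D.w3
  obtain ⟨ε, -, h2⟩ := D.wk
  refine ⟨j δ * b - b, ε * c - c, ?_⟩
  have e3 : (x i a * y 3 b * x k c)⁻¹ * (h * (x i a * y 3 b * x k c) * h⁻¹) =
      (x k c)⁻¹ * ((y 3 b)⁻¹ * ((x i a)⁻¹ * (h * x i a * h⁻¹)) * (h * y 3 b * h⁻¹) *
        (h * x k c * h⁻¹)) := by group
  rw [hc, e3, H.hxi D, d2, h2, inv_mul_cancel, mul_one, ← H.ysub, H.xsub,
    H.cen (H.SR (mul_mem (H.yS _) (D'.xi _))) (inv_mem (D'.xi c)), mul_assoc]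

end Side

theorem sides : ∃ h h', Sd L x j y Yh S P 2 4 h ∧ Sd L x j y Yh S P 4 2 h' := by
  obtain ⟨γ, g1, g2⟩ := H.c.kb.ne1
  obtain ⟨h, hh, th⟩ := H.c.kp.tor γ⁻¹ (γ ^ 2)
  obtain ⟨h', hh', th'⟩ := H.c.kp.tor γ 1
  have w2 : ∀ α β : Fˣ, wt α β 2 = α ^ 2 * β := fun _ _ => rfl
  have w3 : ∀ α β : Fˣ, wt α β 3 = α * β := fun _ _ => rfl
  have w4 : ∀ α β : Fˣ, wt α β 4 = β := fun _ _ => rfl
  have n1 : (γ : F) ≠ 1 := fun e => g1 (Units.ext e)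
  have n2 : ((γ ^ 2 : Fˣ) : F) ≠ 1 := fun e => g2 (Units.ext e)
  have x2 : ∀ a, x 2 a ∈ S := fun a =>
    (H.l1.memS _).2 ⟨a, 0, 0, by rw [H.y0, H.x0, mul_one, mul_one]⟩
  have x4 : ∀ a, x 4 a ∈ S := fun a =>
    (H.l1.memS _).2 ⟨0, 0, a, by rw [H.y0, H.x0, mul_one, one_mul]⟩
  have y2 : Yh 2 ≤ P := fun p hp =>
    (H.l1.memP _).2 ⟨p, hp, 0, 1, one_mem _, by rw [H.y0, mul_one, mul_one]⟩
  have y4 : Yh 4 ≤ P := fun p hp =>
    (H.l1.memP _).2 ⟨1, one_mem _, 0, p, hp, by rw [H.y0, mul_one, one_mul]⟩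
  have sw : ∀ a b c, x 4 c * y 3 b * x 2 a = x 2 a * y 3 b * x 4 c := fun a b c => by
    rw [mul_assoc, H.cen (H.SR (mul_mem (H.yS b) (x2 a))) (x4 c), H.cen (H.SR (x2 a)) (H.yS b)]
  refine ⟨h, h', ⟨by decide, by decide, (H.c.kb.memT 2 h).2 ⟨hh.1, _, _, th, ?_⟩,
    ⟨γ, n1, fun b => ?_⟩, ⟨_, n2, fun c => th 4 c⟩, x2, y2, fun g hg => (H.l1.memS g).1 hg,
    H.l1.uniqS, fun g hg => ?_, fun p hp hs => ?_⟩,
    ⟨by decide, by decide, (H.c.kb.memT 4 h').2 ⟨hh'.1, _, _, th', rfl⟩,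
    ⟨γ, n1, fun b => ?_⟩, ⟨_, n2, fun c => ?_⟩, x4, y4, fun g hg => ?_,
    fun a b c e => ?_, fun g hg => ?_, fun p hp hs => ?_⟩⟩
  · rw [w2]; group
  · rw [H.ds.tor h hh.1 _ _ th 3 sh3, w3, pow_two, inv_mul_cancel_left]
  · obtain ⟨p, hp, b, p', hp', rfl⟩ := (H.l1.memP g).1 hg
    exact ⟨p, hp, _, H.yS b, p', hp', rfl⟩
  · exact (H.l1.uniqP 1 (one_mem _) p hp (by rwa [one_mul])).2
  · rw [H.ds.tor h' hh'.1 _ _ th' 3 sh3, w3, mul_one]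
  · rw [th' 2 c, w2, mul_one]
  · obtain ⟨a, b, c, rfl⟩ := (H.l1.memS g).1 hg
    exact ⟨c, b, a, (sw a b c).symm⟩
  · have := H.l1.uniqS c b a (by rw [← sw, e])
    exact ⟨this.2.2, this.2.1, this.1⟩
  · obtain ⟨p, hp, b, p', hp', rfl⟩ := (H.l1.memP g).1 hg
    refine ⟨p', hp', ⁅p'⁻¹, p⁆ * y 3 b,
      mul_mem (H.com (inv_mem (H.l2.le (y4 hp'))) (H.l2.le (y2 hp))) (H.yS b), p, hp, ?_⟩
    rw [mul_assoc p, H.cen (H.l2.le (y4 hp')) (H.yS b), mul_assoc p', mul_assoc _ (y 3 b),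
      H.cen (H.l2.le (y2 hp)) (H.yS b), commutatorElement_def]
    group
  · exact (H.l1.uniqP p hp 1 (one_mem _) (by rwa [mul_one])).1

theorem sw (e : G) : e ∈ R ⊓ C[TT x L 4] ↔ n2 x 1 * e * (n2 x 1)⁻¹ ∈ R ⊓ C[TT x L 2] := by
  have hn : n2 x 1 ∈ N[R] := H.l2.nR.2.2 (mul_mem (mul_mem (mem_sup_left (H.xX 1 1))
    (mem_sup_right (H.xX (1 + 4) 1))) (mem_sup_left (H.xX 1 1)))
  have hi : (n2 x 1)⁻¹ = n2 x 1 := inv_eq_of_mul_eq_one_right (H.c.kb.nsq 1)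
  refine and_congr (mem_normalizer_iff.1 hn e) ⟨fun he b hb => ?_, fun he b hb => ?_⟩
  · have h1 : Commute (n2 x 1 * b * (n2 x 1)⁻¹) e := he _ (H.c.kb.nT 1 2 b hb)
    have h2 : n2 x 1 * b * (n2 x 1)⁻¹ = (n2 x 1)⁻¹ * b * n2 x 1 := by rw [hi]
    rw [h2] at h1
    calc b * (n2 x 1 * e * (n2 x 1)⁻¹)
        = n2 x 1 * ((n2 x 1)⁻¹ * b * n2 x 1 * e) * (n2 x 1)⁻¹ := by group
      _ = n2 x 1 * e * (n2 x 1)⁻¹ * b := by rw [h1.eq]; group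
  · have h1 := he _ (H.c.kb.nT 1 4 b hb)
    calc b * e = (n2 x 1)⁻¹ * (n2 x 1 * b * (n2 x 1)⁻¹ * (n2 x 1 * e * (n2 x 1)⁻¹)) * n2 x 1 := by
          group
      _ = e * b := by rw [h1]; group

section Both

variable (D : Sd L x j y Yh S P 2 4 h) (D' : Sd L x j y Yh S P 4 2 h')
include D D'

theorem dec (hg : g ∈ R) : ∃ e ∈ R ⊓ C[TT x L 2], ∃ b, ∃ e' ∈ R ⊓ C[TT x L 4],
    g = e * y 3 b * e' := by
  obtain ⟨p, hp, s, hs, p', hp', hl⟩ := D.memP _ (H.lamP hg)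
  obtain ⟨e, he, h1⟩ := H.onto D hp
  obtain ⟨e', he', h2⟩ := H.onto D' hp'
  have h3 : (e * e')⁻¹ * g ∈ P := by
    refine H.kerP2 (mul_mem he.1 he'.1) hg ?_
    have e1 : (lam t e * (e * lam t e' * e⁻¹))⁻¹ * (p * s * p') = (p'⁻¹ * lam t e')⁻¹ *
        (p'⁻¹ * (⁅e, lam t e'⁆⁻¹ * (p⁻¹ * lam t e)⁻¹ * s) * p') := by
      rw [commutatorElement_def]; group
    have h4 : ⁅e, lam t e'⁆⁻¹ * (p⁻¹ * lam t e)⁻¹ * s ∈ S :=
      mul_mem (mul_mem (inv_mem (H.com he.1 (H.l2.le (H.lamP he'.1)))) (inv_mem (H.XS D h1))) hs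
    rw [lam_mul, hl, e1, H.cj2 (H.l2.le (D'.yi hp')) h4]
    exact mul_mem (inv_mem (H.XS D' h2)) h4
  obtain ⟨q, hq, r, hr, q', hq', h5⟩ := D.memP _ h3
  obtain ⟨a, b, c, h6⟩ := D.memS _ (mul_mem (H.com (inv_mem (H.leW D hq).1) he'.1) hr)
  refine ⟨e * q * x 2 a, mul_mem (mul_mem he (H.leW D hq)) (H.leW D (H.hl.le 2 D.li a)), b,
    x 4 c * (e' * q'), mul_mem (H.leW D' (H.hl.le 4 D.lk c)) (mul_mem he' (H.leW D' hq')), ?_⟩
  calc g = e * e' * (q * r * q') := by rw [← h5]; group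
    _ = e * q * (⁅q⁻¹, e'⁆ * (e' * r * e'⁻¹)) * (e' * q') := by rw [commutatorElement_def]; group
    _ = _ := by rw [H.cj1 he'.1 hr, h6]; group

theorem uniq {b : A} (he : e ∈ R ⊓ C[TT x L 2]) (he' : e' ∈ R ⊓ C[TT x L 4])
    (h1 : e * y 3 b * e' = 1) : e = 1 ∧ b = 0 ∧ e' = 1 := by
  obtain ⟨δ, d1, d2⟩ := D.w3
  have e1 : (h * e * h⁻¹) * ((h * y 3 b * h⁻¹) * (h * e' * h⁻¹)) = e * (y 3 b * e') := by
    calc _ = h * (e * y 3 b * e') * h⁻¹ := by group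
      _ = _ := by rw [← mul_assoc e, h1, mul_one, mul_inv_cancel]
  rw [conj_of_cent he.2 D.hT, d2] at e1
  have e2 : h * e' * h⁻¹ * e'⁻¹ = (y 3 (j δ * b))⁻¹ * y 3 b := by
    rw [eq_inv_mul_iff_mul_eq, ← mul_assoc, mul_left_cancel e1, mul_inv_cancel_right]
  obtain ⟨d, hd⟩ := (H.c.kp.memX 4 _).1 (H.fixS D' (e2 ▸ mul_mem (inv_mem (H.yS _)) (H.yS _))
    (conj_of_cent (mul_mem (H.nW D.hT.1 he') (inv_mem he')).2 D'.hT))
  obtain ⟨e3, e4⟩ := H.uq D (b := j δ * b) (b' := b) (c := d) (c' := 0)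
    (by rw [← hd, e2, H.x0, mul_one, mul_inv_cancel_left])
  rw [e4, H.x0, mul_inv_eq_one] at hd
  have e5 := H.fpfW D D' he' hd
  have e6 := kill d1 e3
  rw [e5, e6, H.y0, mul_one, mul_one] at h1
  exact ⟨h1, e6, e5⟩

theorem card : Nat.card ↥(R ⊓ C[TT x L 2]) = Nat.card F ^ 3 := by
  let f : ↥(R ⊓ C[TT x L 2]) × A × ↥(R ⊓ C[TT x L 4]) → R := fun z =>
    ⟨z.1 * y 3 z.2.1 * z.2.2, mul_mem (mul_mem z.1.2.1 (H.SR (H.yS _))) z.2.2.2.1⟩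
  have hf : Function.Bijective f := by
    refine ⟨?_, fun g => ?_⟩
    · rintro ⟨⟨a, ha⟩, b, ⟨c, hc⟩⟩ ⟨⟨a', ha'⟩, b', ⟨c', hc'⟩⟩ he
      have h1 : a * y 3 b * c = a' * y 3 b' * c' := congrArg Subtype.val he
      obtain ⟨e1, e2, e3⟩ := H.uniq D D' (b := b - b') (mul_mem (inv_mem ha') ha)
        (mul_mem hc (inv_mem hc')) (by
          rw [H.ysub, ← mul_assoc _ (y 3 b')⁻¹,
            ← H.cen (mul_mem (inv_mem ha'.1) ha.1) (inv_mem (H.yS b'))]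
          calc _ = (y 3 b')⁻¹ * a'⁻¹ * (a * y 3 b * c) * c'⁻¹ := by group
            _ = 1 := by rw [h1]; group)
      exact Prod.ext (Subtype.ext (inv_mul_eq_one.1 e1).symm)
        (Prod.ext (sub_eq_zero.1 e2) (Subtype.ext (mul_inv_eq_one.1 e3)))
    · obtain ⟨e, he, b, e', he', h1⟩ := H.dec D D' g.2
      exact ⟨⟨⟨e, he⟩, b, ⟨e', he'⟩⟩, Subtype.ext h1.symm⟩
  have h1 := Nat.card_eq_of_bijective f hf
  have h2 : Nat.card ↥(R ⊓ C[TT x L 4]) = Nat.card ↥(R ⊓ C[TT x L 2]) :=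
    Nat.card_congr ((MulAut.conj (n2 x 1)).toEquiv.subtypeEquiv fun e => H.sw e)
  rw [Nat.card_prod, Nat.card_prod, h2, H.ds.quad.card, H.l2.card] at h1
  have h3 : 0 < Nat.card F := Nat.card_pos
  refine Nat.mul_self_inj.1 (Nat.eq_of_mul_eq_mul_left (pow_pos h3 2) ?_)
  calc _ = _ := by ring
    _ = Nat.card F ^ 8 := h1
    _ = _ := by ring

theorem cm (he : e ∈ R ⊓ C[TT x L 2]) (he' : e' ∈ R ⊓ C[TT x L 4]) : ∃ b, ⁅e, e'⁆ = y 3 b := by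
  obtain ⟨b, c, h1⟩ := H.cm' D D' he he'
  obtain ⟨b', a, h2⟩ := H.cm' D' D he' he
  have h3 : y 3 b' * x 2 a * (y 3 b * x 4 c) = 1 := by
    rw [← h1, ← h2, ← commutatorElement_inv e, inv_mul_cancel]
  have h4 := D.uniqS a (b' + b) c (by
    rw [H.ds.add 3 sh3, ← h3, H.cen (H.SR (D.xi a)) (H.yS b')]; group)
  exact ⟨b, by rw [h1, h4.2.2, H.x0, mul_one]⟩

end Both

end Hy

theorem lv3a : Lv3aStmt.{u, v} := by
  intro F _ _ G _ _ L x t hC A _ j σ y Yh S P R ds hl l1 l2 l2'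
  have H : Hy L x t j σ y Yh S P R := ⟨hC, ds, hl, l1, l2, l2'⟩
  obtain ⟨h, h', D, D'⟩ := H.sides
  exact ⟨_, _, rfl, rfl, H.sw, H.card D D', fun _ hg => H.dec D D' hg,
    fun _ he _ _ he' => H.uniq D D' he he',
    fun e he => H.fixS D (l2'.sq e he.1) (conj_of_cent (mul_mem he he).2 D.hT),
    fun _ he _ he' => H.comW D he he', fun _ he _ he' => H.cm D D' he he', H.leW D,
    fun _ he => H.mov D he, fun _ he hl => H.ker D he (H.XS D hl), fun _ hp => H.onto D hp⟩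

end Cfsg.Agent.H33.S4Lv3a
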