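import Cfsg.Agent.H79.SqDefs

/-! Pieces TRANS and COUNT: the multiplicities in the induced characters. -/

set_option autoImplicit false
set_option linter.style.haveILetI false
set_option linter.unusedSectionVars false

namespace Cfsg.Agent.H33.Sq

open Subgroup Cfsg Cfsg.Agent.H58 Cfsg.Agent.H79.Sq Finset

universe w

theorem conc {ι : Type*} [Fintype ι] {a w : ι → ℕ} (S : Finset ι) (hw : ∀ ψ, a ψ ≠ 0 → w ψ ≠ 0)
    (h : ∑ ψ, a ψ * w ψ ≤ ∑ ψ ∈ S, a ψ * w ψ) (w' : ι → ℕ) :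
    ∑ ψ, a ψ * w' ψ = ∑ ψ ∈ S, a ψ * w' ψ := by
  classical
  rw [← sum_add_sum_compl S] at h ⊢
  have h0 := sum_eq_zero_iff.1 (show ∑ ψ ∈ Sᶜ, a ψ * w ψ = 0 by omega)
  rw [sum_eq_zero (s := Sᶜ) fun ψ hψ => by
    rw [by_contra fun k => mul_ne_zero k (hw ψ k) (h0 ψ hψ), zero_mul], add_zero]

theorem arith1 {u m e t z p x1 x2 : ℕ} (hp : e * t + 1 = p) (het : e * t = (u + 1) * m)
    (hu : 1 ≤ u) (hm : u + 1 ≤ m) (h2 : u = 1 → x2 = 0) (hz : t * z + 1 = (m + 1) * p)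
    (he : e = 1 + 2 * x1 + x2)
    (st : (z : ℤ) = e + p * (x1 * (u * (m + 1) + 1) + x2 * u - x1 * (m + 1))) : False := by
  obtain ⟨u, rfl⟩ : ∃ v, u = v + 1 := ⟨u - 1, by omega⟩
  have h1 : m = t * (x1 * (u * (m + 1) + 1) + x2 * (u + 1)) := by
    refine Nat.eq_of_mul_eq_mul_left (show 0 < p by omega) ?_
    zify at hp hz ⊢
    push_cast at st
    linear_combination t * st - hz + hp
  have h3 : e = (u + 2) * (x1 * (u * (m + 1) + 1) + x2 * (u + 1)) := by
    refine Nat.eq_of_mul_eq_mul_right (show 0 < t from Nat.pos_of_ne_zero (by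
      rintro rfl; omega)) ?_
    rw [het, mul_assoc, mul_comm _ t, ← h1]
  rw [he] at h3
  rcases u with _ | u
  · rw [h2 rfl] at h3; omega
  · rcases Nat.eq_zero_or_pos (x1 + x2) with k | k
    · rw [show x1 = 0 by omega, show x2 = 0 by omega] at h3; omega
    · nlinarith [Nat.zero_le (x1 * u), Nat.zero_le (x2 * u), Nat.zero_le (x1 * m),
        Nat.zero_le (x1 * u * m), Nat.zero_le (x1 * u * u), Nat.zero_le (x2 * u * u),
        Nat.zero_le (x1 * u * u * m)]

theorem arith2 {u m e p x1 x2 : ℕ} (hp : e + 1 = p) (het : e = (u + 1) * m) (hu : 2 ≤ u)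
    (he : e = 2 + 2 * x1 + x2)
    (st : -((u * p + 1 : ℕ) : ℤ) =
      e + p * (x1 * (u * (m + 1) + 1) + x2 * u - (x1 + 1) * (m + 1))) : False := by
  obtain ⟨u, rfl⟩ : ∃ v, u = v + 2 := ⟨u - 2, by omega⟩
  have h1 : x1 * ((u + 1) * (m + 1) + 1) + x2 * (u + 2) + u + 2 = m := by
    refine Nat.eq_of_mul_eq_mul_left (show 0 < p by omega) ?_
    zify at hp ⊢
    push_cast at st
    linear_combination -st - hp
  have h2 : x1 = 0 := by_contra fun k => by
    obtain ⟨x, rfl⟩ := Nat.exists_eq_succ_of_ne_zero k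
    nlinarith [Nat.zero_le (x * ((u + 1) * (m + 1) + 1)), Nat.zero_le (u * m)]
  subst h2
  rw [he, ← h1] at het
  nlinarith [Nat.zero_le (x2 * u), Nat.zero_le (x2 * u * u), Nat.zero_le (u * u)]

theorem arith3 {u m e t z p x1 x2 f : ℕ} (hp : e * t + 1 = p) (het : e * t = (u + 1) * m)
    (hu : 1 ≤ u) (h2 : u = 1 → x2 = 0) (hz : t * z = 1 + (u * (m + 1) + 1) * p) (hf : t * f = 2)
    (he : e = 1 + 2 * x1 + x2 + f)
    (st : -(z : ℤ) = e + p * (x1 * (u * (m + 1) + 1) + x2 * u - (x1 + f) * (m + 1))) : False := by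
  obtain ⟨u, rfl⟩ : ∃ v, u = v + 1 := ⟨u - 1, by omega⟩
  have h1 : (u + 1) * (m + 1) + 2 + t * (x1 * (u * (m + 1) + 1) + x2 * (u + 1)) = 2 * (m + 1) := by
    refine Nat.eq_of_mul_eq_mul_left (show 0 < p by omega) ?_
    zify at hp hz hf ⊢
    push_cast at st
    linear_combination -t * st - hz - hp + p * (m + 1) * hf
  rcases u with _ | u
  · rw [h2 rfl] at h1 he
    rcases (Nat.dvd_prime Nat.prime_two).1 (Dvd.intro _ hf) with rfl | rfl <;> omega
  · nlinarith [Nat.zero_le (u * m), Nat.zero_le (t * (x1 * ((u + 1) * (m + 1) + 1) + x2 * (u + 1 + 1)))]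

variable {G : Type*} [Group G] [Fintype G] {p : ℕ} [hp : Fact p.Prime] {P : Sylow p G}
  {u m e t : ℕ} (D : Dat G p P u m e t) (I : Ind G p P e) [Fintype (IrrCharacter G)]

local notation "fC" => fixDim (centralizer ((P : Subgroup G) : Set G))

/-- the multiplicities -/
structure Mul (a : Fin e → IrrCharacter G → ℕ) : Prop where
  sum : ∀ ψ, ∑ i, a i ψ = fC ψ.1
  fix : ∀ i, ∑ ψ, a i ψ * fC ψ.1 = I.nb
  deg : ∀ i, ∑ ψ, a i ψ * charDegree ψ.1 = 1 + (u * (m + 1) + 1) * p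
  triv : ∀ i, a i (H21.triv G) = if i = I.i0 then 1 else 0
  rel : ∀ i, ∀ θ ∈ D.Y, D.ε * a i θ =
    a i (H21.triv G) - 1 + ∑ χ ∈ D.A, (a i χ : ℤ) - ∑ χ ∈ D.B, (a i χ : ℤ)

theorem exists_mul : ∃ a, Mul D I a := by
  classical
  choose a h1 h2 using fun i => exists_apply_eq_sum (I.char i)
  refine ⟨a, fun ψ => ?_, fun i => ?_, fun i => ?_, fun i => ?_, fun i θ hθ => ?_⟩
  · have := I.sum _ (H11.irr_isCharacter ψ)
    simp only [h1] at this
    exact_mod_cast this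
  · rw [← I.fixC i, fixDim_sum _ _ _ _ (fun ψ _ => H11.irr_isCharacter ψ) (h2 i)]
  · have := (h2 i 1).symm.trans (I.one i)
    simp only [← H21.cast_deg, D.hn] at this
    exact_mod_cast this
  · have := (h1 i (H21.triv G)).symm.trans (I.triv i)
    split_ifs at this ⊢ <;> exact_mod_cast this
  · have k : ∀ ψ, classInner (I.Λ i - (H21.triv G).1) ψ.1 =
        a i ψ - if H21.triv G = ψ then 1 else 0 := fun ψ => by
      rw [H11.classInner_sub_left, h1, H11.classInner_irr_irr]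
    have := D.inner_rel (φ := I.Λ i - (H21.triv G).1)
      (fun g hg => by simp [I.sing i g hg, H21.triv_apply]) hθ
    rw [D.sum_X D.hP, k, k, if_neg (D.ne_triv_of_mem_Y hθ).symm, if_pos rfl,
      sum_congr rfl fun χ hχ => (k χ).trans (by rw [if_neg (D.mem_A.1 hχ).2.1.symm, sub_zero]),
      sum_congr (s₁ := D.B) rfl fun χ hχ => (k χ).trans (by
        rw [if_neg (by
          rintro rfl
          have := ((D.mem_B D.hP).1 hχ).2
          rw [D.sg_triv D.hP] at this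
          omega), sub_zero]), sub_zero] at this
    exact_mod_cast this

variable {D I} {a : Fin e → IrrCharacter G → ℕ} (M : Mul D I a)
include M

theorem Mul.le (i : Fin e) (ψ : IrrCharacter G) : a i ψ ≤ fC ψ.1 :=
  M.sum ψ ▸ single_le_sum (f := fun i => a i ψ) (fun _ _ => Nat.zero_le _) (mem_univ i)

theorem Mul.ex {ψ : IrrCharacter G} (h : 1 ≤ fC ψ.1) : ∃ i, 1 ≤ a i ψ := by_contra fun k => by
  push Not at k
  rw [← M.sum, sum_eq_zero fun i _ => Nat.lt_one_iff.1 (k i)] at h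
  omega

theorem Mul.posA {χ : IrrCharacter G} (h : χ ∈ D.A) : 1 ≤ fC χ.1 :=
  I.pos _ (H11.irr_isCharacter χ) fun x hx h1 y hy hyp => by
    rw [D.valX χ (D.mem_A.1 h).1 x hx h1 y hy hyp, (D.mem_A.1 h).2.2, Int.cast_one]

/-- `Λ i` is supported on `S` when the degrees add up -/
theorem Mul.of_deg (i : Fin e) (S : Finset (IrrCharacter G))
    (h : 1 + (u * (m + 1) + 1) * p ≤ ∑ ψ ∈ S, a i ψ * charDegree ψ.1) :
    ∑ ψ ∈ S, a i ψ * fC ψ.1 = I.nb :=
  (conc S (fun ψ _ => H21.deg_ne_zero ψ) ((M.deg i).trans_le h) _).symm.trans (M.fix i)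

theorem Mul.of_fix (i : Fin e) (S : Finset (IrrCharacter G)) (h : I.nb ≤ ∑ ψ ∈ S, a i ψ * fC ψ.1) :
    ∑ ψ ∈ S, a i ψ * charDegree ψ.1 = 1 + (u * (m + 1) + 1) * p :=
  (conc S (fun ψ k k' => k (Nat.le_zero.1 (k' ▸ M.le i ψ))) ((M.fix i).trans_le h) _).symm.trans
    (M.deg i)

theorem Mul.deg_le (i : Fin e) (S : Finset (IrrCharacter G)) :
    ∑ ψ ∈ S, a i ψ * charDegree ψ.1 ≤ 1 + (u * (m + 1) + 1) * p :=
  M.deg i ▸ sum_le_sum_of_subset (subset_univ S)

theorem Mul.fix_le (i : Fin e) (S : Finset (IrrCharacter G)) : ∑ ψ ∈ S, a i ψ * fC ψ.1 ≤ I.nb :=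
  M.fix i ▸ sum_le_sum_of_subset (subset_univ S)

theorem Mul.A1 {χ : IrrCharacter G} (h : χ ∈ D.A1) : fC χ.1 = I.nb := by
  obtain ⟨h1, h2⟩ := D.mem_A1.1 h
  obtain ⟨i, hi⟩ := M.ex (M.posA h1)
  have k := M.deg_le i {χ}
  rw [sum_singleton, h2] at k
  have k1 : a i χ = 1 := le_antisymm (Nat.le_of_mul_le_mul_right (k.trans (one_mul _).ge)
    (by omega)) hi
  simpa [k1] using M.of_deg i {χ} (by simp [k1, h2])

omit M hp [Fintype (IrrCharacter G)]

/-- Piece COUNT. -/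
theorem count : CountStmt.{w} := by
  intro G _ _ p hp P u m e t D I
  classical
  haveI := Fintype.ofFinite (IrrCharacter G)
  obtain ⟨a, M⟩ := exists_mul D I
  have h : ∀ i, ∑ χ ∈ D.A1, a i χ + a i (H21.triv G) ≤ 1 := fun i => by
    have k := M.deg_le i (insert (H21.triv G) D.A1)
    rw [sum_insert fun k => (D.mem_A.1 (D.mem_A1.1 k).1).2.1 rfl, H21.triv_coe, H21.charDegree_one,
      sum_congr rfl fun χ hχ => by rw [(D.mem_A1.1 hχ).2], ← sum_mul] at k
    have := M.triv i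
    have := D.five_le
    generalize ∑ χ ∈ D.A1, a i χ = s at k
    rcases s with _ | _ | s
    · split_ifs at * <;> omega
    · omega
    · nlinarith [Nat.zero_le (s * (1 + (u * (m + 1) + 1) * p)), Nat.zero_le ((u * (m + 1) + 1) * p)]
  have k := sum_le_sum fun i (_ : i ∈ univ) => h i
  rw [sum_add_distrib, sum_comm, sum_congr rfl fun χ hχ => (M.sum χ).trans (M.A1 hχ)] at k
  simpa [M.triv, mul_comm] using k

/-- Piece TRANS. -/
theorem trans : TransStmt.{w} := by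
  intro G _ _ p hp P u m e t D I hS h2
  classical
  haveI := Fintype.ofFinite (IrrCharacter G)
  obtain ⟨a, M⟩ := exists_mul D I
  obtain ⟨θ, hθ⟩ : D.Y.Nonempty := card_pos.1 (D.cardY.symm ▸ D.t_pos)
  obtain ⟨s1, s2⟩ := D.two_p_le hS
  have p5 := D.five_le
  have lt : u * p + 1 < 1 + (u * (m + 1) + 1) * p := by nlinarith [Nat.zero_le (u * m * p)]
  have hu : u = 1 → D.A2.card = 0 := fun k => card_eq_zero.2 (eq_empty_of_forall_notMem fun χ h => by
    obtain ⟨h1, h3⟩ := D.mem_A2.1 h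
    have := s1 χ (D.mem_A.1 h1).1 (D.mem_A.1 h1).2.1
    rw [h3, k] at this
    omega)
  have hX : ∀ i, (a i (H21.triv G) : ℤ) + ∑ χ ∈ D.A, (a i χ : ℤ) + ∑ χ ∈ D.B, (a i χ : ℤ) + a i θ ≤ 2 :=
    fun i => by
    have k := M.fix_le i (insert θ D.X)
    have k1 : ∑ ψ ∈ insert θ D.X, a i ψ ≤ 2 := (sum_le_sum fun ψ _ =>
      (Nat.le_mul_self _).trans (Nat.mul_le_mul_left _ (M.le i ψ))).trans (h2 ▸ k)
    have k2 := D.sum_X D.hP fun χ => D.sg χ * (a i χ : ℤ)
    simp only [Int.cast_id] at k2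
    rw [sum_congr rfl fun χ hχ => (by rcases D.sg_pm χ hχ with h | h <;> simp [h] :
        D.sg χ * (D.sg χ * (a i χ : ℤ)) = a i χ), D.sg_triv D.hP,
      sum_congr (s₁ := D.A) rfl fun χ hχ => by rw [(D.mem_A.1 hχ).2.2, one_mul],
      sum_congr (s₁ := D.B) rfl fun χ hχ => by rw [((D.mem_B D.hP).1 hχ).2, neg_one_mul],
      sum_neg_distrib] at k2
    rw [sum_insert fun k => D.disj θ k hθ] at k1
    zify at k1
    omega
  have hB : ∀ i, (a i (H21.triv G) : ℤ) + ∑ χ ∈ D.A, (a i χ : ℤ) - D.ε * a i θ = 1 ∧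
      (D.ε = 1 → a i θ = 0) := fun i => by
    have k1 := hX i
    have k2 := M.rel i θ hθ
    have k3 : 0 ≤ ∑ χ ∈ D.B, (a i χ : ℤ) := by positivity
    rcases D.eps_pm with h | h <;> rw [h] at k2 ⊢ <;> omega
  have hA2 : ∀ χ ∈ D.A2, fixDim (centralizer ((P : Subgroup G) : Set G)) χ.1 = 1 := fun χ h => by
    obtain ⟨h1, h3⟩ := D.mem_A2.1 h
    obtain ⟨i, hi⟩ := M.ex (M.posA h1)
    have k := M.fix_le i {χ}
    have k2 := M.of_fix i {χ}
    have k3 := M.posA h1
    rw [sum_singleton, h2] at k k2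
    rw [sum_singleton, h3] at k2
    by_contra k4
    have k5 : a i χ = 1 := by nlinarith [lt_of_le_of_ne k3 (Ne.symm k4)]
    rw [k5] at k2
    omega
  have tot : (1 : ℤ) + (D.A1.card * 2 + D.A2.card) -
      D.ε * fixDim (centralizer ((P : Subgroup G) : Set G)) θ.1 = e := by
    have tot := sum_congr rfl fun i (_ : i ∈ univ) => (hB i).1
    rw [sum_sub_distrib, sum_add_distrib, sum_comm, ← mul_sum, D.sum_A,
      sum_congr (s₁ := D.A1) rfl fun χ hχ => by rw [← Nat.cast_sum, M.sum, M.A1 hχ, h2],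
      sum_congr (s₁ := D.A2) rfl fun χ hχ => by rw [← Nat.cast_sum, M.sum, hA2 χ hχ],
      ← Nat.cast_sum _ fun i => a i θ, M.sum] at tot
    simpa [M.triv] using tot
  have ct := D.count
  have st := D.star
  rw [D.B1_eq_empty hS, card_empty] at ct st
  rcases D.degZ with ⟨h, hz⟩ | ⟨h, hz⟩
  · have k : fixDim (centralizer ((P : Subgroup G) : Set G)) θ.1 = 0 := by
      rw [← M.sum, sum_eq_zero fun i _ => (hB i).2 h]
    rw [k] at tot
    rw [h, show D.B2.card = D.A1.card by omega] at st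
    rcases hz with hz | hz
    · nlinarith [D.t_pos]
    · exact arith1 D.het' D.het D.hu D.hum hu hz (x1 := D.A1.card) (by omega)
        (by linear_combination st)
  have cY : ∀ i, ∀ θ' ∈ D.Y, a i θ' = a i θ := fun i θ' h' => by
    have := (M.rel i θ' h').trans (M.rel i θ hθ).symm
    rw [h] at this
    omega
  have fY : ∀ θ' ∈ D.Y, fixDim (centralizer ((P : Subgroup G) : Set G)) θ'.1 =
      fixDim (centralizer ((P : Subgroup G) : Set G)) θ.1 := fun θ' h' => by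
    rw [← M.sum, ← M.sum, sum_congr rfl fun i _ => cY i θ' h']
  have k0 := I.pos _ D.isCharacter_Θ fun x hx h1 y hy hyp =>
    (D.valY x hx h1 y hy hyp).trans (by simp [h])
  rw [D.fixDim_Θ_eq_sum, sum_congr rfl fY, sum_const, D.cardY, smul_eq_mul] at k0
  obtain ⟨i, hi⟩ := M.ex (ψ := θ) (Nat.pos_of_ne_zero fun k => by rw [k] at k0; omega)
  have e1 : ∑ ψ ∈ D.Y, a i ψ * fixDim (centralizer ((P : Subgroup G) : Set G)) ψ.1 =
      a i θ * (t * fixDim (centralizer ((P : Subgroup G) : Set G)) θ.1) := by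
    rw [sum_congr rfl fun ψ k => by rw [cY i ψ k, fY ψ k], sum_const, D.cardY, smul_eq_mul]; ring
  have e2 : ∑ ψ ∈ D.Y, a i ψ * charDegree ψ.1 = a i θ * (t * D.z) := by
    rw [sum_congr rfl fun ψ k => by rw [cY i ψ k, D.degY ψ k], sum_const, D.cardY, smul_eq_mul]; ring
  have k1 := M.fix_le i D.Y
  have k2 := M.of_fix i D.Y
  have k3 := M.of_deg i D.Y
  have k4 := hX i
  have k5 := (hB i).1
  have k6 : 0 ≤ ∑ χ ∈ D.A, (a i χ : ℤ) := by positivity
  rw [h] at k5 tot st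
  rw [e1, e2, h2, show a i θ = 1 by omega, one_mul, one_mul] at k2 k3
  rw [e1, h2, show a i θ = 1 by omega, one_mul] at k1
  generalize fixDim (centralizer ((P : Subgroup G) : Set G)) θ.1 = f at *
  rw [show D.B2.card = D.A1.card + f by omega] at st
  rcases hz with hz | hz
  · have k7 : t * f = 1 := by omega
    obtain rfl := Nat.eq_one_of_mul_eq_one_right k7
    obtain rfl := Nat.eq_one_of_mul_eq_one_left k7
    have h1 := D.het'
    have h3 := D.het
    rw [mul_one] at h1 h3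
    rw [one_mul] at hz
    exact arith2 h1 h3 (by_contra fun k => by
      rw [hz, show u = 1 by have := D.hu; omega] at s2; omega)
      (x1 := D.A1.card) (x2 := D.A2.card) (by omega) (by rw [← hz]; push_cast at st; linear_combination st)
  · exact arith3 D.het' D.het D.hu hu hz (k3 hz.ge) (x1 := D.A1.card) (by omega)
      (by push_cast at st; linear_combination st)

end Cfsg.Agent.H33.Sq
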