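import Mathlib
import Cfsg.Agent.H62.Derangement
import Cfsg.Agent.H33.MinDegree

/-!
# Two-point stabilizers of doubly transitive groups and derangements
-/

set_option autoImplicit false

namespace Cfsg.Agent.H33

open MulAction

variable {G Ω : Type*} [Group G] [MulAction G Ω]

/-- Double transitivity, elementwise. -/
def TwoTr (G Ω : Type*) [Group G] [MulAction G Ω] : Prop :=
  ∀ a b c d : Ω, a ≠ b → c ≠ d → ∃ g : G, g • a = c ∧ g • b = d

/-- The two-point stabilizer. -/
def st (G : Type*) {Ω : Type*} [Group G] [MulAction G Ω] (a b : Ω) : Subgroup G :=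
  stabilizer G a ⊓ stabilizer G b

theorem mem_st {a b : Ω} {g : G} : g ∈ st G a b ↔ g • a = a ∧ g • b = b := Iff.rfl

theorem st_comm (a b : Ω) : st G a b = st G b a := inf_comm _ _

/-- The number of fixed points. -/
noncomputable def fx (Ω : Type*) {G : Type*} [Group G] [MulAction G Ω] (g : G) : ℕ :=
  Nat.card (fixedBy Ω g)

theorem fx_eq [Fintype Ω] [DecidableEq Ω] (g : G) :
    fx Ω g = (Finset.univ.filter fun x : Ω => g • x = x).card := by
  rw [fx, ← Fintype.card_subtype, ← Nat.card_eq_fintype_card]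
  rfl

theorem fx_one [Fintype Ω] : fx Ω (1 : G) = Fintype.card Ω := by simp [fx]

theorem fx_conj (g x : G) : fx Ω (g * x * g⁻¹) = fx Ω x := by
  refine (Nat.card_congr ((MulAction.toPerm g).subtypeEquiv fun a => ?_)).symm
  simp [mem_fixedBy, mul_smul]

theorem st_smul (g : G) (a b : Ω) :
    st G (g • a) (g • b) = (st G a b).map (MulAut.conj g).toMonoidHom := by
  rw [st, st, Subgroup.map_inf _ _ _ (MulAut.conj g).injective,
    stabilizer_smul_eq_stabilizer_map_conj, stabilizer_smul_eq_stabilizer_map_conj]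

theorem card_st (h2 : TwoTr G Ω) {a b c d : Ω} (hab : a ≠ b) (hcd : c ≠ d) :
    Nat.card (st G a b) = Nat.card (st G c d) := by
  obtain ⟨g, rfl, rfl⟩ := h2 a b c d hab hcd
  rw [st_smul, Subgroup.card_map_of_injective (MulAut.conj g).injective]

theorem st_eq_of_le [Finite G] (h2 : TwoTr G Ω) {a b c d : Ω} (hab : a ≠ b) (hcd : c ≠ d)
    (h : st G a b ≤ st G c d) : st G a b = st G c d :=
  Subgroup.eq_of_le_of_card_ge h (card_st h2 hab hcd).ge

open Classical in
theorem sum_st [Fintype G] (h2 : TwoTr G Ω) (w : ℕ → ℚ) {a b c d : Ω} (hab : a ≠ b) (hcd : c ≠ d) :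
    ∑ g ∈ Finset.univ.filter (· ∈ st G a b), w (fx Ω g) =
      ∑ g ∈ Finset.univ.filter (· ∈ st G c d), w (fx Ω g) := by
  obtain ⟨g, rfl, rfl⟩ := h2 a b c d hab hcd
  refine Finset.sum_bijective (MulAut.conj g) (MulAut.conj g).bijective (fun x => ?_) fun x _ => ?_
  · simp [mem_st, mul_smul]
  · rw [MulAut.conj_apply, fx_conj]

theorem card_eq_of_twoTr [Fintype Ω] (h2 : TwoTr G Ω) {a b : Ω} (hab : a ≠ b) :
    Nat.card G = Fintype.card Ω * (Fintype.card Ω - 1) * Nat.card (st G a b) := by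
  classical
  rw [← H62.card_orbit_mul_card_stabilizer (G := G) (a, b)]
  have h1 : orbit G (a, b) = ((Finset.univ : Finset Ω).offDiag : Set (Ω × Ω)) := by
    ext ⟨c, d⟩
    simp only [Finset.coe_offDiag, Finset.coe_univ, Set.mem_offDiag, Set.mem_univ, true_and]
    constructor
    · rintro ⟨g, hg⟩ h
      simp only [Prod.smul_mk, Prod.mk.injEq] at hg
      exact hab (MulAction.injective g (hg.1.trans (h.trans hg.2.symm)))
    · intro h
      obtain ⟨g, h1, h2⟩ := h2 a b c d hab h
      exact ⟨g, Prod.ext h1 h2⟩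
  have h2 : stabilizer G (a, b) = st G a b := by
    ext g
    simp [mem_st]
  rw [h1, h2, Nat.card_coe_set_eq, Set.ncard_coe_finset, Finset.offDiag_card, Finset.card_univ,
    Nat.mul_sub_one]

open Classical in
theorem card_derangements_eq [Fintype G] [Fintype Ω] (h2 : TwoTr G Ω) {a b : Ω} (hab : a ≠ b) :
    (Nat.card {g : G // ∀ ω : Ω, g • ω ≠ ω} : ℚ) = Fintype.card Ω * (Fintype.card Ω - 1) *
      ∑ g ∈ Finset.univ.filter (· ∈ st G a b), (fx Ω g : ℚ)⁻¹ := by
  haveI : Nonempty Ω := ⟨a⟩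
  haveI : IsPretransitive G Ω := ⟨fun x y => by
    obtain ⟨x', hx⟩ : ∃ x', x ≠ x' := by
      by_cases h : x = a
      · exact ⟨b, h ▸ hab⟩
      · exact ⟨a, h⟩
    obtain ⟨y', hy⟩ : ∃ y', y ≠ y' := by
      by_cases h : y = a
      · exact ⟨b, h ▸ hab⟩
      · exact ⟨a, h⟩
    obtain ⟨g, hg, -⟩ := h2 x x' y y' hx hy
    exact ⟨g, hg⟩⟩
  have h1 : ∑ g : G, (fx Ω g : ℚ) = Fintype.card G := by
    have := H62.sum_card_fixedBy G Ω
    rw [H62.card_quotient_eq_one, one_mul, Nat.card_eq_fintype_card (α := G)] at this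
    exact_mod_cast this
  have hF0 : ∀ g : G, fx Ω g = 0 ↔ ∀ ω : Ω, g • ω ≠ ω := by
    intro g
    rw [fx_eq, Finset.card_eq_zero, Finset.filter_eq_empty_iff]
    simp
  have hD : (Nat.card {g : G // ∀ ω : Ω, g • ω ≠ ω} : ℚ) =
      ∑ g : G, if fx Ω g = 0 then (1 : ℚ) else 0 := by
    rw [Finset.sum_boole, Nat.card_eq_fintype_card, Fintype.card_subtype]
    simp only [hF0]
  have h3 : ∀ g : G, ∑ p ∈ (Finset.univ : Finset Ω).offDiag,
      (if g ∈ st G p.1 p.2 then (fx Ω g : ℚ)⁻¹ else 0) =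
      fx Ω g - 1 + if fx Ω g = 0 then (1 : ℚ) else 0 := by
    intro g
    rw [← Finset.sum_filter, Finset.sum_const]
    have : (Finset.univ : Finset Ω).offDiag.filter (fun p => g ∈ st G p.1 p.2) =
        (Finset.univ.filter fun x : Ω => g • x = x).offDiag := by
      ext p
      simp only [mem_st, Finset.mem_filter, Finset.mem_offDiag, Finset.mem_univ, true_and]
      tauto
    have h5 : (Finset.univ.filter fun x : Ω => g • x = x).card = fx Ω g := by
      rw [fx_eq]
    rw [this, Finset.offDiag_card, h5, nsmul_eq_mul]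
    split_ifs with h
    · simp [h]
    · rw [Nat.cast_sub (Nat.le_mul_self _)]
      have : (fx Ω g : ℚ) ≠ 0 := by exact_mod_cast h
      field_simp
      push_cast
      ring
  have h4 := Finset.sum_congr (rfl : (Finset.univ : Finset G) = _) fun g _ => h3 g
  rw [Finset.sum_add_distrib, Finset.sum_sub_distrib, h1, ← hD, Finset.sum_comm] at h4
  simp only [Finset.sum_const, Finset.card_univ, nsmul_eq_mul, mul_one, sub_self, zero_add] at h4
  rw [← h4, Finset.sum_congr rfl (g := fun _ =>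
    ∑ g ∈ Finset.univ.filter (· ∈ st G a b), (fx Ω g : ℚ)⁻¹), Finset.sum_const,
    Finset.offDiag_card, Finset.card_univ, nsmul_eq_mul, Nat.cast_sub (Nat.le_mul_self _)]
  · push_cast
    ring
  · intro p hp
    rw [← Finset.sum_filter]
    exact sum_st h2 (fun i => (i : ℚ)⁻¹) (Finset.mem_offDiag.1 hp).2.2 hab

open Classical in
/-- The fixed points of a two-point stabilizer. -/
noncomputable def line (G : Type*) {Ω : Type*} [Group G] [MulAction G Ω] [Fintype Ω] (a b : Ω) :
    Finset Ω := Finset.univ.filter fun c => ∀ g ∈ st G a b, g • c = c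

theorem mem_line [Fintype Ω] {a b c : Ω} : c ∈ line G a b ↔ ∀ g ∈ st G a b, g • c = c := by
  simp [line]

theorem card_line [Fintype Ω] (h2 : TwoTr G Ω) {a b c d : Ω} (hab : a ≠ b) (hcd : c ≠ d) :
    (line G a b).card = (line G c d).card := by
  obtain ⟨g, rfl, rfl⟩ := h2 a b c d hab hcd
  refine Finset.card_bijective (MulAction.toPerm g) (MulAction.toPerm g).bijective fun x => ?_
  simp only [mem_line, st_smul, toPerm_apply]
  constructor
  · rintro h _ ⟨y, hy, rfl⟩
    simp [mul_smul, h y hy]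
  · intro h y hy
    have := h _ ⟨y, hy, rfl⟩
    simpa [mul_smul] using this

theorem fx_mul_le [Finite G] [Fintype Ω] [FaithfulSMul G Ω] (h2 : TwoTr G Ω) {a b : Ω} (hab : a ≠ b)
    {x : G} (hx : x ≠ 1) : fx Ω x * ((line G a b).card - 1) + 1 ≤ Fintype.card Ω := by
  classical
  obtain ⟨c, hc⟩ : ∃ c : Ω, x • c ≠ c := by
    by_contra h
    push Not at h
    exact hx (FaithfulSMul.eq_of_smul_eq_smul (α := Ω) fun y => by rw [h, one_smul])
  set F := Finset.univ.filter fun y : Ω => x • y = y with hF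
  have hFc : ∀ y ∈ F, y ≠ c := fun y hy h => hc (h ▸ (Finset.mem_filter.1 hy).2)
  have hdis : (F : Set Ω).PairwiseDisjoint fun y => (line G y c).erase c := by
    intro y hy y' hy' hne
    rw [Function.onFun, Finset.disjoint_left]
    intro z hz hz'
    rw [Finset.mem_erase, mem_line] at hz hz'
    have e1 : st G y c = st G z c := st_eq_of_le h2 (hFc y hy) hz.1 fun g hg => ⟨hz.2 g hg, hg.2⟩
    have e2 : st G y' c = st G z c :=
      st_eq_of_le h2 (hFc y' hy') hz.1 fun g hg => ⟨hz'.2 g hg, hg.2⟩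
    have e3 : st G y c = st G y y' := st_eq_of_le h2 (hFc y hy) hne fun g hg =>
      ⟨hg.1, (show g ∈ st G y' c from e2 ▸ e1 ▸ hg).1⟩
    have : x ∈ st G y c := e3 ▸ ⟨(Finset.mem_filter.1 hy).2, (Finset.mem_filter.1 hy').2⟩
    exact hc this.2
  have h1 := Finset.card_biUnion hdis
  have h3 : ∀ y ∈ F, ((line G y c).erase c).card = (line G a b).card - 1 := fun y hy => by
    rw [Finset.card_erase_of_mem (mem_line.2 fun g hg => hg.2), card_line h2 (hFc y hy) hab]
  rw [Finset.sum_congr rfl h3, Finset.sum_const, smul_eq_mul] at h1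
  rw [fx_eq, ← h1]
  refine Finset.card_lt_univ_of_notMem (x := c) ?_
  simp

/-- If all orbits of a two-point stabilizer have length at most two, it has order at most two. -/
theorem card_st_le_two [Finite G] [FaithfulSMul G Ω] (h2 : TwoTr G Ω) {a b : Ω} (hab : a ≠ b)
    (hu : ∀ c : Ω, Nat.card (orbit (st G a b) c) ≤ 2) : Nat.card (st G a b) ≤ 2 := by
  have hu' : ∀ p q : Ω, p ≠ q → ∀ c : Ω, Nat.card (orbit (st G p q) c) ≤ 2 := by
    intro p q hpq c
    obtain ⟨g, rfl, rfl⟩ := h2 a b p q hab hpq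
    refine le_trans (le_of_eq ?_) (hu (g⁻¹ • c))
    rw [H62.card_orbit_subgroup_eq_relIndex, H62.card_orbit_subgroup_eq_relIndex, st_smul]
    conv_lhs => rw [← smul_inv_smul g c, stabilizer_smul_eq_stabilizer_map_conj]
    exact Subgroup.relIndex_map_map_of_injective _ _ (MulAut.conj g).injective
  have hcard : ∀ p q : Ω, p ≠ q → ∀ c : Ω,
      Nat.card (st G a b) ≤ 2 * Nat.card ↥(stabilizer G c ⊓ st G p q) := by
    intro p q hpq c
    have h1 := hu' p q hpq c
    rw [H62.card_orbit_subgroup_eq_relIndex] at h1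
    have h3 := ((stabilizer G c).subgroupOf (st G p q)).index_mul_card
    rw [card_st h2 hpq hab, ← Subgroup.inf_subgroupOf_right,
      Nat.card_congr (Subgroup.subgroupOfEquivOfLe inf_le_right).toEquiv,
      Subgroup.inf_subgroupOf_right] at h3
    rw [← h3]
    exact Nat.mul_le_mul_right _ h1
  have hlt : ∀ p q : Ω, p ≠ q → ∀ K : Subgroup G, K < st G p q →
      2 * Nat.card K ≤ Nat.card (st G a b) := by
    intro p q hpq K hK
    obtain ⟨m, hm⟩ := Subgroup.card_dvd_of_le hK.le
    have h1 : Nat.card K < Nat.card (st G p q) := lt_of_le_of_ne (Subgroup.card_le_of_le hK.le)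
      fun h => hK.ne (Subgroup.eq_of_le_of_card_ge hK.le h.ge)
    rw [← card_st h2 hpq hab, hm, mul_comm]
    refine Nat.mul_le_mul_left _ ?_
    rw [hm] at h1
    exact (Nat.lt_mul_iff_one_lt_right Nat.card_pos).1 h1
  have hfix : ∀ x : G, x ∈ st G a b → ∀ e : Ω, x • e = e → ∀ c : Ω, x • c ≠ c → ∀ y ∈ st G a b,
      y • e = e := by
    intro x hx e he c hc
    by_contra hcon
    push Not at hcon
    obtain ⟨y, hy, hye⟩ := hcon
    have hF : ∀ p q : Ω, p ≠ q → x • p = p → x • q = q → ∀ z ∈ stabilizer G c ⊓ st G p q,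
        z • x • c = x • c := by
      intro p q hpq hp hq z hz
      by_contra hne
      have hz1 : z • c = c := hz.1
      have h3 : ({c, x • c, z • x • c} : Set Ω) ⊆ orbit (st G p q) c := by
        rintro w (rfl | rfl | rfl)
        · exact mem_orbit_self _
        · exact ⟨⟨x, hp, hq⟩, rfl⟩
        · exact ⟨⟨z * x, (st G p q).mul_mem hz.2 ⟨hp, hq⟩⟩, mul_smul _ _ _⟩
      haveI : Finite (orbit (st G p q) c) := Finite.Set.finite_range _
      have h4 := Set.ncard_le_ncard h3 (Set.toFinite _)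
      rw [Set.ncard_eq_three.2 ⟨_, _, _, hc.symm, fun h => hc (MulAction.injective z
        (h.symm.trans hz1.symm)), Ne.symm hne, rfl⟩] at h4
      have := hu' p q hpq c
      rw [Nat.card_coe_set_eq] at this
      omega
    have hKlt : stabilizer G e ⊓ st G a b < st G a b :=
      lt_of_le_of_ne inf_le_right fun h => hye (show y ∈ stabilizer G e ⊓ st G a b from
        h.symm ▸ hy).1
    have hfin : ∀ K : Subgroup G, K ≤ stabilizer G c → K ≤ stabilizer G e ⊓ st G a b →
        Nat.card (st G a b) ≤ 2 * Nat.card K → False := by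
      intro K h1 h3 h4
      have h5 := hlt a b hab _ hKlt
      have : K = stabilizer G e ⊓ st G a b := Subgroup.eq_of_le_of_card_ge h3 (by omega)
      exact hc (h1 (this ▸ ⟨he, hx⟩))
    by_cases hall : ∀ p : Ω, x • p = p → st G c (x • c) ≤ stabilizer G p
    · refine hfin (st G c (x • c)) inf_le_left
        (le_inf (hall e he) (le_inf (hall a hx.1) (hall b hx.2))) ?_
      rw [card_st h2 hc.symm hab]
      omega
    · push Not at hall
      obtain ⟨p, hp, hp'⟩ := hall
      have h5 := hlt c (x • c) hc.symm (stabilizer G p ⊓ st G c (x • c))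
        (lt_of_le_of_ne inf_le_right fun h => hp' (inf_eq_right.1 h))
      have h6 : ∀ q : Ω, x • q = q → stabilizer G p ⊓ st G c (x • c) ≤ stabilizer G q := by
        intro q hq
        by_cases hpq : p = q
        · exact hpq ▸ inf_le_left
        have h7 := hcard p q hpq c
        have : stabilizer G c ⊓ st G p q = stabilizer G p ⊓ st G c (x • c) :=
          Subgroup.eq_of_le_of_card_ge (fun z hz => ⟨hz.2.1, hz.1, hF p q hpq hp hq z hz⟩)
            (by omega)
        rw [← this]
        exact fun z hz => hz.2.2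
      obtain ⟨q, hq, hpq⟩ : ∃ q, x • q = q ∧ p ≠ q := by
        by_cases h : p = a
        · exact ⟨b, hx.2, h ▸ hab⟩
        · exact ⟨a, hx.1, h⟩
      refine hfin (stabilizer G p ⊓ st G c (x • c)) (fun z hz => hz.2.1)
        (le_inf (h6 e he) (le_inf (h6 a hx.1) (h6 b hx.2))) ((hcard p q hpq c).trans ?_)
      exact Nat.mul_le_mul_left _ (Subgroup.card_le_of_le
        fun z hz => ⟨hz.2.1, hz.1, hF p q hpq hp hq z hz⟩)
  have hmove : ∀ x : G, x ≠ 1 → ∃ c : Ω, x • c ≠ c := by
    intro x hx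
    by_contra h
    push Not at h
    exact hx (FaithfulSMul.eq_of_smul_eq_smul (α := Ω) fun y => by rw [h, one_smul])
  by_cases hb : st G a b = ⊥
  · simp [hb]
  obtain ⟨⟨x, hx⟩, hx1⟩ := (Subgroup.ne_bot_iff_exists_ne_one).1 hb
  obtain ⟨c, hc⟩ := hmove x fun h => hx1 (Subtype.ext h)
  have h1 : stabilizer G c ⊓ st G a b = ⊥ := by
    rw [eq_bot_iff]
    intro y hy
    by_contra hy1
    obtain ⟨d, hd⟩ := hmove y hy1
    exact hc (hfix y hy.2 c hy.1 d hd x hx)
  have := hcard a b hab c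
  rwa [h1, Subgroup.card_bot] at this

theorem three_le_card_orbit [Finite Ω] {H : Subgroup G} {x : G} (hx : x ∈ H) (h3 : x ^ 3 = 1)
    {c : Ω} (hc : x • c ≠ c) : c ≠ x • c ∧ c ≠ x • x • c ∧ x • c ≠ x • x • c ∧
      3 ≤ Nat.card (orbit H c) := by
  have h1 : c ≠ x • x • c := fun h => hc (by
    conv_lhs => rw [h, ← mul_smul, ← mul_smul, ← pow_three', h3, one_smul])
  have h2 : x • c ≠ x • x • c := fun h => hc (MulAction.injective x h).symm
  refine ⟨hc.symm, h1, h2, ?_⟩
  have h4 : ({c, x • c, x • x • c} : Set Ω) ⊆ orbit H c := by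
    rintro w (rfl | rfl | rfl)
    · exact mem_orbit_self _
    · exact ⟨⟨x, hx⟩, rfl⟩
    · exact ⟨⟨x * x, H.mul_mem hx hx⟩, mul_smul _ _ _⟩
  have h5 := Set.ncard_le_ncard h4 (Set.toFinite _)
  rwa [Set.ncard_eq_three.2 ⟨_, _, _, hc.symm, h1, h2, rfl⟩] at h5

theorem TwoTr.isPreprimitive (h2 : TwoTr G Ω) [Finite Ω] : IsPreprimitive G Ω := by
  haveI : IsMultiplyPretransitive G Ω 2 := by
    rw [is_two_pretransitive_iff]
    intro a b c d hab hcd
    exact h2 a b c d hab hcd
  exact isPreprimitive_of_is_two_pretransitive ‹_›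

open Classical in
/-- The points in orbits of length at least three of a two-point stabilizer are not exactly three. -/
theorem four_le_card_long_orbits [Finite G] [Fintype Ω] [FaithfulSMul G Ω] (h2 : TwoTr G Ω)
    (hn : 6 ≤ Fintype.card Ω) {a b c : Ω} (hc : 3 ≤ Nat.card (orbit (st G a b) c)) :
    4 ≤ (Finset.univ.filter fun c : Ω => 3 ≤ Nat.card (orbit (st G a b) c)).card := by
  by_contra hU
  set U := Finset.univ.filter fun c : Ω => 3 ≤ Nat.card (orbit (st G a b) c) with hUdef
  have h1 : orbit (st G a b) c ⊆ (U : Set Ω) := by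
    intro d hd
    simp only [hUdef, Finset.coe_filter, Finset.mem_univ, true_and, Set.mem_ofPred_eq]
    rwa [orbit_eq_iff.2 hd]
  have h3 : Nat.card (orbit (st G a b) c) = 3 := by
    have := Set.ncard_le_ncard h1 (Set.toFinite _)
    rw [Set.ncard_coe_finset, ← Nat.card_coe_set_eq] at this
    omega
  haveI : Fact (Nat.Prime 3) := ⟨Nat.prime_three⟩
  obtain ⟨x, hx⟩ := exists_prime_orderOf_dvd_card' (G := st G a b) 3
    ⟨_, by rw [← h3, H62.card_orbit_mul_card_stabilizer]⟩
  have hx3 : (x : G) ^ 3 = 1 := by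
    rw [← hx]
    exact_mod_cast congrArg Subtype.val (pow_orderOf_eq_one x)
  have hx1 : (x : G) ≠ 1 := fun h => by
    rw [show x = 1 from Subtype.ext h, orderOf_one] at hx
    omega
  obtain ⟨d, hd⟩ : ∃ d : Ω, (x : G) • d ≠ d := by
    by_contra h
    push Not at h
    exact hx1 (FaithfulSMul.eq_of_smul_eq_smul (α := Ω) fun y => by rw [h, one_smul])
  have h4 : (toPermHom G Ω x).IsThreeCycle := by
    rw [← card_support_eq_three_iff]
    apply le_antisymm
    · refine le_trans (Finset.card_le_card fun e he => ?_) (by omega : U.card ≤ 3)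
      exact Finset.mem_filter.2 ⟨Finset.mem_univ _,
        (three_le_card_orbit x.2 hx3 (Equiv.Perm.mem_support.1 he)).2.2.2⟩
    · obtain ⟨e1, e2, e3, -⟩ := three_le_card_orbit x.2 hx3 hd
      rw [← Finset.card_eq_three.2 ⟨_, _, _, e1, e2, e3, rfl⟩]
      refine Finset.card_le_card fun e he => ?_
      simp only [Finset.mem_insert, Finset.mem_singleton] at he
      rw [Equiv.Perm.mem_support]
      rcases he with rfl | rfl | rfl
      · exact hd
      · exact e3.symm
      · exact fun h => e3 (MulAction.injective (x : G) h).symm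
  haveI := h2.isPreprimitive
  have hA := Equiv.Perm.alternatingGroup_le_of_isPreprimitive_of_isThreeCycle_mem
    (isPreprimitive_range (G := G) (Ω := Ω)) h4 ⟨x, rfl⟩
  have hca : ∀ e : Ω, (∀ g ∈ st G a b, g • e = e) → c ≠ e := by
    rintro e he rfl
    have : orbit (st G a b) c ⊆ {c} := by
      rintro _ ⟨g, rfl⟩
      exact he g g.2
    have := Set.ncard_le_ncard this (Set.toFinite _)
    rw [Set.ncard_singleton, ← Nat.card_coe_set_eq] at this
    omega
  have h5 : (Finset.univ : Finset Ω) ⊆ insert a (insert b U) := by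
    intro z _
    by_contra hz
    simp only [Finset.mem_insert, not_or] at hz
    have hzc : c ≠ z := fun h => hz.2.2 (h ▸ h1 (mem_orbit_self c))
    obtain ⟨w, hw⟩ : ∃ w, w ∉ ({a, b, c, z} : Finset Ω) := by
      by_contra h
      push Not at h
      have := Finset.card_le_card (fun w _ => h w : Finset.univ ⊆ ({a, b, c, z} : Finset Ω))
      have := Finset.card_le_four (a := a) (b := b) (c := c) (d := z)
      rw [Finset.card_univ] at *
      omega
    simp only [Finset.mem_insert, Finset.mem_singleton, not_or] at hw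
    obtain ⟨g, hg⟩ := hA (Equiv.Perm.isThreeCycle_swap_mul_swap_same (Ne.symm hw.2.2.1) hzc
      hw.2.2.2).mem_alternatingGroup
    have hg' : ∀ t, g • t = Equiv.swap c w (Equiv.swap c z t) := fun t => DFunLike.congr_fun hg t
    have ha := hca a fun g hg => hg.1
    have hb := hca b fun g hg => hg.2
    refine hz.2.2 (h1 ⟨⟨g, mem_st.2 ⟨?_, ?_⟩⟩, ?_⟩)
    · rw [hg', Equiv.swap_apply_of_ne_of_ne ha.symm (Ne.symm hz.1),
        Equiv.swap_apply_of_ne_of_ne ha.symm (Ne.symm hw.1)]
    · rw [hg', Equiv.swap_apply_of_ne_of_ne hb.symm (Ne.symm hz.2.1),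
        Equiv.swap_apply_of_ne_of_ne hb.symm (Ne.symm hw.2.1)]
    · change g • c = z
      rw [hg', Equiv.swap_apply_left, Equiv.swap_apply_of_ne_of_ne hzc.symm (Ne.symm hw.2.2.2)]
  have h6 := Finset.card_le_card h5
  have h7 := Finset.card_insert_le a (insert b U)
  have h8 := Finset.card_insert_le b U
  rw [Finset.card_univ] at h6
  omega

theorem not_twoTr_84 [Finite G] [FaithfulSMul G Ω] (h2 : TwoTr G Ω) (hG : Nat.card G = 84)
    {a b : Ω} (hab : a ≠ b) : st G a b = ⊥ := by
  haveI : Fact (Nat.Prime 7) := ⟨by norm_num⟩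
  obtain ⟨P⟩ : Nonempty (Sylow 7 G) := inferInstance
  have hP : Nat.card P = 7 := by
    rw [P.card_eq_multiplicity, hG, show (84 : ℕ) = 7 ^ 1 * 12 by norm_num,
      Nat.factorization_mul (by norm_num) (by norm_num), Nat.Prime.factorization_pow (by norm_num)]
    simp [Nat.factorization_eq_zero_of_not_dvd (show ¬ 7 ∣ 12 by norm_num)]
  have hi : (P : Subgroup G).index = 12 := by
    have := (P : Subgroup G).card_mul_index
    rw [hP, hG] at this
    omega
  have h1 : Nat.card (Sylow 7 G) = 1 := by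
    have e1 := card_sylow_modEq_one 7 G
    have e2 := P.card_dvd_index
    rw [hi] at e2
    have e3 := Nat.le_of_dvd (by norm_num) e2
    unfold Nat.ModEq at e1
    interval_cases Nat.card (Sylow 7 G) <;> omega
  haveI : Subsingleton (Sylow 7 G) := (Nat.card_eq_one_iff_unique.1 h1).1
  have hN := P.normal_of_subsingleton
  haveI : Nontrivial P := Finite.one_lt_card_iff_nontrivial.1 (by omega)
  obtain ⟨y₀, hy₀⟩ := exists_ne (1 : P)
  obtain ⟨c, hc⟩ : ∃ c : Ω, (y₀ : G) • c ≠ c := by
    by_contra h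
    push Not at h
    exact hy₀ (Subtype.ext (FaithfulSMul.eq_of_smul_eq_smul (α := Ω) fun y => by
      rw [h]; exact (one_smul _ _).symm))
  have htr : ∀ d, a ≠ d → ∃ y ∈ (P : Subgroup G), y • a = d := by
    intro d hd
    obtain ⟨g, g1, g2⟩ := h2 c _ a d hc.symm hd
    exact ⟨_, hN.conj_mem _ y₀.2 g, by rw [mul_smul, mul_smul, ← g1, inv_smul_smul, g2]⟩
  haveI : Fact (Nat.card (P : Subgroup G)).Prime := ⟨by rw [hP]; norm_num⟩
  have hsub : ∀ K : Subgroup G, (∃ y ∈ (P : Subgroup G), y ≠ 1 ∧ y ∈ K) → (P : Subgroup G) ≤ K := by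
    rintro K ⟨y, h1, h2, h3⟩
    rcases (K.subgroupOf P).eq_bot_or_eq_top_of_prime_card with h | h
    · have h4 : (⟨y, h1⟩ : (P : Subgroup G)) ∈ K.subgroupOf P := h3
      rw [h, Subgroup.mem_bot] at h4
      exact absurd (congrArg Subtype.val h4) h2
    · exact Subgroup.subgroupOf_eq_top.1 h
  obtain ⟨y, hy, hya⟩ := htr b hab
  rw [eq_bot_iff]
  intro x hx
  have h3 : y⁻¹ * (x * y * x⁻¹) = 1 := by
    by_contra h
    have := hsub (stabilizer G a) ⟨_, (P : Subgroup G).mul_mem ((P : Subgroup G).inv_mem hy)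
      (hN.conj_mem _ hy x), h, by
        rw [mem_stabilizer_iff, mul_smul, mul_smul, mul_smul,
          (show x⁻¹ • a = a from (stabilizer G a).inv_mem hx.1), hya, hx.2, ← hya, inv_smul_smul]⟩
    exact hab (hya ▸ (this hy).symm)
  have h4 := hsub (Subgroup.centralizer {x}) ⟨y, hy, fun h => hab (by rw [← hya, h, one_smul]), by
    rw [Subgroup.mem_centralizer_singleton_iff]
    rw [inv_mul_eq_one, eq_mul_inv_iff_mul_eq] at h3
    exact h3⟩
  refine FaithfulSMul.eq_of_smul_eq_smul (α := Ω) fun d => ?_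
  rw [one_smul]
  by_cases hd : a = d
  · exact hd ▸ hx.1
  obtain ⟨z, hz, rfl⟩ := htr d hd
  rw [← mul_smul, ← Subgroup.mem_centralizer_singleton_iff.1 (h4 hz), mul_smul, hx.1]

open Classical in
theorem six_mul_orbits_le [Finite G] [Fintype Ω] (a b : Ω) :
    6 * Nat.card (orbitRel.Quotient (st G a b) Ω) +
      (Finset.univ.filter fun c : Ω => 3 ≤ Nat.card (orbit (st G a b) c)).card ≤
      3 * Fintype.card Ω + 3 * (line G a b).card := by
  haveI := Fintype.ofFinite G
  have h1 := H62.sum_card_fixedBy (st G a b) Ω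
  have h2 : ∑ g : st G a b, Nat.card (fixedBy Ω g) =
      ∑ c : Ω, Nat.card (stabilizer (st G a b) c) := by
    have e1 : ∀ g : st G a b, Nat.card (fixedBy Ω g) = ∑ c : Ω, if g • c = c then 1 else 0 :=
      fun g => by rw [Finset.sum_boole]; exact fx_eq g
    have e2 : ∀ c : Ω, Nat.card (stabilizer (st G a b) c) =
        ∑ g : st G a b, if g • c = c then 1 else 0 := fun c => by
      rw [Finset.sum_boole, Nat.card_eq_fintype_card, Fintype.card_subtype]
      rfl
    simp only [e1, e2]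
    exact Finset.sum_comm
  have h3 : ∀ c : Ω, 6 * Nat.card (stabilizer (st G a b) c) +
      (if 3 ≤ Nat.card (orbit (st G a b) c) then 1 else 0) * Nat.card (st G a b) ≤
      (3 + 3 * if ∀ g ∈ st G a b, g • c = c then 1 else 0) * Nat.card (st G a b) := by
    intro c
    have e1 := H62.card_orbit_mul_card_stabilizer (G := st G a b) c
    have e2 : ¬ (∀ g ∈ st G a b, g • c = c) → 2 ≤ Nat.card (orbit (st G a b) c) := by
      intro h
      push Not at h
      obtain ⟨g, hg, h⟩ := h
      haveI : Nontrivial (orbit (st G a b) c) :=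
        ⟨⟨⟨_, mem_orbit c ⟨g, hg⟩⟩, ⟨c, mem_orbit_self c⟩, fun h' => h (congrArg Subtype.val h')⟩⟩
      exact Finite.one_lt_card
    have e3 : 1 ≤ Nat.card (orbit (st G a b) c) := by
      haveI : Nonempty (orbit (st G a b) c) := ⟨⟨c, mem_orbit_self c⟩⟩
      exact Nat.card_pos
    rw [← e1]
    split_ifs with h h' h'
    · nlinarith
    · nlinarith
    · nlinarith
    · have := e2 h'
      nlinarith
  have h4 := Finset.sum_le_sum fun c (_ : c ∈ Finset.univ) => h3 c
  rw [Finset.sum_add_distrib, ← Finset.mul_sum, ← h2, h1, ← Finset.sum_mul, ← Finset.sum_mul,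
    Finset.sum_add_distrib, ← Finset.mul_sum, Finset.sum_boole, Finset.sum_boole, ← mul_assoc,
    ← add_mul, Finset.sum_const, Finset.card_univ, smul_eq_mul, mul_comm _ 3] at h4
  have h5 := Nat.le_of_mul_le_mul_right h4 Nat.card_pos
  rw [line]
  simp only [Nat.cast_id] at h5
  convert h5

/-- Guralnick–Wan: a doubly, not sharply doubly, transitive group of degree `n ≥ 7` has at least
`2|G|/n` derangements. -/
theorem two_mul_card_le_of_twoTr [Finite G] [Fintype Ω] [FaithfulSMul G Ω] (h2 : TwoTr G Ω)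
    (hn : 7 ≤ Fintype.card Ω) {a b : Ω} (hab : a ≠ b) (hH : st G a b ≠ ⊥) :
    2 * Nat.card G ≤ Fintype.card Ω * Nat.card {g : G // ∀ ω : Ω, g • ω ≠ ω} := by
  classical
  haveI := Fintype.ofFinite G
  have hD := card_derangements_eq h2 hab
  have hN := card_eq_of_twoTr h2 hab
  set n := Fintype.card Ω with hndef
  set h := Nat.card (st G a b) with hh
  set S := Finset.univ.filter (· ∈ st G a b) with hS
  have hSc : S.card = h := by
    rw [hh, Nat.card_eq_fintype_card, Fintype.card_subtype]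
  have h1S : (1 : G) ∈ S := Finset.mem_filter.2 ⟨Finset.mem_univ _, (st G a b).one_mem⟩
  have hh2 : 2 ≤ h := by
    haveI := (st G a b).nontrivial_iff_ne_bot.2 hH
    exact Finite.one_lt_card
  have hn0 : (0 : ℚ) < n := by exact_mod_cast (by omega : 0 < n)
  have hn7 : (7 : ℚ) ≤ n := by exact_mod_cast hn
  suffices key : 2 * (h : ℚ) ≤ 1 + ∑ g ∈ S.erase 1, (n : ℚ) / fx Ω g by
    have e : (n : ℚ) * ∑ g ∈ S, (fx Ω g : ℚ)⁻¹ = 1 + ∑ g ∈ S.erase 1, (n : ℚ) / fx Ω g := by
      rw [← Finset.add_sum_erase _ _ h1S, mul_add, Finset.mul_sum, fx_one, mul_inv_cancel₀ hn0.ne']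
      rfl
    rw [← e] at key
    have : (2 * Nat.card G : ℚ) ≤ n * Nat.card {g : G // ∀ ω : Ω, g • ω ≠ ω} := by
      rw [hD, hN]
      push_cast [Nat.cast_sub (by omega : 1 ≤ n)]
      have : (0 : ℚ) ≤ n * (n - 1) := mul_nonneg hn0.le (by linarith)
      nlinarith
    exact_mod_cast this
  have hpos : ∀ g ∈ S.erase 1, 2 ≤ fx Ω g := by
    intro g hg
    have hg' := (Finset.mem_filter.1 (Finset.mem_erase.1 hg).2).2
    rw [fx_eq, ← Finset.card_pair hab]
    refine Finset.card_le_card fun c hc => ?_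
    simp only [Finset.mem_insert, Finset.mem_singleton] at hc
    rcases hc with rfl | rfl
    · exact Finset.mem_filter.2 ⟨Finset.mem_univ _, hg'.1⟩
    · exact Finset.mem_filter.2 ⟨Finset.mem_univ _, hg'.2⟩
  have hce : ((S.erase 1).card : ℚ) = h - 1 := by
    rw [Finset.card_erase_of_mem h1S, hSc, Nat.cast_sub (by omega), Nat.cast_one]
  have hh2' : (2 : ℚ) ≤ h := by exact_mod_cast hh2
  -- a uniform bound on the fixed points
  have direct : ∀ k : ℕ, (∀ g ∈ S.erase 1, fx Ω g * k + 1 ≤ n) →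
      (h - 1 : ℚ) * (k * n) ≤ (n - 1) * ∑ g ∈ S.erase 1, (n : ℚ) / fx Ω g := by
    intro k hk
    rw [← hce, ← nsmul_eq_mul, ← Finset.sum_const, Finset.mul_sum]
    refine Finset.sum_le_sum fun g hg => ?_
    have e1 : (fx Ω g : ℚ) * k + 1 ≤ n := by exact_mod_cast hk g hg
    have e2 : (2 : ℚ) ≤ fx Ω g := by exact_mod_cast hpos g hg
    rw [← mul_div_assoc, le_div_iff₀ (by linarith)]
    nlinarith
  set f := (line G a b).card with hf
  have hfx : ∀ g ∈ S.erase 1, fx Ω g * (f - 1) + 1 ≤ n := fun g hg =>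
    fx_mul_le h2 hab (Finset.mem_erase.1 hg).1
  set T := ∑ g ∈ S.erase 1, (n : ℚ) / fx Ω g with hT
  by_cases hf4 : 4 ≤ f
  · have := direct 3 fun g hg => le_trans (Nat.succ_le_succ (Nat.mul_le_mul_left _ (by omega)))
      (hfx g hg)
    push_cast at this
    by_contra hcon
    push Not at hcon
    nlinarith
  set s := Nat.card (orbitRel.Quotient (st G a b) Ω) with hs
  have hsum : n + ∑ g ∈ S.erase 1, fx Ω g = s * h := by
    rw [hndef, ← fx_one (G := G), Finset.add_sum_erase _ _ h1S]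
    exact H62.sum_card_fixedBy_subgroup Ω (st G a b)
  have tangent : 4 * s * h ≤ n + 2 * h * n → 2 * (h : ℚ) ≤ 1 + T := by
    intro ht
    have e1 : ∑ g ∈ S.erase 1, (4 * n - 4 * (fx Ω g : ℚ)) ≤ n * T := by
      rw [hT, Finset.mul_sum]
      refine Finset.sum_le_sum fun g hg => ?_
      have e2 : (2 : ℚ) ≤ fx Ω g := by exact_mod_cast hpos g hg
      rw [← mul_div_assoc, le_div_iff₀ (by linarith)]
      nlinarith [sq_nonneg ((n : ℚ) - 2 * fx Ω g)]
    rw [Finset.sum_sub_distrib, Finset.sum_const, nsmul_eq_mul, hce, ← Finset.mul_sum] at e1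
    have e3 : (n : ℚ) + ∑ g ∈ S.erase 1, (fx Ω g : ℚ) = s * h := by exact_mod_cast hsum
    have e4 : (4 : ℚ) * s * h ≤ n + 2 * h * n := by exact_mod_cast ht
    by_contra hcon
    push Not at hcon
    nlinarith
  have horb := six_mul_orbits_le (G := G) a b
  rw [← hs, ← hndef, ← hf] at horb
  by_cases hu : ∀ c : Ω, Nat.card (orbit (st G a b) c) ≤ 2
  · have e1 : h = 2 := le_antisymm (card_st_le_two h2 hab hu) hh2
    obtain ⟨x, hx⟩ := Finset.card_eq_one.1
      (by rw [Finset.card_erase_of_mem h1S, hSc, e1] : (S.erase 1).card = 1)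
    have hx2 := hpos x (hx ▸ Finset.mem_singleton_self x)
    rw [hT, hx, Finset.sum_singleton, e1]
    rw [hx, Finset.sum_singleton, e1] at hsum
    have e2 : 3 * fx Ω x ≤ n := by
      by_contra hcon
      have e3 : n = 7 := by omega
      exact hH (not_twoTr_84 h2 (by rw [hN, e1, e3]) hab)
    have e3 : (3 : ℚ) * fx Ω x ≤ n := by exact_mod_cast e2
    have e4 : (2 : ℚ) ≤ fx Ω x := by exact_mod_cast hx2
    have : (3 : ℚ) ≤ n / fx Ω x := by rwa [le_div_iff₀ (by linarith)]
    push_cast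
    linarith
  · push Not at hu
    obtain ⟨c, hc⟩ := hu
    have e1 := four_le_card_long_orbits h2 (by omega) hc
    by_cases h2s : 2 * s ≤ n
    · exact tangent (by nlinarith)
    have e2 : 2 * s = n + 1 := by omega
    have e3 : f = 3 := by omega
    by_cases hhn : 2 * h ≤ n
    · exact tangent (by nlinarith)
    have := direct 2 fun g hg => by simpa [e3] using hfx g hg
    have e4 : (n : ℚ) + 1 ≤ 2 * h := by exact_mod_cast (by omega : n + 1 ≤ 2 * h)
    push_cast at this
    by_contra hcon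
    push Not at hcon
    nlinarith

end Cfsg.Agent.H33
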