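import Mathlib
import Cfsg.Agent.H42.VpDefs

/-!
# `p`-elements with a non-trivial centraliser in the normal complement are central
-/

set_option autoImplicit false

namespace Cfsg.Agent.H33.VpM

open Subgroup Cfsg Cfsg.Agent.H42.Vp

universe u

theorem m (z : ZStmt.{u}) (i1 : I1Stmt.{u}) (i2 : I2Stmt.{u}) : MStmt.{u} := by
  intro G _ _ p hp K _ hK ⟨n, hn⟩ hV x ⟨a, ha⟩ k hk hk1 hc
  have : Fact p.Prime := ⟨hp⟩
  have triv : ∀ w ∈ K, ∀ j : ℕ, w ^ p ^ j = 1 → w = 1 := fun w hw j h =>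
    orderOf_eq_one_iff.1 (Nat.eq_one_of_dvd_coprimes (hK.pow_right j)
      (K.orderOf_dvd_natCard hw) (orderOf_dvd_of_pow_eq_one h))
  have hy : ¬ Van (x * k) := by
    intro h
    obtain ⟨j, hj⟩ := hV _ h
    refine hk1 (triv k hk (a + j) ?_)
    have h1 : (x * k) ^ p ^ (a + j) = 1 := by
      rw [pow_add, mul_comm (p ^ a), pow_mul, ← hj, pow_orderOf_eq_one, one_pow]
    rwa [hc.mul_pow, pow_add, pow_mul, ha, one_pow, one_mul, ← pow_add] at h1
  have hQ : IsPGroup p (G ⧸ K) := IsPGroup.of_card (n := n) (by rw [← hn]; rfl)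
  have k1 : ∀ w : G, QuotientGroup.mk' K w = 1 ↔ w ∈ K := fun w => QuotientGroup.eq_one_iff w
  have hz : QuotientGroup.mk' K x ∈ center (G ⧸ K) := by
    by_contra h
    refine hy (H22.VanP.Van.comp (QuotientGroup.mk' K) (QuotientGroup.mk'_surjective K) ?_)
    rw [map_mul, (k1 k).2 hk, mul_one]
    exact z _ p hp hQ _ h
  have hcm : ∀ g : G, x⁻¹ * (g * x * g⁻¹) ∈ K := fun g => (k1 _).1 (by
    simp only [map_mul, map_inv]
    rw [mem_center_iff.1 hz (QuotientGroup.mk' K g)]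
    group)
  have hin : ∀ θ : K → ℂ, IsIrrCharacter K θ → x ∈ H14.inertia K θ := by
    intro θ hθ
    have hle := H14.le_inertia K (H14.IsIrrCharacter.isClassFunction hθ)
    by_contra hx
    refine hy (H22.VanP.van_of_inertia K hθ fun g hg => hx ?_)
    have h1 : x = g * (x * k) * g⁻¹ * (g * k * g⁻¹)⁻¹ * (x⁻¹ * (g * x * g⁻¹))⁻¹ := by group
    rw [h1]
    exact mul_mem (mul_mem hg (inv_mem (hle (Normal.conj_mem inferInstance k hk g))))
      (inv_mem (hle (hcm g)))
  have hcK := i2 G p hp K x hK ⟨a, ha⟩ (i1 G K x hin)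
  have hxp : IsPGroup p (zpowers x) := by
    rintro ⟨_, i, rfl⟩
    exact ⟨a, Subtype.ext (by
      show (x ^ i) ^ p ^ a = 1
      rw [← zpow_natCast, ← zpow_mul, mul_comm, zpow_mul, zpow_natCast, ha, one_zpow])⟩
  obtain ⟨P, hP⟩ := hxp.exists_le_sylow
  have hxP : x ∈ (P : Subgroup G) := hP (mem_zpowers x)
  have hcP : ∀ v ∈ (P : Subgroup G), v * x = x * v := by
    intro v hv
    obtain ⟨j, hj⟩ := P.2 ⟨x⁻¹ * (v * x * v⁻¹), mul_mem (inv_mem hxP)
      (mul_mem (mul_mem hv hxP) (inv_mem hv))⟩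
    have h1 := triv _ (hcm v) j (congrArg Subtype.val hj)
    rw [inv_mul_eq_one, eq_mul_inv_iff_mul_eq] at h1
    exact h1.symm
  have htop : centralizer ({x} : Set G) = ⊤ := by
    rw [← index_eq_one]
    have h1 : (centralizer ({x} : Set G)).index ∣ K.index :=
      index_dvd_of_le fun w hw => mem_centralizer_singleton_iff.2 (mem_centralizer_iff.1 hcK w hw)
    have h2 : (centralizer ({x} : Set G)).index ∣ (P : Subgroup G).index :=
      index_dvd_of_le fun w hw => mem_centralizer_singleton_iff.2 (hcP w hw)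
    rw [hn] at h1
    exact Nat.eq_one_of_dvd_coprimes
      (((Nat.Prime.coprime_iff_not_dvd hp).2 P.not_dvd_index).pow_left n) h1 h2
  exact mem_center_iff.2 fun g => mem_centralizer_singleton_iff.1 (htop ▸ mem_top g)

end Cfsg.Agent.H33.VpM
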